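import Mathlib
import Cfsg.Agent.Helper10.FrobKernel
import Cfsg.Agent.Helper10.ZSpan
import Cfsg.Agent.Helper10.VirtualChar
import Cfsg.Agent.Helper6.Clifford
import Cfsg.Agent.Helper2.CharOrtho
import Cfsg.Agent.Helper24.CharValues

set_option autoImplicit false

namespace Cfsg.Agent.Helper6.Exc

open Cfsg

section Basic

variable {G : Type*} [Group G] [Fintype G] (K : Subgroup G)

omit [Fintype G] in
theorem ti_of_hTI
    (hTI : ∀ g : G, g ∉ Subgroup.normalizer (K : Set G) → ∀ k ∈ K, g * k * g⁻¹ ∈ K → k = 1) :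
    ∀ y : G, ∀ x ∈ K, x ≠ 1 → y⁻¹ * x * y ∈ K → y ∈ Subgroup.normalizer (K : Set G) := by
  intro y x hx hx1 hy
  by_contra hyN
  have hyN' : y⁻¹ ∉ Subgroup.normalizer (K : Set G) := by
    intro h
    apply hyN
    have := Subgroup.inv_mem _ h
    rwa [inv_inv] at this
  exact hx1 (hTI y⁻¹ hyN' x hx (by rwa [inv_inv]))

omit [Fintype G] in
theorem frob_of_hC (hC : ∀ k ∈ K, k ≠ 1 → Subgroup.centralizer ({k} : Set G) ≤ K) :
    ∀ w ∈ K.subgroupOf (Subgroup.normalizer (K : Set G)), w ≠ 1 →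
      ∀ c : ↥(Subgroup.normalizer (K : Set G)), c * w = w * c →
      c ∈ K.subgroupOf (Subgroup.normalizer (K : Set G)) := by
  intro w hw hw1 c hcw
  rw [Subgroup.mem_subgroupOf] at hw ⊢
  apply hC (w : G) hw (fun h => hw1 (Subtype.ext h))
  rw [Subgroup.mem_centralizer_iff]
  intro h hh
  rw [Set.mem_singleton_iff] at hh
  subst hh
  have := congrArg Subtype.val hcw
  rw [Subgroup.coe_mul, Subgroup.coe_mul] at this
  exact this.symm

/-- An irreducible character of `N_G(K)` not containing `K` in its kernel is induced from a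
non-principal irreducible character of `K`. -/
theorem exists_ind_of_mem (hC : ∀ k ∈ K, k ≠ 1 → Subgroup.centralizer ({k} : Set G) ≤ K)
    [Fintype ↥(Subgroup.normalizer (K : Set G))]
    {χ : ↥(Subgroup.normalizer (K : Set G)) → ℂ}
    (hχ : IsIrrCharacter ↥(Subgroup.normalizer (K : Set G)) χ)
    (k : ↥(Subgroup.normalizer (K : Set G))) (hk : (k : G) ∈ K) (hχk : χ k ≠ χ 1) :
    ∃ ϑ : ↥(K.subgroupOf (Subgroup.normalizer (K : Set G))) → ℂ,
      IsIrrCharacter ↥(K.subgroupOf (Subgroup.normalizer (K : Set G))) ϑ ∧ ϑ ≠ (fun _ => 1) ∧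
      χ = indFun (K.subgroupOf (Subgroup.normalizer (K : Set G))) ϑ := by
  classical
  haveI : Fintype ↥(K.subgroupOf (Subgroup.normalizer (K : Set G))) := Fintype.ofFinite _
  haveI := Helper24.finite_irrCharacter (G := ↥(K.subgroupOf (Subgroup.normalizer (K : Set G))))
  haveI := Fintype.ofFinite (IrrCharacter ↥(K.subgroupOf (Subgroup.normalizer (K : Set G))))
  obtain ⟨r, hr⟩ : ∃ r : ↥(K.subgroupOf (Subgroup.normalizer (K : Set G))) → ℂ,
      r = fun h : ↥(K.subgroupOf (Subgroup.normalizer (K : Set G))) =>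
        χ (h : ↥(Subgroup.normalizer (K : Set G))) := ⟨_, rfl⟩
  have hrchar : IsCharacter ↥(K.subgroupOf (Subgroup.normalizer (K : Set G))) r := by
    rw [hr]
    exact Helper24.isCharacter_restrict _ (Helper24.isCharacter_of_irr hχ)
  have hexp := Helper2.class_fn_expansion (Helper2.IsCharacter.isClassFunction hrchar)
  by_contra hcon
  push Not at hcon
  have hzero : ∀ ϑ : IrrCharacter ↥(K.subgroupOf (Subgroup.normalizer (K : Set G))),
      (ϑ : ↥(K.subgroupOf (Subgroup.normalizer (K : Set G))) → ℂ) ≠ (fun _ => 1) →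
      classInner r ϑ = 0 := by
    intro ϑ hϑ1
    by_contra hne
    have hirr := Helper10.frob_ind_irr (K.subgroupOf (Subgroup.normalizer (K : Set G)))
      (frob_of_hC K hC) ϑ.2 hϑ1
    have h1 := Helper2.frobenius_reciprocity (K.subgroupOf (Subgroup.normalizer (K : Set G)))
      (ϑ : ↥(K.subgroupOf (Subgroup.normalizer (K : Set G))) → ℂ) χ
      (Helper2.IsIrrCharacter.isClassFunction hχ)
    have h2 : classInner (ϑ : ↥(K.subgroupOf (Subgroup.normalizer (K : Set G))) → ℂ) r ≠ 0 := by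
      rw [← Helper2.classInner_conj_symm]
      intro h
      apply hne
      have := congrArg (starRingEnd ℂ) h
      simpa using this
    rw [hr, ← h1, Helper2.classInner_irr hirr hχ] at h2
    have h3 : indFun (K.subgroupOf (Subgroup.normalizer (K : Set G)))
        (ϑ : ↥(K.subgroupOf (Subgroup.normalizer (K : Set G))) → ℂ) = χ := by
      by_contra h
      rw [if_neg h] at h2
      exact h2 rfl
    exact hcon ϑ ϑ.2 hϑ1 h3.symm
  have hk' : k ∈ K.subgroupOf (Subgroup.normalizer (K : Set G)) := Subgroup.mem_subgroupOf.mpr hk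
  have hconst : r ⟨k, hk'⟩ = r 1 := by
    have h1 := congrFun hexp ⟨k, hk'⟩
    have h2 := congrFun hexp 1
    rw [h1, h2]
    simp only [Finset.sum_apply, Pi.smul_apply, smul_eq_mul]
    refine Finset.sum_congr rfl fun ϑ _ => ?_
    by_cases h1 : (ϑ : ↥(K.subgroupOf (Subgroup.normalizer (K : Set G))) → ℂ) = fun _ => 1
    · rw [h1]
    · rw [hzero ϑ h1, zero_mul, zero_mul]
  apply hχk
  rw [hr] at hconst
  exact hconst

end Basic

end Cfsg.Agent.Helper6.Exc
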