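import Mathlib
import Cfsg.Agent.Helper6.ExcChar

set_option autoImplicit false

namespace Cfsg.Agent.Helper6.Exc

open Cfsg

theorem sum_eq_zero_of_irr {H : Type*} [Group H] [Fintype H] {χ : H → ℂ}
    (hχ : IsIrrCharacter H χ) (hne : χ ≠ fun _ => 1) : ∑ n, χ n = 0 := by
  have h1 := Helper2.classInner_irr hχ (Helper2.isIrrCharacter_one_fun (G := H))
  rw [if_neg hne] at h1
  unfold classInner at h1
  have hc : (Nat.card H : ℂ)⁻¹ ≠ 0 := inv_ne_zero (by exact_mod_cast Nat.card_pos.ne')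
  have h2 := (mul_eq_zero.mp h1).resolve_left hc
  simpa using h2

/-- The combination `ξ(1) χ - χ(1) ξ`. -/
noncomputable def alpha {H : Type*} [Group H] (χ ξ : H → ℂ) : H → ℂ :=
  (charDegree ξ : ℤ) • χ + (-(charDegree χ : ℤ)) • ξ

theorem alpha_apply {H : Type*} [Group H] (χ ξ : H → ℂ) (n : H) :
    alpha χ ξ n = (charDegree ξ : ℂ) * χ n - (charDegree χ : ℂ) * ξ n := by
  unfold alpha
  simp [sub_eq_add_neg]

theorem alpha_mem {H : Type*} [Group H] (S : Set (H → ℂ)) {χ ξ : H → ℂ} (hχS : χ ∈ S)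
    (hξS : ξ ∈ S) (hχ : IsCharacter H χ) (hξ : IsCharacter H ξ) :
    alpha χ ξ ∈ zspanOn S ({1}ᶜ : Set H) := by
  rw [Helper10.mem_zspanOn_one]
  refine ⟨Helper10.zspan_add_mem (Helper10.zspan_smul_mem _ (Helper10.mem_zspan_of_mem hχS))
    (Helper10.zspan_smul_mem _ (Helper10.mem_zspan_of_mem hξS)), ?_⟩
  rw [alpha_apply, Helper24.charDegree_spec hχ, Helper24.charDegree_spec hξ]
  ring

section Iff

variable {G : Type*} [Group G] [Fintype G] (K : Subgroup G)
  [Fintype ↥(Subgroup.normalizer (K : Set G))]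

theorem vanish_off (hC : ∀ k ∈ K, k ≠ 1 → Subgroup.centralizer ({k} : Set G) ≤ K)
    {χ : ↥(Subgroup.normalizer (K : Set G)) → ℂ}
    (hχ : IsIrrCharacter ↥(Subgroup.normalizer (K : Set G)) χ)
    (hk : ∃ k : ↥(Subgroup.normalizer (K : Set G)), (k : G) ∈ K ∧ χ k ≠ χ 1)
    (n : ↥(Subgroup.normalizer (K : Set G))) (hn : (n : G) ∉ K) : χ n = 0 := by
  obtain ⟨k, hk, hχk⟩ := hk
  obtain ⟨ϑ, hϑ, hϑ1, rfl⟩ := exists_ind_of_mem K hC hχ k hk hχk
  haveI : (K.subgroupOf (Subgroup.normalizer (K : Set G))).Normal :=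
    Subgroup.normal_in_normalizer
  exact indFun_apply_of_not_mem _ ϑ (fun h => hn (Subgroup.mem_subgroupOf.mp h))

variable (S : Set (↥(Subgroup.normalizer (K : Set G)) → ℂ))
  (star : (↥(Subgroup.normalizer (K : Set G)) → ℂ) → (G → ℂ))
  (hstar : IsLinearIsometryOn (zspan S) star)

include hstar in
theorem star_signed {χ : ↥(Subgroup.normalizer (K : Set G)) → ℂ} (hχS : χ ∈ S)
    (hχ : IsIrrCharacter ↥(Subgroup.normalizer (K : Set G)) χ) :
    ∃ (ψ' : G → ℂ) (e : ℝ), IsIrrCharacter G ψ' ∧ (e = 1 ∨ e = -1) ∧ star χ = (e : ℂ) • ψ' := by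
  have hmem := Helper10.mem_zspan_of_mem hχS
  have hnorm : classInner (star χ) (star χ) = 1 := by
    rw [hstar.2.2.1 χ hmem χ hmem, Helper2.classInner_irr hχ hχ, if_pos rfl]
  exact Helper10.gen_norm_one (hstar.2.2.2 χ hmem) hnorm

include hstar in
theorem star_orth {χ ξ : ↥(Subgroup.normalizer (K : Set G)) → ℂ} (hχS : χ ∈ S) (hξS : ξ ∈ S)
    (hχ : IsIrrCharacter ↥(Subgroup.normalizer (K : Set G)) χ)
    (hξ : IsIrrCharacter ↥(Subgroup.normalizer (K : Set G)) ξ) (hne : χ ≠ ξ) :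
    classInner (star χ) (star ξ) = 0 := by
  rw [hstar.2.2.1 χ (Helper10.mem_zspan_of_mem hχS) ξ (Helper10.mem_zspan_of_mem hξS),
    Helper2.classInner_irr hχ hξ, if_neg hne]

include hstar in
theorem star_alpha {χ ξ : ↥(Subgroup.normalizer (K : Set G)) → ℂ} (hχS : χ ∈ S) (hξS : ξ ∈ S) :
    star (alpha χ ξ) = (charDegree ξ : ℤ) • star χ + (-(charDegree χ : ℤ)) • star ξ :=
  Helper10.lio_map_comb hstar (Helper10.mem_zspan_of_mem hχS) (Helper10.mem_zspan_of_mem hξS) _ _

include hstar in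
/-- An irreducible character of `G` is exceptional iff it is not constant on `K ∖ {1}`. -/
theorem exc_iff (hC : ∀ k ∈ K, k ≠ 1 → Subgroup.centralizer ({k} : Set G) ≤ K)
    (hS : S = {χ : ↥(Subgroup.normalizer (K : Set G)) → ℂ |
      IsIrrCharacter ↥(Subgroup.normalizer (K : Set G)) χ ∧
      ∃ k : ↥(Subgroup.normalizer (K : Set G)), (k : G) ∈ K ∧ χ k ≠ χ 1})
    (htwo : ∃ χ ∈ S, ∃ ξ ∈ S, χ ≠ ξ)
    (hext : ∀ α ∈ zspanOn S ({1}ᶜ : Set ↥(Subgroup.normalizer (K : Set G))),
      star α = indFun (Subgroup.normalizer (K : Set G)) α)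
    (ψ : G → ℂ) (hψ : IsIrrCharacter G ψ) :
    (∃ χ ∈ S, ψ = star χ ∨ ψ = -star χ) ↔ ∃ a ∈ K, ∃ b ∈ K, a ≠ 1 ∧ b ≠ 1 ∧ ψ a ≠ ψ b := by
  classical
  have hSirr : ∀ χ ∈ S, IsIrrCharacter ↥(Subgroup.normalizer (K : Set G)) χ := by
    intro χ h
    rw [hS] at h
    exact h.1
  have hSk : ∀ χ ∈ S, ∃ k : ↥(Subgroup.normalizer (K : Set G)), (k : G) ∈ K ∧ χ k ≠ χ 1 := by
    intro χ h
    rw [hS] at h
    exact h.2
  have hSne : ∀ χ ∈ S, χ ≠ fun _ => 1 := by
    intro χ h h1
    obtain ⟨k, -, hk⟩ := hSk χ h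
    rw [h1] at hk
    exact hk rfl
  have hSchar : ∀ χ ∈ S, IsCharacter ↥(Subgroup.normalizer (K : Set G)) χ := fun χ h =>
    Helper24.isCharacter_of_irr (hSirr χ h)
  have hψcf := Helper2.IsIrrCharacter.isClassFunction hψ
  have hinner : ∀ χ ∈ S, ∀ ξ ∈ S, classInner (star (alpha χ ξ)) ψ =
      (charDegree ξ : ℂ) * classInner (star χ) ψ - (charDegree χ : ℂ) * classInner (star ξ) ψ := by
    intro χ hχ ξ hξ
    rw [star_alpha K S star hstar hχ hξ, Helper2.classInner_add_left,
      Helper10.classInner_zsmul_left, Helper10.classInner_zsmul_left]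
    push_cast
    ring
  have hfrob : ∀ χ ∈ S, ∀ ξ ∈ S, classInner (star (alpha χ ξ)) ψ =
      classInner (alpha χ ξ) (fun n : ↥(Subgroup.normalizer (K : Set G)) => ψ n) := by
    intro χ hχ ξ hξ
    rw [hext _ (alpha_mem S hχ hξ (hSchar χ hχ) (hSchar ξ hξ))]
    exact Helper2.frobenius_reciprocity _ _ _ hψcf
  constructor
  · rintro ⟨χ, hχ, hψχ⟩
    by_contra hcon
    push Not at hcon
    obtain ⟨ξ, hξ, hne⟩ : ∃ ξ ∈ S, ξ ≠ χ := by
      obtain ⟨χ₁, h₁, χ₂, h₂, h12⟩ := htwo
      by_cases h : χ₁ = χ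
      · exact ⟨χ₂, h₂, fun h' => h12 (h.trans h'.symm)⟩
      · exact ⟨χ₁, h₁, h⟩
    obtain ⟨k₀, hk₀, hχk₀⟩ := hSk χ hχ
    have hk₀1 : (k₀ : G) ≠ 1 := by
      intro h
      apply hχk₀
      have : k₀ = 1 := Subtype.ext h
      rw [this]
    have hA : classInner (star (alpha χ ξ)) ψ ≠ 0 := by
      rw [hinner χ hχ ξ hξ]
      have hχχ : classInner (star χ) (star χ) = 1 := by
        rw [hstar.2.2.1 χ (Helper10.mem_zspan_of_mem hχ) χ (Helper10.mem_zspan_of_mem hχ),
          Helper2.classInner_irr (hSirr χ hχ) (hSirr χ hχ), if_pos rfl]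
      have hξχ := star_orth K S star hstar hξ hχ (hSirr ξ hξ) (hSirr χ hχ) hne
      have hdξ : (charDegree ξ : ℂ) ≠ 0 := by
        exact_mod_cast (Helper24.irr_degree_pos (hSirr ξ hξ)).ne'
      have hneg : (-star χ) = ((-1 : ℂ)) • star χ := by
        funext x
        simp
      rcases hψχ with h | h
      · rw [h, hχχ, hξχ]
        simpa using hdξ
      · rw [h, hneg, Helper2.classInner_smul_right, Helper2.classInner_smul_right, hχχ, hξχ]
        simpa using hdξ
    apply hA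
    rw [hfrob χ hχ ξ hξ]
    unfold classInner
    have hterm : ∀ n : ↥(Subgroup.normalizer (K : Set G)),
        alpha χ ξ n * (starRingEnd ℂ) (ψ n) = alpha χ ξ n * (starRingEnd ℂ) (ψ k₀) := by
      intro n
      by_cases hnK : (n : G) ∈ K
      · by_cases hn1 : (n : G) = 1
        · have hn : n = 1 := Subtype.ext hn1
          have h0 : alpha χ ξ n = 0 := by
            rw [hn]
            exact ((Helper10.mem_zspanOn_one).mp
              (alpha_mem S hχ hξ (hSchar χ hχ) (hSchar ξ hξ))).2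
          rw [h0, zero_mul, zero_mul]
        · rw [hcon _ hnK _ hk₀ hn1 hk₀1]
      · have h0 : alpha χ ξ n = 0 := by
          rw [alpha_apply, vanish_off K hC (hSirr χ hχ) (hSk χ hχ) n hnK,
            vanish_off K hC (hSirr ξ hξ) (hSk ξ hξ) n hnK]
          ring
        rw [h0, zero_mul, zero_mul]
    rw [Finset.sum_congr rfl (fun n _ => hterm n), ← Finset.sum_mul]
    have hsum : ∑ n, alpha χ ξ n = 0 := by
      simp only [alpha_apply]
      rw [Finset.sum_sub_distrib, ← Finset.mul_sum, ← Finset.mul_sum,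
        sum_eq_zero_of_irr (hSirr χ hχ) (hSne χ hχ), sum_eq_zero_of_irr (hSirr ξ hξ) (hSne ξ hξ)]
      ring
    rw [hsum, zero_mul, mul_zero]
  · rintro ⟨a, ha, b, hb, ha1, hb1, hab⟩
    by_contra hcon
    push Not at hcon
    apply hab
    have horth : ∀ χ ∈ S, classInner (star χ) ψ = 0 := by
      intro χ hχ
      obtain ⟨ψ', e, hψ', he, hs⟩ := star_signed K S star hstar hχ (hSirr χ hχ)
      have hne : ψ' ≠ ψ := by
        intro h
        rcases he with rfl | rfl
        · apply (hcon χ hχ).1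
          rw [hs, h]
          funext x
          simp
        · apply (hcon χ hχ).2
          rw [hs, h]
          funext x
          simp
      rw [hs, Helper2.classInner_smul_left, Helper2.classInner_irr hψ' hψ, if_neg hne, mul_zero]
    have hrel : ∀ χ ∈ S, ∀ ξ ∈ S,
        (charDegree ξ : ℂ) * classInner χ (fun n : ↥(Subgroup.normalizer (K : Set G)) => ψ n) =
        (charDegree χ : ℂ) * classInner ξ (fun n : ↥(Subgroup.normalizer (K : Set G)) => ψ n) := by
      intro χ hχ ξ hξ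
      have h1 := hfrob χ hχ ξ hξ
      rw [hinner χ hχ ξ hξ, horth χ hχ, horth ξ hξ] at h1
      have h2 : classInner (alpha χ ξ) (fun n : ↥(Subgroup.normalizer (K : Set G)) => ψ n) =
          (charDegree ξ : ℂ) * classInner χ (fun n : ↥(Subgroup.normalizer (K : Set G)) => ψ n) -
          (charDegree χ : ℂ) *
            classInner ξ (fun n : ↥(Subgroup.normalizer (K : Set G)) => ψ n) := by
        unfold alpha
        rw [Helper2.classInner_add_left, Helper10.classInner_zsmul_left,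
          Helper10.classInner_zsmul_left]
        push_cast
        ring
      rw [h2] at h1
      linear_combination -h1
    obtain ⟨χ₀, hχ₀, -⟩ := htwo
    have hd₀ : (charDegree χ₀ : ℂ) ≠ 0 := by
      exact_mod_cast (Helper24.irr_degree_pos (hSirr χ₀ hχ₀)).ne'
    haveI := Helper24.finite_irrCharacter (G := ↥(Subgroup.normalizer (K : Set G)))
    haveI := Fintype.ofFinite (IrrCharacter ↥(Subgroup.normalizer (K : Set G)))
    have hNle : K ≤ Subgroup.normalizer (K : Set G) := Subgroup.le_normalizer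
    have hψN : IsCharacter ↥(Subgroup.normalizer (K : Set G))
        (fun n : ↥(Subgroup.normalizer (K : Set G)) => ψ n) :=
      Helper24.isCharacter_restrict _ (Helper24.isCharacter_of_irr hψ)
    have hexp := Helper2.class_fn_expansion (Helper2.IsCharacter.isClassFunction hψN)
    have ea := congrFun hexp ⟨a, hNle ha⟩
    have eb := congrFun hexp ⟨b, hNle hb⟩
    simp only [Finset.sum_apply, Pi.smul_apply, smul_eq_mul] at ea eb
    obtain ⟨c, hc⟩ : ∃ c : ℂ, c = classInner
        (fun n : ↥(Subgroup.normalizer (K : Set G)) => ψ n) χ₀ / (charDegree χ₀ : ℂ) := ⟨_, rfl⟩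
    have hterm : ∀ η : IrrCharacter ↥(Subgroup.normalizer (K : Set G)),
        classInner (fun n : ↥(Subgroup.normalizer (K : Set G)) => ψ n) η *
          (η : ↥(Subgroup.normalizer (K : Set G)) → ℂ) ⟨a, hNle ha⟩ -
        classInner (fun n : ↥(Subgroup.normalizer (K : Set G)) => ψ n) η *
          (η : ↥(Subgroup.normalizer (K : Set G)) → ℂ) ⟨b, hNle hb⟩ =
        c * ((η : ↥(Subgroup.normalizer (K : Set G)) → ℂ) ⟨a, hNle ha⟩ *
            (starRingEnd ℂ) ((η : ↥(Subgroup.normalizer (K : Set G)) → ℂ) 1) -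
          (η : ↥(Subgroup.normalizer (K : Set G)) → ℂ) ⟨b, hNle hb⟩ *
            (starRingEnd ℂ) ((η : ↥(Subgroup.normalizer (K : Set G)) → ℂ) 1)) := by
      intro η
      have hη1 : (η : ↥(Subgroup.normalizer (K : Set G)) → ℂ) 1 =
          (charDegree (η : ↥(Subgroup.normalizer (K : Set G)) → ℂ) : ℂ) :=
        Helper24.charDegree_spec (Helper24.isCharacter_of_irr η.2)
      by_cases hηS : (η : ↥(Subgroup.normalizer (K : Set G)) → ℂ) ∈ S
      · have h1 := hrel χ₀ hχ₀ η hηS
        have h2 := congrArg (starRingEnd ℂ) h1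
        rw [map_mul, map_mul, Helper2.classInner_conj_symm, Helper2.classInner_conj_symm,
          Complex.conj_natCast, Complex.conj_natCast] at h2
        rw [hη1, Complex.conj_natCast, hc]
        field_simp
        linear_combination
          (-((η : ↥(Subgroup.normalizer (K : Set G)) → ℂ) ⟨a, hNle ha⟩ -
            (η : ↥(Subgroup.normalizer (K : Set G)) → ℂ) ⟨b, hNle hb⟩)) * h2
      · have hconst : ∀ k : ↥(Subgroup.normalizer (K : Set G)), (k : G) ∈ K →
            (η : ↥(Subgroup.normalizer (K : Set G)) → ℂ) k =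
            (η : ↥(Subgroup.normalizer (K : Set G)) → ℂ) 1 := by
          intro k hk
          by_contra hne
          apply hηS
          rw [hS]
          exact ⟨η.2, k, hk, hne⟩
        rw [hconst ⟨a, hNle ha⟩ ha, hconst ⟨b, hNle hb⟩ hb]
        ring
    have hsub : ψ a - ψ b = c *
        (∑ η : IrrCharacter ↥(Subgroup.normalizer (K : Set G)),
          (η : ↥(Subgroup.normalizer (K : Set G)) → ℂ) ⟨a, hNle ha⟩ *
            (starRingEnd ℂ) ((η : ↥(Subgroup.normalizer (K : Set G)) → ℂ) 1) -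
         ∑ η : IrrCharacter ↥(Subgroup.normalizer (K : Set G)),
          (η : ↥(Subgroup.normalizer (K : Set G)) → ℂ) ⟨b, hNle hb⟩ *
            (starRingEnd ℂ) ((η : ↥(Subgroup.normalizer (K : Set G)) → ℂ) 1)) := by
      have ea' : ψ a = _ := ea
      have eb' : ψ b = _ := eb
      rw [ea', eb', ← Finset.sum_sub_distrib, ← Finset.sum_sub_distrib, Finset.mul_sum]
      exact Finset.sum_congr rfl fun η _ => hterm η
    have hoa := Helper2.second_orthogonality
      (⟨a, hNle ha⟩ : ↥(Subgroup.normalizer (K : Set G))) 1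
    have hob := Helper2.second_orthogonality
      (⟨b, hNle hb⟩ : ↥(Subgroup.normalizer (K : Set G))) 1
    rw [if_neg (by rw [isConj_one_left]; exact fun h => ha1 (congrArg Subtype.val h))] at hoa
    rw [if_neg (by rw [isConj_one_left]; exact fun h => hb1 (congrArg Subtype.val h))] at hob
    rw [hoa, hob, sub_zero, mul_zero] at hsub
    exact sub_eq_zero.mp hsub

end Iff

end Cfsg.Agent.Helper6.Exc
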