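import Mathlib
import Cfsg.Agent.Helper6.ExcIff
import Cfsg.Agent.Helper2.CharConstituent

set_option autoImplicit false

namespace Cfsg.Agent.Helper6.Exc

open Cfsg

/-- The combinatorial heart of coherence for characters of equal degree. -/
theorem comb_coh {X I : Type*} (χ₀ χ₁ : X) (h10 : χ₁ ≠ χ₀) (A B : X → I)
    (hne : ∀ χ, χ ≠ χ₀ → A χ ≠ B χ)
    (hP : ∀ χ χ', χ ≠ χ₀ → χ' ≠ χ₀ → χ ≠ χ' → (A χ = A χ' ∨ B χ = B χ'))
    (hQ : ∀ χ χ', χ ≠ χ₀ → χ' ≠ χ₀ → χ ≠ χ' → ¬(A χ = A χ' ∧ B χ = B χ')) :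
    ∃ f : X → I, Function.Injective f ∧
      ((∀ χ, χ ≠ χ₀ → A χ = f χ ∧ B χ = f χ₀) ∨ (∀ χ, χ ≠ χ₀ → A χ = f χ₀ ∧ B χ = f χ)) := by
  classical
  by_cases hB : ∀ χ χ', χ ≠ χ₀ → χ' ≠ χ₀ → B χ = B χ'
  · refine ⟨fun χ => if χ = χ₀ then B χ₁ else A χ, ?_, Or.inl ?_⟩
    · intro χ ξ h
      by_cases hχ : χ = χ₀ <;> by_cases hξ : ξ = χ₀
      · rw [hχ, hξ]
      · have h' : B χ₁ = A ξ := by simpa [hχ, hξ] using h
        exact absurd (h'.symm.trans (hB ξ χ₁ hξ h10).symm) (hne ξ hξ)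
      · have h' : A χ = B χ₁ := by simpa [hχ, hξ] using h
        exact absurd (h'.trans (hB χ χ₁ hχ h10).symm) (hne χ hχ)
      · have h' : A χ = A ξ := by simpa [hχ, hξ] using h
        by_contra hne'
        exact hQ χ ξ hχ hξ hne' ⟨h', hB χ ξ hχ hξ⟩
    · intro χ hχ
      show A χ = (if χ = χ₀ then B χ₁ else A χ) ∧ B χ = (if χ₀ = χ₀ then B χ₁ else A χ₀)
      rw [if_neg hχ, if_pos rfl]
      exact ⟨rfl, hB χ χ₁ hχ h10⟩
  · have hA : ∀ χ, χ ≠ χ₀ → A χ = A χ₁ := by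
      push Not at hB
      obtain ⟨ξ₁, ξ₂, h₁, h₂, hB12⟩ := hB
      have h12 : ξ₁ ≠ ξ₂ := fun h => hB12 (by rw [h])
      have hA12 : A ξ₁ = A ξ₂ := (hP ξ₁ ξ₂ h₁ h₂ h12).resolve_right hB12
      have key : ∀ χ, χ ≠ χ₀ → A χ = A ξ₁ := by
        intro χ hχ
        by_contra hne'
        have hχ1 : χ ≠ ξ₁ := fun h => hne' (by rw [h])
        have hχ2 : χ ≠ ξ₂ := fun h => hne' (by rw [h, hA12])
        have e1 := (hP χ ξ₁ hχ h₁ hχ1).resolve_left hne'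
        have e2 := (hP χ ξ₂ hχ h₂ hχ2).resolve_left (fun h => hne' (h.trans hA12.symm))
        exact hB12 (e1.symm.trans e2)
      intro χ hχ
      rw [key χ hχ, key χ₁ h10]
    refine ⟨fun χ => if χ = χ₀ then A χ₁ else B χ, ?_, Or.inr ?_⟩
    · intro χ ξ h
      by_cases hχ : χ = χ₀ <;> by_cases hξ : ξ = χ₀
      · rw [hχ, hξ]
      · have h' : A χ₁ = B ξ := by simpa [hχ, hξ] using h
        exact absurd ((hA ξ hξ).trans h') (hne ξ hξ)
      · have h' : B χ = A χ₁ := by simpa [hχ, hξ] using h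
        exact absurd ((hA χ hχ).trans h'.symm) (hne χ hχ)
      · have h' : B χ = B ξ := by simpa [hχ, hξ] using h
        by_contra hne'
        exact hQ χ ξ hχ hξ hne' ⟨(hA χ hχ).trans (hA ξ hξ).symm, h'⟩
    · intro χ hχ
      show A χ = (if χ₀ = χ₀ then A χ₁ else B χ₀) ∧ B χ = (if χ = χ₀ then A χ₁ else B χ)
      rw [if_neg hχ, if_pos rfl]
      exact ⟨hA χ hχ, rfl⟩

theorem indFun_sub' {G : Type*} [Group G] [Fintype G] (H : Subgroup G) (θ φ : H → ℂ) :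
    indFun H (θ - φ) = indFun H θ - indFun H φ := by
  have h : θ - φ = θ + (-1 : ℂ) • φ := by
    funext x
    simp [sub_eq_add_neg]
  rw [h, Helper10.indFun_add, Helper10.indFun_smul]
  funext x
  simp [sub_eq_add_neg]

/-- Inner products of differences of irreducible characters. -/
theorem classInner_diff {H : Type*} [Group H] [Fintype H] (a b c d : IrrCharacter H) :
    classInner ((a : H → ℂ) - (b : H → ℂ)) ((c : H → ℂ) - (d : H → ℂ)) =
      (if a = c then (1 : ℂ) else 0) - (if a = d then 1 else 0) - (if b = c then 1 else 0) +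
        (if b = d then 1 else 0) := by
  classical
  have hip : ∀ x y : IrrCharacter H, classInner (x : H → ℂ) (y : H → ℂ) =
      if x = y then (1 : ℂ) else 0 := by
    intro x y
    rw [Helper2.classInner_irr x.2 y.2]
    by_cases h : x = y
    · rw [if_pos h, if_pos (congrArg Subtype.val h)]
    · rw [if_neg h, if_neg (fun h' => h (Subtype.ext h'))]
  rw [Helper2.classInner_sub_left, Helper2.classInner_sub_right, Helper2.classInner_sub_right,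
    hip, hip, hip, hip]
  ring

/-- A generalized character of norm two vanishing at the identity is a difference of two
distinct irreducible characters. -/
theorem diff_of_norm_two {G : Type*} [Group G] [Fintype G] {θ : G → ℂ}
    (hθ : IsGeneralizedCharacter G θ) (h2 : classInner θ θ = 2) (h1 : θ 1 = 0) :
    ∃ A B : IrrCharacter G, A ≠ B ∧ θ = (A : G → ℂ) - (B : G → ℂ) := by
  obtain ⟨χ₁, χ₂, e₁, e₂, hχ₁, hχ₂, hne, he₁, he₂, hθeq⟩ := Helper10.gen_norm_two hθ h2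
  have hd₁ := Helper24.charDegree_spec (Helper24.isCharacter_of_irr hχ₁)
  have hd₂ := Helper24.charDegree_spec (Helper24.isCharacter_of_irr hχ₂)
  have hp₁ : (0 : ℝ) < charDegree χ₁ := by exact_mod_cast Helper24.irr_degree_pos hχ₁
  have hp₂ : (0 : ℝ) < charDegree χ₂ := by exact_mod_cast Helper24.irr_degree_pos hχ₂
  have hval : (e₁ : ℝ) * (charDegree χ₁ : ℝ) + e₂ * (charDegree χ₂ : ℝ) = 0 := by
    have := h1
    rw [hθeq] at this
    simp only [Pi.add_apply, Pi.smul_apply, smul_eq_mul] at this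
    rw [hd₁, hd₂] at this
    exact_mod_cast this
  rcases he₁ with rfl | rfl <;> rcases he₂ with rfl | rfl
  · nlinarith
  · refine ⟨⟨χ₁, hχ₁⟩, ⟨χ₂, hχ₂⟩, fun h => hne (congrArg Subtype.val h), ?_⟩
    rw [hθeq]
    funext x
    simp [sub_eq_add_neg]
  · refine ⟨⟨χ₂, hχ₂⟩, ⟨χ₁, hχ₁⟩, fun h => hne (congrArg Subtype.val h).symm, ?_⟩
    rw [hθeq]
    funext x
    simp [sub_eq_add_neg, add_comm]
  · nlinarith

section Abel

variable {G : Type*} [Group G] [Fintype G] (K : Subgroup G)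

/-- Coherence of the relevant characters when `K` is abelian. -/
theorem abel_coh
    (hTI : ∀ g : G, g ∉ Subgroup.normalizer (K : Set G) → ∀ k ∈ K, g * k * g⁻¹ ∈ K → k = 1)
    (hC : ∀ k ∈ K, k ≠ 1 → Subgroup.centralizer ({k} : Set G) ≤ K)
    (hab : ∀ a ∈ K, ∀ b ∈ K, a * b = b * a) :
    ∃ (ε : ℂ) (f : {χ : IrrCharacter ↥(Subgroup.normalizer (K : Set G)) // ∃ k : ↥(Subgroup.normalizer (K : Set G)), (k : G) ∈ K ∧ (χ : ↥(Subgroup.normalizer (K : Set G)) → ℂ) k ≠ (χ : ↥(Subgroup.normalizer (K : Set G)) → ℂ) 1} → IrrCharacter G), (ε = 1 ∨ ε = -1) ∧ Function.Injective f ∧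
      ∀ χ ξ, indFun (Subgroup.normalizer (K : Set G)) ((χ.1 : ↥(Subgroup.normalizer (K : Set G)) → ℂ) - (ξ.1 : ↥(Subgroup.normalizer (K : Set G)) → ℂ)) =
        ε • ((f χ : G → ℂ) - (f ξ : G → ℂ)) := by
  classical
  haveI : Fintype ↥(Subgroup.normalizer (K : Set G)) := Fintype.ofFinite _
  haveI : Fintype ↥(K.subgroupOf (Subgroup.normalizer (K : Set G))) := Fintype.ofFinite _
  obtain ⟨triv, -⟩ : ∃ o : IrrCharacter G, (o : G → ℂ) = fun _ => 1 :=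
    ⟨⟨_, Helper2.isIrrCharacter_one_fun⟩, rfl⟩
  by_cases hsub : Subsingleton {χ : IrrCharacter ↥(Subgroup.normalizer (K : Set G)) // ∃ k : ↥(Subgroup.normalizer (K : Set G)), (k : G) ∈ K ∧ (χ : ↥(Subgroup.normalizer (K : Set G)) → ℂ) k ≠ (χ : ↥(Subgroup.normalizer (K : Set G)) → ℂ) 1}
  · refine ⟨1, fun _ => triv, Or.inl rfl, fun a b _ => Subsingleton.elim a b, ?_⟩
    intro χ ξ
    rw [Subsingleton.elim χ ξ, sub_self, sub_self, Helper10.indFun_zero, smul_zero]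
  rw [not_subsingleton_iff_nontrivial] at hsub
  obtain ⟨χ₁, χ₀, h10⟩ := exists_pair_ne {χ : IrrCharacter ↥(Subgroup.normalizer (K : Set G)) // ∃ k : ↥(Subgroup.normalizer (K : Set G)), (k : G) ∈ K ∧ (χ : ↥(Subgroup.normalizer (K : Set G)) → ℂ) k ≠ (χ : ↥(Subgroup.normalizer (K : Set G)) → ℂ) 1}
  have hKab : ∀ a b : ↥(K.subgroupOf (Subgroup.normalizer (K : Set G))), a * b = b * a := by
    intro a b
    apply Subtype.ext
    apply Subtype.ext
    exact hab _ (Subgroup.mem_subgroupOf.mp a.2) _ (Subgroup.mem_subgroupOf.mp b.2)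
  have hdeg : ∀ χ : {χ : IrrCharacter ↥(Subgroup.normalizer (K : Set G)) // ∃ k : ↥(Subgroup.normalizer (K : Set G)), (k : G) ∈ K ∧ (χ : ↥(Subgroup.normalizer (K : Set G)) → ℂ) k ≠ (χ : ↥(Subgroup.normalizer (K : Set G)) → ℂ) 1}, (χ.1 : ↥(Subgroup.normalizer (K : Set G)) → ℂ) 1 =
      (Nat.card ↥(K.subgroupOf (Subgroup.normalizer (K : Set G))) : ℂ)⁻¹ * (Nat.card ↥(Subgroup.normalizer (K : Set G)) : ℂ) := by
    intro χ
    obtain ⟨k, hk, hχk⟩ := χ.2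
    obtain ⟨ϑ, hϑ, -, hind⟩ := exists_ind_of_mem K hC χ.1.2 k hk hχk
    rw [hind, Helper10.indFun_one, Helper2.irr_abelian_linear hKab hϑ, mul_one]
  have hcf : ∀ χ ξ : {χ : IrrCharacter ↥(Subgroup.normalizer (K : Set G)) // ∃ k : ↥(Subgroup.normalizer (K : Set G)), (k : G) ∈ K ∧ (χ : ↥(Subgroup.normalizer (K : Set G)) → ℂ) k ≠ (χ : ↥(Subgroup.normalizer (K : Set G)) → ℂ) 1}, IsClassFunction ↥(Subgroup.normalizer (K : Set G)) ((χ.1 : ↥(Subgroup.normalizer (K : Set G)) → ℂ) - (ξ.1 : ↥(Subgroup.normalizer (K : Set G)) → ℂ)) := fun χ ξ =>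
    Helper2.IsClassFunction.sub (Helper2.IsIrrCharacter.isClassFunction χ.1.2)
      (Helper2.IsIrrCharacter.isClassFunction ξ.1.2)
  have hv0 : ∀ χ ξ : {χ : IrrCharacter ↥(Subgroup.normalizer (K : Set G)) // ∃ k : ↥(Subgroup.normalizer (K : Set G)), (k : G) ∈ K ∧ (χ : ↥(Subgroup.normalizer (K : Set G)) → ℂ) k ≠ (χ : ↥(Subgroup.normalizer (K : Set G)) → ℂ) 1}, ∀ n : ↥(Subgroup.normalizer (K : Set G)), (n : G) ∉ K →
      ((χ.1 : ↥(Subgroup.normalizer (K : Set G)) → ℂ) - (ξ.1 : ↥(Subgroup.normalizer (K : Set G)) → ℂ)) n = 0 := by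
    intro χ ξ n hn
    rw [Pi.sub_apply, vanish_off K hC χ.1.2 χ.2 n hn, vanish_off K hC ξ.1.2 ξ.2 n hn, sub_zero]
  have hv1 : ∀ χ ξ : {χ : IrrCharacter ↥(Subgroup.normalizer (K : Set G)) // ∃ k : ↥(Subgroup.normalizer (K : Set G)), (k : G) ∈ K ∧ (χ : ↥(Subgroup.normalizer (K : Set G)) → ℂ) k ≠ (χ : ↥(Subgroup.normalizer (K : Set G)) → ℂ) 1}, ((χ.1 : ↥(Subgroup.normalizer (K : Set G)) → ℂ) - (ξ.1 : ↥(Subgroup.normalizer (K : Set G)) → ℂ)) 1 = 0 := by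
    intro χ ξ
    rw [Pi.sub_apply, hdeg χ, hdeg ξ, sub_self]
  have hinner : ∀ χ ξ χ' ξ' : {χ : IrrCharacter ↥(Subgroup.normalizer (K : Set G)) // ∃ k : ↥(Subgroup.normalizer (K : Set G)), (k : G) ∈ K ∧ (χ : ↥(Subgroup.normalizer (K : Set G)) → ℂ) k ≠ (χ : ↥(Subgroup.normalizer (K : Set G)) → ℂ) 1},
      classInner (indFun (Subgroup.normalizer (K : Set G)) ((χ.1 : ↥(Subgroup.normalizer (K : Set G)) → ℂ) - (ξ.1 : ↥(Subgroup.normalizer (K : Set G)) → ℂ)))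
        (indFun (Subgroup.normalizer (K : Set G)) ((χ'.1 : ↥(Subgroup.normalizer (K : Set G)) → ℂ) - (ξ'.1 : ↥(Subgroup.normalizer (K : Set G)) → ℂ))) =
      (if χ.1 = χ'.1 then (1 : ℂ) else 0) - (if χ.1 = ξ'.1 then 1 else 0) -
        (if ξ.1 = χ'.1 then 1 else 0) + (if ξ.1 = ξ'.1 then 1 else 0) := by
    intro χ ξ χ' ξ'
    rw [Helper10.ti_ind_inner _ K (ti_of_hTI K hTI) _ _ (hcf χ' ξ') (hv0 χ ξ) (hv1 χ ξ)
      (hv0 χ' ξ'), classInner_diff]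
  have hgen : ∀ χ ξ : {χ : IrrCharacter ↥(Subgroup.normalizer (K : Set G)) // ∃ k : ↥(Subgroup.normalizer (K : Set G)), (k : G) ∈ K ∧ (χ : ↥(Subgroup.normalizer (K : Set G)) → ℂ) k ≠ (χ : ↥(Subgroup.normalizer (K : Set G)) → ℂ) 1}, IsGeneralizedCharacter G
      (indFun (Subgroup.normalizer (K : Set G)) ((χ.1 : ↥(Subgroup.normalizer (K : Set G)) → ℂ) - (ξ.1 : ↥(Subgroup.normalizer (K : Set G)) → ℂ))) := by
    intro χ ξ
    exact ⟨_, _, Helper2.isCharacter_indFun _ (Helper24.isCharacter_of_irr χ.1.2),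
      Helper2.isCharacter_indFun _ (Helper24.isCharacter_of_irr ξ.1.2), indFun_sub' _ _ _⟩
  have hex : ∀ χ : {χ : IrrCharacter ↥(Subgroup.normalizer (K : Set G)) // ∃ k : ↥(Subgroup.normalizer (K : Set G)), (k : G) ∈ K ∧ (χ : ↥(Subgroup.normalizer (K : Set G)) → ℂ) k ≠ (χ : ↥(Subgroup.normalizer (K : Set G)) → ℂ) 1}, ∃ A B : IrrCharacter G, χ ≠ χ₀ → (A ≠ B ∧
      indFun (Subgroup.normalizer (K : Set G)) ((χ.1 : ↥(Subgroup.normalizer (K : Set G)) → ℂ) - (χ₀.1 : ↥(Subgroup.normalizer (K : Set G)) → ℂ)) =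
        (A : G → ℂ) - (B : G → ℂ)) := by
    intro χ
    by_cases hχ : χ = χ₀
    · exact ⟨triv, triv, fun h => absurd hχ h⟩
    · have hχ' : χ.1 ≠ χ₀.1 := fun h => hχ (Subtype.ext h)
      have h2 : classInner
          (indFun (Subgroup.normalizer (K : Set G)) ((χ.1 : ↥(Subgroup.normalizer (K : Set G)) → ℂ) - (χ₀.1 : ↥(Subgroup.normalizer (K : Set G)) → ℂ)))
          (indFun (Subgroup.normalizer (K : Set G)) ((χ.1 : ↥(Subgroup.normalizer (K : Set G)) → ℂ) - (χ₀.1 : ↥(Subgroup.normalizer (K : Set G)) → ℂ))) = 2 := by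
        rw [hinner, if_pos rfl, if_neg hχ', if_neg (Ne.symm hχ'), if_pos rfl]
        norm_num
      have h1 : indFun (Subgroup.normalizer (K : Set G))
          ((χ.1 : ↥(Subgroup.normalizer (K : Set G)) → ℂ) - (χ₀.1 : ↥(Subgroup.normalizer (K : Set G)) → ℂ)) 1 = 0 := by
        rw [Helper10.indFun_one, hv1, mul_zero]
      obtain ⟨A, B, hAB, heq⟩ := diff_of_norm_two (hgen χ χ₀) h2 h1
      exact ⟨A, B, fun _ => ⟨hAB, heq⟩⟩
  choose A B hAB using hex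
  have hfour : ∀ χ χ' : {χ : IrrCharacter ↥(Subgroup.normalizer (K : Set G)) // ∃ k : ↥(Subgroup.normalizer (K : Set G)), (k : G) ∈ K ∧ (χ : ↥(Subgroup.normalizer (K : Set G)) → ℂ) k ≠ (χ : ↥(Subgroup.normalizer (K : Set G)) → ℂ) 1}, χ ≠ χ₀ → χ' ≠ χ₀ → χ ≠ χ' →
      (if A χ = A χ' then (1 : ℂ) else 0) - (if A χ = B χ' then 1 else 0) -
        (if B χ = A χ' then 1 else 0) + (if B χ = B χ' then 1 else 0) = 1 := by
    intro χ χ' hχ hχ' hne
    have hr : (if χ.1 = χ'.1 then (1 : ℂ) else 0) - (if χ.1 = χ₀.1 then 1 else 0) -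
        (if χ₀.1 = χ'.1 then 1 else 0) + (if χ₀.1 = χ₀.1 then 1 else 0) = 1 := by
      rw [if_neg (fun h => hne (Subtype.ext h)), if_neg (fun h => hχ (Subtype.ext h)),
        if_neg (fun h => hχ' (Subtype.ext h.symm)), if_pos rfl]
      norm_num
    have h := hinner χ χ₀ χ' χ₀
    rw [hr, (hAB χ hχ).2, (hAB χ' hχ').2, classInner_diff] at h
    exact h
  have hP : ∀ χ χ' : {χ : IrrCharacter ↥(Subgroup.normalizer (K : Set G)) // ∃ k : ↥(Subgroup.normalizer (K : Set G)), (k : G) ∈ K ∧ (χ : ↥(Subgroup.normalizer (K : Set G)) → ℂ) k ≠ (χ : ↥(Subgroup.normalizer (K : Set G)) → ℂ) 1}, χ ≠ χ₀ → χ' ≠ χ₀ → χ ≠ χ' → (A χ = A χ' ∨ B χ = B χ') := by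
    intro χ χ' hχ hχ' hne
    have h := hfour χ χ' hχ hχ' hne
    by_contra hcon
    push Not at hcon
    rw [if_neg hcon.1, if_neg hcon.2] at h
    by_cases h1 : A χ = B χ' <;> by_cases h2 : B χ = A χ'
    · rw [if_pos h1, if_pos h2] at h
      norm_num at h
    · rw [if_pos h1, if_neg h2] at h
      norm_num at h
    · rw [if_neg h1, if_pos h2] at h
      norm_num at h
    · rw [if_neg h1, if_neg h2] at h
      norm_num at h
  have hQ : ∀ χ χ' : {χ : IrrCharacter ↥(Subgroup.normalizer (K : Set G)) // ∃ k : ↥(Subgroup.normalizer (K : Set G)), (k : G) ∈ K ∧ (χ : ↥(Subgroup.normalizer (K : Set G)) → ℂ) k ≠ (χ : ↥(Subgroup.normalizer (K : Set G)) → ℂ) 1}, χ ≠ χ₀ → χ' ≠ χ₀ → χ ≠ χ' → ¬(A χ = A χ' ∧ B χ = B χ') := by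
    intro χ χ' hχ hχ' hne hcon
    have h := hfour χ χ' hχ hχ' hne
    have hABχ := (hAB χ hχ).1
    have h1 : A χ ≠ B χ' := fun h' => hABχ (h'.trans hcon.2.symm)
    have h2 : B χ ≠ A χ' := fun h' => hABχ (hcon.1.trans h'.symm)
    rw [if_pos hcon.1, if_pos hcon.2, if_neg h1, if_neg h2] at h
    norm_num at h
  obtain ⟨f, hf, hcase⟩ := comb_coh χ₀ χ₁ h10 A B (fun χ hχ => (hAB χ hχ).1) hP hQ
  have hlin : ∀ χ ξ : {χ : IrrCharacter ↥(Subgroup.normalizer (K : Set G)) // ∃ k : ↥(Subgroup.normalizer (K : Set G)), (k : G) ∈ K ∧ (χ : ↥(Subgroup.normalizer (K : Set G)) → ℂ) k ≠ (χ : ↥(Subgroup.normalizer (K : Set G)) → ℂ) 1},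
      indFun (Subgroup.normalizer (K : Set G)) ((χ.1 : ↥(Subgroup.normalizer (K : Set G)) → ℂ) - (ξ.1 : ↥(Subgroup.normalizer (K : Set G)) → ℂ)) =
      indFun (Subgroup.normalizer (K : Set G)) ((χ.1 : ↥(Subgroup.normalizer (K : Set G)) → ℂ) - (χ₀.1 : ↥(Subgroup.normalizer (K : Set G)) → ℂ)) -
      indFun (Subgroup.normalizer (K : Set G)) ((ξ.1 : ↥(Subgroup.normalizer (K : Set G)) → ℂ) - (χ₀.1 : ↥(Subgroup.normalizer (K : Set G)) → ℂ)) := by
    intro χ ξ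
    rw [← indFun_sub', sub_sub_sub_cancel_right]
  rcases hcase with hc | hc
  · refine ⟨1, f, Or.inl rfl, hf, ?_⟩
    have hδ : ∀ χ : {χ : IrrCharacter ↥(Subgroup.normalizer (K : Set G)) // ∃ k : ↥(Subgroup.normalizer (K : Set G)), (k : G) ∈ K ∧ (χ : ↥(Subgroup.normalizer (K : Set G)) → ℂ) k ≠ (χ : ↥(Subgroup.normalizer (K : Set G)) → ℂ) 1},
        indFun (Subgroup.normalizer (K : Set G)) ((χ.1 : ↥(Subgroup.normalizer (K : Set G)) → ℂ) - (χ₀.1 : ↥(Subgroup.normalizer (K : Set G)) → ℂ)) =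
        (f χ : G → ℂ) - (f χ₀ : G → ℂ) := by
      intro χ
      by_cases hχ : χ = χ₀
      · rw [hχ, sub_self, sub_self, Helper10.indFun_zero]
      · rw [(hAB χ hχ).2, (hc χ hχ).1, (hc χ hχ).2]
    intro χ ξ
    rw [hlin, hδ χ, hδ ξ, one_smul, sub_sub_sub_cancel_right]
  · refine ⟨-1, f, Or.inr rfl, hf, ?_⟩
    have hδ : ∀ χ : {χ : IrrCharacter ↥(Subgroup.normalizer (K : Set G)) // ∃ k : ↥(Subgroup.normalizer (K : Set G)), (k : G) ∈ K ∧ (χ : ↥(Subgroup.normalizer (K : Set G)) → ℂ) k ≠ (χ : ↥(Subgroup.normalizer (K : Set G)) → ℂ) 1},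
        indFun (Subgroup.normalizer (K : Set G)) ((χ.1 : ↥(Subgroup.normalizer (K : Set G)) → ℂ) - (χ₀.1 : ↥(Subgroup.normalizer (K : Set G)) → ℂ)) =
        (f χ₀ : G → ℂ) - (f χ : G → ℂ) := by
      intro χ
      by_cases hχ : χ = χ₀
      · rw [hχ, sub_self, sub_self, Helper10.indFun_zero]
      · rw [(hAB χ hχ).2, (hc χ hχ).1, (hc χ hχ).2]
    intro χ ξ
    rw [hlin, hδ χ, hδ ξ, neg_one_smul, sub_sub_sub_cancel_left, neg_sub]

end Abel

end Cfsg.Agent.Helper6.Exc
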