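import Mathlib
import Cfsg.Agent.Helper6.ExcIff
import Cfsg.Agent.Helper10.IrrCoh
import Cfsg.Agent.Helper2.CharReg
import Cfsg.Agent.Helper2.CharGalois
import Cfsg.Agent.Helper2.CharBound

set_option autoImplicit false

namespace Cfsg.Agent.Helper6.Exc

open Cfsg

section Diff

variable {G : Type*} [Group G] [Fintype G] (K : Subgroup G)
  [Fintype ↥(Subgroup.normalizer (K : Set G))]

/-- A class function of `N` whose inner products with the members of `S` are proportional to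
their degrees is constant on `K ∖ {1}`. -/
theorem const_of_rel (S : Set (↥(Subgroup.normalizer (K : Set G)) → ℂ))
    (hS : S = {χ : ↥(Subgroup.normalizer (K : Set G)) → ℂ | IsIrrCharacter ↥(Subgroup.normalizer (K : Set G)) χ ∧ ∃ k : ↥(Subgroup.normalizer (K : Set G)), (k : G) ∈ K ∧ χ k ≠ χ 1})
    (Φ : ↥(Subgroup.normalizer (K : Set G)) → ℂ) (hΦ : IsClassFunction ↥(Subgroup.normalizer (K : Set G)) Φ) {χ₀ : ↥(Subgroup.normalizer (K : Set G)) → ℂ} (hχ₀ : χ₀ ∈ S)
    (hrel : ∀ η ∈ S, (charDegree χ₀ : ℂ) * classInner Φ η = (charDegree η : ℂ) * classInner Φ χ₀)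
    (a b : ↥(Subgroup.normalizer (K : Set G))) (ha : (a : G) ∈ K) (hb : (b : G) ∈ K) (ha1 : a ≠ 1) (hb1 : b ≠ 1) :
    Φ a = Φ b := by
  classical
  have hSirr : ∀ χ ∈ S, IsIrrCharacter ↥(Subgroup.normalizer (K : Set G)) χ := by
    intro χ h
    rw [hS] at h
    exact h.1
  have hd₀ : (charDegree χ₀ : ℂ) ≠ 0 := by
    exact_mod_cast (Helper24.irr_degree_pos (hSirr χ₀ hχ₀)).ne'
  haveI := Helper24.finite_irrCharacter (G := ↥(Subgroup.normalizer (K : Set G)))
  haveI := Fintype.ofFinite (IrrCharacter ↥(Subgroup.normalizer (K : Set G)))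
  have hexp := Helper2.class_fn_expansion hΦ
  have ea := congrFun hexp a
  have eb := congrFun hexp b
  simp only [Finset.sum_apply, Pi.smul_apply, smul_eq_mul] at ea eb
  obtain ⟨c, hc⟩ : ∃ c : ℂ, c = classInner Φ χ₀ / (charDegree χ₀ : ℂ) := ⟨_, rfl⟩
  have hterm : ∀ η : IrrCharacter ↥(Subgroup.normalizer (K : Set G)),
      classInner Φ η * (η : ↥(Subgroup.normalizer (K : Set G)) → ℂ) a - classInner Φ η * (η : ↥(Subgroup.normalizer (K : Set G)) → ℂ) b =
      c * ((η : ↥(Subgroup.normalizer (K : Set G)) → ℂ) a * (starRingEnd ℂ) ((η : ↥(Subgroup.normalizer (K : Set G)) → ℂ) 1) -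
        (η : ↥(Subgroup.normalizer (K : Set G)) → ℂ) b * (starRingEnd ℂ) ((η : ↥(Subgroup.normalizer (K : Set G)) → ℂ) 1)) := by
    intro η
    have hη1 : (η : ↥(Subgroup.normalizer (K : Set G)) → ℂ) 1 = (charDegree (η : ↥(Subgroup.normalizer (K : Set G)) → ℂ) : ℂ) :=
      Helper24.charDegree_spec (Helper24.isCharacter_of_irr η.2)
    by_cases hηS : (η : ↥(Subgroup.normalizer (K : Set G)) → ℂ) ∈ S
    · have h1 := hrel η hηS
      rw [hη1, Complex.conj_natCast, hc]
      field_simp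
      linear_combination ((η : ↥(Subgroup.normalizer (K : Set G)) → ℂ) a - (η : ↥(Subgroup.normalizer (K : Set G)) → ℂ) b) * h1
    · have hconst : ∀ k : ↥(Subgroup.normalizer (K : Set G)), (k : G) ∈ K → (η : ↥(Subgroup.normalizer (K : Set G)) → ℂ) k = (η : ↥(Subgroup.normalizer (K : Set G)) → ℂ) 1 := by
        intro k hk
        by_contra hne
        apply hηS
        rw [hS]
        exact ⟨η.2, k, hk, hne⟩
      rw [hconst a ha, hconst b hb]
      ring
  have hsub : Φ a - Φ b = c *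
      (∑ η : IrrCharacter ↥(Subgroup.normalizer (K : Set G)), (η : ↥(Subgroup.normalizer (K : Set G)) → ℂ) a * (starRingEnd ℂ) ((η : ↥(Subgroup.normalizer (K : Set G)) → ℂ) 1) -
       ∑ η : IrrCharacter ↥(Subgroup.normalizer (K : Set G)), (η : ↥(Subgroup.normalizer (K : Set G)) → ℂ) b * (starRingEnd ℂ) ((η : ↥(Subgroup.normalizer (K : Set G)) → ℂ) 1)) := by
    have ea' : Φ a = _ := ea
    have eb' : Φ b = _ := eb
    rw [ea', eb', ← Finset.sum_sub_distrib, ← Finset.sum_sub_distrib, Finset.mul_sum]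
    exact Finset.sum_congr rfl fun η _ => hterm η
  have hoa := Helper2.second_orthogonality a (1 : ↥(Subgroup.normalizer (K : Set G)))
  have hob := Helper2.second_orthogonality b (1 : ↥(Subgroup.normalizer (K : Set G)))
  rw [if_neg (by rw [isConj_one_left]; exact ha1)] at hoa
  rw [if_neg (by rw [isConj_one_left]; exact hb1)] at hob
  rw [hoa, hob, sub_zero, mul_zero] at hsub
  exact sub_eq_zero.mp hsub

/-- Induced characters from nonprincipal irreducible characters of `K` are relevant. -/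
theorem ind_mem (hC : ∀ k ∈ K, k ≠ 1 → Subgroup.centralizer ({k} : Set G) ≤ K)
    {ϑ : ↥(K.subgroupOf (Subgroup.normalizer (K : Set G))) → ℂ}
    (hϑ : IsIrrCharacter ↥(K.subgroupOf (Subgroup.normalizer (K : Set G))) ϑ)
    (hne : ϑ ≠ fun _ => 1) :
    IsIrrCharacter ↥(Subgroup.normalizer (K : Set G)) (indFun (K.subgroupOf (Subgroup.normalizer (K : Set G))) ϑ) ∧
    ∃ k : ↥(Subgroup.normalizer (K : Set G)), (k : G) ∈ K ∧ indFun (K.subgroupOf (Subgroup.normalizer (K : Set G))) ϑ k ≠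
      indFun (K.subgroupOf (Subgroup.normalizer (K : Set G))) ϑ 1 := by
  classical
  haveI : Fintype ↥(K.subgroupOf (Subgroup.normalizer (K : Set G))) := Fintype.ofFinite _
  haveI : (K.subgroupOf (Subgroup.normalizer (K : Set G))).Normal :=
    Subgroup.normal_in_normalizer
  have hirr := Helper10.frob_ind_irr (K.subgroupOf (Subgroup.normalizer (K : Set G)))
    (frob_of_hC K hC) hϑ hne
  refine ⟨hirr, ?_⟩
  by_contra hcon
  push Not at hcon
  have h1 := Helper2.frobenius_reciprocity (K.subgroupOf (Subgroup.normalizer (K : Set G)))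
    ϑ _ (Helper2.IsIrrCharacter.isClassFunction hirr)
  rw [Helper2.classInner_irr hirr hirr, if_pos rfl] at h1
  have h2 : (fun h : ↥(K.subgroupOf (Subgroup.normalizer (K : Set G))) =>
      indFun (K.subgroupOf (Subgroup.normalizer (K : Set G))) ϑ (h : ↥(Subgroup.normalizer (K : Set G)))) =
      (indFun (K.subgroupOf (Subgroup.normalizer (K : Set G))) ϑ 1) • (fun _ => (1 : ℂ)) := by
    funext h
    rw [Pi.smul_apply, smul_eq_mul, mul_one]
    exact hcon (h : ↥(Subgroup.normalizer (K : Set G))) (Subgroup.mem_subgroupOf.mp h.2)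
  rw [h2, Helper2.classInner_smul_right,
    Helper2.classInner_irr hϑ (Helper2.isIrrCharacter_one_fun), if_neg hne, mul_zero] at h1
  exact one_ne_zero h1

variable (S : Set (↥(Subgroup.normalizer (K : Set G)) → ℂ)) (star : (↥(Subgroup.normalizer (K : Set G)) → ℂ) → (G → ℂ))
  (hstar : IsLinearIsometryOn (zspan S) star)

include hstar in
theorem diff_rel
    (hTI : ∀ g : G, g ∉ Subgroup.normalizer (K : Set G) → ∀ k ∈ K, g * k * g⁻¹ ∈ K → k = 1)
    (hC : ∀ k ∈ K, k ≠ 1 → Subgroup.centralizer ({k} : Set G) ≤ K)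
    (hext : ∀ α ∈ zspanOn S ({1}ᶜ : Set ↥(Subgroup.normalizer (K : Set G))), star α = indFun (Subgroup.normalizer (K : Set G)) α)
    {χ ξ : ↥(Subgroup.normalizer (K : Set G)) → ℂ} (hχS : χ ∈ S) (hξS : ξ ∈ S) (hχ : IsIrrCharacter ↥(Subgroup.normalizer (K : Set G)) χ)
    (hξ : IsIrrCharacter ↥(Subgroup.normalizer (K : Set G)) ξ) (hχk : ∃ k : ↥(Subgroup.normalizer (K : Set G)), (k : G) ∈ K ∧ χ k ≠ χ 1)
    (hξk : ∃ k : ↥(Subgroup.normalizer (K : Set G)), (k : G) ∈ K ∧ ξ k ≠ ξ 1) (k : ↥(Subgroup.normalizer (K : Set G))) (hk : (k : G) ∈ K) (hk1 : k ≠ 1) :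
    (charDegree ξ : ℂ) * (star χ k - χ k) = (charDegree χ : ℂ) * (star ξ k - ξ k) := by
  have hmem := alpha_mem S hχS hξS (Helper24.isCharacter_of_irr hχ)
    (Helper24.isCharacter_of_irr hξ)
  have h1 := congrFun (hext _ hmem) (k : G)
  have hcf : IsClassFunction ↥(Subgroup.normalizer (K : Set G)) (alpha χ ξ) := by
    intro g h
    rw [alpha_apply, alpha_apply, Helper2.IsIrrCharacter.isClassFunction hχ g h,
      Helper2.IsIrrCharacter.isClassFunction hξ g h]
  have hvan : ∀ n : ↥(Subgroup.normalizer (K : Set G)), (n : G) ∉ K → alpha χ ξ n = 0 := by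
    intro n hn
    rw [alpha_apply, vanish_off K hC hχ hχk n hn, vanish_off K hC hξ hξk n hn]
    ring
  rw [Helper10.ti_ind_apply _ K (ti_of_hTI K hTI) (alpha χ ξ) hcf hvan k hk hk1,
    star_alpha K S star hstar hχS hξS, alpha_apply] at h1
  simp only [Pi.add_apply, Pi.smul_apply] at h1
  simp only [zsmul_eq_mul] at h1
  push_cast at h1
  linear_combination h1

include hstar in
theorem diff_const
    (hS : S = {χ : ↥(Subgroup.normalizer (K : Set G)) → ℂ | IsIrrCharacter ↥(Subgroup.normalizer (K : Set G)) χ ∧ ∃ k : ↥(Subgroup.normalizer (K : Set G)), (k : G) ∈ K ∧ χ k ≠ χ 1})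
    (hext : ∀ α ∈ zspanOn S ({1}ᶜ : Set ↥(Subgroup.normalizer (K : Set G))), star α = indFun (Subgroup.normalizer (K : Set G)) α)
    {χ₀ : ↥(Subgroup.normalizer (K : Set G)) → ℂ} (hχ₀ : χ₀ ∈ S)
    (a b : ↥(Subgroup.normalizer (K : Set G))) (ha : (a : G) ∈ K) (hb : (b : G) ∈ K) (ha1 : a ≠ 1) (hb1 : b ≠ 1) :
    star χ₀ a - χ₀ a = star χ₀ b - χ₀ b := by
  classical
  have hSirr : ∀ χ ∈ S, IsIrrCharacter ↥(Subgroup.normalizer (K : Set G)) χ := by
    intro χ h
    rw [hS] at h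
    exact h.1
  have hSchar : ∀ χ ∈ S, IsCharacter ↥(Subgroup.normalizer (K : Set G)) χ := fun χ h => Helper24.isCharacter_of_irr (hSirr χ h)
  have hmem₀ := Helper10.mem_zspan_of_mem hχ₀
  have hgen := hstar.2.2.2 χ₀ hmem₀
  have hcfG := Helper10.IsGeneralizedCharacter.isClassFunction hgen
  obtain ⟨r, hr⟩ : ∃ r : ↥(Subgroup.normalizer (K : Set G)) → ℂ, r = fun n : ↥(Subgroup.normalizer (K : Set G)) => star χ₀ (n : G) := ⟨_, rfl⟩
  have hrcf : IsClassFunction ↥(Subgroup.normalizer (K : Set G)) r := by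
    intro g h
    rw [hr]
    exact hcfG (g : G) (h : G)
  have hΦ : IsClassFunction ↥(Subgroup.normalizer (K : Set G)) (r - χ₀) :=
    Helper2.IsClassFunction.sub hrcf (Helper2.IsIrrCharacter.isClassFunction (hSirr χ₀ hχ₀))
  have hrel : ∀ η ∈ S, (charDegree χ₀ : ℂ) * classInner (r - χ₀) η =
      (charDegree η : ℂ) * classInner (r - χ₀) χ₀ := by
    intro η hη
    have hβ := alpha_mem S hη hχ₀ (hSchar η hη) (hSchar χ₀ hχ₀)
    have hβz : alpha η χ₀ ∈ zspan S := hβ.1
    have h1 := hstar.2.2.1 _ hβz χ₀ hmem₀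
    rw [hext _ hβ, Helper2.frobenius_reciprocity _ _ _ hcfG] at h1
    have h1' : classInner (alpha η χ₀) r = classInner (alpha η χ₀) χ₀ := by
      rw [hr]
      exact h1
    have hexpand : ∀ f : ↥(Subgroup.normalizer (K : Set G)) → ℂ, classInner (alpha η χ₀) f =
        (charDegree χ₀ : ℂ) * classInner η f - (charDegree η : ℂ) * classInner χ₀ f := by
      intro f
      unfold alpha
      rw [Helper2.classInner_add_left, Helper10.classInner_zsmul_left,
        Helper10.classInner_zsmul_left]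
      push_cast
      ring
    rw [hexpand, hexpand] at h1'
    have h2 := congrArg (starRingEnd ℂ) h1'
    simp only [map_sub, map_mul, Helper2.classInner_conj_symm, Complex.conj_natCast] at h2
    rw [Helper2.classInner_sub_left, Helper2.classInner_sub_left]
    linear_combination h2
  have := const_of_rel K S hS (r - χ₀) hΦ hχ₀ hrel a b ha hb ha1 hb1
  rw [hr] at this
  exact this

/-- A generalized character that is constant off the identity of a nontrivial group takes an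
integer value there. -/
theorem int_of_const_gen {H : Type*} [Group H] [Fintype H] {θ : H → ℂ}
    (hθ : IsGeneralizedCharacter H θ) (v : ℂ) (hv : ∀ h : H, h ≠ 1 → θ h = v)
    (h₀ : H) (h₀1 : h₀ ≠ 1) : ∃ z : ℤ, v = z := by
  classical
  obtain ⟨n, hn⟩ := Helper10.classInner_gen_irr hθ (Helper2.isIrrCharacter_one_fun (G := H))
  obtain ⟨A, B, hA, hB, rfl⟩ := hθ
  have hint : IsIntegral ℤ v := by
    rw [← hv h₀ h₀1]
    exact (Helper2.IsCharacter.isIntegral hA h₀).sub (Helper2.IsCharacter.isIntegral hB h₀)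
  unfold classInner at hn
  have hsum : ∑ g : H, (A - B) g * (starRingEnd ℂ) ((fun _ => (1 : ℂ)) g) =
      (A - B) 1 + ((Fintype.card H : ℂ) - 1) * v := by
    rw [← Finset.add_sum_erase Finset.univ _ (Finset.mem_univ (1 : H))]
    have h1 : ∀ x ∈ (Finset.univ : Finset H).erase 1,
        (A - B) x * (starRingEnd ℂ) ((fun _ => (1 : ℂ)) x) = v := by
      intro x hx
      rw [hv x (Finset.ne_of_mem_erase hx)]
      simp
    rw [Finset.sum_congr rfl h1, Finset.sum_const, Finset.card_erase_of_mem (Finset.mem_univ _),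
      Finset.card_univ, nsmul_eq_mul, Nat.cast_sub Fintype.card_pos]
    simp
  rw [hsum, Nat.card_eq_fintype_card] at hn
  have hcard : 1 < Fintype.card H := Fintype.one_lt_card_iff_nontrivial.mpr ⟨⟨h₀, 1, h₀1⟩⟩
  have hc0 : (Fintype.card H : ℂ) ≠ 0 := by exact_mod_cast Fintype.card_pos.ne'
  have hc1 : (Fintype.card H : ℂ) - 1 ≠ 0 := by
    have : (Fintype.card H : ℂ) ≠ 1 := by exact_mod_cast hcard.ne'
    exact sub_ne_zero.mpr this
  have h1 : (A - B) 1 = (charDegree A : ℂ) - (charDegree B : ℂ) := by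
    rw [Pi.sub_apply, Helper24.charDegree_spec hA, Helper24.charDegree_spec hB]
  rw [h1] at hn
  have hv' : v = (((n * (Fintype.card H : ℤ) - (charDegree A : ℤ) + (charDegree B : ℤ) : ℤ) : ℚ) /
      ((Fintype.card H : ℚ) - 1) : ℚ) := by
    push_cast
    field_simp at hn ⊢
    linear_combination hn
  rw [hv'] at hint
  obtain ⟨z, hz⟩ := Helper2.int_of_isIntegral_rat hint
  refine ⟨z, ?_⟩
  rw [hv', hz]
  norm_cast


include hstar in
/-- The difference `star χ - χ` on `K ∖ {1}` is an integer multiple of `χ 1 / e`. -/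
theorem exc_diff
    (hTI : ∀ g : G, g ∉ Subgroup.normalizer (K : Set G) → ∀ k ∈ K, g * k * g⁻¹ ∈ K → k = 1)
    (hC : ∀ k ∈ K, k ≠ 1 → Subgroup.centralizer ({k} : Set G) ≤ K)
    (hS : S = {χ : ↥(Subgroup.normalizer (K : Set G)) → ℂ | IsIrrCharacter ↥(Subgroup.normalizer (K : Set G)) χ ∧ ∃ k : ↥(Subgroup.normalizer (K : Set G)), (k : G) ∈ K ∧ χ k ≠ χ 1})
    (htwo : ∃ χ ∈ S, ∃ ξ ∈ S, χ ≠ ξ)
    (hext : ∀ α ∈ zspanOn S ({1}ᶜ : Set ↥(Subgroup.normalizer (K : Set G))), star α = indFun (Subgroup.normalizer (K : Set G)) α) :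
    ∃ m : ℤ, ∀ χ ∈ S, ∀ k : ↥(Subgroup.normalizer (K : Set G)), (k : G) ∈ K → k ≠ 1 →
      star χ k - χ k = (m : ℂ) * χ 1 / ((K.subgroupOf (Subgroup.normalizer (K : Set G))).index : ℂ) := by
  classical
  have hSirr : ∀ χ ∈ S, IsIrrCharacter ↥(Subgroup.normalizer (K : Set G)) χ := by
    intro χ h
    rw [hS] at h
    exact h.1
  have hSk : ∀ χ ∈ S, ∃ k : ↥(Subgroup.normalizer (K : Set G)), (k : G) ∈ K ∧ χ k ≠ χ 1 := by
    intro χ h
    rw [hS] at h
    exact h.2
  have hSchar : ∀ χ ∈ S, IsCharacter ↥(Subgroup.normalizer (K : Set G)) χ := fun χ h => Helper24.isCharacter_of_irr (hSirr χ h)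
  haveI : Fintype ↥(K.subgroupOf (Subgroup.normalizer (K : Set G))) := Fintype.ofFinite _
  haveI := Helper24.finite_irrCharacter (G := ↥(K.subgroupOf (Subgroup.normalizer (K : Set G))))
  haveI := Fintype.ofFinite (IrrCharacter ↥(K.subgroupOf (Subgroup.normalizer (K : Set G))))
  obtain ⟨χ₀, hχ₀, -⟩ := htwo
  obtain ⟨k₀, hk₀, hχk₀⟩ := hSk χ₀ hχ₀
  have hk₀1 : k₀ ≠ 1 := by
    rintro rfl
    exact hχk₀ rfl
  obtain ⟨ϑ₀, hϑ₀, hϑ₀1, hχ₀ind⟩ := exists_ind_of_mem K hC (hSirr χ₀ hχ₀) k₀ hk₀ hχk₀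
  have he : ((K.subgroupOf (Subgroup.normalizer (K : Set G))).index : ℂ) ≠ 0 := by
    exact_mod_cast Subgroup.index_ne_zero_of_finite
  have hdϑ₀ : (charDegree ϑ₀ : ℂ) ≠ 0 := by
    exact_mod_cast (Helper24.irr_degree_pos hϑ₀).ne'
  have hd₀ : (charDegree χ₀ : ℂ) = ((K.subgroupOf (Subgroup.normalizer (K : Set G))).index : ℂ) * (charDegree ϑ₀ : ℂ) := by
    rw [hχ₀ind, Helper10.charDegree_indFun (K.subgroupOf (Subgroup.normalizer (K : Set G))) (Helper24.isCharacter_of_irr hϑ₀)]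
    push_cast
    rfl
  have hd₀0 : (charDegree χ₀ : ℂ) ≠ 0 := by
    rw [hd₀]
    exact mul_ne_zero he hdϑ₀
  obtain ⟨v₀, hv₀⟩ : ∃ v₀ : ℂ, v₀ = star χ₀ k₀ - χ₀ k₀ := ⟨_, rfl⟩
  have key : ∀ χ ∈ S, ∀ k : ↥(Subgroup.normalizer (K : Set G)), (k : G) ∈ K → k ≠ 1 →
      (charDegree χ₀ : ℂ) * (star χ k - χ k) = (charDegree χ : ℂ) * v₀ := by
    intro χ hχ k hk hk1
    rw [diff_rel K S star hstar hTI hC hext hχ hχ₀ (hSirr χ hχ) (hSirr χ₀ hχ₀) (hSk χ hχ)
      (hSk χ₀ hχ₀) k hk hk1, hv₀,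
      diff_const K S star hstar hS hext hχ₀ k k₀ hk hk₀ hk1 hk₀1]
  have hint : ∀ χ ∈ S, ∃ z : ℤ, (charDegree χ : ℂ) * v₀ / (charDegree χ₀ : ℂ) = z := by
    intro χ hχ
    obtain ⟨A, B, hA, hB, hAB⟩ := hstar.2.2.2 χ (Helper10.mem_zspan_of_mem hχ)
    have hθ : IsGeneralizedCharacter ↥(K.subgroupOf (Subgroup.normalizer (K : Set G)))
        (fun h : ↥(K.subgroupOf (Subgroup.normalizer (K : Set G))) => star χ ((h : ↥(Subgroup.normalizer (K : Set G))) : G) - χ (h : ↥(Subgroup.normalizer (K : Set G)))) := by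
      refine ⟨fun h : ↥(K.subgroupOf (Subgroup.normalizer (K : Set G))) => A ((h : ↥(Subgroup.normalizer (K : Set G))) : G),
        (fun h : ↥(K.subgroupOf (Subgroup.normalizer (K : Set G))) => B ((h : ↥(Subgroup.normalizer (K : Set G))) : G)) + (fun h : ↥(K.subgroupOf (Subgroup.normalizer (K : Set G))) => χ (h : ↥(Subgroup.normalizer (K : Set G)))), ?_, ?_, ?_⟩
      · exact Helper24.isCharacter_restrict (K.subgroupOf (Subgroup.normalizer (K : Set G)))
          (Helper24.isCharacter_restrict (Subgroup.normalizer (K : Set G)) hA)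
      · exact Helper2.IsCharacter.add
          (Helper24.isCharacter_restrict (K.subgroupOf (Subgroup.normalizer (K : Set G)))
            (Helper24.isCharacter_restrict (Subgroup.normalizer (K : Set G)) hB))
          (Helper24.isCharacter_restrict (K.subgroupOf (Subgroup.normalizer (K : Set G))) (hSchar χ hχ))
      · funext h
        rw [hAB]
        simp only [Pi.sub_apply, Pi.add_apply]
        ring
    obtain ⟨z, hz⟩ := int_of_const_gen hθ ((charDegree χ : ℂ) * v₀ / (charDegree χ₀ : ℂ))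
      (fun h hh1 => by
        have hk := key χ hχ (h : ↥(Subgroup.normalizer (K : Set G))) (Subgroup.mem_subgroupOf.mp h.2)
          (fun h' => hh1 (Subtype.ext h'))
        show star χ ((h : ↥(Subgroup.normalizer (K : Set G))) : G) - χ (h : ↥(Subgroup.normalizer (K : Set G))) = _
        field_simp
        linear_combination hk)
      ⟨k₀, Subgroup.mem_subgroupOf.mpr hk₀⟩ (fun h' => hk₀1 (congrArg Subtype.val h'))
    exact ⟨z, hz⟩
  obtain ⟨x, hx⟩ : ∃ x : ℂ, x = v₀ / (charDegree ϑ₀ : ℂ) := ⟨_, rfl⟩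
  have hxϑ : ∀ ϑ : IrrCharacter ↥(K.subgroupOf (Subgroup.normalizer (K : Set G))), ∃ z : ℤ, (ϑ : ↥(K.subgroupOf (Subgroup.normalizer (K : Set G))) → ℂ) ≠ (fun _ => 1) →
      (z : ℂ) = x * (charDegree (ϑ : ↥(K.subgroupOf (Subgroup.normalizer (K : Set G))) → ℂ) : ℂ) := by
    intro ϑ
    by_cases h1 : (ϑ : ↥(K.subgroupOf (Subgroup.normalizer (K : Set G))) → ℂ) = fun _ => 1
    · exact ⟨0, fun h => absurd h1 h⟩
    · have hm := ind_mem K hC ϑ.2 h1
      have hmS : indFun (K.subgroupOf (Subgroup.normalizer (K : Set G))) (ϑ : ↥(K.subgroupOf (Subgroup.normalizer (K : Set G))) → ℂ) ∈ S := by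
        rw [hS]
        exact hm
      obtain ⟨z, hz⟩ := hint _ hmS
      refine ⟨z, fun _ => ?_⟩
      rw [← hz, Helper10.charDegree_indFun (K.subgroupOf (Subgroup.normalizer (K : Set G))) (Helper24.isCharacter_of_irr ϑ.2), hd₀, hx]
      push_cast
      field_simp
  choose z hz using hxϑ
  obtain ⟨z₀, hz₀⟩ := hint χ₀ hχ₀
  have hv₀z : v₀ = z₀ := by
    rw [← hz₀]
    field_simp
  obtain ⟨q, hq⟩ := Helper2.irr_degree_dvd_card hϑ₀
  have hq' : (Nat.card ↥(K.subgroupOf (Subgroup.normalizer (K : Set G))) : ℂ) = (charDegree ϑ₀ : ℂ) * (q : ℂ) := by exact_mod_cast hq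
  obtain ⟨one, hone⟩ : ∃ o : IrrCharacter ↥(K.subgroupOf (Subgroup.normalizer (K : Set G))), (o : ↥(K.subgroupOf (Subgroup.normalizer (K : Set G))) → ℂ) = fun _ => 1 :=
    ⟨⟨_, Helper2.isIrrCharacter_one_fun⟩, rfl⟩
  have hsum := Helper2.sum_degree_sq (G := ↥(K.subgroupOf (Subgroup.normalizer (K : Set G))))
  have hsplit : ∀ ϑ : IrrCharacter ↥(K.subgroupOf (Subgroup.normalizer (K : Set G))),
      x * ((ϑ : ↥(K.subgroupOf (Subgroup.normalizer (K : Set G))) → ℂ) 1 * (ϑ : ↥(K.subgroupOf (Subgroup.normalizer (K : Set G))) → ℂ) 1) = (if ϑ = one then x else 0) +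
        (((if ϑ = one then 0 else z ϑ * (charDegree (ϑ : ↥(K.subgroupOf (Subgroup.normalizer (K : Set G))) → ℂ) : ℤ)) : ℤ) : ℂ) := by
    intro ϑ
    by_cases h : ϑ = one
    · rw [if_pos h, if_pos h, h, hone]
      simp
    · rw [if_neg h, if_neg h]
      have h2 := hz ϑ (fun h' => h (Subtype.ext (h'.trans hone.symm)))
      rw [Helper24.charDegree_spec (Helper24.isCharacter_of_irr ϑ.2)]
      push_cast
      rw [h2]
      ring
  have hxeq : x * (Nat.card ↥(K.subgroupOf (Subgroup.normalizer (K : Set G))) : ℂ) = x +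
      ((∑ ϑ : IrrCharacter ↥(K.subgroupOf (Subgroup.normalizer (K : Set G))),
        (if ϑ = one then 0 else z ϑ * (charDegree (ϑ : ↥(K.subgroupOf (Subgroup.normalizer (K : Set G))) → ℂ) : ℤ)) : ℤ) : ℂ) := by
    rw [← hsum, Finset.mul_sum, Finset.sum_congr rfl (fun ϑ _ => hsplit ϑ),
      Finset.sum_add_distrib, Finset.sum_ite_eq' Finset.univ one (fun _ => x),
      if_pos (Finset.mem_univ _)]
    push_cast
    rfl
  refine ⟨z₀ * (q : ℤ) - ∑ ϑ : IrrCharacter ↥(K.subgroupOf (Subgroup.normalizer (K : Set G))),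
      (if ϑ = one then 0 else z ϑ * (charDegree (ϑ : ↥(K.subgroupOf (Subgroup.normalizer (K : Set G))) → ℂ) : ℤ)), ?_⟩
  intro χ hχ k hk hk1
  have hk' := key χ hχ k hk hk1
  have hxm : x = ((z₀ * (q : ℤ) - ∑ ϑ : IrrCharacter ↥(K.subgroupOf (Subgroup.normalizer (K : Set G))),
      (if ϑ = one then 0 else z ϑ * (charDegree (ϑ : ↥(K.subgroupOf (Subgroup.normalizer (K : Set G))) → ℂ) : ℤ)) : ℤ) : ℂ) := by
    have h3 : x * (Nat.card ↥(K.subgroupOf (Subgroup.normalizer (K : Set G))) : ℂ) = (z₀ : ℂ) * (q : ℂ) := by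
      rw [hq', hx, hv₀z]
      field_simp
    rw [Int.cast_sub]
    rw [h3] at hxeq
    push_cast at hxeq ⊢
    linear_combination -hxeq
  rw [← hxm, hx, Helper24.charDegree_spec (hSchar χ hχ)]
  rw [hd₀] at hk'
  field_simp
  linear_combination hk'

end Diff

end Cfsg.Agent.Helper6.Exc
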