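import Cfsg.Agent.Helper6.GoingDown
import Cfsg.Agent.Helper6.InvariantDegree
import Cfsg.Agent.Helper2.CharCount
import Cfsg.Agent.Helper2.CharReg
import Cfsg.Agent.S0854
import Cfsg.Agent.Helper24.LinearChar
import Cfsg.Agent.Helper2.CharOrtho

set_option autoImplicit false

namespace Cfsg.Agent.Helper6

open Cfsg
open scoped ComplexConjugate

section PPowerDeg

universe u

/-- Ito's theorem: the degree of an irreducible character divides the index of an abelian
normal subgroup. -/
theorem ito_dvd {G : Type*} [Group G] [Fintype G] (A : Subgroup G) [hA : A.Normal]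
    (hab : ∀ a ∈ A, ∀ b ∈ A, a * b = b * a) {χ : G → ℂ} (hχ : IsIrrCharacter G χ) :
    charDegree χ ∣ A.index := by
  classical
  haveI : Fintype A := Fintype.ofFinite _
  have hχc := Helper24.isCharacter_of_irr hχ
  have hresc : IsCharacter A (fun a : A => χ a) := Helper24.isCharacter_restrict A hχc
  have hres0 : (fun a : A => χ a) ≠ 0 := by
    intro h
    have h1 := congrFun h 1
    exact Helper24.irr_one_ne_zero hχ h1
  obtain ⟨lam, hlam, hcon⟩ := Helper2.exists_irr_constituent
    (Helper2.IsCharacter.isClassFunction hresc) hres0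
  have hlam1 : lam 1 = 1 :=
    Helper2.irr_abelian_linear (fun a b => Subtype.ext (hab a a.2 b b.2)) hlam
  have hAT : A ≤ inertia A lam := le_inertia A (Helper2.IsIrrCharacter.isClassFunction hlam)
  haveI : Fintype (inertia A lam) := Fintype.ofFinite _
  obtain ⟨ψ, hψ, hψind, hψinner⟩ := Cfsg.Agent.S0854.result A lam hlam (inertia A lam)
    (mem_inertia A lam) hAT χ hχ hcon
  haveI hA' : (A.subgroupOf (inertia A lam)).Normal := Subgroup.normal_subgroupOf
  haveI : Fintype (A.subgroupOf (inertia A lam)) := Fintype.ofFinite _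
  let e : A.subgroupOf (inertia A lam) ≃* A := Subgroup.subgroupOfEquivOfLe hAT
  have hlam' : IsIrrCharacter (A.subgroupOf (inertia A lam)) (lam ∘ e) :=
    isIrrCharacter_comp_mulEquiv e hlam
  have hinv' : ∀ (t : inertia A lam) (n : A.subgroupOf (inertia A lam)),
      (lam ∘ e) ⟨t * n * t⁻¹, hA'.conj_mem (n : inertia A lam) n.2 t⟩ = (lam ∘ e) n := by
    intro t n
    have h1 := (mem_inertia A lam (t : G)).mp t.2 (e n)
    rw [Function.comp_apply, Function.comp_apply, ← h1]
    congr 1
  have hcon' : classInner (fun n : A.subgroupOf (inertia A lam) => ψ n) (lam ∘ e) ≠ 0 := by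
    have h1 : (fun n : A.subgroupOf (inertia A lam) => ψ n) =
        (fun n : A => ψ ⟨(n : G), hAT n.2⟩) ∘ e := by
      funext n
      rfl
    rw [h1, classInner_comp_mulEquiv, hψinner]
    exact hcon
  obtain ⟨b, hb, hbdvd⟩ := degree_ratio_dvd_index_of_invariant
    (A.subgroupOf (inertia A lam)) hlam' hinv' hψ hcon'
  have hdeg1 : charDegree (lam ∘ e) = 1 := by
    have h1 := Helper24.charDegree_spec (Helper24.isCharacter_of_irr hlam')
    rw [Function.comp_apply, map_one, hlam1] at h1
    exact_mod_cast h1.symm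
  rw [hdeg1, mul_one] at hb
  have hdegχ : charDegree χ = (inertia A lam).index * charDegree ψ := by
    have h1 := Helper24.charDegree_spec hχc
    have h2 := Helper24.charDegree_spec (Helper24.isCharacter_of_irr hψ)
    have h3 := Helper2.indFun_apply_one (inertia A lam) ψ
    rw [hψind, h1, h2] at h3
    exact_mod_cast h3
  rw [hdegχ, hb]
  have h4 := Subgroup.relIndex_mul_index hAT
  rw [← h4, mul_comm]
  exact Nat.mul_dvd_mul_right hbdvd _

/-- A finite group all of whose irreducible characters are linear is abelian. -/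
theorem comm_of_all_linear {G : Type*} [Group G] [Finite G]
    (h : ∀ χ : IrrCharacter G, (χ : G → ℂ) 1 = 1) : ∀ a b : G, a * b = b * a := by
  classical
  have := Fintype.ofFinite G
  have := Helper24.finite_irrCharacter (G := G)
  have := Fintype.ofFinite (IrrCharacter G)
  have h1 := Helper2.sum_degree_sq (G := G)
  rw [Finset.sum_congr rfl (fun χ _ => by rw [h χ, mul_one])] at h1
  rw [Finset.sum_const, Finset.card_univ, nsmul_eq_mul, mul_one] at h1
  have h2 : Fintype.card (IrrCharacter G) = Nat.card G := by exact_mod_cast h1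
  have h3 := Helper2.card_irrCharacter (G := G)
  have h4 : Nat.card G ≤ Nat.card (ConjClasses G) := by
    have h5 : Nat.card (IrrCharacter G) = Nat.card G := by
      rw [Nat.card_eq_fintype_card]
      exact h2
    rw [← h3, h5]
  have hbij := (ConjClasses.mk_surjective (α := G)).bijective_of_nat_card_le h4
  intro a b
  apply hbij.1
  rw [ConjClasses.mk_eq_mk_iff_isConj, isConj_iff]
  exact ⟨a⁻¹, by group⟩

/-- The linear irreducible characters correspond to the homomorphisms to `ℂˣ`. -/
theorem card_linear_eq_card_hom {G : Type*} [Group G] [Finite G] :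
    Nat.card {χ : IrrCharacter G // (χ : G → ℂ) 1 = 1} = Nat.card (G →* ℂˣ) := by
  apply Nat.card_congr
  refine (Equiv.ofBijective (fun μ : G →* ℂˣ =>
    (⟨⟨fun g => ((μ g : ℂˣ) : ℂ), Helper2.isIrrCharacter_of_hom μ⟩, by simp⟩ :
      {χ : IrrCharacter G // (χ : G → ℂ) 1 = 1})) ⟨?_, ?_⟩).symm
  · intro μ ν h
    ext g
    have h1 := congrFun (congrArg
      (fun χ : {χ : IrrCharacter G // (χ : G → ℂ) 1 = 1} => ((χ : IrrCharacter G) : G → ℂ)) h) g
    exact h1
  · rintro ⟨⟨χ, hχ⟩, h1⟩
    have hχc := Helper24.isCharacter_of_irr hχ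
    have hmul : ∀ a b, χ (a * b) = χ a * χ b := Helper24.linear_char_mul hχc h1
    let f : G →* ℂ := { toFun := χ, map_one' := h1, map_mul' := hmul }
    refine ⟨f.toHomUnits, ?_⟩
    apply Subtype.ext
    apply Subtype.ext
    funext g
    exact MonoidHom.coe_toHomUnits f g

/-- A linear character of prime order has kernel of index `p`. -/
theorem exists_normal_index_prime {G : Type*} [Group G] [Finite G] (p : ℕ) [hp : Fact p.Prime]
    (h : p ∣ Nat.card (G →* ℂˣ)) : ∃ N : Subgroup G, N.Normal ∧ N.index = p := by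
  haveI := Helper10.finite_hom_units (Q := G)
  obtain ⟨μ, hμ⟩ := exists_prime_orderOf_dvd_card' p h
  refine ⟨μ.ker, inferInstance, ?_⟩
  rw [Subgroup.index_ker]
  have hexp : Monoid.exponent μ.range ∣ p := by
    apply Monoid.exponent_dvd_of_forall_pow_eq_one
    rintro ⟨_, g, rfl⟩
    apply Subtype.ext
    have h1 : (μ ^ p) g = 1 := by
      rw [← hμ, pow_orderOf_eq_one]
      rfl
    simpa using h1
  haveI : Finite μ.range := Finite.of_surjective μ.rangeRestrict μ.rangeRestrict_surjective
  rw [IsCyclic.exponent_eq_card] at hexp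
  rcases (Nat.dvd_prime hp.out).mp hexp with h1 | h1
  · exfalso
    have hμ1 : μ = 1 := by
      ext g
      have hsub : Subsingleton μ.range := (Nat.card_eq_one_iff_unique.mp h1).1
      have h2 := Subsingleton.elim (⟨μ g, g, rfl⟩ : μ.range) 1
      have h3 := congrArg (fun x : μ.range => ((x : ℂˣ) : ℂ)) h2
      simpa using h3
    rw [hμ1, orderOf_one] at hμ
    exact hp.out.one_lt.ne hμ
  · exact h1

/-- Every irreducible character of a normal subgroup has degree dividing that of an irreducible
character of the group lying over it. -/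
theorem exists_irr_over {G : Type*} [Group G] [Fintype G] (N : Subgroup G) [hN : N.Normal]
    [Fintype N] {ϑ : N → ℂ} (hϑ : IsIrrCharacter N ϑ) :
    ∃ χ : G → ℂ, IsIrrCharacter G χ ∧ charDegree ϑ ∣ charDegree χ := by
  classical
  have hϑc := Helper24.isCharacter_of_irr hϑ
  have hindc := Helper2.isCharacter_indFun N hϑc (G := G)
  have hind0 : indFun N ϑ ≠ 0 := by
    intro h
    have h1 := Helper2.indFun_apply_one N ϑ
    rw [h] at h1
    have h2 : (N.index : ℂ) ≠ 0 := by
      have := Subgroup.index_ne_zero_of_finite (H := N)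
      exact_mod_cast this
    rcases mul_eq_zero.mp h1.symm with h3 | h3
    · exact h2 h3
    · exact Helper24.irr_one_ne_zero hϑ h3
  obtain ⟨χ, hχ, hcon⟩ := Helper2.exists_irr_constituent
    (Helper2.IsCharacter.isClassFunction hindc) hind0
  have hcon' : classInner (fun n : N => χ n) ϑ ≠ 0 := by
    rw [← classInner_indFun_eq N hϑc (Helper24.isCharacter_of_irr hχ)]
    exact hcon
  obtain ⟨e, F, he0, hFconj, hφF, hcard, hres, hmemF, hnorm⟩ := clifford_finset N hχ hϑ hcon'
  refine ⟨χ, hχ, ?_⟩
  have h1 := congrFun hres 1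
  simp only [Pi.smul_apply, Finset.sum_apply, smul_eq_mul] at h1
  have h2 : ∀ ψ ∈ F, ψ 1 = ϑ 1 := by
    intro ψ hψ
    obtain ⟨g, rfl⟩ := hFconj ψ hψ
    exact conjFun_one_apply N g ϑ
  rw [Finset.sum_congr rfl h2, Finset.sum_const, nsmul_eq_mul, Subgroup.coe_one,
    Helper24.charDegree_spec (Helper24.isCharacter_of_irr hχ), Helper24.charDegree_spec hϑc] at h1
  have h3 : charDegree χ = e * (F.card * charDegree ϑ) := by exact_mod_cast h1
  rw [h3]
  exact Dvd.intro_left (e * F.card) (by ring)

/-- A normal subgroup of a normal subgroup with coprime order and index is normal in the whole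
group. -/
theorem map_normal_of_coprime {G : Type*} [Group G] [Finite G] (N : Subgroup G) [hN : N.Normal]
    (A : Subgroup N) [hA : A.Normal] (hcop : Nat.Coprime (Nat.card A) A.index) :
    (A.map N.subtype).Normal := by
  have key : ∀ x : N, x ^ Nat.card A = 1 → x ∈ A := by
    intro x hx
    rw [← QuotientGroup.eq_one_iff]
    have h1 : (x : N ⧸ A) ^ Nat.card A = 1 := by
      rw [← QuotientGroup.mk_pow, hx]
      rfl
    have h2 : (x : N ⧸ A) ^ A.index = 1 := by
      have h3 := pow_card_eq_one' (G := N ⧸ A) (x := (x : N ⧸ A))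
      rwa [← Subgroup.index_eq_card] at h3
    have h3 := pow_gcd_eq_one.mpr ⟨h1, h2⟩
    rwa [Nat.Coprime.gcd_eq_one hcop, pow_one] at h3
  refine ⟨fun x hx g => ?_⟩
  obtain ⟨a, ha, rfl⟩ := Subgroup.mem_map.mp hx
  refine Subgroup.mem_map.mpr ⟨⟨g * a * g⁻¹, hN.conj_mem a a.2 g⟩, key _ ?_, rfl⟩
  apply Subtype.ext
  have h1 : a ^ Nat.card A = 1 := by
    have h2 := pow_card_eq_one' (G := A) (x := ⟨a, ha⟩)
    exact congrArg Subtype.val h2
  show (g * (a : G) * g⁻¹) ^ Nat.card A = 1
  rw [conj_pow]
  have h3 : (a : G) ^ Nat.card A = 1 := by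
    have h4 := congrArg Subtype.val h1
    exact h4
  rw [h3, mul_one, mul_inv_cancel]

/-- All irreducible degrees powers of `p` forces an abelian normal `p`-complement. -/
theorem ppower_aux (p : ℕ) [hp : Fact p.Prime] : ∀ (n : ℕ) (G : Type u) [Group G] [Finite G],
    Nat.card G = n → (∀ χ : IrrCharacter G, ∃ k : ℕ, (χ : G → ℂ) 1 = (p : ℂ) ^ k) →
    ∃ A : Subgroup G, A.Normal ∧ (∀ a ∈ A, ∀ b ∈ A, a * b = b * a) ∧
      Nat.Coprime (Nat.card A) p ∧ ∃ k : ℕ, A.index = p ^ k := by
  intro n
  induction n using Nat.strong_induction_on with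
  | _ n ih =>
  intro G _ _ hcard hdeg
  classical
  have := Fintype.ofFinite G
  have := Helper24.finite_irrCharacter (G := G)
  have := Fintype.ofFinite (IrrCharacter G)
  by_cases hpG : p ∣ Nat.card G
  · choose k hk using hdeg
    have hsum : ∑ χ : IrrCharacter G, p ^ k χ * p ^ k χ = Nat.card G := by
      have h1 := Helper2.sum_degree_sq (G := G)
      rw [Finset.sum_congr rfl (fun χ _ => by rw [hk χ])] at h1
      exact_mod_cast h1
    have hlin : p ∣ Nat.card {χ : IrrCharacter G // (χ : G → ℂ) 1 = 1} := by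
      have h2 : Nat.card {χ : IrrCharacter G // (χ : G → ℂ) 1 = 1} =
          (Finset.univ.filter (fun χ : IrrCharacter G => k χ = 0)).card := by
        rw [Nat.card_eq_fintype_card, Fintype.card_subtype]
        congr 1
        ext χ
        simp only [Finset.mem_filter, Finset.mem_univ, true_and]
        rw [hk χ]
        constructor
        · intro h
          by_contra h0
          have h3 : (p ^ k χ : ℕ) = 1 := by exact_mod_cast h
          rcases Nat.pow_eq_one.mp h3 with h4 | h4
          · exact hp.out.one_lt.ne' h4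
          · exact h0 h4
        · intro h
          rw [h, pow_zero]
      rw [h2]
      have h3 : ∑ χ : IrrCharacter G, p ^ k χ * p ^ k χ =
          (Finset.univ.filter (fun χ : IrrCharacter G => k χ = 0)).card +
          ∑ χ ∈ Finset.univ.filter (fun χ : IrrCharacter G => ¬ k χ = 0), p ^ k χ * p ^ k χ := by
        rw [← Finset.sum_filter_add_sum_filter_not Finset.univ (fun χ => k χ = 0)]
        congr 1
        rw [Finset.card_eq_sum_ones]
        apply Finset.sum_congr rfl
        intro χ hχ
        rw [(Finset.mem_filter.mp hχ).2]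
        simp
      have h4 : p ∣ ∑ χ ∈ Finset.univ.filter (fun χ : IrrCharacter G => ¬ k χ = 0),
          p ^ k χ * p ^ k χ := by
        apply Finset.dvd_sum
        intro χ hχ
        exact Dvd.dvd.mul_right (dvd_pow_self p (Finset.mem_filter.mp hχ).2) _
      rw [hsum] at h3
      rw [h3] at hpG
      exact (Nat.dvd_add_left h4).mp hpG
    rw [card_linear_eq_card_hom] at hlin
    obtain ⟨N, hNn, hNidx⟩ := exists_normal_index_prime p hlin
    haveI := hNn
    haveI : Fintype N := Fintype.ofFinite _
    have hdegN : ∀ ϑ : IrrCharacter N, ∃ j : ℕ, (ϑ : N → ℂ) 1 = (p : ℂ) ^ j := by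
      rintro ⟨ϑ, hϑ⟩
      obtain ⟨χ, hχ, hdvd⟩ := exists_irr_over N hϑ
      have h1 : χ 1 = (p : ℂ) ^ k ⟨χ, hχ⟩ := hk ⟨χ, hχ⟩
      have h2 : charDegree χ = p ^ k ⟨χ, hχ⟩ := by
        rw [Helper24.charDegree_spec (Helper24.isCharacter_of_irr hχ)] at h1
        exact_mod_cast h1
      rw [h2] at hdvd
      obtain ⟨j, -, hj⟩ := (Nat.dvd_prime_pow hp.out).mp hdvd
      refine ⟨j, ?_⟩
      show ϑ 1 = _
      rw [Helper24.charDegree_spec (Helper24.isCharacter_of_irr hϑ), hj]
      push_cast
      rfl
    have hcardN : Nat.card N < n := by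
      rw [← hcard, ← Subgroup.card_mul_index N, hNidx]
      have h1 := hp.out.one_lt
      have h0 : 0 < Nat.card N := Nat.card_pos
      nlinarith
    obtain ⟨A₀, hA₀n, hA₀ab, hA₀cop, j, hA₀idx⟩ := ih (Nat.card N) hcardN N rfl hdegN
    haveI := hA₀n
    refine ⟨A₀.map N.subtype, map_normal_of_coprime N A₀ (by
      rw [hA₀idx]
      exact Nat.Coprime.pow_right j hA₀cop), ?_, ?_, j + 1, ?_⟩
    · rintro _ ⟨a, ha, rfl⟩ _ ⟨b, hb, rfl⟩
      have h1 := hA₀ab a ha b hb
      exact congrArg Subtype.val h1
    · rw [Nat.card_congr (A₀.equivMapOfInjective N.subtype N.subtype_injective).symm.toEquiv]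
      exact hA₀cop
    · rw [Subgroup.index_map_subtype, hA₀idx, hNidx, pow_succ]
  · have hlin : ∀ χ : IrrCharacter G, (χ : G → ℂ) 1 = 1 := by
      intro χ
      obtain ⟨k, hk⟩ := hdeg χ
      have h1 := Helper2.irr_degree_dvd_card χ.2
      have h2 : charDegree (χ : G → ℂ) = p ^ k := by
        rw [Helper24.charDegree_spec (Helper24.isCharacter_of_irr χ.2)] at hk
        exact_mod_cast hk
      rw [h2] at h1
      have hk0 : k = 0 := by
        by_contra h0
        exact hpG ((dvd_pow_self p h0).trans h1)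
      rw [hk, hk0, pow_zero]
    have hcomm := comm_of_all_linear hlin
    refine ⟨⊤, inferInstance, fun a _ b _ => hcomm a b, ?_, 0, ?_⟩
    · rw [Subgroup.card_top]
      exact ((Nat.Prime.coprime_iff_not_dvd hp.out).mpr hpG).symm
    · rw [Subgroup.index_top, pow_zero]

end PPowerDeg

end Cfsg.Agent.Helper6
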