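import Cfsg.Agent.Helper6.Herm
import Cfsg.Agent.Helper6.FinSq

set_option autoImplicit false

namespace Cfsg.Agent.Helper6

open Module

section SymmForm

variable {F : Type*} [Field F]

theorem symm_exists_anisotropic {V : Type*} [AddCommGroup V] [Module F V] [Nontrivial V]
    (h2 : (2 : F) ≠ 0) (B : V →ₗ[F] V →ₗ[F] F) (hS : B.IsSymm) (hB : B.Nondegenerate) :
    ∃ v : V, B v v ≠ 0 := by
  by_contra hcon
  push Not at hcon
  obtain ⟨x, hx⟩ := exists_ne (0 : V)
  obtain ⟨y, hy⟩ : ∃ y : V, B x y ≠ 0 := by
    by_contra h
    push Not at h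
    exact hx (hB.1 x h)
  have h := hcon (x + y)
  rw [map_add, map_add, LinearMap.add_apply, LinearMap.add_apply, hcon x, hcon y] at h
  have hyx : B y x = B x y := by
    have := hS.eq x y
    simpa using this.symm
  rw [hyx] at h
  apply hy
  have h' : 2 * B x y = 0 := by linear_combination h
  rcases mul_eq_zero.mp h' with h'' | h''
  · exact absurd h'' h2
  · exact h''

theorem symm_exists_vector_value [Finite F] {V : Type*} [AddCommGroup V] [Module F V]
    [FiniteDimensional F V] (h2 : (2 : F) ≠ 0) (B : V →ₗ[F] V →ₗ[F] F) (hS : B.IsSymm)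
    (hB : B.Nondegenerate) (hdim : 2 ≤ finrank F V) (c : F) : ∃ v : V, B v v = c := by
  have hnt : Nontrivial V := by
    apply Module.nontrivial_of_finrank_pos (R := F)
    omega
  obtain ⟨x, hx⟩ := symm_exists_anisotropic h2 B hS hB
  have hfin := finrank_ker_add_one B x hx
  have hntW : Nontrivial (LinearMap.ker (B x)) := by
    apply Module.nontrivial_of_finrank_pos (R := F)
    omega
  obtain ⟨y, hy⟩ := symm_exists_anisotropic h2
    (B.domRestrict₁₂ (LinearMap.ker (B x)) (LinearMap.ker (B x)))
    (restrict_isSymm B hS _) (restrict_nondegenerate B hS hB x hx)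
  rw [LinearMap.domRestrict₁₂_apply] at hy
  have hxy : B x (y : V) = 0 := LinearMap.mem_ker.mp y.2
  have hyx : B (y : V) x = 0 := by
    have := hS.eq x (y : V)
    rw [hxy] at this
    simpa using this.symm
  obtain ⟨s, t, hst⟩ := exists_sq_add_sq h2 hx hy c
  refine ⟨s • x + t • (y : V), ?_⟩
  rw [map_add, map_add, LinearMap.add_apply, LinearMap.add_apply]
  simp only [map_smul, LinearMap.smul_apply, smul_eq_mul, hxy, hyx, mul_zero, add_zero, zero_add]
  linear_combination hst

theorem symm_exists_orthogonal_family [Finite F] (h2 : (2 : F) ≠ 0) (α : F)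
    (hα : ¬ IsSquare α) :
    ∀ (n : ℕ) (V : Type*) [AddCommGroup V] [Module F V] [FiniteDimensional F V]
      (B : V →ₗ[F] V →ₗ[F] F), B.IsSymm → B.Nondegenerate → finrank F V = n + 1 →
      ∃ b : Fin (n + 1) → V, (∀ i j, i ≠ j → B (b i) (b j) = 0) ∧
        (∀ i, i ≠ Fin.last n → B (b i) (b i) = 1) ∧
        (B (b (Fin.last n)) (b (Fin.last n)) = 1 ∨ B (b (Fin.last n)) (b (Fin.last n)) = α) := by
  intro n
  induction n with
  | zero =>
    intro V _ _ _ B hS hB hn
    have hnt : Nontrivial V := by
      apply Module.nontrivial_of_finrank_pos (R := F)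
      omega
    obtain ⟨v, hv⟩ := symm_exists_anisotropic h2 B hS hB
    obtain ⟨d, hd0, hd⟩ := exists_sq_or_nonsq_mul_sq hα (B v v) hv
    have hss : Subsingleton (Fin (0 + 1)) := inferInstanceAs (Subsingleton (Fin 1))
    refine ⟨fun _ => d⁻¹ • v, ?_, ?_, ?_⟩
    · intro i j hij
      exact absurd (Subsingleton.elim i j) hij
    · intro i hi
      exact absurd (Subsingleton.elim i _) hi
    · simp only [map_smul, LinearMap.smul_apply, smul_eq_mul]
      rcases hd with hd | hd
      · left
        rw [hd]
        field_simp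
      · right
        rw [hd]
        field_simp
  | succ n ih =>
    intro V _ _ _ B hS hB hn
    obtain ⟨v, hv⟩ := symm_exists_vector_value h2 B hS hB (by omega) 1
    have hv0 : B v v ≠ 0 := by rw [hv]; exact one_ne_zero
    have hfin := finrank_ker_add_one B v hv0
    have hW : finrank F (LinearMap.ker (B v)) = n + 1 := by omega
    obtain ⟨b', hb'1, hb'2, hb'3⟩ := ih (LinearMap.ker (B v))
      (B.domRestrict₁₂ (LinearMap.ker (B v)) (LinearMap.ker (B v)))
      (restrict_isSymm B hS _) (restrict_nondegenerate B hS hB v hv0) hW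
    simp only [LinearMap.domRestrict₁₂_apply] at hb'1 hb'2 hb'3
    have hvb : ∀ i, B v (b' i : V) = 0 := fun i => LinearMap.mem_ker.mp (b' i).2
    have hbv : ∀ i, B (b' i : V) v = 0 := by
      intro i
      have := hS.eq v (b' i : V)
      rw [hvb i] at this
      simpa using this.symm
    refine ⟨Fin.cons v (fun i => (b' i : V)), ?_, ?_, ?_⟩
    · intro i j
      refine Fin.cases ?_ (fun i' => ?_) i <;> refine Fin.cases ?_ (fun j' => ?_) j
      · intro h; exact absurd rfl h
      · intro _
        simp only [Fin.cons_zero, Fin.cons_succ]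
        exact hvb j'
      · intro _
        simp only [Fin.cons_zero, Fin.cons_succ]
        exact hbv i'
      · intro h
        simp only [Fin.cons_succ]
        apply hb'1
        intro h'
        exact h (congrArg Fin.succ h')
    · intro i
      refine Fin.cases ?_ (fun i' => ?_) i
      · intro _
        simp only [Fin.cons_zero]
        exact hv
      · intro h
        simp only [Fin.cons_succ]
        apply hb'2
        intro h'
        apply h
        rw [h', Fin.succ_last]
    · rw [← Fin.succ_last]
      simp only [Fin.cons_succ]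
      exact hb'3

end SymmForm

end Cfsg.Agent.Helper6
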