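import Cfsg.Agent.Helper6.Twist
import Cfsg.Agent.Helper24.ClassSum

set_option autoImplicit false

namespace Cfsg.Agent.Helper6

open Cfsg
open scoped ComplexConjugate

section ExtendCyclic

variable {G : Type*} [Group G] {V : Type*} [AddCommGroup V] [Module ℂ V]

/-- An irreducible representation of a normal subgroup with cyclic quotient, equivalent to each
of its conjugates, extends to a representation of the whole group. -/
theorem exists_extension_of_cyclic [Finite G] (N : Subgroup G) [hN : N.Normal]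
    (hcyc : IsCyclic (G ⧸ N)) [FiniteDimensional ℂ V] (ρ : Representation ℂ N V)
    [ρ.IsIrreducible]
    (hinv : ∀ g : G, Representation.character
      (ρ.comp (MulAut.conjNormal g : N ≃* N).toMonoidHom : Representation ℂ N V) = ρ.character) :
    ∃ P : Representation ℂ G V, ∀ m : N, P m = ρ m := by
  classical
  obtain ⟨q, hq⟩ := hcyc.exists_generator
  obtain ⟨g, rfl⟩ := QuotientGroup.mk_surjective q
  obtain ⟨A, hA⟩ := exists_intertwiner ρ (ρ.comp (MulAut.conjNormal g : N ≃* N).toMonoidHom)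
    (hinv g)
  have hAmem : (g, A) ∈ twistSubgroup N ρ := fun m => hA m
  set k := orderOf (g : G ⧸ N) with hk
  have hkpos : 0 < k := orderOf_pos _
  have hgk : g ^ k ∈ N := by
    rw [← QuotientGroup.eq_one_iff, QuotientGroup.mk_pow]
    exact pow_orderOf_eq_one _
  set h : N := ⟨g ^ k, hgk⟩ with hh
  have hmem1 : ((1 : G), (ρ.toHomUnits h)⁻¹ * A ^ k) ∈ twistSubgroup N ρ := by
    have h1 := (twistSubgroup N ρ).mul_mem ((twistSubgroup N ρ).inv_mem (twist_of_mem N ρ h))
      ((twistSubgroup N ρ).pow_mem hAmem k)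
    have h2 : (((h : G), ρ.toHomUnits h)⁻¹ * (g, A) ^ k : G × (Module.End ℂ V)ˣ) =
        ((1 : G), (ρ.toHomUnits h)⁻¹ * A ^ k) := by
      ext1
      · simp [hh]
      · simp
    rw [h2] at h1
    exact h1
  obtain ⟨c, hc⟩ := twist_scalar N ρ hmem1
  have hV : Nontrivial (Module.End ℂ V) := by
    have hirr : IsIrrCharacter N ρ.character := Helper2.isIrrCharacter_of_rep ρ
    have h1 := Helper24.irr_one_ne_zero hirr
    rw [Representation.char_one] at h1
    have h2 : Module.finrank ℂ V ≠ 0 := by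
      intro h0
      apply h1
      rw [h0, Nat.cast_zero]
    have : Nontrivial V := Module.nontrivial_of_finrank_pos (R := ℂ) (Nat.pos_of_ne_zero h2)
    infer_instance
  have hc0 : c ≠ 0 := by
    rintro rfl
    rw [zero_smul] at hc
    exact (Units.ne_zero _) hc
  obtain ⟨z, hz⟩ := IsAlgClosed.exists_pow_nat_eq c hkpos
  have hz0 : z ≠ 0 := by
    rintro rfl
    rw [zero_pow hkpos.ne'] at hz
    exact hc0 hz.symm
  let A' : (Module.End ℂ V)ˣ := ⟨z⁻¹ • (A : Module.End ℂ V),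
    z • ((A⁻¹ : (Module.End ℂ V)ˣ) : Module.End ℂ V),
    by rw [smul_mul_smul_comm, inv_mul_cancel₀ hz0, one_smul, Units.mul_inv],
    by rw [smul_mul_smul_comm, mul_inv_cancel₀ hz0, one_smul, Units.inv_mul]⟩
  have hA'val : (A' : Module.End ℂ V) = z⁻¹ • (A : Module.End ℂ V) := rfl
  have hA'mem : (g, A') ∈ twistSubgroup N ρ := by
    intro m
    show (A' : Module.End ℂ V) * ρ m = ρ (MulAut.conjNormal g m) * (A' : Module.End ℂ V)
    rw [hA'val, smul_mul_assoc, mul_smul_comm]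
    congr 1
    exact hA m
  have hA'k : A' ^ k = ρ.toHomUnits h := by
    apply Units.ext
    rw [Units.val_pow_eq_pow_val, hA'val, smul_pow, MonoidHom.coe_toHomUnits]
    have h1 : (A : Module.End ℂ V) ^ k = c • ρ h := by
      have h2 : ((ρ.toHomUnits h * ((ρ.toHomUnits h)⁻¹ * A ^ k) : (Module.End ℂ V)ˣ) :
          Module.End ℂ V) = ρ h * (c • 1) := by
        rw [Units.val_mul, hc, MonoidHom.coe_toHomUnits]
      rw [mul_inv_cancel_left, Units.val_pow_eq_pow_val, mul_smul_comm, mul_one] at h2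
      exact h2
    rw [h1, inv_pow, hz, smul_smul, inv_mul_cancel₀ hc0, one_smul]
  have hkey : ∀ (i : ℤ) (hi : g ^ i ∈ N), A' ^ i = ρ.toHomUnits ⟨g ^ i, hi⟩ := by
    intro i hi
    have h1 : ((g : G ⧸ N)) ^ i = 1 := by
      rw [← QuotientGroup.mk_zpow]
      exact (QuotientGroup.eq_one_iff _).mpr hi
    obtain ⟨j, rfl⟩ := orderOf_dvd_iff_zpow_eq_one.mpr h1
    rw [zpow_mul, zpow_natCast, hA'k, ← map_zpow]
    congr 1
    apply Subtype.ext
    show ((h ^ j : N) : G) = g ^ ((orderOf (g : G ⧸ N) : ℤ) * j)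
    rw [Subgroup.coe_zpow, zpow_mul, zpow_natCast]
  have hidx : ∀ x : G, ∃ i : ℤ, g ^ (-i) * x ∈ N := by
    intro x
    obtain ⟨i, hi⟩ := Subgroup.mem_zpowers_iff.mp (hq (x : G ⧸ N))
    refine ⟨i, ?_⟩
    rw [← QuotientGroup.eq_one_iff, QuotientGroup.mk_mul, QuotientGroup.mk_zpow, ← hi,
      ← zpow_add, neg_add_cancel, zpow_zero]
  choose idx hidx' using hidx
  let Pfun : G → (Module.End ℂ V)ˣ := fun x =>
    A' ^ (idx x) * ρ.toHomUnits ⟨g ^ (-(idx x)) * x, hidx' x⟩
  have hindep : ∀ (x : G) (i : ℤ) (hi : g ^ (-i) * x ∈ N),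
      Pfun x = A' ^ i * ρ.toHomUnits ⟨g ^ (-i) * x, hi⟩ := by
    intro x i hi
    have hmem : g ^ (i - idx x) ∈ N := by
      have := N.mul_mem (hidx' x) (N.inv_mem hi)
      have e : g ^ (-(idx x)) * x * (g ^ (-i) * x)⁻¹ = g ^ (i - idx x) := by
        rw [mul_inv_rev, zpow_neg, zpow_neg, inv_inv, sub_eq_add_neg, zpow_add, zpow_neg]
        have hc' : Commute (g ^ i) (g ^ (idx x))⁻¹ :=
          ((Commute.refl g).zpow_zpow i (idx x)).inv_right
        rw [hc'.eq]
        group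
      rwa [e] at this
    have heq : (⟨g ^ (-(idx x)) * x, hidx' x⟩ : N) =
        ⟨g ^ (i - idx x), hmem⟩ * ⟨g ^ (-i) * x, hi⟩ := by
      apply Subtype.ext
      show g ^ (-(idx x)) * x = g ^ (i - idx x) * (g ^ (-i) * x)
      rw [← mul_assoc, ← zpow_add]
      congr 2
      ring
    show A' ^ (idx x) * ρ.toHomUnits ⟨g ^ (-(idx x)) * x, hidx' x⟩ = _
    rw [heq, map_mul, ← hkey _ hmem, ← mul_assoc, ← zpow_add]
    congr 2
    ring
  have hconj : ∀ (j : ℤ) (n₁ : N), ρ.toHomUnits (MulAut.conjNormal (g ^ j) n₁) =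
      A' ^ j * ρ.toHomUnits n₁ * A' ^ (-j) := by
    intro j n₁
    have h1 : (g ^ j, A' ^ j) ∈ twistSubgroup N ρ := by
      have h2 := (twistSubgroup N ρ).zpow_mem hA'mem j
      have h3 : ((g, A') ^ j : G × (Module.End ℂ V)ˣ) = (g ^ j, A' ^ j) := rfl
      rwa [h3] at h2
    have h2 := h1 n₁
    rw [zpow_neg, eq_mul_inv_iff_mul_eq]
    apply Units.ext
    rw [Units.val_mul, Units.val_mul, MonoidHom.coe_toHomUnits, MonoidHom.coe_toHomUnits]
    exact h2.symm
  have hmul : ∀ x y : G, Pfun (x * y) = Pfun x * Pfun y := by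
    intro x y
    have h1 : g ^ (-(idx x + idx y)) * (x * y) =
        ((MulAut.conjNormal (g ^ (-(idx y))) ⟨g ^ (-(idx x)) * x, hidx' x⟩ : N) : G) *
          (g ^ (-(idx y)) * y) := by
      rw [MulAut.conjNormal_apply]
      show _ = g ^ (-(idx y)) * (g ^ (-(idx x)) * x) * (g ^ (-(idx y)))⁻¹ * (g ^ (-(idx y)) * y)
      rw [neg_add, zpow_add]
      have hc' : Commute (g ^ (-(idx x))) (g ^ (-(idx y))) :=
        (Commute.refl g).zpow_zpow _ _
      rw [hc'.eq]
      group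
    have hmem_xy : g ^ (-(idx x + idx y)) * (x * y) ∈ N := by
      rw [h1]
      exact N.mul_mem (Subtype.coe_prop _) (hidx' y)
    rw [hindep (x * y) (idx x + idx y) hmem_xy]
    have heq : (⟨g ^ (-(idx x + idx y)) * (x * y), hmem_xy⟩ : N) =
        MulAut.conjNormal (g ^ (-(idx y))) ⟨g ^ (-(idx x)) * x, hidx' x⟩ *
          ⟨g ^ (-(idx y)) * y, hidx' y⟩ := Subtype.ext h1
    rw [heq, map_mul, hconj]
    show _ = A' ^ (idx x) * ρ.toHomUnits ⟨g ^ (-(idx x)) * x, hidx' x⟩ *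
      (A' ^ (idx y) * ρ.toHomUnits ⟨g ^ (-(idx y)) * y, hidx' y⟩)
    rw [neg_neg, zpow_add]
    group
  have hres : ∀ n : N, Pfun n = ρ.toHomUnits n := by
    intro n
    rw [hindep (n : G) 0 (by simp)]
    simp
  refine ⟨(Units.coeHom (Module.End ℂ V)).comp (MonoidHom.mk' Pfun hmul), fun m => ?_⟩
  show ((Pfun m : (Module.End ℂ V)ˣ) : Module.End ℂ V) = ρ m
  rw [hres]
  rfl

end ExtendCyclic

end Cfsg.Agent.Helper6
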