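import Cfsg.Agent.Helper6.SolvExt

set_option autoImplicit false

namespace Cfsg.Agent.Helper6

open Cfsg
open scoped ComplexConjugate

section GallagherExt

universe u

/-- Extension to an intermediate subgroup `P` with `P/N` solvable of an invariant irreducible
character of coprime degree whose determinant extends. -/
theorem extends_to_subgroup_of_solvable {G : Type u} [Group G] [Finite G] (N : Subgroup G)
    [hN : N.Normal] (ϑ : N → ℂ) (hϑ : IsIrrCharacter N ϑ)
    (hinv : ∀ (g : G) (n : N), ϑ ⟨g * n * g⁻¹, hN.conj_mem (n : G) n.2 g⟩ = ϑ n)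
    (hcop : Nat.Coprime N.index (charDegree ϑ)) (μ : G → ℂ) (hμc : IsCharacter G μ)
    (hμ1 : μ 1 = 1) (hμN : ∀ n : N, μ n = detChar ϑ n) (P : Subgroup G) (hNP : N ≤ P)
    (hsolv : Group.IsSolvable (P ⧸ N.subgroupOf P)) :
    ∃ η : P → ℂ, IsIrrCharacter P η ∧ ∀ n : N, η ⟨(n : G), hNP n.2⟩ = ϑ n := by
  classical
  have := Fintype.ofFinite G
  haveI hN' : (N.subgroupOf P).Normal := Subgroup.normal_subgroupOf
  haveI : Fintype P := Fintype.ofFinite _
  haveI : Fintype N := Fintype.ofFinite _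
  haveI : Fintype (N.subgroupOf P) := Fintype.ofFinite _
  let e : N.subgroupOf P ≃* N := Subgroup.subgroupOfEquivOfLe hNP
  have hϑc : IsCharacter N ϑ := Helper24.isCharacter_of_irr hϑ
  have hϑ' : IsIrrCharacter (N.subgroupOf P) (ϑ ∘ e) := isIrrCharacter_comp_mulEquiv e hϑ
  have hinv' : ∀ (t : P) (n : N.subgroupOf P),
      (ϑ ∘ e) ⟨t * n * t⁻¹, hN'.conj_mem (n : P) n.2 t⟩ = (ϑ ∘ e) n := by
    intro t n
    have h1 := hinv (t : G) (e n)
    rw [Function.comp_apply, Function.comp_apply, ← h1]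
    congr 1
  have hdeg' : charDegree (ϑ ∘ e) = charDegree ϑ := by
    have h1 : (ϑ ∘ e) 1 = ϑ 1 := by rw [Function.comp_apply, map_one]
    rw [Helper24.charDegree_spec (Helper24.isCharacter_of_irr hϑ'),
      Helper24.charDegree_spec hϑc] at h1
    exact_mod_cast h1
  have hcop' : Nat.Coprime (N.subgroupOf P).index (charDegree (ϑ ∘ e)) := by
    rw [hdeg']
    have hdvd : (N.subgroupOf P).index ∣ N.index := by
      have := Subgroup.relIndex_mul_index hNP
      exact Dvd.intro _ this
    exact Nat.Coprime.coprime_dvd_left hdvd hcop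
  have hμ'c : IsCharacter P (fun m : P => μ m) := Helper24.isCharacter_restrict P hμc
  have hμ'N : ∀ n : N.subgroupOf P, μ ((n : P) : G) = detChar (ϑ ∘ e) n := by
    intro n
    have h := congrFun (detChar_comp e.toMonoidHom hϑc) n
    exact (hμN (e n)).trans h.symm
  obtain ⟨η, hη, hηN⟩ := extends_of_det_extends_solvable_aux (Nat.card P) P rfl (N.subgroupOf P)
    hsolv (ϑ ∘ e) hϑ' hinv' hcop' (fun m : P => μ m) hμ'c hμ1 hμ'N
  refine ⟨η, hη, fun n => ?_⟩
  have h2 := hηN ⟨⟨n, hNP n.2⟩, n.2⟩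
  rw [Function.comp_apply] at h2
  have h3 : e ⟨⟨(n : G), hNP n.2⟩, n.2⟩ = n := Subtype.ext rfl
  rw [h3] at h2
  exact h2

/-- For each prime `p` there is a subgroup `P ≥ N` of index prime to `p` with `[P : N]` a power
of `p` (the preimage of a Sylow subgroup of the quotient). -/
theorem exists_sylow_over {G : Type u} [Group G] [Finite G] (N : Subgroup G) [hN : N.Normal]
    (p : ℕ) (hp : p.Prime) :
    ∃ P : Subgroup G, N ≤ P ∧ Nat.Coprime P.index p ∧ (∃ k : ℕ, N.relIndex P = p ^ k) ∧
      Group.IsSolvable (P ⧸ N.subgroupOf P) := by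
  classical
  haveI := Fact.mk hp
  let S : Sylow p (G ⧸ N) := default
  let P : Subgroup G := (S : Subgroup (G ⧸ N)).comap (QuotientGroup.mk' N)
  have hNP : N ≤ P := by
    intro n hn
    show (QuotientGroup.mk' N) n ∈ (S : Subgroup (G ⧸ N))
    have : (QuotientGroup.mk' N) n = 1 := (QuotientGroup.eq_one_iff n).mpr hn
    rw [this]
    exact Subgroup.one_mem _
  have hidx : P.index = (S : Subgroup (G ⧸ N)).index :=
    Subgroup.index_comap_of_surjective _ (QuotientGroup.mk'_surjective N)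
  have hrel : N.relIndex P = Nat.card (S : Subgroup (G ⧸ N)) := by
    have h1 : N = (⊥ : Subgroup (G ⧸ N)).comap (QuotientGroup.mk' N) := by
      rw [MonoidHom.comap_bot, QuotientGroup.ker_mk']
    have h2 : N.relIndex P = (⊥ : Subgroup (G ⧸ N)).relIndex (S : Subgroup (G ⧸ N)) := by
      conv_lhs => rw [h1]
      rw [Subgroup.relIndex_comap]
      rw [Subgroup.map_comap_eq_self_of_surjective (QuotientGroup.mk'_surjective N)]
    rw [h2, Subgroup.relIndex_bot_left]
  obtain ⟨k, hk⟩ := IsPGroup.exists_card_eq S.2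
  refine ⟨P, hNP, ?_, ⟨k, hrel.trans hk⟩, ?_⟩
  · rw [hidx]
    rw [Nat.coprime_comm]
    exact (Nat.Prime.coprime_iff_not_dvd hp).mpr (Sylow.not_dvd_index S)
  · haveI hN' : (N.subgroupOf P).Normal := Subgroup.normal_subgroupOf
    have hcard : Nat.card (P ⧸ N.subgroupOf P) = p ^ k := by
      have h1 : Nat.card (P ⧸ N.subgroupOf P) = (N.subgroupOf P).index := rfl
      rw [h1]
      exact hrel.trans hk
    have hpg : IsPGroup p (P ⧸ N.subgroupOf P) := IsPGroup.of_card hcard
    haveI := hpg.isNilpotent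
    infer_instance

end GallagherExt

end Cfsg.Agent.Helper6
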