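import Mathlib

set_option autoImplicit false

/-!
# Bezout coefficients for the gcd of a finite family of natural numbers (helper6)
-/

namespace Cfsg.Agent.Helper6

theorem finset_nat_gcd_bezout {ι : Type*} [DecidableEq ι] (s : Finset ι) (f : ι → ℕ) :
    ∃ n : ι → ℤ, ∑ i ∈ s, n i * (f i : ℤ) = ((s.gcd f : ℕ) : ℤ) := by
  induction s using Finset.induction_on with
  | empty => exact ⟨fun _ => 0, by simp⟩
  | insert a s ha ih =>
    obtain ⟨n, hn⟩ := ih
    refine ⟨fun i => if i = a then Nat.gcdA (f a) (s.gcd f)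
      else Nat.gcdB (f a) (s.gcd f) * n i, ?_⟩
    rw [Finset.sum_insert ha, Finset.gcd_insert]
    beta_reduce
    rw [if_pos rfl]
    have h1 : ∑ i ∈ s, (if i = a then Nat.gcdA (f a) (s.gcd f)
        else Nat.gcdB (f a) (s.gcd f) * n i) * (f i : ℤ)
        = Nat.gcdB (f a) (s.gcd f) * ((s.gcd f : ℕ) : ℤ) := by
      rw [← hn, Finset.mul_sum]
      refine Finset.sum_congr rfl fun i hi => ?_
      have hia : i ≠ a := fun h => ha (h ▸ hi)
      rw [if_neg hia]
      ring
    rw [h1]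
    have h2 := Nat.gcd_eq_gcd_ab (f a) (s.gcd f)
    show _ = ((Nat.gcd (f a) (s.gcd f) : ℕ) : ℤ)
    rw [h2]
    ring

end Cfsg.Agent.Helper6
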