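import Mathlib
import Cfsg.Agent.Helper1.Coprime
import Cfsg.Agent.Helper1.Basic

set_option autoImplicit false

universe u

namespace Cfsg.Agent.Helper6.GlauLemma

/-- Glauberman's lemma in subgroup form: if `D` is normal with a coprime supplement `A`
(one of them solvable) and `St` supplements `D`, then a `D`-conjugate of `A` lies in `St`. -/
theorem gl_subgroup {Q : Type u} [Group Q] [Finite Q] (D A St : Subgroup Q) [hD : D.Normal]
    (hDA : D ⊔ A = ⊤) (hcop : (Nat.card A).Coprime (Nat.card D))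
    (hsolv : Group.IsSolvable A ∨ Group.IsSolvable D) (hSt : St ⊔ D = ⊤) :
    ∃ d ∈ D, ∀ a ∈ A, d * a * d⁻¹ ∈ St := by
  have hdisj : D ⊓ A = ⊥ := (Subgroup.disjoint_of_coprime_natCard hcop.symm).eq_bot
  have hidx : D.index = Nat.card A := by
    have h1 : D.relIndex (A ⊔ D) = D.relIndex A := Subgroup.relIndex_sup_right A D
    rw [sup_comm, hDA, Subgroup.relIndex_top_right] at h1
    rw [h1, ← Subgroup.inf_relIndex_right, hdisj, Subgroup.relIndex_bot_left]
  have hrel : D.relIndex St = Nat.card A := by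
    have h1 : D.relIndex (St ⊔ D) = D.relIndex St := Subgroup.relIndex_sup_right St D
    rw [hSt, Subgroup.relIndex_top_right] at h1
    rw [← h1, hidx]
  have hdvd : Nat.card (D.subgroupOf St) ∣ Nat.card D := by
    have h1 : Nat.card (D.subgroupOf St) = Nat.card ((D.subgroupOf St).map St.subtype) :=
      (Subgroup.card_map_of_injective St.subtype_injective).symm
    rw [h1]
    apply Subgroup.card_dvd_of_le
    rintro x ⟨y, hy, rfl⟩
    exact hy
  have hcop2 : (Nat.card (D.subgroupOf St)).Coprime (D.subgroupOf St).index := by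
    have h1 : (D.subgroupOf St).index = Nat.card A := hrel
    rw [h1]
    exact (Nat.Coprime.coprime_dvd_left hdvd hcop.symm)
  obtain ⟨H, hH⟩ := Subgroup.exists_right_complement'_of_coprime hcop2
  have hHcard : Nat.card H = Nat.card A := by
    rw [← hH.symm.index_eq_card]
    exact hrel
  have hBcard : Nat.card (H.map St.subtype) = Nat.card A := by
    rw [Subgroup.card_map_of_injective St.subtype_injective, hHcard]
  have hAD : A ≤ Subgroup.normalizer (D : Set Q) := by
    rw [Subgroup.normalizer_eq_top]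
    exact le_top
  obtain ⟨d, hd, hconj⟩ := Helper1.sz2 D A (H.map St.subtype) hAD (by rw [hDA]; exact le_top)
    hBcard hcop hsolv
  refine ⟨d, hd, fun a ha => ?_⟩
  have h1 : d * a * d⁻¹ ∈ H.map St.subtype := by
    rw [← hconj]
    exact Helper1.conj_mem_conj_smul ha
  obtain ⟨y, -, hy⟩ := h1
  rw [← hy]
  exact y.2

/-- Glauberman's lemma relative to a normal subgroup `N` inside everything. -/
theorem rel_gl {Γ : Type u} [Group Γ] [Finite Γ] (N D A St : Subgroup Γ) (hND : N ≤ D)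
    [hNDn : (N.subgroupOf D).Normal]
    (hDn : D ≤ Subgroup.normalizer (N : Set Γ)) (hAn : A ≤ Subgroup.normalizer (N : Set Γ))
    (hAD : A ≤ Subgroup.normalizer (D : Set Γ))
    (hcop : (Nat.card A).Coprime (N.relIndex D))
    (hsolv : Group.IsSolvable A ∨ Group.IsSolvable (D ⧸ N.subgroupOf D))
    (hNSt : N ≤ St) (htrans : ∀ a ∈ A, ∃ d ∈ D, a * d⁻¹ ∈ St) :
    ∃ d ∈ D, ∀ a ∈ A, d * a * d⁻¹ ∈ St := by
  obtain ⟨X, hX⟩ : ∃ X : Subgroup Γ, X = D ⊔ A := ⟨_, rfl⟩
  have hDX : D ≤ X := hX ▸ le_sup_left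
  have hAX : A ≤ X := hX ▸ le_sup_right
  have hNX : N ≤ X := hND.trans hDX
  have hXN : X ≤ Subgroup.normalizer (N : Set Γ) := hX ▸ sup_le hDn hAn
  have hXD : X ≤ Subgroup.normalizer (D : Set Γ) := hX ▸ sup_le Subgroup.le_normalizer hAD
  haveI hN'n : (N.subgroupOf X).Normal := Subgroup.normal_subgroupOf_of_le_normalizer hXN
  haveI hD'n : (D.subgroupOf X).Normal := Subgroup.normal_subgroupOf_of_le_normalizer hXD
  let π : ↥X →* ↥X ⧸ N.subgroupOf X := QuotientGroup.mk' (N.subgroupOf X)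
  have hπ : Function.Surjective π := QuotientGroup.mk'_surjective _
  haveI hDbar : ((D.subgroupOf X).map π).Normal := Subgroup.Normal.map hD'n π hπ
  -- supplements
  have h1 : (D.subgroupOf X).map π ⊔ (A.subgroupOf X).map π = ⊤ := by
    rw [← Subgroup.map_sup, ← Subgroup.subgroupOf_sup hDX hAX, ← hX, Subgroup.subgroupOf_self,
      Subgroup.map_top_of_surjective π hπ]
  have h2 : ((St ⊓ X).subgroupOf X).map π ⊔ (D.subgroupOf X).map π = ⊤ := by
    rw [← Subgroup.map_sup, ← Subgroup.subgroupOf_sup inf_le_right hDX]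
    have h3 : ((St ⊓ X) ⊔ D).subgroupOf X = ⊤ := by
      rw [Subgroup.subgroupOf_eq_top]
      intro x hx
      rw [hX] at hx
      refine (sup_le le_sup_right ?_ : D ⊔ A ≤ St ⊓ X ⊔ D) hx
      intro a ha
      obtain ⟨d, hd, had⟩ := htrans a ha
      have h4 : a = (a * d⁻¹) * d := by group
      rw [h4]
      exact Subgroup.mul_mem _ (Subgroup.mem_sup_left ⟨had, X.mul_mem (hAX ha)
        (X.inv_mem (hDX hd))⟩) (Subgroup.mem_sup_right hd)
    rw [h3, Subgroup.map_top_of_surjective π hπ]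
  -- the image of D is a quotient of D / N
  have hker : N.subgroupOf D ≤ (π.comp (Subgroup.inclusion hDX)).ker := by
    intro n hn
    rw [MonoidHom.mem_ker, MonoidHom.comp_apply]
    show ((Subgroup.inclusion hDX n : ↥X) : ↥X ⧸ N.subgroupOf X) = 1
    rw [QuotientGroup.eq_one_iff]
    exact hn
  let f : ↥D ⧸ N.subgroupOf D →* ↥X ⧸ N.subgroupOf X :=
    QuotientGroup.lift (N.subgroupOf D) (π.comp (Subgroup.inclusion hDX)) hker
  have hDf : (D.subgroupOf X).map π ≤ f.range := by
    rintro x ⟨d', hd', rfl⟩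
    refine ⟨QuotientGroup.mk (⟨(d' : Γ), hd'⟩ : ↥D), ?_⟩
    show π (Subgroup.inclusion hDX ⟨(d' : Γ), hd'⟩) = π d'
    rfl
  -- the image of A is a quotient of A
  have hAg : (A.subgroupOf X).map π ≤ (π.comp (Subgroup.inclusion hAX)).range := by
    rintro x ⟨a', ha', rfl⟩
    exact ⟨⟨(a' : Γ), ha'⟩, rfl⟩
  have hcop' : (Nat.card ((A.subgroupOf X).map π)).Coprime
      (Nat.card ((D.subgroupOf X).map π)) := by
    have h3 : Nat.card ((A.subgroupOf X).map π) ∣ Nat.card A :=
      (Subgroup.card_dvd_of_le hAg).trans (Subgroup.card_range_dvd _)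
    have h4 : Nat.card ((D.subgroupOf X).map π) ∣ N.relIndex D := by
      refine (Subgroup.card_dvd_of_le hDf).trans ?_
      have h5 := Subgroup.card_range_dvd f
      rw [← Subgroup.index_eq_card] at h5
      exact h5
    exact Nat.Coprime.coprime_dvd_left h3 (Nat.Coprime.coprime_dvd_right h4 hcop)
  have hsolv' : Group.IsSolvable ↥((A.subgroupOf X).map π) ∨
      Group.IsSolvable ↥((D.subgroupOf X).map π) := by
    rcases hsolv with hs | hs
    · left
      haveI : Group.IsSolvable ↥(π.comp (Subgroup.inclusion hAX)).range :=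
        Group.isSolvable_of_surjective (MonoidHom.rangeRestrict_surjective _)
      exact Group.isSolvable_of_isSolvable_injective (Subgroup.inclusion_injective hAg)
    · right
      haveI : Group.IsSolvable ↥f.range :=
        Group.isSolvable_of_surjective (MonoidHom.rangeRestrict_surjective _)
      exact Group.isSolvable_of_isSolvable_injective (Subgroup.inclusion_injective hDf)
  obtain ⟨dbar, hdbar, hconj⟩ := gl_subgroup ((D.subgroupOf X).map π) ((A.subgroupOf X).map π)
    (((St ⊓ X).subgroupOf X).map π) h1 hcop' hsolv' h2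
  obtain ⟨d', hd', rfl⟩ := hdbar
  refine ⟨(d' : Γ), hd', fun a ha => ?_⟩
  have h3 := hconj (π ⟨a, hAX ha⟩) ⟨⟨a, hAX ha⟩, ha, rfl⟩
  rw [← map_mul, ← map_inv, ← map_mul] at h3
  obtain ⟨s', hs', hs'eq⟩ := h3
  have h4 : s'⁻¹ * (d' * ⟨a, hAX ha⟩ * d'⁻¹) ∈ N.subgroupOf X := by
    have h5 : ((s' : ↥X) : ↥X ⧸ N.subgroupOf X) = ((d' * ⟨a, hAX ha⟩ * d'⁻¹ : ↥X) :
        ↥X ⧸ N.subgroupOf X) := hs'eq
    exact QuotientGroup.eq.mp h5
  have h6 : (s' : Γ)⁻¹ * ((d' : Γ) * a * (d' : Γ)⁻¹) ∈ St := hNSt h4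
  have h7 : (s' : Γ) ∈ St := hs'.1
  have h8 : (d' : Γ) * a * (d' : Γ)⁻¹ =
      (s' : Γ) * ((s' : Γ)⁻¹ * ((d' : Γ) * a * (d' : Γ)⁻¹)) := by group
  rw [h8]
  exact St.mul_mem h7 h6

end Cfsg.Agent.Helper6.GlauLemma
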