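import Cfsg.Agent.Helper6.PiSection
import Cfsg.Agent.Helper24.MGroup

set_option autoImplicit false

universe u

namespace Cfsg.Agent.Helper6

open Cfsg
open scoped ComplexConjugate

namespace HallCompl

/-- A finite cyclic group is elementary for every prime exceeding the order of the ambient
group. -/
theorem isElementary_zpowers {G : Type*} [Group G] [Finite G] (y : G) (p : ℕ) (hp : p.Prime)
    (hlt : Nat.card G < p) : IsElementary p (Subgroup.zpowers y) := by
  refine ⟨⟨y, Subgroup.mem_zpowers y⟩, ?_, ?_, 0, ?_⟩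
  · rw [Subgroup.mem_center_iff]
    intro e
    obtain ⟨i, hi⟩ := Subgroup.mem_zpowers_iff.mp e.2
    apply Subtype.ext
    show (e : G) * y = y * (e : G)
    rw [← hi]
    exact ((Commute.refl y).zpow_left i).eq
  · have h0 : orderOf (⟨y, Subgroup.mem_zpowers y⟩ : Subgroup.zpowers y) = orderOf y := by
      rw [← Subgroup.orderOf_coe]
    rw [h0]
    have h1 : orderOf y ≤ Nat.card G := orderOf_le_card
    exact Nat.Coprime.symm ((Nat.Prime.coprime_iff_not_dvd hp).mpr
      (Nat.not_dvd_of_pos_of_lt (orderOf_pos y) (lt_of_le_of_lt h1 hlt)))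
  · rw [pow_zero, Subgroup.index_eq_one, eq_top_iff]
    intro e _
    obtain ⟨i, hi⟩ := Subgroup.mem_zpowers_iff.mp e.2
    exact Subgroup.mem_zpowers_iff.mpr ⟨i, Subtype.ext (by simpa using hi)⟩

/-- Claim 1: composing a character of `H` with `τ` gives a generalized character of `G`. -/
theorem tau_gen {G : Type u} [Group G] [Fintype G] (H : Subgroup G) (m n N : ℕ)
    (hm : m = Nat.card H) (hmn : Nat.card G = m * n) (hcop : Nat.Coprime m n)
    (hN1 : N ≡ 1 [MOD m]) (hN0 : n ∣ N)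
    (helem : ∀ (E : Subgroup G) (p : ℕ), p.Prime → IsElementary p E →
      Nat.card E ∣ Nat.card H → ∃ g : G, E.map (MulAut.conj g).toMonoidHom ≤ H)
    (τ : G → H)
    (hτ1 : ∀ (ϑ : H → ℂ), IsClassFunction H ϑ → ∀ (x g : G) (hg : g * x ^ N * g⁻¹ ∈ H),
      ϑ (τ x) = ϑ ⟨g * x ^ N * g⁻¹, hg⟩)
    (χ : H → ℂ) (hχ : IsCharacter H χ) (hcl : IsClassFunction G (χ ∘ τ)) :
    IsGeneralizedCharacter G (χ ∘ τ) := by
  classical
  have hχcf := Helper2.IsCharacter.isClassFunction hχ
  have hord : ∀ z : G, z ^ (m * n) = 1 := fun z => by rw [← hmn]; exact pow_card_eq_one'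
  have hNm : ∀ x : G, (x ^ N) ^ m = 1 := by
    intro x
    obtain ⟨t, rfl⟩ := hN0
    rw [← pow_mul, mul_right_comm, mul_comm n m, pow_mul, hord, one_pow]
  apply BrauerInd.brauer_characterization hcl
  intro E p hp hE
  haveI : Fintype E := Fintype.ofFinite _
  have hε : (∀ y : E, (∃ j : ℕ, y ^ (p ^ j) = 1) → y ^ N = y) ∨
      (∀ y : E, (∃ j : ℕ, y ^ (p ^ j) = 1) → y ^ N = 1) := by
    by_cases hpn : p ∣ n
    · right
      rintro y ⟨j, hj⟩
      have hpm : ¬ p ∣ m := by
        intro h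
        have := Nat.dvd_gcd h hpn
        rw [Nat.Coprime.gcd_eq_one hcop] at this
        exact hp.one_lt.ne' (Nat.dvd_one.mp this)
      have hj' : (y : G) ^ (p ^ j) = 1 := by
        have := congrArg Subtype.val hj
        simpa using this
      have ho : orderOf (y : G) ∣ p ^ j := orderOf_dvd_of_pow_eq_one hj'
      have hcopm : Nat.Coprime (orderOf (y : G)) m := Nat.Coprime.coprime_dvd_left ho
        (Nat.Coprime.pow_left j ((Nat.Prime.coprime_iff_not_dvd hp).mpr hpm))
      have hdn : orderOf (y : G) ∣ n :=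
        hcopm.dvd_of_dvd_mul_left (orderOf_dvd_of_pow_eq_one (hord _))
      apply Subtype.ext
      rw [Subgroup.coe_pow, Subgroup.coe_one]
      exact PiSection.pw_zero n N hN0 _ (orderOf_dvd_iff_pow_eq_one.mp hdn)
    · left
      rintro y ⟨j, hj⟩
      have hj' : (y : G) ^ (p ^ j) = 1 := by
        have := congrArg Subtype.val hj
        simpa using this
      have ho : orderOf (y : G) ∣ p ^ j := orderOf_dvd_of_pow_eq_one hj'
      have hcopn : Nat.Coprime (orderOf (y : G)) n := Nat.Coprime.coprime_dvd_left ho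
        (Nat.Coprime.pow_left j ((Nat.Prime.coprime_iff_not_dvd hp).mpr hpn))
      have hdm : orderOf (y : G) ∣ m :=
        hcopn.dvd_of_dvd_mul_right (orderOf_dvd_of_pow_eq_one (hord _))
      apply Subtype.ext
      rw [Subgroup.coe_pow]
      exact PiSection.pw_one m N hN1 _ (orderOf_dvd_iff_pow_eq_one.mp hdm)
  let f : E →* E :=
    { toFun := fun e => e ^ N
      map_one' := one_pow N
      map_mul' := PiSection.pow_mul_of_isElementary hp hE N hε }
  have hAel : IsElementary p (f.range.map E.subtype) :=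
    BrauerSpan.isElementary_of_mulEquiv
      (Subgroup.equivMapOfInjective f.range E.subtype E.subtype_injective)
      (BrauerInd.isElementary_subgroup hp hE f.range)
  have hAcard : Nat.card (f.range.map E.subtype) ∣ Nat.card H := by
    rw [← hm]
    have hexp : ∀ a : (f.range.map E.subtype), a ^ m = 1 := by
      rintro ⟨a, ha⟩
      obtain ⟨b, hb, rfl⟩ := Subgroup.mem_map.mp ha
      obtain ⟨e, rfl⟩ := MonoidHom.mem_range.mp hb
      apply Subtype.ext
      exact hNm (e : G)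
    have hcopA : Nat.Coprime (Nat.card (f.range.map E.subtype)) n := by
      apply Nat.coprime_of_dvd
      intro q hq hqc hqn
      haveI : Fact q.Prime := ⟨hq⟩
      obtain ⟨z, hz⟩ := exists_prime_orderOf_dvd_card' q hqc
      have hqm : q ∣ m := by
        rw [← hz]
        exact orderOf_dvd_of_pow_eq_one (hexp z)
      have := Nat.dvd_gcd hqm hqn
      rw [Nat.Coprime.gcd_eq_one hcop] at this
      exact hq.one_lt.ne' (Nat.dvd_one.mp this)
    have hdvd : Nat.card (f.range.map E.subtype) ∣ m * n := by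
      rw [← hmn]
      exact Subgroup.card_subgroup_dvd_card _
    exact hcopA.dvd_of_dvd_mul_right hdvd
  obtain ⟨g, hg⟩ := helem _ p hp hAel hAcard
  have hmemH : ∀ e : E, g * (e : G) ^ N * g⁻¹ ∈ H := by
    intro e
    apply hg
    exact Subgroup.mem_map.mpr ⟨(e : G) ^ N,
      Subgroup.mem_map.mpr ⟨f e, MonoidHom.mem_range.mpr ⟨e, rfl⟩, rfl⟩, rfl⟩
  let φ : E →* H :=
    { toFun := fun e => ⟨g * (e : G) ^ N * g⁻¹, hmemH e⟩
      map_one' := by
        apply Subtype.ext
        simp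
      map_mul' := by
        intro e e'
        apply Subtype.ext
        have h0 : (e * e') ^ N = e ^ N * e' ^ N :=
          PiSection.pow_mul_of_isElementary hp hE N hε e e'
        have h1 : ((e * e' : E) : G) ^ N = (e : G) ^ N * (e' : G) ^ N := by
          have h2 := congrArg (Subtype.val : E → G) h0
          simp only [Subgroup.coe_pow, Subgroup.coe_mul] at h2
          exact h2
        show g * ((e * e' : E) : G) ^ N * g⁻¹ = (g * (e : G) ^ N * g⁻¹) * (g * (e' : G) ^ N * g⁻¹)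
        rw [h1]
        group }
  have heq : (fun e : E => (χ ∘ τ) (e : G)) = χ ∘ φ := by
    funext e
    exact hτ1 χ hχcf (e : G) g (hmemH e)
  rw [heq]
  exact Helper10.isGeneralizedCharacter_of_char (isCharacter_comp_hom φ hχ)

/-- Claims 2 to 4: from the map `τ` to the normal complement. -/
theorem hall_core {G : Type u} [Group G] [Fintype G] (H : Subgroup G) (m n N : ℕ)
    (hm : m = Nat.card H) (hmn : Nat.card G = m * n) (hcop : Nat.Coprime m n)
    (hN1 : N ≡ 1 [MOD m]) (hN0 : n ∣ N)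
    (τ : G → H)
    (hτK : ∀ x : G, τ x = 1 ↔ x ^ N = 1)
    (hτ2 : ∀ (ϑ : H → ℂ), IsClassFunction H ϑ → ∀ h : H, ϑ (τ (h : G)) = ϑ h)
    (hgen : ∀ χ : H → ℂ, IsCharacter H χ → IsGeneralizedCharacter G (χ ∘ τ)) :
    ∃ K : Subgroup G, K.Normal ∧ K ⊔ H = ⊤ ∧ K ⊓ H = ⊥ := by
  classical
  haveI : Fintype H := Fintype.ofFinite _
  haveI := Helper24.finite_irrCharacter (G := H)
  haveI := Fintype.ofFinite (IrrCharacter H)
  have hGne : (Nat.card G : ℂ) ≠ 0 := by exact_mod_cast Nat.card_pos.ne'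
  have hHne : (Nat.card H : ℂ) ≠ 0 := by exact_mod_cast Nat.card_pos.ne'
  have hirrcf : ∀ χ : IrrCharacter H, IsClassFunction H (χ : H → ℂ) :=
    fun χ => Helper2.IsIrrCharacter.isClassFunction χ.2
  obtain ⟨Θ, hΘ⟩ : ∃ Θ : H → H → ℂ, ∀ h y, Θ h y =
      ∑ χ : IrrCharacter H, (χ : H → ℂ) y * (starRingEnd ℂ) ((χ : H → ℂ) h) :=
    ⟨_, fun _ _ => rfl⟩
  have hΘval : ∀ h y, Θ h y = if IsConj y h then
      (Nat.card (Subgroup.centralizer ({h} : Set H)) : ℂ) else 0 := by
    intro h y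
    rw [hΘ]
    exact Helper2.second_orthogonality y h
  have hΘcf : ∀ h, IsClassFunction H (Θ h) := by
    intro h y a
    rw [hΘ, hΘ]
    apply Finset.sum_congr rfl
    intro χ _
    rw [hirrcf χ y a]
  have hexpand : ∀ ϑ : H → ℂ, IsClassFunction H ϑ → ∀ y : H,
      ϑ y = (Nat.card H : ℂ)⁻¹ * ∑ h : H, ϑ h * Θ h y := by
    intro ϑ hϑ y
    have h1 := congrFun (Helper2.class_fn_expansion hϑ) y
    rw [Finset.sum_apply] at h1
    refine h1.trans ?_
    simp only [Pi.smul_apply, smul_eq_mul, classInner, hΘ, Finset.mul_sum, Finset.sum_mul]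
    rw [Finset.sum_comm]
    apply Finset.sum_congr rfl
    intro h _
    apply Finset.sum_congr rfl
    intro χ _
    ring
  obtain ⟨J, hJ⟩ : ∃ J : (H → ℂ) → ℂ, ∀ ϑ, J ϑ = (Nat.card G : ℂ)⁻¹ * ∑ x : G, ϑ (τ x) :=
    ⟨_, fun _ => rfl⟩
  have hJint : ∀ χ : IrrCharacter H, ∃ z : ℤ, J (χ : H → ℂ) = z := by
    intro χ
    obtain ⟨z, hz⟩ := Helper10.gen_inner_int (hgen _ (Helper24.isCharacter_of_irr χ.2))
      (Helper10.isGeneralizedCharacter_of_irr (Helper2.isIrrCharacter_one_fun (G := G)))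
    refine ⟨z, ?_⟩
    rw [← hz, hJ, classInner]
    simp
  have hkJ : ∀ h : H, J (Θ h) =
      ∑ χ : IrrCharacter H, (starRingEnd ℂ) ((χ : H → ℂ) h) * J (χ : H → ℂ) := by
    intro h
    simp only [hJ, hΘ, Finset.mul_sum]
    rw [Finset.sum_comm]
    apply Finset.sum_congr rfl
    intro χ _
    apply Finset.sum_congr rfl
    intro x _
    ring
  have hkint : ∀ h : H, IsIntegral ℤ (J (Θ h)) := by
    intro h
    rw [hkJ]
    apply IsIntegral.sum
    intro χ _
    obtain ⟨z, hz⟩ := hJint χ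
    rw [hz]
    apply IsIntegral.mul
    · rw [← Helper24.char_inv (Helper24.isCharacter_of_irr χ.2)]
      exact Helper2.IsCharacter.isIntegral (Helper24.isCharacter_of_irr χ.2) h⁻¹
    · exact isIntegral_algebraMap (R := ℤ) (A := ℂ) (x := z)
  have hkpos : ∀ h : H, ∃ q : ℚ, 0 < q ∧ J (Θ h) = (q : ℂ) := by
    intro h
    obtain ⟨c, hc⟩ : ∃ c : ℕ, c = Nat.card (Subgroup.centralizer ({h} : Set H)) := ⟨_, rfl⟩
    have hcpos : 0 < c := by rw [hc]; exact Nat.card_pos
    have hsum : ∑ x : G, Θ h (τ x) =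
        ((∑ x : G, if IsConj (τ x) h then c else 0 : ℕ) : ℂ) := by
      push_cast
      apply Finset.sum_congr rfl
      intro x _
      rw [hΘval, hc]
    have hconj : IsConj (τ (h : G)) h := by
      by_contra hcon
      have h1 := hτ2 (Θ h) (hΘcf h) h
      rw [hΘval, hΘval, if_neg hcon, if_pos (IsConj.refl h), ← hc] at h1
      exact (Nat.cast_ne_zero.mpr hcpos.ne') h1.symm
    have hapos : 0 < ∑ x : G, (if IsConj (τ x) h then c else 0) := by
      apply Finset.sum_pos'
      · intro x _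
        exact Nat.zero_le _
      · exact ⟨(h : G), Finset.mem_univ _, by rw [if_pos hconj]; exact hcpos⟩
    refine ⟨((∑ x : G, if IsConj (τ x) h then c else 0 : ℕ) : ℚ) / (Nat.card G : ℚ),
      div_pos (by exact_mod_cast hapos) (by exact_mod_cast Nat.card_pos), ?_⟩
    rw [hJ, hsum]
    push_cast
    rw [div_eq_inv_mul]
    congr 1
    apply Finset.sum_congr rfl
    intro x _
    split_ifs <;> simp
  have hkz : ∀ h : H, ∃ z : ℤ, 1 ≤ z ∧ J (Θ h) = (z : ℂ) := by
    intro h
    obtain ⟨q, hq0, hq⟩ := hkpos h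
    have hint := hkint h
    rw [hq] at hint
    obtain ⟨z, hz⟩ := Helper2.int_of_isIntegral_rat hint
    refine ⟨z, ?_, ?_⟩
    · rw [hz] at hq0
      have h0 : (0 : ℤ) < z := by exact_mod_cast hq0
      omega
    · rw [hq, hz]
      push_cast
      rfl
  choose z hz1 hz using hkz
  have hsumΘ : ∀ y : H, ∑ h : H, Θ h y = (Nat.card H : ℂ) := by
    intro y
    have h1 := hexpand (fun _ => 1) (fun _ _ => rfl) y
    simp only [one_mul] at h1
    have h2 : (Nat.card H : ℂ) * 1 = (Nat.card H : ℂ) * ((Nat.card H : ℂ)⁻¹ * ∑ h, Θ h y) :=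
      congrArg _ h1
    rw [mul_one, ← mul_assoc, mul_inv_cancel₀ hHne, one_mul] at h2
    exact h2.symm
  have hsumk : ∑ h : H, J (Θ h) = (Nat.card H : ℂ) := by
    simp only [hJ]
    rw [← Finset.mul_sum, Finset.sum_comm]
    simp only [hsumΘ]
    rw [Finset.sum_const, Finset.card_univ, nsmul_eq_mul, ← Nat.card_eq_fintype_card,
      ← mul_assoc, inv_mul_cancel₀ hGne, one_mul]
  have hzsum : ∑ h : H, (z h - 1) = 0 := by
    have h1 : ((∑ h : H, z h : ℤ) : ℂ) = (Nat.card H : ℂ) := by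
      rw [← hsumk]
      push_cast
      exact Finset.sum_congr rfl (fun h _ => (hz h).symm)
    have h2 : (∑ h : H, z h : ℤ) = (Nat.card H : ℤ) := by exact_mod_cast h1
    rw [Finset.sum_sub_distrib, h2, Finset.sum_const, Finset.card_univ,
      ← Nat.card_eq_fintype_card]
    simp
  have hz_one : ∀ h : H, z h = 1 := by
    intro h
    have h1 := (Finset.sum_eq_zero_iff_of_nonneg (fun h _ => by have := hz1 h; omega)).mp
      hzsum h (Finset.mem_univ _)
    omega
  have hk1 : ∀ h : H, J (Θ h) = 1 := by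
    intro h
    rw [hz, hz_one]
    simp
  have hclaim2 : ∀ ϑ : H → ℂ, IsClassFunction H ϑ →
      J ϑ = (Nat.card H : ℂ)⁻¹ * ∑ h : H, ϑ h := by
    intro ϑ hϑ
    have h1 : J ϑ = (Nat.card H : ℂ)⁻¹ * ∑ h : H, ϑ h * J (Θ h) := by
      simp only [hJ]
      have h2 : ∀ x : G, ϑ (τ x) = (Nat.card H : ℂ)⁻¹ * ∑ h : H, ϑ h * Θ h (τ x) :=
        fun x => hexpand ϑ hϑ (τ x)
      rw [Finset.sum_congr rfl (fun x _ => h2 x)]
      simp only [Finset.mul_sum]
      rw [Finset.sum_comm]
      apply Finset.sum_congr rfl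
      intro h _
      apply Finset.sum_congr rfl
      intro x _
      ring
    rw [h1]
    simp only [hk1, mul_one]
  have hirr : ∀ χ : IrrCharacter H, IsIrrCharacter G ((χ : H → ℂ) ∘ τ) := by
    intro χ
    have hχc := Helper24.isCharacter_of_irr χ.2
    have hnorm : classInner ((χ : H → ℂ) ∘ τ) ((χ : H → ℂ) ∘ τ) = 1 := by
      have hcf2 : IsClassFunction H
          (fun y => (χ : H → ℂ) y * (starRingEnd ℂ) ((χ : H → ℂ) y)) := by
        intro y a
        show (χ : H → ℂ) (a * y * a⁻¹) * (starRingEnd ℂ) ((χ : H → ℂ) (a * y * a⁻¹)) = _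
        rw [hirrcf χ y a]
      have h1 := hclaim2 _ hcf2
      rw [hJ] at h1
      have h2 : classInner (χ : H → ℂ) (χ : H → ℂ) = 1 := by
        rw [Helper2.classInner_irr χ.2 χ.2, if_pos rfl]
      rw [classInner] at h2 ⊢
      rw [← h2]
      exact h1
    obtain ⟨ψ, e, hψ, he, hψe⟩ := Helper10.gen_norm_one (hgen _ hχc) hnorm
    have h1 : (χ : H → ℂ) 1 = (e : ℂ) * ψ 1 := by
      have h2 := congrFun hψe 1
      have h3 := hτ2 (χ : H → ℂ) (hirrcf χ) 1
      simp only [Function.comp_apply, Pi.smul_apply, smul_eq_mul] at h2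
      rw [OneMemClass.coe_one] at h3
      rw [← h3, h2]
    rcases he with he | he
    · rw [hψe, he]
      simpa using hψ
    · exfalso
      rw [he, Helper24.charDegree_spec hχc,
        Helper24.charDegree_spec (Helper24.isCharacter_of_irr hψ)] at h1
      have hp1 := Helper24.irr_degree_pos χ.2
      have hp2 := Helper24.irr_degree_pos hψ
      have h4 : ((charDegree (χ : H → ℂ) + charDegree ψ : ℕ) : ℂ) = 0 := by
        push_cast
        rw [h1]
        push_cast
        ring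
      have h5 : charDegree (χ : H → ℂ) + charDegree ψ = 0 := by exact_mod_cast h4
      omega
  have hchar : ∀ χ : IrrCharacter H, IsCharacter G ((χ : H → ℂ) ∘ τ) :=
    fun χ => Helper24.isCharacter_of_irr (hirr χ)
  obtain ⟨K, hKdef⟩ : ∃ K : Subgroup G,
      K = ⨅ χ : IrrCharacter H, Helper24.charKerSubgroup (hchar χ) := ⟨_, rfl⟩
  have hKn : K.Normal := by
    rw [hKdef]
    exact Subgroup.normal_iInf_normal (fun χ => Helper24.charKerSubgroup_normal (hchar χ))
  have hτone : τ 1 = 1 := (hτK 1).mpr (one_pow N)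
  have hKmem : ∀ x : G, x ∈ K ↔ x ^ N = 1 := by
    intro x
    rw [hKdef, Subgroup.mem_iInf]
    constructor
    · intro hx
      rw [← hτK]
      have h1 : Θ 1 (τ x) = Θ 1 1 := by
        rw [hΘ, hΘ]
        apply Finset.sum_congr rfl
        intro χ _
        have h2 := (Helper24.mem_charKerSubgroup (hchar χ) x).mp (hx χ)
        simp only [Function.comp_apply, hτone] at h2
        rw [h2]
      rw [hΘval, hΘval, if_pos (IsConj.refl 1)] at h1
      by_contra hne
      rw [if_neg (fun hc => hne (isConj_one_left.mp hc))] at h1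
      exact (Nat.cast_ne_zero.mpr Nat.card_pos.ne') h1.symm
    · intro hx χ
      rw [Helper24.mem_charKerSubgroup]
      show (χ : H → ℂ) (τ x) = (χ : H → ℂ) (τ 1)
      rw [(hτK x).mpr hx, hτone]
  have hHm : ∀ h : G, h ∈ H → h ^ m = 1 := by
    intro h hh
    have h1 : (⟨h, hh⟩ : H) ^ Nat.card H = 1 := pow_card_eq_one'
    rw [hm]
    have h2 := congrArg Subtype.val h1
    rw [Subgroup.coe_pow, Subgroup.coe_one] at h2
    exact h2
  have hord : ∀ z : G, z ^ (m * n) = 1 := fun z => by rw [← hmn]; exact pow_card_eq_one'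
  have hdisj : K ⊓ H = ⊥ := by
    rw [eq_bot_iff]
    intro x hx
    obtain ⟨hxK, hxH⟩ := Subgroup.mem_inf.mp hx
    rw [Subgroup.mem_bot]
    rw [← PiSection.pw_one m N hN1 x (hHm x hxH)]
    exact (hKmem x).mp hxK
  have hpowK : ∀ x : G, x ^ m ∈ K := by
    intro x
    rw [hKmem]
    obtain ⟨t, rfl⟩ := hN0
    rw [← pow_mul, ← mul_assoc, pow_mul, hord, one_pow]
  have hidx1 : K.index ∣ m := by
    have hexp : ∀ q : G ⧸ K, q ^ m = 1 := by
      intro q
      induction q using QuotientGroup.induction_on with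
      | H x =>
        rw [← QuotientGroup.mk_pow, QuotientGroup.eq_one_iff]
        exact hpowK x
    have hcopK : Nat.Coprime K.index n := by
      apply Nat.coprime_of_dvd
      intro q hq hqc hqn
      haveI : Fact q.Prime := ⟨hq⟩
      have hqc' : q ∣ Nat.card (G ⧸ K) := hqc
      obtain ⟨z, hz⟩ := exists_prime_orderOf_dvd_card' q hqc'
      have hqm : q ∣ m := by
        rw [← hz]
        exact orderOf_dvd_of_pow_eq_one (hexp z)
      have := Nat.dvd_gcd hqm hqn
      rw [Nat.Coprime.gcd_eq_one hcop] at this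
      exact hq.one_lt.ne' (Nat.dvd_one.mp this)
    have hdvd : K.index ∣ m * n := by
      rw [← hmn]
      exact Subgroup.index_dvd_card K
    exact hcopK.dvd_of_dvd_mul_right hdvd
  have hidx2 : m ∣ K.index := by
    rw [hm]
    let f : H →* G ⧸ K := (QuotientGroup.mk' K).comp H.subtype
    have hf : Function.Injective f := by
      rw [injective_iff_map_eq_one]
      intro h hh
      have h1 : (h : G) ∈ K := (QuotientGroup.eq_one_iff _).mp hh
      have h2 : (h : G) ∈ K ⊓ H := Subgroup.mem_inf.mpr ⟨h1, h.2⟩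
      rw [hdisj, Subgroup.mem_bot] at h2
      exact Subtype.ext h2
    exact Subgroup.card_dvd_of_injective f hf
  have hidx : K.index = m := Nat.dvd_antisymm hidx1 hidx2
  have hcard : Nat.card K * Nat.card H = Nat.card G := by
    rw [← hm, ← hidx]
    exact Subgroup.card_mul_index K
  refine ⟨K, hKn, ?_, hdisj⟩
  exact (Subgroup.isComplement'_of_card_mul_and_disjoint hcard
    (disjoint_iff.mpr hdisj)).sup_eq_top

/-- Brauer and Suzuki: a Hall subgroup controlling its own fusion, into which all elementary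
subgroups of suitable order can be conjugated, has a normal complement. -/
theorem hall_complement {G : Type u} [Group G] [Finite G] (H : Subgroup G)
    (hHall : Nat.Coprime (Nat.card H) H.index)
    (hfus : ∀ x ∈ H, ∀ y ∈ H, IsConj x y → ∃ h ∈ H, h * x * h⁻¹ = y)
    (helem : ∀ (E : Subgroup G) (p : ℕ), p.Prime → IsElementary p E →
      Nat.card E ∣ Nat.card H → ∃ g : G, E.map (MulAut.conj g).toMonoidHom ≤ H) :
    ∃ K : Subgroup G, K.Normal ∧ K ⊔ H = ⊤ ∧ K ⊓ H = ⊥ := by
  classical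
  cases nonempty_fintype G
  obtain ⟨m, hm⟩ : ∃ m : ℕ, m = Nat.card H := ⟨_, rfl⟩
  obtain ⟨n, hn⟩ : ∃ n : ℕ, n = H.index := ⟨_, rfl⟩
  rw [← hm, ← hn] at hHall
  have hmn : Nat.card G = m * n := by
    rw [hm, hn]
    exact (Subgroup.card_mul_index H).symm
  obtain ⟨N, hN1, hN0'⟩ : ∃ N : ℕ, N ≡ 1 [MOD m] ∧ N ≡ 0 [MOD n] :=
    ⟨(Nat.chineseRemainder hHall 1 0 : ℕ), (Nat.chineseRemainder hHall 1 0).2.1,
      (Nat.chineseRemainder hHall 1 0).2.2⟩
  have hN0 : n ∣ N := (Nat.modEq_zero_iff_dvd).mp hN0'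
  have hord : ∀ z : G, z ^ (m * n) = 1 := fun z => by rw [← hmn]; exact pow_card_eq_one'
  have hNm : ∀ x : G, (x ^ N) ^ m = 1 := by
    intro x
    obtain ⟨t, rfl⟩ := hN0
    rw [← pow_mul, mul_right_comm, mul_comm n m, pow_mul, hord, one_pow]
  have hHm : ∀ h : H, (h : G) ^ m = 1 := by
    intro h
    have h1 : h ^ Nat.card H = 1 := pow_card_eq_one'
    rw [hm]
    have h2 := congrArg Subtype.val h1
    rw [Subgroup.coe_pow, Subgroup.coe_one] at h2
    exact h2
  obtain ⟨p, hpgt, hp⟩ := Nat.exists_infinite_primes (Nat.card G + 1)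
  have hex : ∀ x : G, ∃ g : G, g * x ^ N * g⁻¹ ∈ H := by
    intro x
    have hE := isElementary_zpowers (x ^ N) p hp (by omega)
    have hcard : Nat.card (Subgroup.zpowers (x ^ N)) ∣ Nat.card H := by
      rw [Nat.card_zpowers, ← hm]
      exact orderOf_dvd_of_pow_eq_one (hNm x)
    obtain ⟨g, hg⟩ := helem _ p hp hE hcard
    exact ⟨g, hg (Subgroup.mem_map.mpr ⟨x ^ N, Subgroup.mem_zpowers _, by
      simp [MulAut.conj_apply]⟩)⟩
  choose gx hgx using hex
  obtain ⟨τ, hτdef⟩ : ∃ τ : G → H, ∀ x, (τ x : G) = gx x * x ^ N * (gx x)⁻¹ :=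
    ⟨fun x => ⟨gx x * x ^ N * (gx x)⁻¹, hgx x⟩, fun _ => rfl⟩
  have hτ1 : ∀ (ϑ : H → ℂ), IsClassFunction H ϑ → ∀ (x g : G) (hg : g * x ^ N * g⁻¹ ∈ H),
      ϑ (τ x) = ϑ ⟨g * x ^ N * g⁻¹, hg⟩ := by
    intro ϑ hϑ x g hg
    have hconj : IsConj (gx x * x ^ N * (gx x)⁻¹) (g * x ^ N * g⁻¹) := by
      rw [isConj_iff]
      exact ⟨g * (gx x)⁻¹, by group⟩
    obtain ⟨h, hh, he⟩ := hfus _ (hgx x) _ hg hconj
    have h1 : (⟨g * x ^ N * g⁻¹, hg⟩ : H) = ⟨h, hh⟩ * τ x * (⟨h, hh⟩ : H)⁻¹ := by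
      apply Subtype.ext
      show g * x ^ N * g⁻¹ = h * (τ x : G) * h⁻¹
      rw [hτdef, he]
    rw [h1]
    exact (hϑ (τ x) ⟨h, hh⟩).symm
  have hτ2 : ∀ (ϑ : H → ℂ), IsClassFunction H ϑ → ∀ h : H, ϑ (τ (h : G)) = ϑ h := by
    intro ϑ hϑ h
    have hh : (h : G) ^ N = h := PiSection.pw_one m N hN1 _ (hHm h)
    have hmem : (1 : G) * (h : G) ^ N * (1 : G)⁻¹ ∈ H := by
      rw [hh]
      simp
    rw [hτ1 ϑ hϑ (h : G) 1 hmem]
    congr 1
    apply Subtype.ext
    simp [hh]
  have hcl : ∀ (ϑ : H → ℂ), IsClassFunction H ϑ → IsClassFunction G (ϑ ∘ τ) := by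
    intro ϑ hϑ x a
    show ϑ (τ (a * x * a⁻¹)) = ϑ (τ x)
    have he : gx x * a⁻¹ * (a * x * a⁻¹) ^ N * (gx x * a⁻¹)⁻¹ = gx x * x ^ N * (gx x)⁻¹ := by
      rw [conj_pow]
      group
    have hmem : gx x * a⁻¹ * (a * x * a⁻¹) ^ N * (gx x * a⁻¹)⁻¹ ∈ H := by
      rw [he]
      exact hgx x
    rw [hτ1 ϑ hϑ (a * x * a⁻¹) (gx x * a⁻¹) hmem]
    congr 1
    apply Subtype.ext
    rw [hτdef]
    exact he
  have hτK : ∀ x : G, τ x = 1 ↔ x ^ N = 1 := by
    intro x
    constructor
    · intro h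
      have h1 : gx x * x ^ N * (gx x)⁻¹ = 1 := by
        rw [← hτdef, h]
        rfl
      exact conj_eq_one_iff.mp h1
    · intro h
      apply Subtype.ext
      rw [hτdef, h]
      simp
  exact hall_core H m n N hm hmn hHall hN1 hN0 τ hτK hτ2
    (fun χ hχ => tau_gen H m n N hm hmn hHall hN1 hN0 helem τ hτ1 χ hχ
      (hcl χ (Helper2.IsCharacter.isClassFunction hχ)))

end HallCompl

end Cfsg.Agent.Helper6
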