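import Mathlib

set_option autoImplicit false

namespace Cfsg.Agent.Helper6

open Module

section Norm

variable {F : Type*} [Field F] [Finite F]

/-- Surjectivity of the norm `a ↦ σ a * a` onto the nonzero fixed points of an involution
`σ ≠ id` of a finite field. -/
theorem norm_surj (σ : F →+* F) (hσ : σ ≠ RingHom.id F) (hσ2 : ∀ a : F, σ (σ a) = a)
    (c : F) (hc : σ c = c) (hc0 : c ≠ 0) : ∃ a : F, σ a * a = c := by
  classical
  let σ' : Fˣ →* Fˣ := Units.map σ.toMonoidHom
  have hσ'v : ∀ u : Fˣ, ((σ' u : Fˣ) : F) = σ (u : F) := fun u => rfl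
  have hσ'2 : ∀ u : Fˣ, σ' (σ' u) = u := by
    intro u; apply Units.ext; rw [hσ'v, hσ'v, hσ2]
  let N : Fˣ →* Fˣ :=
    { toFun := fun a => a * σ' a
      map_one' := by simp
      map_mul' := by intro a b; rw [map_mul]; exact mul_mul_mul_comm a b (σ' a) (σ' b) }
  let φ : Fˣ →* Fˣ :=
    { toFun := fun b => b * (σ' b)⁻¹
      map_one' := by simp
      map_mul' := by
        intro a b; rw [map_mul, mul_inv]; exact mul_mul_mul_comm a b (σ' a)⁻¹ (σ' b)⁻¹ }
  have hNapp : ∀ a : Fˣ, N a = a * σ' a := fun a => rfl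
  have hφapp : ∀ a : Fˣ, φ a = a * (σ' a)⁻¹ := fun a => rfl
  -- N.ker = φ.range
  have hker : N.ker = φ.range := by
    ext a
    rw [MonoidHom.mem_ker, MonoidHom.mem_range, hNapp]
    constructor
    · intro ha
      -- Hilbert 90
      have hex : ∃ x : F, x + (a : F) * σ x ≠ 0 := by
        by_contra hcon
        push Not at hcon
        have h1 := hcon 1
        rw [map_one, mul_one] at h1
        have ha1 : (a : F) = -1 := by linear_combination h1
        apply hσ
        ext x
        have hx := hcon x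
        rw [ha1] at hx
        rw [RingHom.id_apply]
        linear_combination -hx
      obtain ⟨x, hx⟩ := hex
      have haF : (a : F) * σ (a : F) = 1 := by
        have := congrArg (fun u : Fˣ => (u : F)) ha
        simpa [hσ'v] using this
      have hy : (a : F) * σ (x + (a : F) * σ x) = x + (a : F) * σ x := by
        rw [map_add, map_mul, hσ2, mul_add, ← mul_assoc, haF, one_mul, add_comm]
      refine ⟨Units.mk0 _ hx, ?_⟩
      rw [hφapp, mul_inv_eq_iff_eq_mul]
      apply Units.ext
      rw [Units.val_mul, hσ'v, Units.val_mk0]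
      exact hy.symm
    · rintro ⟨b, rfl⟩
      rw [hφapp, map_mul, map_inv, hσ'2]
      group
  -- fixed subgroup = φ.ker
  have hfix : ∀ u : Fˣ, u ∈ φ.ker ↔ σ' u = u := by
    intro u
    rw [MonoidHom.mem_ker, hφapp, mul_inv_eq_one, eq_comm]
  have hle : N.range ≤ φ.ker := by
    rintro _ ⟨a, rfl⟩
    rw [hfix, hNapp, map_mul, hσ'2, mul_comm]
  have hcardN := Subgroup.card_mul_index N.ker
  have hcardφ := Subgroup.card_mul_index φ.ker
  rw [Subgroup.index_ker] at hcardN hcardφ
  rw [hker] at hcardN
  have hpos : 0 < Nat.card φ.range := Nat.card_pos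
  have hcard : Nat.card φ.ker ≤ Nat.card N.range := by
    have : Nat.card φ.range * Nat.card N.range = Nat.card φ.range * Nat.card φ.ker := by
      rw [hcardN, mul_comm, hcardφ]
    exact (Nat.eq_of_mul_eq_mul_left hpos this).ge
  have heq : N.range = φ.ker := Subgroup.eq_of_le_of_card_ge hle hcard
  have hcmem : Units.mk0 c hc0 ∈ φ.ker := by
    rw [hfix]
    apply Units.ext
    rw [hσ'v, Units.val_mk0, hc]
  rw [← heq] at hcmem
  obtain ⟨a, ha⟩ := hcmem
  refine ⟨(a : F), ?_⟩
  have := congrArg (fun u : Fˣ => (u : F)) ha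
  simp only [hNapp, Units.val_mul, hσ'v, Units.val_mk0] at this
  rw [mul_comm]; exact this

end Norm

section Restrict

variable {F V : Type*} [Field F] [AddCommGroup V] [Module F V]

/-- The orthogonal complement of a vector, as the kernel of `B v`. -/
theorem finrank_ker_add_one [FiniteDimensional F V] {σ : F →+* F} (B : V →ₛₗ[σ] V →ₗ[F] F)
    (v : V) (hv : B v v ≠ 0) : finrank F (LinearMap.ker (B v)) + 1 = finrank F V := by
  have hsurj : Function.Surjective (B v) := by
    intro c
    refine ⟨(c / B v v) • v, ?_⟩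
    rw [map_smul, smul_eq_mul, div_mul_cancel₀ c hv]
  have hr : LinearMap.range (B v) = ⊤ := LinearMap.range_eq_top.mpr hsurj
  have h := LinearMap.finrank_range_add_finrank_ker (B v)
  rw [hr, finrank_top, finrank_self] at h
  omega

theorem restrict_isSymm {σ : F →+* F} (B : V →ₛₗ[σ] V →ₗ[F] F) (hS : B.IsSymm)
    (W : Submodule F V) : (B.domRestrict₁₂ W W).IsSymm :=
  ⟨fun x y => hS.eq (x : V) (y : V)⟩

theorem restrict_nondegenerate {σ : F →+* F} (B : V →ₛₗ[σ] V →ₗ[F] F) (hS : B.IsSymm)
    (hB : B.Nondegenerate) (v : V) (hv : B v v ≠ 0) :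
    (B.domRestrict₁₂ (LinearMap.ker (B v)) (LinearMap.ker (B v))).Nondegenerate := by
  have hdecomp : ∀ x : V, x - (B v x / B v v) • v ∈ LinearMap.ker (B v) := by
    intro x
    rw [LinearMap.mem_ker, map_sub, map_smul, smul_eq_mul, div_mul_cancel₀ _ hv, sub_self]
  have key : ∀ w ∈ LinearMap.ker (B v),
      (∀ w' ∈ LinearMap.ker (B v), B w w' = 0) → w = 0 := by
    intro w hw h
    apply hB.1 w
    intro x
    have h1 := h _ (hdecomp x)
    have h2 : B w v = 0 := by
      rw [← hS.eq v w, LinearMap.mem_ker.mp hw, map_zero]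
    rw [map_sub, map_smul, h2, smul_zero, sub_zero] at h1
    exact h1
  constructor
  · intro w hw
    apply Subtype.ext
    apply key w.1 w.2
    intro w' hw'
    exact hw ⟨w', hw'⟩
  · intro w hw
    apply Subtype.ext
    apply key w.1 w.2
    intro w' hw'
    have := hw ⟨w', hw'⟩
    rw [LinearMap.domRestrict₁₂_apply] at this
    show B (w : V) w' = 0
    rw [← hS.eq w' w, this, map_zero]

theorem linearIndependent_of_orthogonal {σ : F →+* F} (B : V →ₛₗ[σ] V →ₗ[F] F) {ι : Type*}
    [Fintype ι] [DecidableEq ι] (b : ι → V) (h0 : ∀ i j, i ≠ j → B (b i) (b j) = 0)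
    (h1 : ∀ i, B (b i) (b i) ≠ 0) : LinearIndependent F b := by
  rw [Fintype.linearIndependent_iff]
  intro g hg j
  have := congrArg (B (b j)) hg
  rw [map_sum, map_zero] at this
  rw [Finset.sum_eq_single j] at this
  · rw [map_smul, smul_eq_mul] at this
    rcases mul_eq_zero.mp this with h | h
    · exact h
    · exact absurd h (h1 j)
  · intro i _ hij
    rw [map_smul, h0 j i (Ne.symm hij), smul_zero]
  · intro h; exact absurd (Finset.mem_univ j) h

end Restrict

end Cfsg.Agent.Helper6
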