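import Mathlib
import Cfsg.Prelude.Def_Characters
import Cfsg.Agent.Helper6.GlauLemma
import Cfsg.Agent.Helper6.GoingDown
import Cfsg.Agent.Helper24.ItoPSolv

set_option autoImplicit false

namespace Cfsg.Agent.Helper6.InvConst

open Cfsg

variable {Γ : Type*} [Group Γ]

theorem le_normalizer_of_conj_mem (S H : Subgroup Γ)
    (h : ∀ s ∈ S, ∀ g ∈ H, s * g * s⁻¹ ∈ H) : S ≤ Subgroup.normalizer (H : Set Γ) := by
  intro s hs
  rw [Subgroup.mem_normalizer_iff]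
  intro g
  constructor
  · exact h s hs g
  · intro hg
    have h1 := h s⁻¹ (S.inv_mem hs) _ hg
    have h2 : s⁻¹ * (s * g * s⁻¹) * s⁻¹⁻¹ = g := by group
    rw [h2] at h1
    exact h1

/-- Conjugation by a normalizing element, as an automorphism of the subgroup. -/
def conjEquiv (N : Subgroup Γ) (x : Γ) (hx : x ∈ Subgroup.normalizer (N : Set Γ)) : ↥N ≃* ↥N where
  toFun n := ⟨x * n * x⁻¹, (Subgroup.mem_normalizer_iff.mp hx n).mp n.2⟩
  invFun n := ⟨x⁻¹ * n * x, (Subgroup.mem_normalizer_iff.mp hx _).mpr (by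
    have h : x * (x⁻¹ * (n : Γ) * x) * x⁻¹ = n := by group
    rw [h]
    exact n.2)⟩
  left_inv n := by
    apply Subtype.ext
    show x⁻¹ * (x * (n : Γ) * x⁻¹) * x = n
    group
  right_inv n := by
    apply Subtype.ext
    show x * (x⁻¹ * (n : Γ) * x) * x⁻¹ = n
    group
  map_mul' a b := by
    apply Subtype.ext
    show x * ((a : Γ) * b) * x⁻¹ = (x * a * x⁻¹) * (x * b * x⁻¹)
    group

/-- The conjugate of a function on `N` by an element normalizing `N`. -/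
def cjN (N : Subgroup Γ) (x : Γ) (hx : x ∈ Subgroup.normalizer (N : Set Γ)) (θ : N → ℂ) :
    N → ℂ := θ ∘ conjEquiv N x hx

theorem cjN_apply (N : Subgroup Γ) (x : Γ) (hx : x ∈ Subgroup.normalizer (N : Set Γ))
    (θ : N → ℂ) (n : N) :
    cjN N x hx θ n = θ ⟨x * n * x⁻¹, (Subgroup.mem_normalizer_iff.mp hx n).mp n.2⟩ := rfl

theorem cjN_mul (N : Subgroup Γ) (a b : Γ) (ha : a ∈ Subgroup.normalizer (N : Set Γ))
    (hb : b ∈ Subgroup.normalizer (N : Set Γ)) (hab : a * b ∈ Subgroup.normalizer (N : Set Γ))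
    (θ : N → ℂ) : cjN N (a * b) hab θ = cjN N b hb (cjN N a ha θ) := by
  funext n
  rw [cjN_apply, cjN_apply, cjN_apply]
  congr 1
  apply Subtype.ext
  show a * b * (n : Γ) * (a * b)⁻¹ = a * (b * (n : Γ) * b⁻¹) * a⁻¹
  group

theorem cjN_one (N : Subgroup Γ) (h1 : (1 : Γ) ∈ Subgroup.normalizer (N : Set Γ)) (θ : N → ℂ) :
    cjN N 1 h1 θ = θ := by
  funext n
  rw [cjN_apply]
  congr 1
  apply Subtype.ext
  show 1 * (n : Γ) * 1⁻¹ = n
  group

theorem cjN_congr (N : Subgroup Γ) {a b : Γ} (hab : a = b)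
    (ha : a ∈ Subgroup.normalizer (N : Set Γ)) (hb : b ∈ Subgroup.normalizer (N : Set Γ))
    (θ : N → ℂ) : cjN N a ha θ = cjN N b hb θ := by
  subst hab
  rfl

/-- The stabilizer of a function on `N` in the normalizer of `N`. -/
def stabN (N : Subgroup Γ) (θ : N → ℂ) : Subgroup Γ where
  carrier := {x | ∃ hx : x ∈ Subgroup.normalizer (N : Set Γ), cjN N x hx θ = θ}
  one_mem' := ⟨Subgroup.one_mem _, cjN_one N _ θ⟩
  mul_mem' := by
    rintro a b ⟨ha, ha'⟩ ⟨hb, hb'⟩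
    refine ⟨Subgroup.mul_mem _ ha hb, ?_⟩
    rw [cjN_mul N a b ha hb, ha', hb']
  inv_mem' := by
    rintro a ⟨ha, ha'⟩
    refine ⟨Subgroup.inv_mem _ ha, ?_⟩
    have h1 := cjN_mul N a a⁻¹ ha (Subgroup.inv_mem _ ha)
      (by rw [mul_inv_cancel]; exact Subgroup.one_mem _) θ
    rw [ha'] at h1
    rw [← h1]
    rw [cjN_congr N (mul_inv_cancel a) _ (Subgroup.one_mem _), cjN_one]

theorem mem_stabN (N : Subgroup Γ) (θ : N → ℂ) (x : Γ) :
    x ∈ stabN N θ ↔ ∃ hx : x ∈ Subgroup.normalizer (N : Set Γ), cjN N x hx θ = θ := Iff.rfl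

theorem isIrrCharacter_cjN (N : Subgroup Γ) [Fintype N] (x : Γ)
    (hx : x ∈ Subgroup.normalizer (N : Set Γ)) {θ : N → ℂ} (hθ : IsIrrCharacter N θ) :
    IsIrrCharacter N (cjN N x hx θ) :=
  isIrrCharacter_comp_mulEquiv _ hθ

theorem classInner_cjN (N : Subgroup Γ) [Fintype N] (x : Γ)
    (hx : x ∈ Subgroup.normalizer (N : Set Γ)) (φ θ : N → ℂ) (hφ : cjN N x hx φ = φ) :
    classInner φ (cjN N x hx θ) = classInner φ θ := by
  conv_lhs => rw [← hφ]
  exact classInner_comp_mulEquiv _ _ _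


/-- Under a coprime action, an invariant irreducible character of `G` has an invariant
irreducible constituent on an invariant normal subgroup `N` (Glauberman's lemma). -/
theorem exists_invariant_below {Γ : Type*} [Group Γ] [Fintype Γ] (G S N : Subgroup Γ)
    [Fintype G] [Fintype N]
    (hSG : S ≤ Subgroup.normalizer (G : Set Γ)) (hNG : N ≤ G) [hNn : (N.subgroupOf G).Normal]
    (hSN : S ≤ Subgroup.normalizer (N : Set Γ))
    (hcop : (N.relIndex G).Coprime (Nat.card S))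
    (hsolv : Group.IsSolvable S ∨ Group.IsSolvable (G ⧸ N.subgroupOf G))
    {χ : G → ℂ} (hχ : IsIrrCharacter G χ)
    (hinv : ∀ s ∈ S, ∀ g g' : G, (g' : Γ) = s * g * s⁻¹ → χ g' = χ g) :
    ∃ θ : N → ℂ, IsIrrCharacter N θ ∧ classInner (fun n : N => χ ⟨n, hNG n.2⟩) θ ≠ 0 ∧
      ∀ s (hs : s ∈ S), cjN N s (hSN hs) θ = θ := by
  classical
  haveI : Fintype ↥(N.subgroupOf G) := Fintype.ofFinite _
  have hGN : G ≤ Subgroup.normalizer (N : Set Γ) :=
    (Subgroup.normal_subgroupOf_iff_le_normalizer hNG).mp hNn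
  let e : ↥(N.subgroupOf G) ≃* ↥N := Subgroup.subgroupOfEquivOfLe hNG
  obtain ⟨χN, hχN⟩ : ∃ χN : N → ℂ, χN = fun n : N => χ ⟨n, hNG n.2⟩ := ⟨_, rfl⟩
  have hχNe : χN ∘ e = fun n' : ↥(N.subgroupOf G) => χ n' := by
    rw [hχN]
    rfl
  have hconv : ∀ θ : N → ℂ,
      classInner χN θ = classInner (fun n' : ↥(N.subgroupOf G) => χ n') (θ ∘ e) := by
    intro θ
    rw [← hχNe, classInner_comp_mulEquiv]
  have hχcf := Helper2.IsCharacter.isClassFunction (Helper24.isCharacter_of_irr hχ)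
  have hG_inv : ∀ g (hg : g ∈ G), cjN N g (hGN hg) χN = χN := by
    intro g hg
    funext n
    rw [cjN_apply, hχN]
    exact hχcf ⟨n, hNG n.2⟩ ⟨g, hg⟩
  have hS_inv : ∀ s (hs : s ∈ S), cjN N s (hSN hs) χN = χN := by
    intro s hs
    funext n
    rw [cjN_apply, hχN]
    exact hinv s hs ⟨n, hNG n.2⟩ ⟨s * n * s⁻¹, _⟩ rfl
  obtain ⟨θ', hθ', hne'⟩ := Helper24.exists_constituent_restrict (N.subgroupOf G) hχ
  obtain ⟨θ₀, hθ₀def⟩ : ∃ θ₀ : N → ℂ, θ₀ = θ' ∘ e.symm := ⟨_, rfl⟩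
  have hθ₀ : IsIrrCharacter N θ₀ := by
    rw [hθ₀def]
    exact isIrrCharacter_comp_mulEquiv e.symm hθ'
  have hθ₀e : θ₀ ∘ e = θ' := by
    rw [hθ₀def]
    funext n
    simp
  have hne₀ : classInner χN θ₀ ≠ 0 := by
    rw [hconv, hθ₀e]
    exact hne'
  have hcliff : ∀ θ₁ : N → ℂ, IsIrrCharacter N θ₁ → classInner χN θ₁ ≠ 0 →
      ∃ g, ∃ hg : g ∈ G, θ₁ = cjN N g (hGN hg) θ₀ := by
    intro θ₁ hθ₁ hne₁
    have hφ : IsIrrCharacter ↥(N.subgroupOf G) (θ₀ ∘ e) := isIrrCharacter_comp_mulEquiv e hθ₀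
    have hφne : classInner (fun n' : ↥(N.subgroupOf G) => χ n') (θ₀ ∘ e) ≠ 0 := by
      rw [← hconv]
      exact hne₀
    obtain ⟨e', F, -, hFconj, -, -, -, hmemF, -⟩ := clifford_finset (N.subgroupOf G) hχ hφ hφne
    have h1 := hmemF (θ₁ ∘ e) (isIrrCharacter_comp_mulEquiv e hθ₁) (by
      rw [← hconv]
      exact hne₁)
    obtain ⟨g, hg⟩ := hFconj _ h1
    refine ⟨(g : Γ), g.2, ?_⟩
    funext n
    have h2 := congrFun hg (e.symm n)
    rw [Function.comp_apply, e.apply_symm_apply, conjFun_apply, Function.comp_apply] at h2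
    rw [h2, cjN_apply]
    congr 1
  have hNSt : N ≤ stabN N θ₀ := by
    intro x hx
    refine ⟨Subgroup.le_normalizer hx, ?_⟩
    funext n
    rw [cjN_apply]
    have hcf := Helper2.IsCharacter.isClassFunction (Helper24.isCharacter_of_irr hθ₀)
    exact hcf n ⟨x, hx⟩
  have htrans : ∀ a ∈ S, ∃ d ∈ G, a * d⁻¹ ∈ stabN N θ₀ := by
    intro a ha
    have h1 : IsIrrCharacter N (cjN N a (hSN ha) θ₀) := isIrrCharacter_cjN N a _ hθ₀
    have h2 : classInner χN (cjN N a (hSN ha) θ₀) ≠ 0 := by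
      rw [classInner_cjN N a _ χN θ₀ (hS_inv a ha)]
      exact hne₀
    obtain ⟨g, hg, hgeq⟩ := hcliff _ h1 h2
    refine ⟨g, hg, ?_⟩
    have hginv : g⁻¹ ∈ Subgroup.normalizer (N : Set Γ) := Subgroup.inv_mem _ (hGN hg)
    refine ⟨Subgroup.mul_mem _ (hSN ha) hginv, ?_⟩
    rw [cjN_mul N a g⁻¹ (hSN ha) hginv, hgeq, ← cjN_mul N g g⁻¹ (hGN hg) hginv (by
        rw [mul_inv_cancel]
        exact Subgroup.one_mem _),
      cjN_congr N (mul_inv_cancel g) _ (Subgroup.one_mem _), cjN_one]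
  obtain ⟨d, hd, hdS⟩ := GlauLemma.rel_gl N G S (stabN N θ₀) hNG hGN hSN hSG hcop.symm hsolv
    hNSt htrans
  refine ⟨cjN N d (hGN hd) θ₀, isIrrCharacter_cjN N d _ hθ₀, ?_, ?_⟩
  · rw [← hχN, classInner_cjN N d _ χN θ₀ (hG_inv d hd)]
    exact hne₀
  · intro s hs
    obtain ⟨h1, h2⟩ := hdS s hs
    rw [← cjN_mul N d s (hGN hd) (hSN hs) (Subgroup.mul_mem _ (hGN hd) (hSN hs))]
    have h3 : d * s = (d * s * d⁻¹) * d := by group
    rw [cjN_congr N h3 _ (Subgroup.mul_mem _ h1 (hGN hd)), cjN_mul N (d * s * d⁻¹) d h1 (hGN hd),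
      h2]

end Cfsg.Agent.Helper6.InvConst
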