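import Mathlib
import Cfsg.Prelude.Def_Characters
import Cfsg.Agent.Helper6.InvConst
import Cfsg.Agent.Helper10.AbQuot

set_option autoImplicit false

namespace Cfsg.Agent.Helper6.InvAbove

open Cfsg
open scoped ComplexConjugate

section Abstract

variable {G : Type*} [Group G] [Fintype G]

/-- Two characters with a common irreducible constituent are not orthogonal. -/
theorem classInner_ne_zero_of_common {A B θ : G → ℂ} (hA : IsCharacter G A)
    (hB : IsCharacter G B) (hθ : IsIrrCharacter G θ) (hAθ : classInner A θ ≠ 0)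
    (hBθ : classInner B θ ≠ 0) : classInner A B ≠ 0 := by
  have hA' := Helper2.isCharacter_sub_of_constituent hA hθ hAθ
  have hB' := Helper2.isCharacter_sub_of_constituent hB hθ hBθ
  have hθc := Helper24.isCharacter_of_irr hθ
  obtain ⟨n1, h1⟩ := Helper2.classInner_char_nat hθc hB'
  obtain ⟨n2, h2⟩ := Helper2.classInner_char_nat hA' hθc
  obtain ⟨n3, h3⟩ := Helper2.classInner_char_nat hA' hB'
  have h4 := Helper2.classInner_irr hθ hθ
  rw [if_pos rfl] at h4
  have hAeq : A = θ + (A - θ) := by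
    funext g
    simp
  have hBeq : B = θ + (B - θ) := by
    funext g
    simp
  rw [hAeq, hBeq, Helper2.classInner_add_left, Helper2.classInner_add_right,
    Helper2.classInner_add_right, h1, h2, h3, h4]
  have : ((1 + n1 + (n2 + n3) : ℕ) : ℂ) ≠ 0 := by
    exact_mod_cast (by omega : 1 + n1 + (n2 + n3) ≠ 0)
  push_cast at this
  exact this

/-- Over a normal subgroup with abelian quotient, two irreducible characters with a common
irreducible constituent below differ by a linear character trivial on the subgroup. -/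
theorem exists_hom_mul_eq (N : Subgroup G) [hN : N.Normal] [Fintype N]
    (hab : ∀ x y : G, x * y * x⁻¹ * y⁻¹ ∈ N) {θ : N → ℂ} (hθ : IsIrrCharacter N θ)
    {ψ ψ' : G → ℂ} (hψ : IsIrrCharacter G ψ) (hψ' : IsIrrCharacter G ψ')
    (hne : classInner (fun n : N => ψ n) θ ≠ 0) (hne' : classInner (fun n : N => ψ' n) θ ≠ 0) :
    ∃ μ : G →* ℂˣ, (∀ n ∈ N, μ n = 1) ∧ ψ' = fun g => ((μ g : ℂˣ) : ℂ) * ψ g := by
  classical
  have := Helper10.finite_hom_units (Q := G)
  have := Fintype.ofFinite (G →* ℂˣ)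
  obtain ⟨Λ, hΛ⟩ : ∃ Λ : Finset (G →* ℂˣ), ∀ μ, μ ∈ Λ ↔ ∀ n ∈ N, μ n = 1 :=
    ⟨Finset.univ.filter (fun μ : G →* ℂˣ => ∀ n ∈ N, μ n = 1), fun μ => by simp⟩
  have hΛ1 : (1 : G →* ℂˣ) ∈ Λ := (hΛ 1).2 (fun n _ => rfl)
  have hF : ∀ g : G, ∑ μ ∈ Λ, ((μ g : ℂˣ) : ℂ) * ψ g =
      if g ∈ N then (Λ.card : ℂ) * ψ g else 0 := by
    intro g
    rw [← Finset.sum_mul]
    obtain ⟨h1, h2⟩ := Helper10.sum_hom_trivial_on N hab Λ hΛ g
    split_ifs with hg
    · rw [h1 hg]
    · rw [h2 hg, zero_mul]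
  have hN0 : (Nat.card N : ℂ) ≠ 0 := by exact_mod_cast Nat.card_pos.ne'
  have hresne : classInner (fun n : N => ψ n) (fun n : N => ψ' n) ≠ 0 :=
    classInner_ne_zero_of_common
      (Helper24.isCharacter_restrict N (Helper24.isCharacter_of_irr hψ))
      (Helper24.isCharacter_restrict N (Helper24.isCharacter_of_irr hψ')) hθ hne hne'
  have hsumN : ∑ n : N, ψ n * conj (ψ' n) ≠ 0 := by
    intro h0
    apply hresne
    unfold classInner
    rw [h0, mul_zero]
  have hinner : classInner (fun g => ∑ μ ∈ Λ, ((μ g : ℂˣ) : ℂ) * ψ g) ψ' ≠ 0 := by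
    have hfun : (fun g => ∑ μ ∈ Λ, ((μ g : ℂˣ) : ℂ) * ψ g) =
        fun g => if g ∈ N then (Λ.card : ℂ) * ψ g else 0 := funext hF
    rw [hfun]
    unfold classInner
    rw [Helper6.sum_subgroup_eq' N
      (fun g => (if g ∈ N then (Λ.card : ℂ) * ψ g else 0) * conj (ψ' g))
      (by intro a ha; rw [if_neg ha, zero_mul])]
    have h3 : ∑ a : N, (if (a : G) ∈ N then (Λ.card : ℂ) * ψ a else 0) * conj (ψ' a) =
        (Λ.card : ℂ) * ∑ n : N, ψ n * conj (ψ' n) := by
      rw [Finset.mul_sum]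
      refine Finset.sum_congr rfl fun a _ => ?_
      rw [if_pos a.2]
      ring
    rw [h3]
    have h1 : (Nat.card G : ℂ)⁻¹ ≠ 0 := by
      apply inv_ne_zero
      exact_mod_cast Nat.card_pos.ne'
    have h2 : (Λ.card : ℂ) ≠ 0 := by
      exact_mod_cast (Finset.card_pos.2 ⟨1, hΛ1⟩).ne'
    exact mul_ne_zero h1 (mul_ne_zero h2 hsumN)
  have hex : ∃ μ ∈ Λ, classInner (fun g => ((μ g : ℂˣ) : ℂ) * ψ g) ψ' ≠ 0 := by
    by_contra hcon
    push Not at hcon
    apply hinner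
    have e1 : (fun g => ∑ μ ∈ Λ, ((μ g : ℂˣ) : ℂ) * ψ g) =
        ∑ μ ∈ Λ, (fun g => ((μ g : ℂˣ) : ℂ) * ψ g) := by
      funext g
      rw [Finset.sum_apply]
    rw [e1, Helper2.classInner_sum_left]
    exact Finset.sum_eq_zero hcon
  obtain ⟨μ, hμ, hμne⟩ := hex
  have hμψ : IsIrrCharacter G (fun g => ((μ g : ℂˣ) : ℂ) * ψ g) := Helper10.irr_mul_hom μ hψ
  refine ⟨μ, (hΛ μ).1 hμ, ?_⟩
  by_contra hcon
  rw [Helper2.classInner_irr hμψ hψ', if_neg (fun h => hcon h.symm)] at hμne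
  exact hμne rfl


theorem exists_pow_eq_self {A : Type*} [CommGroup A] (ΛN : Subgroup A) (k n : ℕ) (hk : k ≠ 0)
    (hcop : Nat.Coprime n k) (hpow : ∀ a ∈ ΛN, a ^ k = 1) :
    ∃ m : ℕ, ∀ a ∈ ΛN, a ^ (n * m) = a := by
  by_cases hk1 : k = 1
  · refine ⟨0, fun a ha => ?_⟩
    have h1 := hpow a ha
    rw [hk1, pow_one] at h1
    rw [h1, one_pow]
  · have hk2 : 1 < k := by omega
    obtain ⟨m, -, hm⟩ := Nat.exists_mul_mod_eq_one_of_coprime hcop hk2
    refine ⟨m, fun a ha => ?_⟩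
    have h1 : n * m = k * (n * m / k) + 1 := by
      have := Nat.div_add_mod (n * m) k
      omega
    rw [h1, pow_add, pow_mul, hpow a ha, one_pow, one_mul, pow_one]

theorem cocycle_avg {A : Type*} [CommGroup A] {S : Type*} [Group S] [Fintype S]
    (Λ₀ ΛN : Subgroup A) (tw : S → A →* A) (μ : S → A) (m : ℕ)
    (hμN : ∀ s, μ s ∈ ΛN)
    (hcoc : ∀ s t : S, μ (s * t) * (tw t (μ s) * μ t)⁻¹ ∈ Λ₀)
    (hpow : ∀ a ∈ ΛN, a ^ (Fintype.card S * m) = a) (t : S) :
    tw t ((∏ s : S, μ s) ^ m) * μ t * ((∏ s : S, μ s) ^ m)⁻¹ ∈ Λ₀ := by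
  have h1 : ∏ s : S, (μ (s * t) * (tw t (μ s) * μ t)⁻¹) ∈ Λ₀ :=
    Subgroup.prod_mem _ (fun s _ => hcoc s t)
  have h2 : ∏ s : S, (μ (s * t) * (tw t (μ s) * μ t)⁻¹) =
      (∏ s : S, μ s) * (tw t (∏ s : S, μ s) * μ t ^ Fintype.card S)⁻¹ := by
    rw [Finset.prod_mul_distrib, Finset.prod_inv_distrib, Finset.prod_mul_distrib,
      Finset.prod_const, Finset.card_univ, map_prod]
    congr 1
    exact Equiv.prod_comp (Equiv.mulRight t) μ
  rw [h2] at h1
  have h3 := Λ₀.pow_mem (Λ₀.inv_mem h1) m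
  have h4 : (μ t ^ Fintype.card S) ^ m = μ t := by
    rw [← pow_mul]
    exact hpow _ (hμN t)
  have h5 : (((∏ s : S, μ s) * (tw t (∏ s : S, μ s) * μ t ^ Fintype.card S)⁻¹)⁻¹) ^ m =
      tw t ((∏ s : S, μ s) ^ m) * μ t * ((∏ s : S, μ s) ^ m)⁻¹ := by
    rw [map_pow, mul_inv_rev, inv_inv, mul_pow, mul_pow, h4, inv_pow]
  rw [h5] at h3
  exact h3

/-- Coprime action by automorphisms, abelian quotient: an invariant irreducible character of
the normal subgroup lies under an invariant irreducible character of the group. -/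
theorem exists_invariant_above_abelian (N : Subgroup G) [hN : N.Normal] [Fintype N]
    (hab : ∀ x y : G, x * y * x⁻¹ * y⁻¹ ∈ N)
    {S : Type*} [Group S] [Finite S] (φ : S →* MulAut G) (hφN : ∀ s : S, ∀ n ∈ N, φ s n ∈ N)
    (hcop : (Nat.card S).Coprime N.index)
    {θ : N → ℂ} (hθ : IsIrrCharacter N θ)
    (hθinv : ∀ (s : S) (n : N), θ ⟨φ s n, hφN s n n.2⟩ = θ n) :
    ∃ χ : G → ℂ, IsIrrCharacter G χ ∧ classInner (fun n : N => χ n) θ ≠ 0 ∧
      ∀ (s : S) (g : G), χ (φ s g) = χ g := by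
  classical
  haveI := Fintype.ofFinite S
  obtain ⟨χ₀, hχ₀, hne₀⟩ := Helper24.exists_irr_over N hθ
  have hφN' : ∀ s : S, ∀ n : G, φ s n ∈ N → n ∈ N := by
    intro s n h
    have h1 := hφN s⁻¹ _ h
    rw [map_inv, MulAut.inv_apply_self] at h1
    exact h1
  have hstep : ∀ s : S, ∃ μ : G →* ℂˣ, (∀ n ∈ N, μ n = 1) ∧
      (fun g => χ₀ (φ s g)) = fun g => ((μ g : ℂˣ) : ℂ) * χ₀ g := by
    intro s
    have hirr : IsIrrCharacter G (fun g => χ₀ (φ s g)) :=
      isIrrCharacter_comp_mulEquiv (φ s) hχ₀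
    have hne : classInner (fun n : N => χ₀ (φ s n)) θ ≠ 0 := by
      let es : ↥N ≃* ↥N :=
        { toFun := fun n => ⟨φ s n, hφN s n n.2⟩
          invFun := fun n => ⟨(φ s).symm n, hφN' s _ (by
            rw [MulEquiv.apply_symm_apply]
            exact n.2)⟩
          left_inv := fun n => Subtype.ext ((φ s).symm_apply_apply n)
          right_inv := fun n => Subtype.ext ((φ s).apply_symm_apply n)
          map_mul' := fun a b => Subtype.ext (map_mul (φ s) (a : G) (b : G)) }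
      have h1 : (fun n : N => χ₀ (φ s n)) = (fun n : N => χ₀ n) ∘ es := rfl
      have h2 : θ = θ ∘ es := by
        funext n
        exact (hθinv s n).symm
      rw [h1, h2, classInner_comp_mulEquiv]
      exact hne₀
    exact exists_hom_mul_eq N hab hθ hχ₀ hirr hne₀ hne
  choose μ hμN hμ using hstep
  -- the homs fixing χ₀
  let Λ₀ : Subgroup (G →* ℂˣ) :=
    { carrier := {lam | ∀ g, ((lam g : ℂˣ) : ℂ) * χ₀ g = χ₀ g}
      one_mem' := fun g => by simp
      mul_mem' := fun {a b} ha hb g => by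
        rw [MonoidHom.mul_apply, Units.val_mul, mul_assoc, hb g, ha g]
      inv_mem' := fun {a} ha g => by
        have h1 := ha g
        rw [MonoidHom.inv_apply]
        have h2 : (((a g)⁻¹ : ℂˣ) : ℂ) * (((a g : ℂˣ) : ℂ) * χ₀ g) = χ₀ g := by
          rw [← mul_assoc, ← Units.val_mul, inv_mul_cancel, Units.val_one, one_mul]
        rw [h1] at h2
        exact h2 }
  let ΛN : Subgroup (G →* ℂˣ) :=
    { carrier := {lam | ∀ n ∈ N, lam n = 1}
      one_mem' := fun n _ => rfl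
      mul_mem' := fun {a b} ha hb n hn => by
        rw [MonoidHom.mul_apply, ha n hn, hb n hn, one_mul]
      inv_mem' := fun {a} ha n hn => by
        rw [MonoidHom.inv_apply, ha n hn, inv_one] }
  let tw : S → (G →* ℂˣ) →* (G →* ℂˣ) := fun t => MonoidHom.compHom' (φ t).toMonoidHom
  -- the cocycle relation
  have hcoc : ∀ s t : S, μ (s * t) * (tw t (μ s) * μ t)⁻¹ ∈ Λ₀ := by
    intro s t g
    have h1 : χ₀ (φ (s * t) g) = ((μ (s * t) g : ℂˣ) : ℂ) * χ₀ g := congrFun (hμ (s * t)) g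
    have h2 : χ₀ (φ s (φ t g)) = ((μ s (φ t g) : ℂˣ) : ℂ) * χ₀ (φ t g) :=
      congrFun (hμ s) (φ t g)
    have h3 : χ₀ (φ t g) = ((μ t g : ℂˣ) : ℂ) * χ₀ g := congrFun (hμ t) g
    have h4 : φ (s * t) g = φ s (φ t g) := by
      rw [map_mul]
      rfl
    rw [h4, h2, h3] at h1
    have h5 : (((μ s (φ t g) * μ t g : ℂˣ) : ℂ)) * χ₀ g = ((μ (s * t) g : ℂˣ) : ℂ) * χ₀ g := by
      rw [Units.val_mul, mul_assoc]
      exact h1
    show (((μ (s * t) g * (μ s (φ t g) * μ t g)⁻¹ : ℂˣ) : ℂ)) * χ₀ g = χ₀ g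
    rw [Units.val_mul]
    calc ((μ (s * t) g : ℂˣ) : ℂ) * (((μ s (φ t g) * μ t g)⁻¹ : ℂˣ) : ℂ) * χ₀ g
        = (((μ s (φ t g) * μ t g)⁻¹ : ℂˣ) : ℂ) * (((μ (s * t) g : ℂˣ) : ℂ) * χ₀ g) := by ring
      _ = χ₀ g := by
        rw [← h5, ← mul_assoc, ← Units.val_mul, inv_mul_cancel, Units.val_one, one_mul]
  have hpow : ∀ lam : G →* ℂˣ, lam ∈ ΛN → lam ^ N.index = 1 := by
    intro lam hlam
    ext g
    have h1 : (lam ^ N.index) g = lam (g ^ N.index) := by
      rw [map_pow]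
      rfl
    rw [h1, hlam _ (Subgroup.pow_index_mem N g)]
    rfl
  have hcop' : Nat.Coprime (Fintype.card S) N.index := by
    rw [← Nat.card_eq_fintype_card]
    exact hcop
  obtain ⟨m, hm⟩ := exists_pow_eq_self ΛN N.index (Fintype.card S)
    (Subgroup.index_ne_zero_of_finite (H := N)) hcop' hpow
  have hfin := cocycle_avg Λ₀ ΛN tw μ m hμN hcoc hm
  obtain ⟨η, hη⟩ : ∃ η : G →* ℂˣ, η = (∏ s : S, μ s) ^ m := ⟨_, rfl⟩
  rw [← hη] at hfin
  have hηN : η ∈ ΛN := by
    rw [hη]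
    exact ΛN.pow_mem (Subgroup.prod_mem _ (fun s _ => hμN s)) m
  refine ⟨fun g => ((η g : ℂˣ) : ℂ) * χ₀ g, Helper10.irr_mul_hom η hχ₀, ?_, ?_⟩
  · have h1 : (fun n : N => ((η (n : G) : ℂˣ) : ℂ) * χ₀ n) = fun n : N => χ₀ n := by
      funext n
      rw [hηN (n : G) n.2, Units.val_one, one_mul]
    rw [h1]
    exact hne₀
  · intro t g
    have h1 : (((η (φ t g) * μ t g * (η g)⁻¹ : ℂˣ) : ℂ)) * χ₀ g = χ₀ g := hfin t g
    have h3 : χ₀ (φ t g) = ((μ t g : ℂˣ) : ℂ) * χ₀ g := congrFun (hμ t) g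
    show ((η (φ t g) : ℂˣ) : ℂ) * χ₀ (φ t g) = ((η g : ℂˣ) : ℂ) * χ₀ g
    rw [h3]
    rw [Units.val_mul, Units.val_mul] at h1
    have h5 : ((η g : ℂˣ) : ℂ) * (((η g)⁻¹ : ℂˣ) : ℂ) = 1 := by
      rw [← Units.val_mul, mul_inv_cancel, Units.val_one]
    calc ((η (φ t g) : ℂˣ) : ℂ) * (((μ t g : ℂˣ) : ℂ) * χ₀ g)
        = ((η g : ℂˣ) : ℂ) * (((η (φ t g) : ℂˣ) : ℂ) * ((μ t g : ℂˣ) : ℂ) *
          ((((η g)⁻¹ : ℂˣ)) : ℂ) * χ₀ g) := by
          linear_combination (-((η (φ t g) : ℂˣ) : ℂ) * ((μ t g : ℂˣ) : ℂ) * χ₀ g) * h5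
      _ = ((η g : ℂˣ) : ℂ) * χ₀ g := by rw [h1]

end Abstract


section Ambient

open InvConst

variable {Γ : Type*} [Group Γ]

theorem map_conj_eq_of_mem_normalizer (H : Subgroup Γ) {x : Γ}
    (hx : x ∈ Subgroup.normalizer (H : Set Γ)) :
    H.map (MulAut.conj x).toMonoidHom = H := by
  ext y
  rw [Subgroup.mem_map]
  constructor
  · rintro ⟨h, hh, rfl⟩
    exact (Subgroup.mem_normalizer_iff.mp hx h).mp hh
  · intro hy
    refine ⟨x⁻¹ * y * x, ?_, ?_⟩
    · apply (Subgroup.mem_normalizer_iff.mp hx _).mpr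
      have h1 : x * (x⁻¹ * y * x) * x⁻¹ = y := by group
      rw [h1]
      exact hy
    · show x * (x⁻¹ * y * x) * x⁻¹ = y
      group

theorem mem_normalizer_sup_commutator (N K : Subgroup Γ) {x : Γ}
    (hxN : x ∈ Subgroup.normalizer (N : Set Γ)) (hxK : x ∈ Subgroup.normalizer (K : Set Γ)) :
    x ∈ Subgroup.normalizer ((N ⊔ ⁅K, K⁆ : Subgroup Γ) : Set Γ) := by
  have h1 : ∀ y : Γ, y ∈ Subgroup.normalizer (N : Set Γ) → y ∈ Subgroup.normalizer (K : Set Γ) →
      ∀ g ∈ (N ⊔ ⁅K, K⁆ : Subgroup Γ), y * g * y⁻¹ ∈ (N ⊔ ⁅K, K⁆ : Subgroup Γ) := by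
    intro y hyN hyK g hg
    have h2 : (N ⊔ ⁅K, K⁆ : Subgroup Γ).map (MulAut.conj y).toMonoidHom = N ⊔ ⁅K, K⁆ := by
      rw [Subgroup.map_sup, Subgroup.map_commutator, map_conj_eq_of_mem_normalizer N hyN,
        map_conj_eq_of_mem_normalizer K hyK]
    rw [← h2]
    exact ⟨g, hg, rfl⟩
  rw [Subgroup.mem_normalizer_iff]
  intro g
  constructor
  · exact h1 x hxN hxK g
  · intro hg
    have h3 := h1 x⁻¹ (Subgroup.inv_mem _ hxN) (Subgroup.inv_mem _ hxK) _ hg
    have h4 : x⁻¹ * (x * g * x⁻¹) * x⁻¹⁻¹ = g := by group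
    rw [h4] at h3
    exact h3

/-- Transitivity of "lies over". -/
theorem constituent_trans (K M N : Subgroup Γ) [Fintype K] [Fintype M] [Fintype N]
    (hNM : N ≤ M) (hMK : M ≤ K) {χ : K → ℂ} (hχ : IsCharacter K χ) {φ : M → ℂ}
    (hφ : IsIrrCharacter M φ) {θ : N → ℂ} (hθ : IsIrrCharacter N θ)
    (h1 : classInner (fun m : M => χ ⟨m, hMK m.2⟩) φ ≠ 0)
    (h2 : classInner (fun n : N => φ ⟨n, hNM n.2⟩) θ ≠ 0) :
    classInner (fun n : N => χ ⟨n, hMK (hNM n.2)⟩) θ ≠ 0 := by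
  have hχM : IsCharacter M (fun m : M => χ ⟨m, hMK m.2⟩) :=
    isCharacter_comp_hom (Subgroup.inclusion hMK) hχ
  have hξ := Helper2.isCharacter_sub_of_constituent hχM hφ h1
  have hφN : IsCharacter N (fun n : N => φ ⟨n, hNM n.2⟩) :=
    isCharacter_comp_hom (Subgroup.inclusion hNM) (Helper24.isCharacter_of_irr hφ)
  have hξN : IsCharacter N (fun n : N => ((fun m : M => χ ⟨m, hMK m.2⟩) - φ) ⟨n, hNM n.2⟩) :=
    isCharacter_comp_hom (Subgroup.inclusion hNM) hξ
  have hθc := Helper24.isCharacter_of_irr hθ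
  obtain ⟨n1, hn1⟩ := Helper2.classInner_char_nat hφN hθc
  obtain ⟨n2, hn2⟩ := Helper2.classInner_char_nat hξN hθc
  have hsplit : (fun n : N => χ ⟨n, hMK (hNM n.2)⟩) =
      (fun n : N => φ ⟨n, hNM n.2⟩) +
        (fun n : N => ((fun m : M => χ ⟨m, hMK m.2⟩) - φ) ⟨n, hNM n.2⟩) := by
    funext n
    simp
  rw [hsplit, Helper2.classInner_add_left, hn1, hn2]
  rw [hn1] at h2
  have h3 : n1 ≠ 0 := by
    intro h0
    rw [h0] at h2
    exact h2 (by simp)
  have : ((n1 + n2 : ℕ) : ℂ) ≠ 0 := by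
    exact_mod_cast (by omega : n1 + n2 ≠ 0)
  push_cast at this
  exact this

/-- The abelian step for a pair of subgroups normalized by `S`. -/
theorem exists_invariant_above_pair [Fintype Γ] (K S M : Subgroup Γ) [Fintype K] [Fintype M]
    (hSK : S ≤ Subgroup.normalizer (K : Set Γ)) (hMK : M ≤ K) [hMn : (M.subgroupOf K).Normal]
    (hSM : S ≤ Subgroup.normalizer (M : Set Γ))
    (hab : ∀ x ∈ K, ∀ y ∈ K, x * y * x⁻¹ * y⁻¹ ∈ M)
    (hcop : (Nat.card S).Coprime (M.relIndex K))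
    {θ : M → ℂ} (hθ : IsIrrCharacter M θ)
    (hθinv : ∀ s (hs : s ∈ S), cjN M s (hSM hs) θ = θ) :
    ∃ χ : K → ℂ, IsIrrCharacter K χ ∧ classInner (fun n : M => χ ⟨n, hMK n.2⟩) θ ≠ 0 ∧
      ∀ s (hs : s ∈ S), cjN K s (hSK hs) χ = χ := by
  classical
  haveI : Fintype ↥(M.subgroupOf K) := Fintype.ofFinite _
  let e : ↥(M.subgroupOf K) ≃* ↥M := Subgroup.subgroupOfEquivOfLe hMK
  let φ : ↥S →* MulAut ↥K := (K.normalizerMonoidHom).comp (Subgroup.inclusion hSK)
  have hφ : ∀ (s : S) (k : K), ((φ s k : K) : Γ) = s * k * (s : Γ)⁻¹ := fun s k => rfl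
  have hφN : ∀ s : S, ∀ n ∈ M.subgroupOf K, φ s n ∈ M.subgroupOf K := by
    intro s n hn
    rw [Subgroup.mem_subgroupOf, hφ]
    exact (Subgroup.mem_normalizer_iff.mp (hSM s.2) _).mp hn
  have hθ' : IsIrrCharacter ↥(M.subgroupOf K) (θ ∘ e) := isIrrCharacter_comp_mulEquiv e hθ
  have hθ'inv : ∀ (s : S) (n : ↥(M.subgroupOf K)), (θ ∘ e) ⟨φ s n, hφN s n n.2⟩ = (θ ∘ e) n := by
    intro s n
    have h1 := congrFun (hθinv s s.2) (e n)
    rw [cjN_apply] at h1
    exact h1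
  have hab' : ∀ x y : K, x * y * x⁻¹ * y⁻¹ ∈ M.subgroupOf K := by
    intro x y
    rw [Subgroup.mem_subgroupOf]
    exact hab x x.2 y y.2
  obtain ⟨χ, hχ, hne, hinv⟩ := exists_invariant_above_abelian (M.subgroupOf K) hab' φ hφN hcop
    hθ' hθ'inv
  refine ⟨χ, hχ, ?_, ?_⟩
  · have h1 : (fun n : M => χ ⟨n, hMK n.2⟩) ∘ e = fun n' : ↥(M.subgroupOf K) => χ n' := rfl
    rw [← classInner_comp_mulEquiv e, h1]
    exact hne
  · intro s hs
    funext k
    rw [cjN_apply]
    exact hinv ⟨s, hs⟩ k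


theorem exists_invariant_above_aux [Fintype Γ] (S : Subgroup Γ) :
    ∀ (k : ℕ) (K N : Subgroup Γ) [Fintype K] [Fintype N]
      (hSK : S ≤ Subgroup.normalizer (K : Set Γ)) (hNK : N ≤ K)
      [hNn : (N.subgroupOf K).Normal] (hSN : S ≤ Subgroup.normalizer (N : Set Γ)),
      N.relIndex K = k → (Nat.card S).Coprime (N.relIndex K) →
      Group.IsSolvable (K ⧸ N.subgroupOf K) →
      ∀ {θ : N → ℂ}, IsIrrCharacter N θ → (∀ s (hs : s ∈ S), cjN N s (hSN hs) θ = θ) →
      ∃ χ : K → ℂ, IsIrrCharacter K χ ∧ classInner (fun n : N => χ ⟨n, hNK n.2⟩) θ ≠ 0 ∧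
        ∀ s (hs : s ∈ S), cjN K s (hSK hs) χ = χ := by
  classical
  intro k
  induction k using Nat.strong_induction_on with
  | _ k ih =>
    intro K N _ _ hSK hNK hNn hSN hk hcop hsolv θ hθ hθinv
    by_cases hKN : K ≤ N
    · have hEq : K = N := le_antisymm hKN hNK
      refine ⟨fun x : K => θ ⟨x, hKN x.2⟩, ?_, ?_, ?_⟩
      · exact isIrrCharacter_comp_mulEquiv (MulEquiv.subgroupCongr hEq) hθ
      · have h1 : (fun n : N => (fun x : K => θ ⟨x, hKN x.2⟩) ⟨n, hNK n.2⟩) = θ := rfl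
        rw [h1, Helper2.classInner_irr hθ hθ, if_pos rfl]
        exact one_ne_zero
      · intro s hs
        funext x
        rw [cjN_apply]
        have h1 := congrFun (hθinv s hs) ⟨x, hKN x.2⟩
        rw [cjN_apply] at h1
        exact h1
    · have hKnN : K ≤ Subgroup.normalizer (N : Set Γ) :=
        (Subgroup.normal_subgroupOf_iff_le_normalizer hNK).mp hNn
      obtain ⟨M, hM⟩ : ∃ M : Subgroup Γ, M = N ⊔ ⁅K, K⁆ := ⟨_, rfl⟩
      have hNM : N ≤ M := hM ▸ le_sup_left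
      have hcomm : ⁅K, K⁆ ≤ K := by
        rw [Subgroup.commutator_le]
        intro a ha b hb
        exact K.mul_mem (K.mul_mem (K.mul_mem ha hb) (K.inv_mem ha)) (K.inv_mem hb)
      have hMK : M ≤ K := hM ▸ sup_le hNK hcomm
      have hSM : S ≤ Subgroup.normalizer (M : Set Γ) := by
        intro s hs
        rw [hM]
        exact mem_normalizer_sup_commutator N K (hSN hs) (hSK hs)
      have hKM : K ≤ Subgroup.normalizer (M : Set Γ) := by
        intro x hx
        rw [hM]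
        exact mem_normalizer_sup_commutator N K (hKnN hx) (Subgroup.le_normalizer hx)
      haveI hMn : (M.subgroupOf K).Normal := Subgroup.normal_subgroupOf_of_le_normalizer hKM
      haveI hNMn : (N.subgroupOf M).Normal :=
        Subgroup.normal_subgroupOf_of_le_normalizer (hMK.trans hKnN)
      have hab : ∀ x ∈ K, ∀ y ∈ K, x * y * x⁻¹ * y⁻¹ ∈ M := by
        intro x hx y hy
        rw [hM]
        exact Subgroup.mem_sup_right (Subgroup.commutator_mem_commutator hx hy)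
      -- M is a proper subgroup of K
      have hMne : ¬ K ≤ M := by
        intro hKM'
        apply hKN
        have htop : commutator (↥K ⧸ N.subgroupOf K) = ⊤ := by
          rw [eq_top_iff]
          intro q _
          induction q using QuotientGroup.induction_on with
          | _ x =>
            have hx : (x : Γ) ∈ N ⊔ ⁅K, K⁆ := hM ▸ hKM' x.2
            have h1 : x ∈ (N ⊔ ⁅K, K⁆ : Subgroup Γ).subgroupOf K := hx
            rw [Subgroup.subgroupOf_sup hNK hcomm] at h1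
            have h2 : (⁅K, K⁆ : Subgroup Γ).subgroupOf K = (⁅(⊤ : Subgroup K), (⊤ : Subgroup K)⁆ : Subgroup K) := by
              have h3 : (⁅(⊤ : Subgroup K), (⊤ : Subgroup K)⁆ : Subgroup K).map K.subtype = ⁅K, K⁆ := by
                rw [Subgroup.map_commutator, ← MonoidHom.range_eq_map, Subgroup.range_subtype]
              rw [← h3]
              exact Subgroup.comap_map_eq_self_of_injective K.subtype_injective _
            rw [h2] at h1
            have h4 : (QuotientGroup.mk' (N.subgroupOf K)) x ∈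
                (N.subgroupOf K ⊔ (⁅(⊤ : Subgroup K), (⊤ : Subgroup K)⁆ : Subgroup K)).map (QuotientGroup.mk' (N.subgroupOf K)) :=
              ⟨x, h1, rfl⟩
            rw [Subgroup.map_sup, Subgroup.map_commutator,
              Subgroup.map_top_of_surjective _ (QuotientGroup.mk'_surjective _)] at h4
            have h5 : (N.subgroupOf K).map (QuotientGroup.mk' (N.subgroupOf K)) = ⊥ := by
              rw [eq_bot_iff]
              rintro y ⟨n, hn, rfl⟩
              rw [Subgroup.mem_bot]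
              exact (QuotientGroup.eq_one_iff n).mpr hn
            rw [h5, bot_sup_eq] at h4
            exact h4
        by_cases hnt : Nontrivial (↥K ⧸ N.subgroupOf K)
        · exact absurd htop (ne_of_lt (Group.IsSolvable.commutator_lt_top_of_nontrivial _))
        · rw [not_nontrivial_iff_subsingleton] at hnt
          intro x hx
          have h1 : ((⟨x, hx⟩ : K) : ↥K ⧸ N.subgroupOf K) = 1 := Subsingleton.elim _ _
          have h2 : (⟨x, hx⟩ : K) ∈ N.subgroupOf K := (QuotientGroup.eq_one_iff (⟨x, hx⟩ : K)).mp h1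
          exact h2
      have hmul := Subgroup.relIndex_mul_relIndex N M K hNM hMK
      have h1ne : N.relIndex M ≠ 0 := Subgroup.index_ne_zero_of_finite
      have h2ne : M.relIndex K ≠ 0 := Subgroup.index_ne_zero_of_finite
      have h2ne1 : M.relIndex K ≠ 1 := fun h => hMne (Subgroup.relIndex_eq_one.mp h)
      have hlt : N.relIndex M < k := by
        rw [← hk, ← hmul]
        have h3 : 2 ≤ M.relIndex K := by omega
        nlinarith [Nat.pos_of_ne_zero h1ne]
      have hcop1 : (Nat.card S).Coprime (N.relIndex M) :=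
        Nat.Coprime.coprime_dvd_right (Dvd.intro _ hmul) hcop
      have hcop2 : (Nat.card S).Coprime (M.relIndex K) :=
        Nat.Coprime.coprime_dvd_right (Dvd.intro_left _ hmul) hcop
      have hsolvM : Group.IsSolvable (↥M ⧸ N.subgroupOf M) := by
        have hle : N.subgroupOf M ≤ (N.subgroupOf K).comap (Subgroup.inclusion hMK) := by
          intro x hx
          exact hx
        let f : ↥M ⧸ N.subgroupOf M →* ↥K ⧸ N.subgroupOf K :=
          QuotientGroup.map _ _ (Subgroup.inclusion hMK) hle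
        have hf : Function.Injective f := by
          rw [injective_iff_map_eq_one]
          intro q hq
          induction q using QuotientGroup.induction_on with
          | _ x =>
            have h3 : ((Subgroup.inclusion hMK x : K) : ↥K ⧸ N.subgroupOf K) = 1 := hq
            rw [QuotientGroup.eq_one_iff] at h3
            exact (QuotientGroup.eq_one_iff x).mpr h3
        exact Group.isSolvable_of_isSolvable_injective hf
      haveI : Fintype M := Fintype.ofFinite _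
      obtain ⟨φ₁, hφ₁, hne₁, hinv₁⟩ := ih (N.relIndex M) hlt M N hSM hNM hSN rfl hcop1 hsolvM
        hθ hθinv
      obtain ⟨χ, hχ, hne₂, hinv₂⟩ := exists_invariant_above_pair K S M hSK hMK hSM hab hcop2
        hφ₁ hinv₁
      exact ⟨χ, hχ, constituent_trans K M N hNM hMK (Helper24.isCharacter_of_irr hχ) hφ₁ hθ
        hne₂ hne₁, hinv₂⟩

end Ambient

end Cfsg.Agent.Helper6.InvAbove
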