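import Cfsg.Agent.Helper25.BlockPPrime
import Cfsg.Agent.Helper25.BlockOrth2
import Cfsg.Agent.Helper25.DCBlock
import Cfsg.Agent.Helper24.LinearChar
import Cfsg.Agent.Helper17.Npc4
import Cfsg.Agent.Helper2.KleinSylow
import Cfsg.Agent.S0887
import Cfsg.Agent.S0925

set_option autoImplicit false
set_option linter.unusedSectionVars false

/-!
# Normal p-complements and the degrees of the principal block (helper6)
-/

namespace Cfsg.Agent.Helper6

open Cfsg
open scoped ComplexConjugate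

section NpcBlock

variable {G : Type*} [Group G] [Fintype G] {p : ℕ} {M : Ideal AlgInt}

/-- With a normal `p`-complement, a principal block character whose degree is prime to `p`
is linear. -/
theorem nb_easy [Fact p.Prime] (hpM : IsPModular p M) (P : Sylow p G) (K : Subgroup G)
    [K.Normal] (hc : K.IsComplement' (P : Subgroup G)) (χ : IrrCharacter G)
    (hχ : χ ∈ principalBlock M G)
    (h0 : (charDegree (χ : G → ℂ)).factorization p = 0) : charDegree (χ : G → ℂ) = 1 := by
  classical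
  haveI : Fintype K := Fintype.ofFinite _
  have hKp : ¬ p ∣ Nat.card K := by
    rw [← hc.index_eq_card]
    exact P.not_dvd_index
  have h1 : classInner (fun n : K => (Helper25.oneIrr G : G → ℂ) n) (Helper25.oneIrr K : K → ℂ)
      ≠ 0 := (Helper25.over_one_iff K (Helper25.oneIrr G)).2 (fun n _ => rfl)
  have hs : SameBlock M ((Helper25.oneIrr G : IrrCharacter G) : G → ℂ) (χ : G → ℂ) := hχ
  have h2 := Helper25.over_of_sameBlock_pprime hpM K hKp (Helper25.oneIrr G) χ hs
    (Helper25.oneIrr K) h1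
  have h3 := (Cfsg.Agent.S0887.result K (χ : G → ℂ) χ.2 (Helper25.oneIrr K : K → ℂ)
    (Helper25.oneIrr K).2 h2 (charDegree (χ : G → ℂ)) 1 (Helper25.irr_one_eq_degree χ)
    (by rw [Helper25.oneIrr_apply]; norm_num)).2
  rw [Nat.div_one, hc.symm.index_eq_card] at h3
  obtain ⟨n, hn⟩ := IsPGroup.iff_card.mp P.2
  have hn' : Nat.card (P : Subgroup G) = p ^ n := hn
  rw [hn'] at h3
  obtain ⟨j, -, hj⟩ := (Nat.dvd_prime_pow (Fact.out : p.Prime)).1 h3
  rw [hj, Nat.Prime.factorization_pow (Fact.out : p.Prime), Finsupp.single_eq_same] at h0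
  rw [hj, h0, pow_zero]

/-- Block orthogonality on a Sylow subgroup: the weighted multiplicity of a function on `P`
with value one at the identity does not depend on the function. -/
theorem nb_sum [Fintype (IrrCharacter G)] [Fact p.Prime] (hpM : IsPModular p M)
    [DecidablePred (fun χ : IrrCharacter G => χ ∈ principalBlock M G)]
    (P : Sylow p G) [Fintype (P : Subgroup G)] (μ : ↥(P : Subgroup G) → ℂ) (hμ1 : μ 1 = 1) :
    ∑ χ : IrrCharacter G, (if χ ∈ principalBlock M G then
        (χ : G → ℂ) 1 * classInner (fun x : ↥(P : Subgroup G) => (χ : G → ℂ) x) μ else 0)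
      = (Nat.card (P : Subgroup G) : ℂ)⁻¹ * ∑ χ : IrrCharacter G,
        (if χ ∈ principalBlock M G then (χ : G → ℂ) 1 * (χ : G → ℂ) 1 else 0) := by
  classical
  have hB₀ : IsPBlock M (principalBlock M G) := ⟨Helper25.oneIrr G, rfl⟩
  have hT : ∀ x : ↥(P : Subgroup G), x ≠ 1 →
      ∑ χ : IrrCharacter G, (if χ ∈ principalBlock M G then
        (χ : G → ℂ) (x : G) * (χ : G → ℂ) 1 else 0) = 0 := by
    intro x hx
    obtain ⟨k, hk⟩ := (IsPGroup.iff_orderOf.1 P.2) x
    have hk' : orderOf (x : G) = p ^ k := by rw [Subgroup.orderOf_coe, hk]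
    have hx1 : (x : G) ≠ 1 := fun h => hx (Subtype.ext h)
    have hPx : IsPPart p (x : G) (x : G) :=
      ⟨1, mul_one _, Commute.one_right _, ⟨k, hk'⟩, by
        rw [orderOf_one]
        exact (Fact.out : p.Prime).one_lt.ne' ∘ Nat.dvd_one.1⟩
    have hP1 : IsPPart p (1 : G) (1 : G) :=
      ⟨1, mul_one _, Commute.one_right _, ⟨0, by rw [orderOf_one, pow_zero]⟩, by
        rw [orderOf_one]
        exact (Fact.out : p.Prime).one_lt.ne' ∘ Nat.dvd_one.1⟩
    have hnc : ¬ IsConj (x : G) 1 := fun h => hx1 (isConj_one_left.1 h)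
    have h := (Cfsg.Agent.S0925.result p M hpM).2 (x : G) 1 (x : G) 1 hPx hP1 hnc
      (principalBlock M G) hB₀
    rw [inv_one, Helper25.finsum_mem_eq_sum_ite] at h
    exact h
  have e1 : ∀ χ : IrrCharacter G, (if χ ∈ principalBlock M G then
        (χ : G → ℂ) 1 * classInner (fun x : ↥(P : Subgroup G) => (χ : G → ℂ) x) μ else 0)
      = ∑ x : ↥(P : Subgroup G), ((Nat.card (P : Subgroup G) : ℂ)⁻¹ * conj (μ x))
          * (if χ ∈ principalBlock M G then (χ : G → ℂ) (x : G) * (χ : G → ℂ) 1 else 0) := by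
    intro χ
    by_cases h : χ ∈ principalBlock M G
    · rw [if_pos h]
      unfold classInner
      rw [Finset.mul_sum, Finset.mul_sum]
      refine Finset.sum_congr rfl fun x _ => ?_
      rw [if_pos h]
      ring
    · rw [if_neg h]
      symm
      refine Finset.sum_eq_zero fun x _ => ?_
      rw [if_neg h, mul_zero]
  rw [Finset.sum_congr rfl (fun χ _ => e1 χ), Finset.sum_comm]
  simp only [← Finset.mul_sum]
  rw [Finset.sum_eq_single (1 : ↥(P : Subgroup G))]
  · rw [hμ1, map_one, mul_one]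
    simp only [Subgroup.coe_one]
  · intro x _ hx
    rw [hT x hx, mul_zero]
  · intro h
    exact absurd (Finset.mem_univ _) h

/-- The irreducible character afforded by a homomorphism into the units. -/
noncomputable def nbIrr {H : Type*} [Group H] (f : H →* ℂˣ) : IrrCharacter H :=
  ⟨fun g => ((f g : ℂˣ) : ℂ), Helper2.isIrrCharacter_of_hom f⟩

theorem nbIrr_apply {H : Type*} [Group H] (f : H →* ℂˣ) (g : H) :
    (nbIrr f : H → ℂ) g = ((f g : ℂˣ) : ℂ) := rfl

theorem nbIrr_injective {H : Type*} [Group H] : Function.Injective (nbIrr (H := H)) := by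
  intro f f' h
  apply MonoidHom.ext
  intro g
  apply Units.ext
  exact congrFun (congrArg Subtype.val h) g

/-- The homomorphism underlying a linear character. -/
noncomputable def nbHom {H : Type*} [Group H] (χ : IrrCharacter H) (h1 : (χ : H → ℂ) 1 = 1) :
    H →* ℂˣ :=
  MonoidHom.toHomUnits
    { toFun := (χ : H → ℂ)
      map_one' := h1
      map_mul' := Helper24.linear_char_mul (Helper24.isCharacter_of_irr χ.2) h1 }

theorem nbHom_apply {H : Type*} [Group H] (χ : IrrCharacter H) (h1 : (χ : H → ℂ) 1 = 1)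
    (g : H) : ((nbHom χ h1 g : ℂˣ) : ℂ) = (χ : H → ℂ) g := rfl

theorem nbIrr_nbHom {H : Type*} [Group H] (χ : IrrCharacter H) (h1 : (χ : H → ℂ) 1 = 1) :
    nbIrr (nbHom χ h1) = χ :=
  Subtype.ext (funext (nbHom_apply χ h1))

/-- Principal block membership of a linear character. -/
theorem nb_mem_iff (f : G →* ℂˣ) : nbIrr f ∈ principalBlock M G ↔
    ∀ g : G, MemLocalIdeal M (((Subgroup.centralizer ({g} : Set G)).index : ℂ)
      * (1 - ((f g : ℂˣ) : ℂ))) := by
  have e : ∀ g : G, centralChar (fun _ : G => (1 : ℂ)) g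
        - centralChar ((nbIrr f : IrrCharacter G) : G → ℂ) g
      = ((Subgroup.centralizer ({g} : Set G)).index : ℂ) * (1 - ((f g : ℂˣ) : ℂ)) := by
    intro g
    unfold centralChar
    rw [nbIrr_apply, nbIrr_apply, map_one, Units.val_one]
    ring
  constructor
  · intro h g
    have h1 := h g
    rwa [e] at h1
  · intro h g
    rw [e]
    exact h g

theorem nb_hint (hM : M.IsPrime) (f : G →* ℂˣ) (g : G) : MemLocalRing M ((f g : ℂˣ) : ℂ) := by
  apply Helper25.memLocalRing_of_isIntegral hM.ne_top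
  have h1 : ((f g : ℂˣ) : ℂ) ^ Nat.card G = 1 := by
    rw [← Units.val_pow_eq_pow_val, ← map_pow, pow_card_eq_one', map_one, Units.val_one]
  exact IsIntegral.of_pow Nat.card_pos (by rw [h1]; exact isIntegral_one)

/-- The linear characters in the principal block which are trivial on `P`. -/
noncomputable def nbLam (hM : M.IsPrime) (P : Subgroup G) : Subgroup (G →* ℂˣ) where
  carrier := {f | nbIrr f ∈ principalBlock M G ∧ ∀ x ∈ P, f x = 1}
  one_mem' := by
    refine ⟨(nb_mem_iff 1).2 fun g => ?_, fun x _ => rfl⟩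
    rw [MonoidHom.one_apply, Units.val_one, sub_self, mul_zero]
    exact Helper25.MemLocalIdeal.zero hM.ne_top
  mul_mem' := by
    rintro a b ⟨ha, ha'⟩ ⟨hb, hb'⟩
    refine ⟨(nb_mem_iff (a * b)).2 fun g => ?_, fun x hx => ?_⟩
    · have e : ((Subgroup.centralizer ({g} : Set G)).index : ℂ) * (1 - (((a * b) g : ℂˣ) : ℂ))
          = ((Subgroup.centralizer ({g} : Set G)).index : ℂ) * (1 - ((a g : ℂˣ) : ℂ))
            + ((a g : ℂˣ) : ℂ) * (((Subgroup.centralizer ({g} : Set G)).index : ℂ)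
              * (1 - ((b g : ℂˣ) : ℂ))) := by
        rw [MonoidHom.mul_apply, Units.val_mul]
        ring
      rw [e]
      exact Helper25.MemLocalIdeal.add hM ((nb_mem_iff a).1 ha g)
        (Helper25.MemLocalIdeal.mul_left hM (nb_hint hM a g) ((nb_mem_iff b).1 hb g))
    · rw [MonoidHom.mul_apply, ha' x hx, hb' x hx, mul_one]
  inv_mem' := by
    rintro a ⟨ha, ha'⟩
    refine ⟨(nb_mem_iff a⁻¹).2 fun g => ?_, fun x hx => ?_⟩
    · have huv : ((a⁻¹ g : ℂˣ) : ℂ) * ((a g : ℂˣ) : ℂ) = 1 := by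
        rw [← Units.val_mul, ← MonoidHom.mul_apply, inv_mul_cancel, MonoidHom.one_apply,
          Units.val_one]
      have e : ((Subgroup.centralizer ({g} : Set G)).index : ℂ) * (1 - ((a⁻¹ g : ℂˣ) : ℂ))
          = -(((a⁻¹ g : ℂˣ) : ℂ) * (((Subgroup.centralizer ({g} : Set G)).index : ℂ)
              * (1 - ((a g : ℂˣ) : ℂ)))) := by
        linear_combination (-((Subgroup.centralizer ({g} : Set G)).index : ℂ)) * huv
      rw [e]
      exact Helper25.MemLocalIdeal.neg
        (Helper25.MemLocalIdeal.mul_left hM (nb_hint hM a⁻¹ g) ((nb_mem_iff a).1 ha g))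
    · rw [MonoidHom.inv_apply, ha' x hx, inv_one]

theorem mem_nbLam (hM : M.IsPrime) (P : Subgroup G) (f : G →* ℂˣ) :
    f ∈ nbLam hM P ↔ nbIrr f ∈ principalBlock M G ∧ ∀ x ∈ P, f x = 1 := Iff.rfl

/-- The group of principal block linear characters trivial on a Sylow `p`-subgroup has order
prime to `p`. -/
theorem nb_lam_card [Fact p.Prime] (hM : M.IsPrime) (P : Sylow p G) :
    ¬ p ∣ Nat.card (nbLam hM (P : Subgroup G)) := by
  classical
  intro hdvd
  have hfinI := Helper24.finite_irrCharacter (G := G)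
  haveI : Finite (nbLam hM (P : Subgroup G)) :=
    Finite.of_injective (fun f : nbLam hM (P : Subgroup G) => nbIrr (f : G →* ℂˣ))
      (fun a b h => Subtype.ext (nbIrr_injective h))
  obtain ⟨f, hf⟩ := exists_prime_orderOf_dvd_card' p hdvd
  have hfo : orderOf (f : G →* ℂˣ) = p := by rw [Subgroup.orderOf_coe, hf]
  have hfp : (f : G →* ℂˣ) ^ p = 1 := by
    have h := pow_orderOf_eq_one (f : G →* ℂˣ)
    rwa [hfo] at h
  have hp : p.Prime := Fact.out
  have hf1 : (f : G →* ℂˣ) = 1 := by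
    apply MonoidHom.ext
    intro g
    rw [MonoidHom.one_apply]
    obtain ⟨n, hn⟩ := IsPGroup.iff_card.mp P.2
    have hn' : Nat.card (P : Subgroup G) = p ^ n := hn
    have hcard : Nat.card (P : Subgroup G) * (P : Subgroup G).index = Nat.card G :=
      (P : Subgroup G).card_mul_index
    obtain ⟨y, hy⟩ : ∃ y : G, y = g ^ (P : Subgroup G).index := ⟨_, rfl⟩
    have hyp : y ^ (p ^ n) = 1 := by
      rw [hy, ← pow_mul, mul_comm, ← hn', hcard, pow_card_eq_one']
    obtain ⟨j, -, hj⟩ := (Nat.dvd_prime_pow hp).1 (orderOf_dvd_of_pow_eq_one hyp)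
    have hzp : IsPGroup p (Subgroup.zpowers y) := by
      apply IsPGroup.of_card (n := j)
      rw [Nat.card_zpowers, hj]
    obtain ⟨Q, hQ⟩ := hzp.exists_le_sylow
    obtain ⟨c, hc⟩ := MulAction.exists_smul_eq G P Q
    have h1 : y ∈ Q := hQ (Subgroup.mem_zpowers y)
    rw [← hc, Helper2.mem_sylow_smul_iff] at h1
    have h2 : (f : G →* ℂˣ) (c⁻¹ * y * c) = 1 := f.2.2 _ h1
    have h3 : (f : G →* ℂˣ) y = 1 := by
      rw [map_mul, map_mul, map_inv, mul_comm ((f : G →* ℂˣ) c)⁻¹, mul_assoc,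
        inv_mul_cancel, mul_one] at h2
      exact h2
    have h4 : ((f : G →* ℂˣ) g) ^ (P : Subgroup G).index = 1 := by
      rw [← map_pow, ← hy, h3]
    have h5 : ((f : G →* ℂˣ) g) ^ p = 1 := by
      have h6 := congrArg (fun φ : G →* ℂˣ => φ g) hfp
      simpa using h6
    have hcop : Nat.Coprime (P : Subgroup G).index p :=
      ((Nat.Prime.coprime_iff_not_dvd hp).2 P.not_dvd_index).symm
    have h7 : orderOf ((f : G →* ℂˣ) g) ∣ 1 := by
      rw [← Nat.Coprime.gcd_eq_one hcop]
      exact Nat.dvd_gcd (orderOf_dvd_of_pow_eq_one h4) (orderOf_dvd_of_pow_eq_one h5)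
    exact orderOf_eq_one_iff.1 (Nat.dvd_one.1 h7)
  rw [hf1, orderOf_one] at hfo
  exact hp.one_lt.ne' hfo.symm

/-- If the principal block characters of degree prime to `p` are all linear, every linear
character of a Sylow `p`-subgroup extends to a linear character of the group. -/
theorem nb_extend [Fact p.Prime] (hpM : IsPModular p M) (P : Sylow p G)
    (hlin : ∀ χ : IrrCharacter G, χ ∈ principalBlock M G →
      ¬ p ∣ charDegree (χ : G → ℂ) → charDegree (χ : G → ℂ) = 1)
    (μ : ↥(P : Subgroup G) →* ℂˣ) :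
    ∃ χ : IrrCharacter G, (χ : G → ℂ) 1 = 1 ∧
      ∀ x : ↥(P : Subgroup G), (χ : G → ℂ) x = ((μ x : ℂˣ) : ℂ) := by
  classical
  have hfinI := Helper24.finite_irrCharacter (G := G)
  haveI : Fintype (IrrCharacter G) := Fintype.ofFinite _
  haveI : Fintype ↥(P : Subgroup G) := Fintype.ofFinite _
  have hMp := hpM.2.1.isPrime
  have hp : p.Prime := Fact.out
  have hnat : ∀ (χ : IrrCharacter G) (ν : ↥(P : Subgroup G) →* ℂˣ), ∃ m : ℕ,
      classInner (fun x : ↥(P : Subgroup G) => (χ : G → ℂ) x)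
        (nbIrr ν : ↥(P : Subgroup G) → ℂ) = m := fun χ ν =>
    Helper2.classInner_char_nat
      (Helper24.isCharacter_restrict _ (Helper24.isCharacter_of_irr χ.2))
      (Helper24.isCharacter_of_irr (nbIrr ν).2)
  choose n hn using hnat
  obtain ⟨Nsum, hNsum⟩ : ∃ Nsum : (↥(P : Subgroup G) →* ℂˣ) → ℕ, Nsum = fun ν =>
      ∑ χ : IrrCharacter G, if χ ∈ principalBlock M G then
        charDegree (χ : G → ℂ) * n χ ν else 0 := ⟨_, rfl⟩
  have hNc : ∀ ν, (Nsum ν : ℂ) = (Nat.card (P : Subgroup G) : ℂ)⁻¹ *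
      ∑ χ : IrrCharacter G,
        (if χ ∈ principalBlock M G then (χ : G → ℂ) 1 * (χ : G → ℂ) 1 else 0) := by
    intro ν
    rw [← nb_sum hpM P (nbIrr ν : ↥(P : Subgroup G) → ℂ)
      (by rw [nbIrr_apply, map_one, Units.val_one]), hNsum]
    push_cast
    refine Finset.sum_congr rfl fun χ _ => ?_
    by_cases h : χ ∈ principalBlock M G
    · rw [if_pos h, if_pos h, hn, Helper25.irr_one_eq_degree χ]
    · rw [if_neg h, if_neg h]
  have hNeq : ∀ ν, Nsum ν = Nsum 1 := fun ν =>
    Nat.cast_injective (R := ℂ) ((hNc ν).trans (hNc 1).symm)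
  obtain ⟨L, hL⟩ : ∃ L : (↥(P : Subgroup G) →* ℂˣ) → ℕ, L = fun ν =>
      ∑ χ : IrrCharacter G, if (χ ∈ principalBlock M G ∧ (χ : G → ℂ) 1 = 1 ∧
        ∀ x : ↥(P : Subgroup G), (χ : G → ℂ) x = ((ν x : ℂˣ) : ℂ)) then 1 else 0 := ⟨_, rfl⟩
  have hmod : ∀ ν, ((Nsum ν : ℕ) : ZMod p) = ((L ν : ℕ) : ZMod p) := by
    intro ν
    rw [hNsum, hL]
    simp only [Nat.cast_sum]
    refine Finset.sum_congr rfl fun χ _ => ?_
    by_cases h : χ ∈ principalBlock M G
    · by_cases hd : p ∣ charDegree (χ : G → ℂ)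
      · rw [if_pos h, if_neg, Nat.cast_mul, (ZMod.natCast_eq_zero_iff _ p).2 hd, zero_mul,
          Nat.cast_zero]
        rintro ⟨-, h1, -⟩
        have h2 : charDegree (χ : G → ℂ) = 1 := by
          have h3 := Helper25.irr_one_eq_degree χ
          rw [h1] at h3
          exact_mod_cast h3.symm
        rw [h2] at hd
        exact hp.one_lt.ne' (Nat.dvd_one.1 hd)
      · have hd1 := hlin χ h hd
        have h1 : (χ : G → ℂ) 1 = 1 := by
          rw [Helper25.irr_one_eq_degree χ, hd1, Nat.cast_one]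
        have hirr : IsIrrCharacter ↥(P : Subgroup G)
            (fun x : ↥(P : Subgroup G) => (χ : G → ℂ) x) :=
          (nbIrr ((nbHom χ h1).comp (P : Subgroup G).subtype)).2
        have hci := Helper2.classInner_irr hirr (nbIrr ν).2
        rw [hn] at hci
        by_cases heq : ∀ x : ↥(P : Subgroup G), (χ : G → ℂ) x = ((ν x : ℂˣ) : ℂ)
        · have h4 : (fun x : ↥(P : Subgroup G) => (χ : G → ℂ) x)
              = (nbIrr ν : ↥(P : Subgroup G) → ℂ) := funext heq
          rw [if_pos h4] at hci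
          have hn1 : n χ ν = 1 := by exact_mod_cast hci
          rw [if_pos h, if_pos ⟨h, h1, heq⟩, hd1, hn1]
        · have h4 : ¬ (fun x : ↥(P : Subgroup G) => (χ : G → ℂ) x)
              = (nbIrr ν : ↥(P : Subgroup G) → ℂ) := fun h' => heq (fun x => congrFun h' x)
          rw [if_neg h4] at hci
          have hn0 : n χ ν = 0 := by exact_mod_cast hci
          rw [if_pos h, if_neg (fun h' => heq h'.2.2), hn0, mul_zero]
    · rw [if_neg h, if_neg (fun h' => h h'.1)]
  have hL1 : L 1 = Nat.card (nbLam hMp (P : Subgroup G)) := by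
    rw [hL]
    simp only [Finset.sum_boole, Nat.cast_id]
    rw [← Fintype.card_subtype, ← Nat.card_eq_fintype_card]
    symm
    apply Nat.card_eq_of_bijective
      (fun f : nbLam hMp (P : Subgroup G) =>
        (⟨nbIrr (f : G →* ℂˣ), f.2.1, by rw [nbIrr_apply, map_one, Units.val_one],
          fun x => by
            rw [nbIrr_apply, f.2.2 (x : G) x.2]
            rfl⟩ :
          {χ : IrrCharacter G // χ ∈ principalBlock M G ∧ (χ : G → ℂ) 1 = 1 ∧
            ∀ x : ↥(P : Subgroup G),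
              (χ : G → ℂ) x = (((1 : ↥(P : Subgroup G) →* ℂˣ) x : ℂˣ) : ℂ)}))
    constructor
    · intro a b h
      exact Subtype.ext (nbIrr_injective (congrArg Subtype.val h))
    · rintro ⟨χ, hB, h1, hx⟩
      refine ⟨⟨nbHom χ h1, ?_, ?_⟩, ?_⟩
      · rw [nbIrr_nbHom]
        exact hB
      · intro x hxP
        apply Units.ext
        rw [nbHom_apply]
        exact hx ⟨x, hxP⟩
      · exact Subtype.ext (nbIrr_nbHom χ h1)
  have hp1 : ¬ p ∣ L 1 := by
    rw [hL1]
    exact nb_lam_card hMp P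
  have hLμ : ¬ p ∣ L μ := by
    intro hdvd
    apply hp1
    have e1 : ((L μ : ℕ) : ZMod p) = 0 := (ZMod.natCast_eq_zero_iff _ p).2 hdvd
    have e2 : ((L 1 : ℕ) : ZMod p) = 0 := by
      rw [← hmod 1, ← hNeq μ, hmod μ, e1]
    exact (ZMod.natCast_eq_zero_iff _ p).1 e2
  have hLne : L μ ≠ 0 := fun h => hLμ (by rw [h]; exact dvd_zero p)
  rw [hL] at hLne
  obtain ⟨χ, -, hχ⟩ := Finset.exists_ne_zero_of_sum_ne_zero hLne
  by_cases hc : (χ ∈ principalBlock M G ∧ (χ : G → ℂ) 1 = 1 ∧
      ∀ x : ↥(P : Subgroup G), (χ : G → ℂ) x = ((μ x : ℂˣ) : ℂ))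
  · exact ⟨χ, hc.2.1, hc.2.2⟩
  · rw [if_neg hc] at hχ
    exact absurd rfl hχ

end NpcBlock

end Cfsg.Agent.Helper6
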