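import Cfsg.Agent.Helper25.BlockThird
import Cfsg.Agent.Helper2.IndFun
import Cfsg.Agent.Helper2.CharNat
import Cfsg.Agent.Helper2.CharComplete
import Cfsg.Agent.Helper24.CharBasic
import Cfsg.Agent.Helper24.CharValues

set_option autoImplicit false
set_option linter.unusedSectionVars false

/-!
# Characters of degree prime to `p` in the principal block over a character of a normal
subgroup (helper6)
-/

namespace Cfsg.Agent.Helper6

open Cfsg Cfsg.Agent.Helper25
open scoped ComplexConjugate

section PDegOver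

variable {G : Type*} [Group G] [Fintype G] {M : Ideal AlgInt} {p : ℕ}

/-- Restriction along an inclusion of subgroups keeps characters. -/
theorem pdo_isCharacter_incl {N L : Subgroup G} (hNL : N ≤ L) {η : L → ℂ}
    (hη : IsCharacter L η) : IsCharacter N (fun n : N => η (Subgroup.inclusion hNL n)) := by
  obtain ⟨k, ρ, rfl⟩ := hη
  exact ⟨k, ρ.comp (Subgroup.inclusion hNL), rfl⟩

/-- A constituent over an extension of `θ` lies over `θ`. -/
theorem pdo_over {N L : Subgroup G} (hNL : N ≤ L) [Fintype N] [Fintype L]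
    [Fintype (IrrCharacter L)]
    (θ : IrrCharacter N) (η : IrrCharacter L)
    (hη : ∀ n : N, (η : L → ℂ) (Subgroup.inclusion hNL n) = (θ : N → ℂ) n)
    (χ : IrrCharacter G)
    (h0 : classInner (fun n : N => (χ : G → ℂ) n) (θ : N → ℂ) = 0) :
    classInner (fun x : L => (χ : G → ℂ) x) (η : L → ℂ) = 0 := by
  classical
  have hχL : IsCharacter L (fun x : L => (χ : G → ℂ) x) :=
    Helper24.isCharacter_restrict L (Helper24.isCharacter_of_irr χ.2)
  have haex : ∀ η' : IrrCharacter L, ∃ a : ℕ,
      classInner (fun x : L => (χ : G → ℂ) x) (η' : L → ℂ) = (a : ℂ) :=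
    fun η' => Helper2.classInner_char_nat hχL (Helper24.isCharacter_of_irr η'.2)
  choose a ha using haex
  have hbex : ∀ η' : IrrCharacter L, ∃ b : ℕ,
      classInner (fun n : N => (η' : L → ℂ) (Subgroup.inclusion hNL n)) (θ : N → ℂ)
        = (b : ℂ) :=
    fun η' => Helper2.classInner_char_nat
      (pdo_isCharacter_incl hNL (Helper24.isCharacter_of_irr η'.2))
      (Helper24.isCharacter_of_irr θ.2)
  choose b hb using hbex
  have hcl : IsClassFunction L (fun x : L => (χ : G → ℂ) x) := by
    intro g h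
    exact (Helper2.IsIrrCharacter.isClassFunction χ.2) (g : G) (h : G)
  have hexp := Helper2.class_fn_expansion hcl
  have hval : ∀ n : N, (χ : G → ℂ) n
      = ∑ η' : IrrCharacter L, (a η' : ℂ) * (η' : L → ℂ) (Subgroup.inclusion hNL n) := by
    intro n
    have h1 := congrFun hexp (Subgroup.inclusion hNL n)
    rw [Finset.sum_apply] at h1
    simp only [Pi.smul_apply, smul_eq_mul, ha] at h1
    exact h1
  have hsum : classInner (fun n : N => (χ : G → ℂ) n) (θ : N → ℂ)
      = ∑ η' : IrrCharacter L, (a η' : ℂ) * (b η' : ℂ) := by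
    have h2 : ∀ η' : IrrCharacter L, (a η' : ℂ) * (b η' : ℂ)
        = (Nat.card N : ℂ)⁻¹ * ∑ n : N, (a η' : ℂ)
          * ((η' : L → ℂ) (Subgroup.inclusion hNL n) * conj ((θ : N → ℂ) n)) := by
      intro η'
      rw [← hb η']
      unfold classInner
      rw [← Finset.mul_sum]
      ring
    rw [Finset.sum_congr rfl fun η' _ => h2 η', ← Finset.mul_sum, Finset.sum_comm]
    unfold classInner
    congr 1
    refine Finset.sum_congr rfl fun n _ => ?_
    show (χ : G → ℂ) n * conj ((θ : N → ℂ) n) = _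
    rw [hval n, Finset.sum_mul]
    refine Finset.sum_congr rfl fun η' _ => ?_
    ring
  rw [hsum] at h0
  have h0' : ∑ η' : IrrCharacter L, a η' * b η' = 0 := by exact_mod_cast h0
  have h1 : a η * b η = 0 :=
    Finset.sum_eq_zero_iff.1 h0' η (Finset.mem_univ η)
  have hbη : b η = 1 := by
    have h2 := hb η
    have h3 : (fun n : N => (η : L → ℂ) (Subgroup.inclusion hNL n)) = (θ : N → ℂ) :=
      funext hη
    rw [h3, Helper2.classInner_irr θ.2 θ.2, if_pos rfl] at h2
    exact_mod_cast h2.symm
  rw [hbη, mul_one] at h1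
  rw [ha η, h1]
  simp

/-- A character of degree prime to `p` in the principal block of a normal subgroup `N` that
extends to a subgroup `L` of index prime to `p` whose regular elements lie in `N` lies under a
character of degree prime to `p` of the principal block. -/
theorem pdo_main [Fact p.Prime] (hpM : IsPModular p M) (N L : Subgroup G) (hNL : N ≤ L)
    [Fintype N] [Fintype L]
    (hidx : ¬ p ∣ L.index) (hreg : ∀ x : L, ¬ p ∣ orderOf x → (x : G) ∈ N)
    (θ : IrrCharacter N) (hθ : θ ∈ principalBlock M N)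
    (hdeg : ¬ p ∣ charDegree (θ : N → ℂ))
    (η : IrrCharacter L)
    (hη : ∀ n : N, (η : L → ℂ) (Subgroup.inclusion hNL n) = (θ : N → ℂ) n) :
    ∃ χ : IrrCharacter G, χ ∈ principalBlock M G ∧ ¬ p ∣ charDegree (χ : G → ℂ) ∧
      classInner (fun n : N => (χ : G → ℂ) n) (θ : N → ℂ) ≠ 0 := by
  classical
  have hM := hpM.2.1.isPrime
  have := Helper24.finite_irrCharacter (G := G)
  have : Fintype (IrrCharacter G) := Fintype.ofFinite _
  have := Helper24.finite_irrCharacter (G := L)
  have : Fintype (IrrCharacter L) := Fintype.ofFinite _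
  by_contra hcon
  push Not at hcon
  have hmex : ∀ χ : IrrCharacter G, ∃ m : ℕ,
      classInner (η : L → ℂ) (fun x : L => (χ : G → ℂ) x) = (m : ℂ) :=
    fun χ => Helper2.classInner_char_nat (Helper24.isCharacter_of_irr η.2)
      (Helper24.isCharacter_restrict L (Helper24.isCharacter_of_irr χ.2))
  choose m hm using hmex
  obtain ⟨ψ, hψ⟩ : ∃ ψ : G → ℂ, ψ = indFun L (η : L → ℂ) := ⟨_, rfl⟩
  have hψcl : IsClassFunction G ψ := by
    rw [hψ]
    exact Helper2.isClassFunction_indFun L _
  have hψχ : ∀ χ : IrrCharacter G, classInner ψ (χ : G → ℂ) = (m χ : ℂ) := by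
    intro χ
    rw [hψ, Helper2.frobenius_reciprocity L _ _ (Helper2.IsIrrCharacter.isClassFunction χ.2)]
    exact hm χ
  have hexp := Helper2.class_fn_expansion hψcl
  obtain ⟨f, hf⟩ : ∃ f : G → ℂ, f = fun g => if p ∣ orderOf g then 0 else 1 := ⟨_, rfl⟩
  have hfcl : IsClassFunction G f := by
    intro g h
    rw [hf]
    simp only
    have h1 : orderOf (h * g * h⁻¹) = orderOf g := (MulAut.conj h).orderOf_eq g
    rw [h1]
  have hfrob : classInner ψ f = classInner (η : L → ℂ) (fun x : L => f x) := by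
    rw [hψ]
    exact Helper2.frobenius_reciprocity L _ f hfcl
  obtain ⟨s, hs⟩ : ∃ s : IrrCharacter G → ℂ, s = fun (χ : IrrCharacter G) =>
      ∑ g : G, (if p ∣ orderOf g then 0 else (χ : G → ℂ) g) := ⟨_, rfl⟩
  have hLs : classInner ψ f = (Nat.card G : ℂ)⁻¹ * ∑ χ : IrrCharacter G, (m χ : ℂ) * s χ := by
    unfold classInner
    congr 1
    have h1 : ∀ g : G, ψ g * conj (f g) = ∑ χ : IrrCharacter G,
        (m χ : ℂ) * (if p ∣ orderOf g then 0 else (χ : G → ℂ) g) := by
      intro g
      have h2 := congrFun hexp g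
      rw [Finset.sum_apply] at h2
      simp only [Pi.smul_apply, smul_eq_mul, hψχ] at h2
      rw [h2, hf]
      simp only
      rw [Finset.sum_mul]
      refine Finset.sum_congr rfl fun χ _ => ?_
      split_ifs <;> simp
    rw [Finset.sum_congr rfl fun g _ => h1 g, Finset.sum_comm, hs]
    refine Finset.sum_congr rfl fun χ _ => ?_
    rw [Finset.mul_sum]
  have hRs : classInner (η : L → ℂ) (fun x : L => f x)
      = (Nat.card L : ℂ)⁻¹ * ∑ n : N, (if p ∣ orderOf n then 0 else (θ : N → ℂ) n) := by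
    unfold classInner
    congr 1
    symm
    refine Finset.sum_of_injOn (Subgroup.inclusion hNL)
      (fun a _ b _ h => Subgroup.inclusion_injective hNL h)
      (fun _ _ => Finset.mem_coe.2 (Finset.mem_univ _)) ?_ ?_
    · intro x _ hx
      have hxN : (x : G) ∉ N := by
        intro hxN
        apply hx
        exact ⟨⟨x, hxN⟩, Finset.mem_coe.2 (Finset.mem_univ _), Subtype.ext rfl⟩
      have hdvd : p ∣ orderOf x := by
        by_contra hnd
        exact hxN (hreg x hnd)
      rw [hf]
      simp only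
      rw [Subgroup.orderOf_coe, if_pos hdvd]
      simp
    · intro n _
      rw [hη n, hf]
      simp only
      have ho : orderOf ((Subgroup.inclusion hNL n : L) : G) = orderOf n := by
        rw [Subgroup.coe_inclusion, Subgroup.orderOf_coe]
      rw [ho]
      split_ifs <;> simp
  have hGc : (Nat.card G : ℂ) ≠ 0 := by exact_mod_cast Nat.card_pos.ne'
  have hLc : (Nat.card L : ℂ) ≠ 0 := by exact_mod_cast Nat.card_pos.ne'
  have hci : (Nat.card G : ℂ) = (Nat.card L : ℂ) * (L.index : ℂ) := by
    rw [← Nat.cast_mul, Subgroup.card_mul_index]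
  have hkey : ∑ χ : IrrCharacter G, (m χ : ℂ) * s χ
      = (L.index : ℂ) * ∑ n : N, (if p ∣ orderOf n then 0 else (θ : N → ℂ) n) := by
    have h1 := hfrob
    rw [hLs, hRs, hci] at h1
    have hi0 : (L.index : ℂ) ≠ 0 := by
      intro h0
      exact hidx ((Nat.cast_eq_zero (R := ℂ)).1 h0 ▸ dvd_zero p)
    calc ∑ χ : IrrCharacter G, (m χ : ℂ) * s χ
        = ((Nat.card L : ℂ) * (L.index : ℂ)) * (((Nat.card L : ℂ) * (L.index : ℂ))⁻¹
          * ∑ χ : IrrCharacter G, (m χ : ℂ) * s χ) := by
          rw [← mul_assoc, mul_inv_cancel₀ (mul_ne_zero hLc hi0), one_mul]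
      _ = ((Nat.card L : ℂ) * (L.index : ℂ)) * ((Nat.card L : ℂ)⁻¹
          * ∑ n : N, (if p ∣ orderOf n then 0 else (θ : N → ℂ) n)) := by rw [h1]
      _ = (L.index : ℂ) * ∑ n : N, (if p ∣ orderOf n then 0 else (θ : N → ℂ) n) := by
          rw [mul_comm (Nat.card L : ℂ) (L.index : ℂ), mul_assoc, ← mul_assoc (Nat.card L : ℂ),
            mul_inv_cancel₀ hLc, one_mul]
  have hdG : ∀ χ : IrrCharacter G, (χ : G → ℂ) 1 = (charDegree (χ : G → ℂ) : ℂ) :=
    fun χ => Helper24.charDegree_spec (Helper24.isCharacter_of_irr χ.2)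
  have hlhs : MemLocalIdeal M (∑ χ : IrrCharacter G, (m χ : ℂ) * s χ) := by
    refine memLocalIdeal_sum hM _ _ fun χ _ => ?_
    by_cases hχ : χ ∈ principalBlock M G
    · by_cases hd : p ∣ charDegree (χ : G → ℂ)
      · have h1 := regSum_sub_mem hpM χ hχ
        have h2 : MemLocalRing M
            (∑ g : G, (if p ∣ orderOf g then 0 else (χ : G → ℂ) g / (χ : G → ℂ) 1)) := by
          have h3 := MemLocalRing.add hM (MemLocalIdeal.memLocalRing h1)
            (memLocalRing_natCast hM.ne_top (Nat.card {g : G // ¬ p ∣ orderOf g}))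
          rwa [sub_add_cancel] at h3
        rw [regSum_div] at h2
        have h3 : MemLocalIdeal M ((χ : G → ℂ) 1) := by
          rw [hdG χ, memLocalIdeal_natCast_iff hpM]
          exact hd
        have hne : (χ : G → ℂ) 1 ≠ 0 := Helper24.irr_one_ne_zero χ.2
        have h4 : s χ = (χ : G → ℂ) 1
            * ((∑ g : G, (if p ∣ orderOf g then 0 else (χ : G → ℂ) g)) / (χ : G → ℂ) 1) := by
          rw [hs]
          field_simp
        rw [h4]
        exact MemLocalIdeal.mul_left hM (memLocalRing_natCast hM.ne_top _)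
          (MemLocalIdeal.mul_right hM h3 h2)
      · have h0 := hcon χ hχ hd
        have h1 := pdo_over hNL θ η hη χ h0
        have h2 : (m χ : ℂ) = 0 := by
          rw [← hm χ, ← Helper2.classInner_conj_symm, h1, map_zero]
        rw [h2, zero_mul]
        exact MemLocalIdeal.zero hM.ne_top
    · rw [hs]
      simp only
      rw [regSum_eq_zero hpM χ hχ, mul_zero]
      exact MemLocalIdeal.zero hM.ne_top
  have hrhs : ¬ MemLocalIdeal M ((L.index : ℂ)
      * ∑ n : N, (if p ∣ orderOf n then 0 else (θ : N → ℂ) n)) := by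
    have h1 := (mem_principal_iff hpM θ).1 hθ
    have h2 := regSum_sub_mem hpM θ hθ
    have h3 : MemLocalRing M
        (∑ n : N, (if p ∣ orderOf n then 0 else (θ : N → ℂ) n / (θ : N → ℂ) 1)) := by
      have h4 := MemLocalRing.add hM (MemLocalIdeal.memLocalRing h2)
        (memLocalRing_natCast hM.ne_top (Nat.card {n : N // ¬ p ∣ orderOf n}))
      rwa [sub_add_cancel] at h4
    rw [regSum_div] at h1 h3
    have hdθ : (θ : N → ℂ) 1 = (charDegree (θ : N → ℂ) : ℂ) :=
      Helper24.charDegree_spec (Helper24.isCharacter_of_irr θ.2)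
    have hne : (θ : N → ℂ) 1 ≠ 0 := Helper24.irr_one_ne_zero θ.2
    have h5 : ¬ MemLocalIdeal M ((θ : N → ℂ) 1) := by
      rw [hdθ, memLocalIdeal_natCast_iff hpM]
      exact hdeg
    have h6 : MemLocalRing M ((θ : N → ℂ) 1) := by
      rw [hdθ]
      exact memLocalRing_natCast hM.ne_top _
    have h7 : (∑ n : N, (if p ∣ orderOf n then 0 else (θ : N → ℂ) n)) = (θ : N → ℂ) 1
        * ((∑ n : N, (if p ∣ orderOf n then 0 else (θ : N → ℂ) n)) / (θ : N → ℂ) 1) := by
      field_simp
    rw [h7]
    refine not_memLocalIdeal_mul hM (memLocalRing_natCast hM.ne_top _) ?_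
      (not_memLocalIdeal_mul hM h6 h5 h1)
    rw [memLocalIdeal_natCast_iff hpM]
    exact hidx
  rw [hkey] at hlhs
  exact hrhs hlhs

end PDegOver

end Cfsg.Agent.Helper6
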