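import Cfsg.Agent.Helper6.Laradji
import Cfsg.Agent.Helper6.DetChar
import Cfsg.Agent.Helper6.DetExt
import Cfsg.Agent.Helper25.HeightZero2
import Cfsg.Agent.Helper24.Schur
import Cfsg.Agent.Helper24.LinearChar

set_option autoImplicit false
set_option linter.unusedSectionVars false

/-!
# Height-zero characters over a central linear character (helper6)
-/

namespace Cfsg.Agent.Helper6

open Cfsg
open scoped ComplexConjugate

section ProjHeight

/-- A central element acts on an irreducible character by a scalar, whose degree-th power is the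
determinantal character. -/
theorem ph_central_det {K : Type*} [Group K] [Finite K] {η : K → ℂ} (hη : IsIrrCharacter K η)
    (z : K) (hz : z ∈ Subgroup.center K) :
    ∃ c : ℂ, (∀ g : K, η (z * g) = c * η g) ∧ detChar η z = c ^ charDegree η := by
  have hdeg := Helper24.charDegree_spec (Helper24.isCharacter_of_irr hη)
  obtain ⟨n, ρ, hρ, rfl⟩ := hη
  haveI := hρ
  have hfr : Module.finrank ℂ (Fin n → ℂ) = n := by simp
  have hn : charDegree ρ.character = n := by
    rw [Representation.char_one, hfr] at hdeg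
    exact_mod_cast hdeg.symm
  obtain ⟨c, hc⟩ := Helper24.schur_central ρ z hz
  refine ⟨c, fun g => ?_, ?_⟩
  · simp only [Representation.character, map_mul, hc]
    rw [Module.End.mul_eq_comp, LinearMap.smul_comp, LinearMap.id_comp, map_smul, smul_eq_mul]
  · rw [hn, detChar_eq, hc, LinearMap.det_smul, LinearMap.det_id, mul_one, hfr]

/-- The scalar by which a central element acts is an algebraic integer. -/
theorem ph_central_integral {K : Type*} [Group K] [Finite K] {η : K → ℂ}
    (hη : IsIrrCharacter K η) (z : K) (c : ℂ) (hc : ∀ g : K, η (z * g) = c * η g) :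
    IsIntegral ℤ c := by
  have hpow : ∀ j : ℕ, η (z ^ j) = c ^ j * η 1 := by
    intro j
    induction j with
    | zero => simp
    | succ j ih =>
      rw [pow_succ', hc, ih, pow_succ']
      ring
  have hcN : c ^ orderOf z = 1 := by
    have h1 := hpow (orderOf z)
    rw [pow_orderOf_eq_one] at h1
    have h2 := Helper24.irr_one_ne_zero hη
    have h3 : (c ^ orderOf z - 1) * η 1 = 0 := by
      rw [sub_mul, one_mul, ← h1, sub_self]
    rcases mul_eq_zero.1 h3 with h | h
    · exact sub_eq_zero.1 h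
    · exact absurd h h2
  apply IsIntegral.of_pow (orderOf_pos z)
  rw [hcN]
  exact isIntegral_one

variable {G : Type*} [Group G] [Fintype G] {M : Ideal AlgInt} {p : ℕ} [Fact p.Prime]

/-- A height-zero character does not vanish modulo `M` on a defect class. -/
theorem ph_unit (hpM : IsPModular p M) {B : Set (IrrCharacter G)} (hB : IsPBlock M B)
    (χ : IrrCharacter G) (hχ : χ ∈ B) (h0 : blockHeight p B (χ : G → ℂ) = 0) (g₀ : G)
    (hg₀ : IsDefectClass M B g₀) : ¬ MemLocalIdeal M ((χ : G → ℂ) g₀) := by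
  intro hmem
  have hM := hpM.2.1.isPrime
  apply hg₀.2.2 χ hχ
  have hidx := Helper25.defectClass_idx_val hpM hB χ hχ h0 g₀ hg₀
  have h1 := Helper25.natCast_div_memLocalRing hpM (Helper25.charDegree_irr_ne_zero χ)
    (le_of_eq hidx.symm)
  have h2 := Helper25.MemLocalIdeal.mul_right hM hmem h1
  have h3 : (χ : G → ℂ) g₀ * (((Subgroup.centralizer ({g₀} : Set G)).index : ℂ)
      / (charDegree (χ : G → ℂ) : ℂ)) = centralChar (χ : G → ℂ) g₀ := by
    unfold centralChar
    rw [Helper24.charDegree_spec (Helper24.isCharacter_of_irr χ.2)]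
    ring
  rwa [h3] at h2

/-- The key extension statement: if `χ g₀` is a unit modulo `M` for an element `g₀` central in
a subgroup `C`, and `χ` lies over the linear character `lam` of the central `p`-subgroup `Z`,
then `lam` extends to every subgroup of `C` containing `Z`. -/
theorem ph_key (hpM : IsPModular p M) (C : Subgroup G) (g₀ : G) (hg₀C : g₀ ∈ C)
    (hcomm : ∀ c ∈ C, c * g₀ = g₀ * c) (Q : Subgroup C) (Z : Subgroup G)
    (hZc : Z ≤ Subgroup.center G) (hZp : IsPGroup p Z) (hZQ : Z ≤ Q.map C.subtype)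
    (lam : Z →* ℂˣ) (χ : IrrCharacter G)
    (hover : ∀ z : Z, (χ : G → ℂ) z = (χ : G → ℂ) 1 * (lam z : ℂ))
    (hunit : ¬ MemLocalIdeal M ((χ : G → ℂ) g₀)) :
    ∃ μ : (Q.map C.subtype : Subgroup G) →* ℂˣ, ∀ z : Z, μ ⟨(z : G), hZQ z.2⟩ = lam z := by
  classical
  have hp : p.Prime := Fact.out
  have hM := hpM.2.1.isPrime
  haveI : Fintype C := Fintype.ofFinite C
  have := Helper24.finite_irrCharacter (G := C)
  haveI : Fintype (IrrCharacter C) := Fintype.ofFinite _
  have hχc := Helper24.isCharacter_of_irr χ.2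
  have hχ0 := Helper24.irr_one_ne_zero χ.2
  have hZC : ∀ z : Z, (z : G) ∈ C := by
    intro z
    obtain ⟨u, _, hu⟩ := Subgroup.mem_map.1 (hZQ z.2)
    rw [← hu]
    exact u.2
  have hZcenC : ∀ z : Z, (⟨(z : G), hZC z⟩ : C) ∈ Subgroup.center C := by
    intro z
    rw [Subgroup.mem_center_iff]
    intro c
    apply Subtype.ext
    exact (Subgroup.mem_center_iff.1 (hZc z.2)) (c : G)
  have hg₀cen : (⟨g₀, hg₀C⟩ : C) ∈ Subgroup.center C := by
    rw [Subgroup.mem_center_iff]
    intro c
    apply Subtype.ext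
    exact hcomm c c.2
  have hχz : ∀ (z : Z) (g : G),
      (χ : G → ℂ) ((z : G) * g) = ((lam z : ℂˣ) : ℂ) * (χ : G → ℂ) g := by
    intro z g
    have h1 := lar_central_mul χ z g (hZc z.2)
    rw [hover z] at h1
    apply mul_left_cancel₀ hχ0
    rw [h1]
    ring
  have hlamN : ∀ z : Z, ((lam z : ℂˣ) : ℂ) ^ Nat.card Z = 1 := by
    intro z
    have h1 : lam z ^ Nat.card Z = 1 := by rw [← map_pow, pow_card_eq_one', map_one]
    have h2 := congrArg (fun u : ℂˣ => (u : ℂ)) h1
    simpa using h2
  have hlamconj : ∀ z : Z, ((lam z : ℂˣ) : ℂ) * conj ((lam z : ℂˣ) : ℂ) = 1 := by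
    intro z
    rw [Complex.mul_conj, Complex.normSq_eq_norm_sq,
      Complex.norm_eq_one_of_pow_eq_one (hlamN z) (Nat.card_pos.ne')]
    simp
  have hres : IsGeneralizedCharacter C (fun c : C => (χ : G → ℂ) c) :=
    Helper10.isGeneralizedCharacter_of_char (Helper24.isCharacter_restrict C hχc)
  have hexp := Helper10.gen_expansion hres
  by_contra hno
  have hA : ∀ η : IrrCharacter C,
      Helper10.irrCoeff (fun c : C => (χ : G → ℂ) c) (η : C → ℂ) ≠ 0 →
        p ∣ charDegree (η : C → ℂ) := by
    intro η hn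
    by_contra hpn
    apply hno
    have hηz : ∀ z : Z, detChar (η : C → ℂ) ⟨(z : G), hZC z⟩
        = ((lam z : ℂˣ) : ℂ) ^ charDegree (η : C → ℂ) := by
      intro z
      obtain ⟨c, hc, hdet⟩ := ph_central_det η.2 ⟨(z : G), hZC z⟩ (hZcenC z)
      rw [hdet]
      congr 1
      have hspec := Helper10.irrCoeff_spec hres η.2
      have hS : ∑ x : C, (χ : G → ℂ) x * conj ((η : C → ℂ) x) ≠ 0 := by
        intro h0
        unfold classInner at hspec
        rw [h0, mul_zero] at hspec
        apply hn
        exact_mod_cast hspec.symm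
      have hre : ∑ x : C, (χ : G → ℂ) x * conj ((η : C → ℂ) x)
          = ((lam z : ℂˣ) : ℂ) * conj c * ∑ x : C, (χ : G → ℂ) x * conj ((η : C → ℂ) x) := by
        rw [Finset.mul_sum,
          ← Equiv.sum_comp (Equiv.mulLeft (⟨(z : G), hZC z⟩ : C))
            (fun x : C => (χ : G → ℂ) x * conj ((η : C → ℂ) x))]
        refine Finset.sum_congr rfl fun x _ => ?_
        rw [Equiv.coe_mulLeft, hc x, Subgroup.coe_mul, hχz z x, map_mul]
        ring
      have h1 : ((lam z : ℂˣ) : ℂ) * conj c = 1 := by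
        have h2 : (((lam z : ℂˣ) : ℂ) * conj c - 1)
            * ∑ x : C, (χ : G → ℂ) x * conj ((η : C → ℂ) x) = 0 := by
          rw [sub_mul, one_mul, ← hre, sub_self]
        rcases mul_eq_zero.1 h2 with h | h
        · exact sub_eq_zero.1 h
        · exact absurd h hS
      have h3 : conj c = conj ((lam z : ℂˣ) : ℂ) := by
        have hl0 : ((lam z : ℂˣ) : ℂ) ≠ 0 := Units.ne_zero _
        apply mul_left_cancel₀ hl0
        rw [h1, hlamconj z]
      have h4 := congrArg conj h3
      rwa [Complex.conj_conj, Complex.conj_conj] at h4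
    obtain ⟨k, hk⟩ := hZp.exists_card_eq
    have hcop : Nat.Coprime (charDegree (η : C → ℂ)) (Nat.card Z) := by
      rw [hk]
      exact Nat.Coprime.pow_right k
        ((Nat.coprime_comm).1 ((Nat.Prime.coprime_iff_not_dvd hp).2 hpn))
    obtain ⟨m, hm⟩ : ∃ m : ℕ, ∀ z : Z,
        (((lam z : ℂˣ) : ℂ) ^ charDegree (η : C → ℂ)) ^ m = ((lam z : ℂˣ) : ℂ) := by
      by_cases h1 : Nat.card Z = 1
      · refine ⟨0, fun z => ?_⟩
        have h2 := hlamN z
        rw [h1, pow_one] at h2
        rw [pow_zero, h2]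
      · have h2 : 1 < Nat.card Z := by
          have h3 := Nat.card_pos (α := Z)
          omega
        obtain ⟨m, _, hm⟩ := Nat.exists_mul_mod_eq_one_of_coprime hcop h2
        refine ⟨m, fun z => ?_⟩
        rw [← pow_mul, ← Nat.div_add_mod (charDegree (η : C → ℂ) * m) (Nat.card Z), hm,
          pow_add, pow_mul, hlamN z, one_pow, one_mul, pow_one]
    have hηc := Helper24.isCharacter_of_irr η.2
    have hδ := detChar_isLinear (Helper24.isCharacter_restrict Q hηc)
    rw [detChar_restrict Q hηc] at hδ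
    have hμc := isCharacter_pow hδ.1 m
    have hμ1 : ((fun n : Q => detChar (η : C → ℂ) n) ^ m) 1 = 1 := by
      have h2 : detChar (η : C → ℂ) ((1 : Q) : C) = 1 := hδ.2
      rw [Pi.pow_apply, h2, one_pow]
    let f : Q →* ℂ :=
      { toFun := (fun n : Q => detChar (η : C → ℂ) n) ^ m
        map_one' := hμ1
        map_mul' := Helper24.linear_char_mul hμc hμ1 }
    let e := Subgroup.equivMapOfInjective Q C.subtype Subtype.coe_injective
    refine ⟨f.toHomUnits.comp e.symm.toMonoidHom, fun z => ?_⟩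
    apply Units.ext
    rw [MonoidHom.comp_apply, MonoidHom.coe_toHomUnits]
    obtain ⟨u, hu⟩ : ∃ u : Q, e u = ⟨(z : G), hZQ z.2⟩ := ⟨e.symm _, e.apply_symm_apply _⟩
    have hu' : ((u : C) : G) = (z : G) := by
      have h1 := congrArg (fun x : (Q.map C.subtype : Subgroup G) => (x : G)) hu
      have h2 : (((e u : (Q.map C.subtype : Subgroup G)) : G)) = ((u : C) : G) :=
        Subgroup.coe_equivMapOfInjective_apply Q C.subtype Subtype.coe_injective u
      rw [← h2]
      exact h1
    have hsymm : e.symm ⟨(z : G), hZQ z.2⟩ = u := by rw [← hu, e.symm_apply_apply]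
    rw [MulEquiv.coe_toMonoidHom, hsymm]
    have huC : (u : C) = ⟨(z : G), hZC z⟩ := Subtype.ext hu'
    show (detChar (η : C → ℂ) (u : C)) ^ m = _
    rw [huC, hηz z, hm z]
  apply hunit
  have hval := congrFun hexp ⟨g₀, hg₀C⟩
  rw [Finset.sum_apply] at hval
  have hval' : (χ : G → ℂ) g₀ = ∑ η : IrrCharacter C,
      (Helper10.irrCoeff (fun c : C => (χ : G → ℂ) c) (η : C → ℂ) : ℂ)
        * (η : C → ℂ) ⟨g₀, hg₀C⟩ := by
    simpa using hval
  rw [hval']
  apply Finset.sum_induction _ (fun x => MemLocalIdeal M x)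
    (fun a b ha hb => Helper25.MemLocalIdeal.add hM ha hb) (Helper25.MemLocalIdeal.zero hM.ne_top)
  intro η _
  by_cases hn : Helper10.irrCoeff (fun c : C => (χ : G → ℂ) c) (η : C → ℂ) = 0
  · rw [hn, Int.cast_zero, zero_mul]
    exact Helper25.MemLocalIdeal.zero hM.ne_top
  · have hpd := hA η hn
    obtain ⟨c, hc, _⟩ := ph_central_det η.2 ⟨g₀, hg₀C⟩ hg₀cen
    have hcint := ph_central_integral η.2 _ c hc
    have h1 := hc 1
    rw [mul_one, Helper24.charDegree_spec (Helper24.isCharacter_of_irr η.2)] at h1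
    rw [h1]
    have h2 : MemLocalIdeal M ((charDegree (η : C → ℂ) : ℂ)) :=
      (Helper25.memLocalIdeal_natCast_iff hpM _).2 hpd
    exact Helper25.MemLocalIdeal.mul_left hM (intCast_mem (Helper25.localRing M hM) _)
      (Helper25.MemLocalIdeal.mul_left hM
        (Helper25.memLocalRing_of_isIntegral hM.ne_top hcint) h2)

end ProjHeight

end Cfsg.Agent.Helper6
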