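import Cfsg.Agent.Helper25.BlockRankTrace
import Cfsg.Agent.Helper25.BlockQuot
import Cfsg.Agent.Helper25.BlockPPrime
import Cfsg.Agent.Helper25.HeightZero2
import Cfsg.Agent.Helper2.CharInner
import Cfsg.Agent.Helper24.CharBasic

set_option autoImplicit false
set_option linter.unusedSectionVars false

/-!
# The `p`-regular rank of a block and inflation from a quotient by a normal `p`-subgroup
whose centralizer has `p`-power index (helper6)
-/

namespace Cfsg.Agent.Helper6

open Cfsg
open scoped ComplexConjugate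

section RankInfl

variable {G : Type*} [Group G] [Fintype G] {M : Ideal AlgInt} {p : ℕ}

/-- `p`-regular elements with the same image modulo a normal `p`-subgroup whose centralizer has
`p`-power index are equal. -/
theorem regular_lift_unique (hp : p.Prime) (Q : Subgroup G) [Q.Normal] (hQ : IsPGroup p Q)
    (hC : ∃ k : ℕ, (Subgroup.centralizer (Q : Set G)).index = p ^ k)
    (g g' : G) (hg : ¬ p ∣ orderOf g) (hg' : ¬ p ∣ orderOf g')
    (h : (g : G ⧸ Q) = (g' : G ⧸ Q)) : g = g' := by
  have hgC := Helper25.regular_mem_of_index hp (Subgroup.centralizer (Q : Set G)) hC g hg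
  have hz : g⁻¹ * g' ∈ Q := QuotientGroup.eq.1 h
  have hcomm : Commute g (g⁻¹ * g') := by
    have := Subgroup.mem_centralizer_iff.1 hgC _ hz
    exact this.symm
  obtain ⟨k, hk⟩ := hQ ⟨_, hz⟩
  have hk' : (g⁻¹ * g') ^ p ^ k = 1 := by
    have := congrArg Subtype.val hk
    simpa using this
  have hg'eq : g' = g * (g⁻¹ * g') := by group
  have e1 : g ^ (orderOf g * orderOf g') = 1 := by
    rw [pow_mul, pow_orderOf_eq_one, one_pow]
  have e2 : g' ^ (orderOf g * orderOf g') = 1 := by
    rw [mul_comm, pow_mul, pow_orderOf_eq_one, one_pow]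
  have h2 : (g⁻¹ * g') ^ (orderOf g * orderOf g') = 1 := by
    have h3 : (g * (g⁻¹ * g')) ^ (orderOf g * orderOf g')
        = g ^ (orderOf g * orderOf g') * (g⁻¹ * g') ^ (orderOf g * orderOf g') :=
      hcomm.mul_pow _
    rw [← hg'eq, e1, e2, one_mul] at h3
    exact h3.symm
  have hco : Nat.Coprime (p ^ k) (orderOf g * orderOf g') := by
    apply Nat.Coprime.pow_left
    exact Nat.Coprime.mul_right ((Nat.Prime.coprime_iff_not_dvd hp).2 hg)
      ((Nat.Prime.coprime_iff_not_dvd hp).2 hg')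
  have hz1 : g⁻¹ * g' = 1 := by
    have h4 : orderOf (g⁻¹ * g') ∣ Nat.gcd (p ^ k) (orderOf g * orderOf g') :=
      Nat.dvd_gcd (orderOf_dvd_of_pow_eq_one hk') (orderOf_dvd_of_pow_eq_one h2)
    rw [hco.gcd_eq_one, Nat.dvd_one] at h4
    exact orderOf_eq_one_iff.1 h4
  exact inv_mul_eq_one.1 hz1

/-- The `p`-regular part of a member of a block lies in the span of the `p`-regular parts of the
inflated members of the block. -/
theorem pRegularPart_mem_span_infl [Fact p.Prime] (hpM : IsPModular p M)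
    (Q : Subgroup G) [Q.Normal] (hQ : IsPGroup p Q)
    (hC : ∃ k : ℕ, (Subgroup.centralizer (Q : Set G)).index = p ^ k)
    {B : Set (IrrCharacter G)} (hB : IsPBlock M B) (χ : IrrCharacter G) (hχ : χ ∈ B) :
    pRegularPart p (χ : G → ℂ) ∈ Submodule.span ℂ
      ((fun ψ : IrrCharacter (G ⧸ Q) =>
          pRegularPart p ((ψ : G ⧸ Q → ℂ) ∘ (QuotientGroup.mk : G → G ⧸ Q)))
        '' {ψ | Helper25.inflIrr Q ψ ∈ B}) := by
  classical
  haveI : Fintype (G ⧸ Q) := Fintype.ofFinite _
  haveI : Finite (IrrCharacter (G ⧸ Q)) := Helper24.finite_irrCharacter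
  haveI : Fintype (IrrCharacter (G ⧸ Q)) := Fintype.ofFinite _
  haveI : Finite (IrrCharacter G) := Helper24.finite_irrCharacter
  haveI : Fintype (IrrCharacter G) := Fintype.ofFinite _
  have hp := hpM.1
  have hM := hpM.2.1.isPrime
  have hpa : ((p ^ (Nat.card G).factorization p : ℕ) : ℂ) ≠ 0 :=
    Nat.cast_ne_zero.mpr (pow_ne_zero _ hp.ne_zero)
  obtain ⟨tb, htb⟩ : ∃ tb : G ⧸ Q → ℂ, tb = fun x => ∑ g : G,
      if ((g : G ⧸ Q) = x ∧ ¬ p ∣ orderOf g) then (χ : G → ℂ) g else 0 := ⟨_, rfl⟩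
  have htb_reg : ∀ g : G, ¬ p ∣ orderOf g → tb (g : G ⧸ Q) = (χ : G → ℂ) g := by
    intro g hg
    rw [htb]
    beta_reduce
    rw [Finset.sum_eq_single g]
    · rw [if_pos ⟨rfl, hg⟩]
    · intro g' _ hne
      rw [if_neg]
      rintro ⟨h1, h2⟩
      exact hne (regular_lift_unique hp Q hQ hC g' g h2 hg h1)
    · intro h
      exact absurd (Finset.mem_univ g) h
  have htb_cf : IsClassFunction (G ⧸ Q) tb := by
    intro x y
    obtain ⟨h, rfl⟩ := QuotientGroup.mk_surjective y
    rw [htb]
    beta_reduce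
    refine Fintype.sum_equiv (MulAut.conj h).symm.toEquiv _ _ ?_
    intro g
    have e1 : (MulAut.conj h).symm.toEquiv g = h⁻¹ * g * h := by
      simp [MulAut.conj_symm_apply]
    rw [e1]
    have e2 : orderOf (h⁻¹ * g * h) = orderOf g := by
      have := (MulAut.conj h⁻¹).orderOf_eq g
      rw [MulAut.conj_apply, inv_inv] at this
      exact this
    have e3 : (χ : G → ℂ) (h⁻¹ * g * h) = (χ : G → ℂ) g := by
      have := (Helper2.IsIrrCharacter.isClassFunction χ.2) g h⁻¹
      rw [inv_inv] at this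
      exact this
    have e4 : ((g : G ⧸ Q) = (h : G ⧸ Q) * x * (h : G ⧸ Q)⁻¹)
        ↔ (((h⁻¹ * g * h : G) : G ⧸ Q) = x) := by
      rw [QuotientGroup.mk_mul, QuotientGroup.mk_mul, QuotientGroup.mk_inv]
      constructor
      · intro h1
        rw [h1]
        group
      · intro h1
        rw [← h1]
        group
    rw [e2, e3]
    by_cases hc : (g : G ⧸ Q) = (h : G ⧸ Q) * x * (h : G ⧸ Q)⁻¹ ∧ ¬ p ∣ orderOf g
    · rw [if_pos hc, if_pos ⟨e4.1 hc.1, hc.2⟩]
    · rw [if_neg hc, if_neg (fun hc' => hc ⟨e4.2 hc'.1, hc'.2⟩)]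
  have hexp := Helper2.class_fn_expansion htb_cf
  have h1 : pRegularPart p (χ : G → ℂ)
      = pRegularPart p (tb ∘ (QuotientGroup.mk : G → G ⧸ Q)) := by
    funext g
    by_cases hg : p ∣ orderOf g
    · rw [Helper25.pRegularPart_sing _ hg, Helper25.pRegularPart_sing _ hg]
    · rw [Helper25.pRegularPart_reg _ hg, Helper25.pRegularPart_reg _ hg, Function.comp_apply,
        htb_reg g hg]
  have h2 : pRegularPart p (tb ∘ (QuotientGroup.mk : G → G ⧸ Q))
      = ∑ ψ : IrrCharacter (G ⧸ Q), classInner tb (ψ : G ⧸ Q → ℂ)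
        • pRegularPart p ((ψ : G ⧸ Q → ℂ) ∘ (QuotientGroup.mk : G → G ⧸ Q)) := by
    funext g
    rw [Finset.sum_apply]
    by_cases hg : p ∣ orderOf g
    · rw [Helper25.pRegularPart_sing _ hg]
      symm
      apply Finset.sum_eq_zero
      intro ψ _
      rw [Pi.smul_apply, Helper25.pRegularPart_sing _ hg, smul_zero]
    · rw [Helper25.pRegularPart_reg _ hg, Function.comp_apply]
      have h3 := congrFun hexp (g : G ⧸ Q)
      rw [Finset.sum_apply] at h3
      refine h3.trans ?_
      refine Finset.sum_congr rfl fun ψ _ => ?_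
      rw [Pi.smul_apply, Pi.smul_apply, Helper25.pRegularPart_reg _ hg, Function.comp_apply]
  have h3 := Helper25.regProj_pRegularPart hpM hB χ hχ
  have key : pRegularPart p (χ : G → ℂ)
      = ∑ ψ : IrrCharacter (G ⧸ Q), classInner tb (ψ : G ⧸ Q → ℂ)
        • Helper25.regProj p B
          (pRegularPart p ((ψ : G ⧸ Q → ℂ) ∘ (QuotientGroup.mk : G → G ⧸ Q))) := by
    calc pRegularPart p (χ : G → ℂ)
        = Helper25.regProj p B (pRegularPart p (χ : G → ℂ)) := h3.symm
      _ = Helper25.regProj p B (∑ ψ : IrrCharacter (G ⧸ Q), classInner tb (ψ : G ⧸ Q → ℂ)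
        • pRegularPart p ((ψ : G ⧸ Q → ℂ) ∘ (QuotientGroup.mk : G → G ⧸ Q))) := by
          rw [← h2, ← h1]
      _ = _ := by
          rw [map_sum]
          refine Finset.sum_congr rfl fun ψ _ => ?_
          rw [map_smul]
  rw [key]
  apply Submodule.sum_mem
  intro ψ _
  apply Submodule.smul_mem
  by_cases hψ : Helper25.inflIrr Q ψ ∈ B
  · have h4 := Helper25.regProj_pRegularPart hpM hB (Helper25.inflIrr Q ψ) hψ
    rw [Helper25.inflIrr_coe] at h4
    rw [h4]
    exact Submodule.subset_span ⟨ψ, hψ, rfl⟩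
  · have h4 : Helper25.regProj p B
        (pRegularPart p ((ψ : G ⧸ Q → ℂ) ∘ (QuotientGroup.mk : G → G ⧸ Q))) = 0 := by
      rw [Helper25.regProj_apply]
      apply Finset.sum_eq_zero
      intro ξ _
      split_ifs with hξ
      · have hns : ¬ SameBlock M (Helper25.inflIrr Q ψ : G → ℂ) (ξ : G → ℂ) :=
          fun hs => hψ (Helper25.mem_block_of_sameBlock hM hB hξ (Helper25.sameBlock_symm hs))
        have h5 := Helper25.classInner_tildeFun_eq_zero hpM (Helper25.inflIrr Q ψ) ξ hns
        rw [Helper25.tildeFun_eq_smul, Helper25.classInner_smul_left'] at h5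
        rcases mul_eq_zero.1 h5 with h | h
        · exact absurd h hpa
        · rw [Helper25.inflIrr_coe] at h
          rw [h, zero_smul]
      · rfl
    rw [h4]
    exact Submodule.zero_mem _

/-- The `p`-regular rank of a block equals that of the set of characters of the quotient
inflating into it, for a normal `p`-subgroup whose centralizer has `p`-power index. -/
theorem blockRank_infl [Fact p.Prime] (hpM : IsPModular p M) (Q : Subgroup G) [Q.Normal]
    (hQ : IsPGroup p Q)
    (hC : ∃ k : ℕ, (Subgroup.centralizer (Q : Set G)).index = p ^ k)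
    {B : Set (IrrCharacter G)} (hB : IsPBlock M B) :
    blockRank p B = blockRank p {ψ : IrrCharacter (G ⧸ Q) | Helper25.inflIrr Q ψ ∈ B} := by
  classical
  have hp := hpM.1
  obtain ⟨L, hL⟩ : ∃ L : ((G ⧸ Q) → ℂ) →ₗ[ℂ] (G → ℂ),
      ∀ f, L f = pRegularPart p (f ∘ (QuotientGroup.mk : G → G ⧸ Q)) := by
    refine ⟨{ toFun := fun f => pRegularPart p (f ∘ (QuotientGroup.mk : G → G ⧸ Q)),
              map_add' := ?_, map_smul' := ?_ }, fun f => rfl⟩
    · intro f f'
      funext g
      by_cases hg : p ∣ orderOf g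
      · rw [Pi.add_apply, Helper25.pRegularPart_sing _ hg, Helper25.pRegularPart_sing _ hg,
          Helper25.pRegularPart_sing _ hg, add_zero]
      · rw [Pi.add_apply, Helper25.pRegularPart_reg _ hg, Helper25.pRegularPart_reg _ hg,
          Helper25.pRegularPart_reg _ hg]
        rfl
    · intro c f
      funext g
      by_cases hg : p ∣ orderOf g
      · rw [Pi.smul_apply, Helper25.pRegularPart_sing _ hg, Helper25.pRegularPart_sing _ hg,
          smul_zero]
      · rw [Pi.smul_apply, Helper25.pRegularPart_reg _ hg, Helper25.pRegularPart_reg _ hg]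
        rfl
  have hreg_img : ∀ g : G, ¬ p ∣ orderOf g → ¬ p ∣ orderOf (g : G ⧸ Q) := by
    intro g hg hdvd
    exact hg (dvd_trans hdvd (orderOf_map_dvd (QuotientGroup.mk' Q) g))
  have hLψ : ∀ ψ : G ⧸ Q → ℂ, L (pRegularPart p ψ)
      = pRegularPart p (ψ ∘ (QuotientGroup.mk : G → G ⧸ Q)) := by
    intro ψ
    rw [hL]
    funext g
    by_cases hg : p ∣ orderOf g
    · rw [Helper25.pRegularPart_sing _ hg, Helper25.pRegularPart_sing _ hg]
    · rw [Helper25.pRegularPart_reg _ hg, Helper25.pRegularPart_reg _ hg, Function.comp_apply,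
        Function.comp_apply, Helper25.pRegularPart_reg _ (hreg_img g hg)]
  unfold blockRank
  obtain ⟨S, hS⟩ : ∃ S, S = Submodule.span ℂ
      ((fun χ : IrrCharacter G => pRegularPart p (χ : G → ℂ)) '' B) := ⟨_, rfl⟩
  obtain ⟨T, hT⟩ : ∃ T, T = Submodule.span ℂ
      ((fun ψ : IrrCharacter (G ⧸ Q) => pRegularPart p (ψ : G ⧸ Q → ℂ))
        '' {ψ | Helper25.inflIrr Q ψ ∈ B}) := ⟨_, rfl⟩
  rw [← hS, ← hT]
  have hcomp : (⇑L ∘ fun ψ : IrrCharacter (G ⧸ Q) => pRegularPart p (ψ : G ⧸ Q → ℂ))
      = fun ψ : IrrCharacter (G ⧸ Q) =>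
          pRegularPart p ((ψ : G ⧸ Q → ℂ) ∘ (QuotientGroup.mk : G → G ⧸ Q)) := by
    funext ψ
    rw [Function.comp_apply, hLψ]
  have hmap : Submodule.map L T = S := by
    rw [hT, Submodule.map_span, ← Set.image_comp, hcomp]
    apply le_antisymm
    · rw [hS]
      apply Submodule.span_mono
      rintro _ ⟨ψ, hψ, rfl⟩
      exact ⟨Helper25.inflIrr Q ψ, hψ, rfl⟩
    · rw [hS, Submodule.span_le]
      rintro _ ⟨χ, hχ, rfl⟩
      exact pRegularPart_mem_span_infl hpM Q hQ hC hB χ hχ
  have hvan : ∀ f ∈ T, ∀ x : G ⧸ Q, p ∣ orderOf x → f x = 0 := by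
    intro f hf
    rw [hT] at hf
    induction hf using Submodule.span_induction with
    | mem v hv =>
      obtain ⟨ψ, _, rfl⟩ := hv
      intro x hx
      exact Helper25.pRegularPart_sing _ hx
    | zero =>
      intro x _
      rfl
    | add v w _ _ hv hw =>
      intro x hx
      rw [Pi.add_apply, hv x hx, hw x hx, add_zero]
    | smul c v _ hv =>
      intro x hx
      rw [Pi.smul_apply, hv x hx, smul_zero]
  have hinj : Function.Injective (L.domRestrict T) := by
    rw [← LinearMap.ker_eq_bot, LinearMap.ker_eq_bot']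
    intro f hf
    apply Subtype.ext
    funext x
    by_cases hx : p ∣ orderOf x
    · exact hvan f.1 f.2 x hx
    · obtain ⟨g, hg, rfl⟩ := Helper25.exists_regular_lift hp Q x hx
      have h6 := congrFun hf g
      rw [LinearMap.domRestrict_apply, hL, Helper25.pRegularPart_reg _ hg] at h6
      exact h6
  have hrange : LinearMap.range (L.domRestrict T) = Submodule.map L T := by
    ext v
    constructor
    · rintro ⟨f, rfl⟩
      exact ⟨f.1, f.2, rfl⟩
    · rintro ⟨f, hf, rfl⟩
      exact ⟨⟨f, hf⟩, rfl⟩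
  rw [← hmap, ← hrange]
  exact (LinearMap.finrank_range_of_inj hinj)

end RankInfl

end Cfsg.Agent.Helper6
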