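import Cfsg.Agent.Helper6.KleinFour
import Cfsg.Agent.Helper6.DefectOne2
import Cfsg.Agent.Helper6.Laradji
import Cfsg.Agent.Helper25.BlockSection
import Cfsg.Agent.Helper25.BlockRankTrace
import Cfsg.Agent.Helper8.BSQ8Fin
import Cfsg.Agent.S0947
import Cfsg.Agent.S4571

set_option autoImplicit false
set_option linter.unusedSectionVars false

/-!
# The principal `2`-block for a quaternion Sylow subgroup of order eight (helper6)
-/

namespace Cfsg.Agent.Helper6

open Cfsg
open scoped ComplexConjugate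

section QuatSeven

variable {G : Type*} [Group G] [Fintype G] {M : Ideal AlgInt}

/-- Counting the principal block over the three `2`-sections `1`, `z`, `a`. -/
theorem q7_count [Fintype (IrrCharacter G)] (hpM : IsPModular 2 M) (z a : G)
    (hz : orderOf z = 2) (hzc : z ∈ Subgroup.center G) (ha : orderOf a = 4) (hza : a ^ 2 = z)
    (hsec : ∀ w : G, (∃ k : ℕ, orderOf w = 2 ^ k) → w = 1 ∨ w = z ∨ IsConj w a)
    (hidx : ∃ k : ℕ, (pPrimeCore 2 (Subgroup.centralizer ({a} : Set G))).index = 2 ^ k)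
    (hC4 : 2 ^ (Nat.card (Subgroup.centralizer ({a} : Set G))).factorization 2 = 4)
    [Fintype (Subgroup.centralizer ({a} : Set G))]
    (hodd : 4 * ∑ y : Subgroup.centralizer ({a} : Set G), (if 2 ∣ orderOf y then (0 : ℂ) else 1)
      = (Nat.card (Subgroup.centralizer ({a} : Set G)) : ℂ)) :
    Nat.card (principalBlock M G) = 2 * blockRank 2 (principalBlock M G) + 1 := by
  classical
  haveI : Fact (Nat.Prime 2) := ⟨Nat.prime_two⟩
  have hB : IsPBlock M (principalBlock M G) := ⟨Helper25.oneIrr G, rfl⟩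
  obtain ⟨F, hFdef⟩ : ∃ F : G → ℂ, F = fun g => ∑ χ : IrrCharacter G,
      (if χ ∈ principalBlock M G then (χ : G → ℂ) g * conj ((χ : G → ℂ) g) else 0) := ⟨_, rfl⟩
  have hF : ∀ g, F g = ∑ χ : IrrCharacter G,
      (if χ ∈ principalBlock M G then (χ : G → ℂ) g * conj ((χ : G → ℂ) g) else 0) := by
    intro g; rw [hFdef]
  have hFcl : IsClassFunction G F := by
    intro g h
    rw [hF, hF]
    refine Finset.sum_congr rfl fun χ _ => ?_
    rw [Helper2.IsIrrCharacter.isClassFunction χ.2 g h]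
  -- the total sum
  have hI : ∑ g : G, F g = (Nat.card G : ℂ) * (Nat.card (principalBlock M G) : ℂ) := by
    have hcard : (Nat.card (principalBlock M G) : ℂ)
        = ∑ χ : IrrCharacter G, (if χ ∈ principalBlock M G then (1 : ℂ) else 0) := by
      rw [Nat.card_eq_fintype_card, Fintype.card_subtype, Finset.card_filter]
      push_cast
      rfl
    rw [hcard, Finset.mul_sum]
    simp only [hF]
    rw [Finset.sum_comm]
    refine Finset.sum_congr rfl fun χ _ => ?_
    by_cases hχ : χ ∈ principalBlock M G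
    · simp only [if_pos hχ]
      rw [Helper25.row_orth χ χ, if_pos rfl, mul_one]
    · simp only [if_neg hχ]
      rw [Finset.sum_const_zero, mul_zero]
  -- the odd part
  have hII : ∑ g : G, (if 2 ∣ orderOf g then 0 else F g)
      = (Nat.card G : ℂ) * (blockRank 2 (principalBlock M G) : ℂ) := by
    rw [Helper25.blockRank_trace hpM hB]
    refine Finset.sum_congr rfl fun g _ => ?_
    by_cases hg : 2 ∣ orderOf g
    · rw [if_pos hg]
      symm
      apply Finset.sum_eq_zero
      intro χ _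
      rw [Helper25.pRegularPart_sing _ hg, zero_mul, ite_self]
    · rw [if_neg hg, hF]
      refine Finset.sum_congr rfl fun χ _ => ?_
      rw [Helper25.pRegularPart_reg _ hg, Helper24.char_inv (Helper24.isCharacter_of_irr χ.2) g]
  have hFz : ∀ g, F (z * g) = F g := by
    intro g
    rw [hF, hF]
    refine Finset.sum_congr rfl fun χ _ => ?_
    have h := lar_normSq_mul χ z g hzc
    rw [Complex.mul_conj, Complex.mul_conj, h]
  obtain ⟨F₁, hF₁def⟩ : ∃ F₁ : G → ℂ, F₁ = fun g => if 2 ∣ orderOf (z * g) then F g else 0 :=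
    ⟨_, rfl⟩
  have hF₁ : ∀ g, F₁ g = if 2 ∣ orderOf (z * g) then F g else 0 := by intro g; rw [hF₁def]
  have hzz : z * z = 1 := by
    have h := pow_orderOf_eq_one z
    rw [hz, pow_two] at h
    exact h
  have hcomm : ∀ g, z * g = g * z := fun g => ((Subgroup.mem_center_iff.1 hzc) g).symm
  have hsplit : ∑ g : G, F g = ∑ g : G, F₁ g + ∑ g : G, (if 2 ∣ orderOf g then 0 else F g) := by
    have h1 : ∑ g : G, (if 2 ∣ orderOf g then 0 else F g)
        = ∑ g : G, (if 2 ∣ orderOf (z * g) then 0 else F g) := by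
      rw [← Equiv.sum_comp (Equiv.mulLeft z) (fun g => if 2 ∣ orderOf (z * g) then 0 else F g)]
      refine Finset.sum_congr rfl fun g _ => ?_
      have hzzg : z * (z * g) = g := by rw [← mul_assoc, hzz, one_mul]
      simp only [Equiv.coe_mulLeft, hzzg, hFz]
    rw [h1, ← Finset.sum_add_distrib]
    refine Finset.sum_congr rfl fun g _ => ?_
    rw [hF₁]
    by_cases h : 2 ∣ orderOf (z * g)
    · rw [if_pos h, if_pos h, add_zero]
    · rw [if_neg h, if_neg h, zero_add]
  have hF₁cl : IsClassFunction G F₁ := by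
    intro g h
    rw [hF₁, hF₁, hFcl g h]
    have h1 : z * (h * g * h⁻¹) = h * (z * g) * h⁻¹ := by
      calc z * (h * g * h⁻¹) = (z * h) * g * h⁻¹ := by group
        _ = (h * z) * g * h⁻¹ := by rw [hcomm h]
        _ = h * (z * g) * h⁻¹ := by group
    have h2 : orderOf (h * (z * g) * h⁻¹) = orderOf (z * g) := by
      have h3 := (MulAut.conj h).orderOf_eq (z * g)
      rw [MulAut.conj_apply] at h3
      exact h3
    rw [h1, h2]
  have ha1 : a ≠ 1 := by
    rintro rfl
    rw [orderOf_one] at ha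
    omega
  have hapow : ∃ k : ℕ, orderOf a = 2 ^ k := ⟨2, by rw [ha]; norm_num⟩
  have hvan : ∀ g w : G, IsPPart 2 g w → w ≠ 1 → ¬ IsConj w a → F₁ g = 0 := by
    rintro g w ⟨y, hy, hcy, hwpow, hyodd⟩ hw1 hwa
    rcases hsec w hwpow with h | h | h
    · exact absurd h hw1
    · rw [hF₁, if_neg]
      rw [← hy, h, ← mul_assoc, hzz, one_mul]
      exact hyodd
    · exact absurd h hwa
  have hsect := d1_section (p := 2) F₁ hF₁cl a hapow ha1 hvan
  have hreg : ∑ g : G, (if 2 ∣ orderOf g then 0 else F₁ g)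
      = ∑ g : G, (if 2 ∣ orderOf g then 0 else F g) := by
    refine Finset.sum_congr rfl fun g _ => ?_
    by_cases hg : 2 ∣ orderOf g
    · rw [if_pos hg, if_pos hg]
    · rw [if_neg hg, if_neg hg, hF₁, if_pos]
      have hco : Nat.Coprime (orderOf z) (orderOf g) := by
        rw [hz]
        exact (Nat.Prime.coprime_iff_not_dvd Nat.prime_two).2 hg
      have hc : Commute z g := hcomm g
      rw [hc.orderOf_mul_eq_mul_orderOf_of_coprime hco, hz]
      exact dvd_mul_right 2 _
  have hasec : ∀ y : Subgroup.centralizer ({a} : Set G), ¬ 2 ∣ orderOf y →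
      F₁ (a * (y : G)) = 4 := by
    intro y hy
    have hy' : ¬ 2 ∣ orderOf (y : G) := by rwa [Subgroup.orderOf_coe]
    have hcay : Commute a (y : G) :=
      Subgroup.mem_centralizer_iff.1 y.2 a (Set.mem_singleton a)
    rw [hF₁, if_pos]
    · have h947 := (Cfsg.Agent.S0947.result 2 M hpM a hapow ha1 y hy).2 hidx
      rw [hC4] at h947
      have h1 := congrArg Complex.ofReal h947
      rw [Helper25.finsum_mem_norm_sq, Helper25.finsum_mem_eq_sum_ite] at h1
      rw [hF, h1]
      norm_num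
    · have h3 : z * (a * (y : G)) = a ^ 3 * (y : G) := by
        rw [← hza]
        group
      rw [h3]
      have ho3 : orderOf (a ^ 3) = 4 := by
        have hcop : (orderOf a).Coprime 3 := by rw [ha]; decide
        rw [hcop.orderOf_pow, ha]
      have hc3 : Commute (a ^ 3) (y : G) := hcay.pow_left 3
      have hco : Nat.Coprime (orderOf (a ^ 3)) (orderOf (y : G)) := by
        rw [ho3]
        exact Nat.Coprime.pow_left 2 ((Nat.Prime.coprime_iff_not_dvd Nat.prime_two).2 hy')
      rw [hc3.orderOf_mul_eq_mul_orderOf_of_coprime hco, ho3]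
      exact Dvd.dvd.mul_right (by norm_num) _
  have hIV : ∑ y : Subgroup.centralizer ({a} : Set G),
      (if 2 ∣ orderOf y then 0 else F₁ (a * (y : G)))
      = (Nat.card (Subgroup.centralizer ({a} : Set G)) : ℂ) := by
    rw [← hodd, Finset.mul_sum]
    refine Finset.sum_congr rfl fun y _ => ?_
    by_cases hy : 2 ∣ orderOf y
    · rw [if_pos hy, if_pos hy, mul_zero]
    · rw [if_neg hy, if_neg hy, hasec y hy, mul_one]
  have hidxcard : ((Subgroup.centralizer ({a} : Set G)).index : ℂ)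
      * (Nat.card (Subgroup.centralizer ({a} : Set G)) : ℂ) = (Nat.card G : ℂ) := by
    rw [← Nat.cast_mul, mul_comm, Subgroup.card_mul_index]
  have hG0 : (Nat.card G : ℂ) ≠ 0 := Nat.cast_ne_zero.2 Nat.card_pos.ne'
  have hfin : (Nat.card G : ℂ) * (Nat.card (principalBlock M G) : ℂ)
      = (Nat.card G : ℂ) * (2 * (blockRank 2 (principalBlock M G) : ℂ) + 1) := by
    rw [← hI, hsplit, hsect, hreg, hIV, hidxcard, hII]
    ring
  have h := mul_left_cancel₀ hG0 hfin
  exact_mod_cast h

end QuatSeven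

section QuatSevenGrp

/-- `2`-elements are trivial, the central involution, or conjugate to `a`. -/
theorem q7_two_elt {G : Type*} [Group G] [Finite G] (S : Sylow 2 G) (z a : G)
    (hzc : z ∈ Subgroup.center G)
    (hsq1 : ∀ s ∈ (S : Subgroup G), s ^ 2 = 1 → s = 1 ∨ s = z)
    (hfus : ∀ s ∈ (S : Subgroup G), s ^ 2 ≠ 1 → ∃ h : G, h * a * h⁻¹ = s)
    (w : G) (hw : ∃ k : ℕ, orderOf w = 2 ^ k) :
    w = 1 ∨ w = z ∨ ∃ h : G, h * a * h⁻¹ = w := by
  obtain ⟨k, hk⟩ := hw
  have hQ : IsPGroup 2 (Subgroup.zpowers w) :=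
    IsPGroup.of_card (n := k) (by rw [Nat.card_zpowers, hk])
  obtain ⟨g, hg⟩ := Helper8.bsq_conj_into S _ hQ
  have hs := hg w (Subgroup.mem_zpowers w)
  have hwe : w = g⁻¹ * (g * w * g⁻¹) * g := by group
  by_cases h2 : (g * w * g⁻¹) ^ 2 = 1
  · rcases hsq1 _ hs h2 with h | h
    · left
      rw [hwe, h]
      group
    · right; left
      rw [hwe, h]
      have h3 := Subgroup.mem_center_iff.1 hzc g
      rw [mul_assoc, ← h3, ← mul_assoc, inv_mul_cancel, one_mul]
  · right; right
    obtain ⟨h, hh⟩ := hfus _ hs h2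
    refine ⟨g⁻¹ * h, ?_⟩
    rw [hwe, ← hh]
    group

/-- The number of odd-order elements of the centralizer of an element of order four. -/
theorem q7_odd {G : Type*} [Group G] [Finite G] (S : Sylow 2 G)
    (e : (S : Subgroup G) ≃* QuaternionGroup 2) (a : G)
    (ha : a ∈ (S : Subgroup G)) (ha2 : a ^ 2 ≠ 1)
    [Fintype (Subgroup.centralizer ({a} : Set G))] :
    4 * ∑ y : Subgroup.centralizer ({a} : Set G), (if 2 ∣ orderOf y then (0 : ℂ) else 1)
      = (Nat.card (Subgroup.centralizer ({a} : Set G)) : ℂ) := by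
  classical
  haveI : Fact (Nat.Prime 2) := ⟨Nat.prime_two⟩
  have haC : a ∈ Subgroup.centralizer ({a} : Set G) :=
    Subgroup.mem_centralizer_iff.2 (fun h hh => by rw [Set.mem_singleton_iff.1 hh])
  obtain ⟨P₀, hP₀⟩ := Helper8.bsq_cent_sylow S e a ha ha2 haC
  have hcard : Nat.card P₀ = 4 := by
    have h1 : Nat.card (P₀ : Subgroup (Subgroup.centralizer ({a} : Set G))) = 4 := by
      rw [hP₀, Nat.card_zpowers, Subgroup.orderOf_mk]
      exact Helper8.bsq_orderOf_four e ha ha2
    exact h1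
  have hcyc : IsCyclic P₀ :=
    BS.isCyclic_of_le_zpowers (P₀ : Subgroup (Subgroup.centralizer ({a} : Set G))) ⟨a, haC⟩
      hP₀.le
  obtain ⟨K, hKn, hKmem, hKc, hKodd⟩ := TwoCompl.exists_odd_complement P₀ hcyc
  have hidx : K.index = Nat.card P₀ := hKc.symm.index_eq_card
  have hsum : ∑ y : Subgroup.centralizer ({a} : Set G), (if 2 ∣ orderOf y then (0 : ℂ) else 1)
      = (Nat.card K : ℂ) := by
    rw [Nat.card_eq_fintype_card, Fintype.card_subtype, Finset.card_filter]
    push_cast
    refine Finset.sum_congr rfl fun y _ => ?_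
    by_cases hy : 2 ∣ orderOf y
    · rw [if_pos hy, if_neg]
      rw [hKmem]
      exact fun h => (Nat.not_even_iff_odd.2 h) (even_iff_two_dvd.2 hy)
    · rw [if_neg hy, if_pos]
      rw [hKmem]
      exact Nat.not_even_iff_odd.1 (fun h => hy (even_iff_two_dvd.1 h))
  have h4 : 4 * Nat.card K = Nat.card (Subgroup.centralizer ({a} : Set G)) := by
    rw [← hcard, ← hidx, mul_comm]
    exact K.card_mul_index
  rw [hsum, ← h4]
  push_cast
  ring

/-- With a central involution and all other nontrivial `2`-elements fused, the principal block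
has three Brauer characters. -/
theorem q7_rank {G : Type*} [Group G] [Finite G] {M : Ideal AlgInt} (hpM : IsPModular 2 M)
    (S : Sylow 2 G) (z a : G) (hS8 : Nat.card S = 8)
    (hz : orderOf z = 2) (hzc : z ∈ Subgroup.center G) (ha2 : a ^ 2 = z)
    (hsq1 : ∀ s ∈ (S : Subgroup G), s ^ 2 = 1 → s = 1 ∨ s = z)
    (hfus : ∀ s ∈ (S : Subgroup G), s ^ 2 ≠ 1 → ∃ h : G, h * a * h⁻¹ = s) :
    blockRank 2 (principalBlock M G) = 3 := by
  classical
  haveI : Fact (Nat.Prime 2) := ⟨Nat.prime_two⟩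
  haveI : Fintype G := Fintype.ofFinite G
  have hzz : z * z = 1 := by
    have h := pow_orderOf_eq_one z
    rw [hz, pow_two] at h
    exact h
  have hQc : ∀ n : G, n ∈ Subgroup.zpowers z → n ∈ Subgroup.center G := by
    intro n hn
    obtain ⟨i, rfl⟩ := Subgroup.mem_zpowers_iff.1 hn
    exact Subgroup.zpow_mem _ hzc i
  haveI hQn : (Subgroup.zpowers z).Normal := by
    constructor
    intro n hn g
    have h5 : g * n * g⁻¹ = n := by
      rw [Subgroup.mem_center_iff.1 (hQc n hn) g]
      group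
    rw [h5]
    exact hn
  have hQ : IsPGroup 2 (Subgroup.zpowers z) :=
    IsPGroup.of_card (n := 1) (by rw [Nat.card_zpowers, hz]; rfl)
  have hsup : Subgroup.zpowers z
      ⊔ Subgroup.centralizer ((Subgroup.zpowers z : Subgroup G) : Set G) = ⊤ := by
    have h1 : Subgroup.centralizer ((Subgroup.zpowers z : Subgroup G) : Set G) = ⊤ := by
      rw [Subgroup.centralizer_eq_top_iff_subset]
      exact fun n hn => hQc n hn
    rw [h1, sup_top_eq]
  rw [Cfsg.Agent.S4571.result 2 M hpM (Subgroup.zpowers z) hQ hsup]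
  haveI : Fintype (G ⧸ Subgroup.zpowers z) := Fintype.ofFinite _
  have := Helper24.finite_irrCharacter (G := G ⧸ Subgroup.zpowers z)
  haveI : Fintype (IrrCharacter (G ⧸ Subgroup.zpowers z)) := Fintype.ofFinite _
  have h2lift : ∀ x : G, (∃ k : ℕ, orderOf (x : G ⧸ Subgroup.zpowers z) = 2 ^ k) →
      ∃ j : ℕ, orderOf x = 2 ^ j := by
    rintro x ⟨k, hk⟩
    have h1 : ((x ^ 2 ^ k : G) : G ⧸ Subgroup.zpowers z) = 1 := by
      rw [QuotientGroup.mk_pow, ← hk, pow_orderOf_eq_one]
    have h2 : x ^ 2 ^ k ∈ Subgroup.zpowers z := (QuotientGroup.eq_one_iff _).1 h1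
    have h3 : x ^ 2 ^ (k + 1) = 1 := by
      rw [pow_succ, pow_mul]
      rcases d1_zpowers z hz _ h2 with h | h
      · rw [h, one_pow]
      · rw [h, pow_two, hzz]
    have h4 : orderOf x ∣ 2 ^ (k + 1) := orderOf_dvd_of_pow_eq_one h3
    obtain ⟨j, -, hj⟩ := (Nat.dvd_prime_pow Nat.prime_two).1 h4
    exact ⟨j, hj⟩
  obtain ⟨P⟩ : Nonempty (Sylow 2 (G ⧸ Subgroup.zpowers z)) := inferInstance
  have hcardG : (Nat.card G).factorization 2 = 3 := by
    have h := Sylow.card_eq_multiplicity S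
    rw [hS8] at h
    have h2 : 2 ^ 3 = 2 ^ (Nat.card G).factorization 2 := by
      rw [← h]
      norm_num
    exact (Nat.pow_right_injective (le_refl 2) h2).symm
  have hcardQ : (Nat.card (G ⧸ Subgroup.zpowers z)).factorization 2 = 2 := by
    have h1 : Nat.card G
        = Nat.card (G ⧸ Subgroup.zpowers z) * Nat.card (Subgroup.zpowers z) :=
      Subgroup.card_eq_card_quotient_mul_card_subgroup _
    rw [Nat.card_zpowers, hz] at h1
    have h2 : (Nat.card G).factorization 2
        = (Nat.card (G ⧸ Subgroup.zpowers z)).factorization 2 + 1 := by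
      rw [h1, Nat.factorization_mul Nat.card_pos.ne' (by norm_num), Finsupp.add_apply,
        Nat.Prime.factorization_self Nat.prime_two]
    omega
  have hP4 : Nat.card P = 4 := by
    rw [Sylow.card_eq_multiplicity P, hcardQ]
    norm_num
  have hexp : ∀ x : P, x * x = 1 := by
    intro x
    obtain ⟨x₀, hx₀⟩ := QuotientGroup.mk_surjective (x : G ⧸ Subgroup.zpowers z)
    have hpow : ∃ k : ℕ, orderOf ((x₀ : G) : G ⧸ Subgroup.zpowers z) = 2 ^ k := by
      rw [hx₀]
      obtain ⟨k, hk⟩ := (IsPGroup.iff_orderOf.1 P.isPGroup') x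
      exact ⟨k, by rw [← hk, Subgroup.orderOf_coe]⟩
    have hx2 : x₀ * x₀ ∈ Subgroup.zpowers z := by
      rcases q7_two_elt S z a hzc hsq1 hfus x₀ (h2lift x₀ hpow) with h | h | ⟨h, hh⟩
      · rw [h, one_mul]
        exact Subgroup.one_mem _
      · rw [h, hzz]
        exact Subgroup.one_mem _
      · rw [← hh]
        have h6 : h * a * h⁻¹ * (h * a * h⁻¹) = h * a ^ 2 * h⁻¹ := by
          rw [pow_two]
          group
        rw [h6, ha2]
        exact hQn.conj_mem _ (Subgroup.mem_zpowers z) h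
    apply Subtype.ext
    rw [Subgroup.coe_mul, ← hx₀, ← QuotientGroup.mk_mul]
    exact (QuotientGroup.eq_one_iff _).2 hx2
  have hinv : ∀ t : G ⧸ Subgroup.zpowers z, orderOf t = 2 →
      IsConj t ((a : G) : G ⧸ Subgroup.zpowers z) := by
    intro t ht
    obtain ⟨t₀, rfl⟩ := QuotientGroup.mk_surjective t
    have hpow : ∃ k : ℕ, orderOf ((t₀ : G) : G ⧸ Subgroup.zpowers z) = 2 ^ k :=
      ⟨1, by rw [ht, pow_one]⟩
    have hne : ((t₀ : G) : G ⧸ Subgroup.zpowers z) ≠ 1 := by
      intro h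
      rw [h, orderOf_one] at ht
      omega
    rcases q7_two_elt S z a hzc hsq1 hfus t₀ (h2lift t₀ hpow) with h | h | ⟨h, hh⟩
    · exfalso
      apply hne
      rw [h]
      rfl
    · exfalso
      apply hne
      rw [h]
      exact (QuotientGroup.eq_one_iff _).2 (Subgroup.mem_zpowers z)
    · rw [← hh]
      have hc : IsConj ((a : G) : G ⧸ Subgroup.zpowers z)
          ((h * a * h⁻¹ : G) : G ⧸ Subgroup.zpowers z) :=
        isConj_iff.2 ⟨(h : G ⧸ Subgroup.zpowers z), rfl⟩
      exact hc.symm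
  have hone : ∀ s t : G ⧸ Subgroup.zpowers z, orderOf s = 2 → orderOf t = 2 → IsConj s t :=
    fun s t hs ht => (hinv s hs).trans (hinv t ht).symm
  obtain ⟨J, -, hJ, hfa, hfaC, hsecQ⟩ := kf_setup P hP4 hexp hone
  obtain ⟨ψ₁, ψ₂, ψ₃, k₁, k₂, k₃, -, -, -, -, -, -, -, -, -, -, -, -, -, -, hrank⟩ :=
    kf_main (M := M) hpM J hJ hfa hfaC hsecQ
  exact hrank

end QuatSevenGrp

end Cfsg.Agent.Helper6
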