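import Cfsg.Agent.Helper6.GallagherExt
import Cfsg.Agent.S0888
import Cfsg.Agent.Helper25.Gallagher
import Cfsg.Agent.Helper24.GaloisChar

set_option autoImplicit false

namespace Cfsg.Agent.Helper6

open Cfsg
open scoped ComplexConjugate

section SigmaExt

universe u

theorem sx_mem_of_pow_coprime {G : Type*} [Group G] (H : Subgroup G) (y : G) {a b : ℕ}
    (hcop : a.Coprime b) (ha : y ^ a ∈ H) (hb : y ^ b ∈ H) : y ∈ H := by
  have h := Nat.gcd_eq_gcd_ab a b
  rw [hcop.gcd_eq_one, Nat.cast_one] at h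
  have e : y = (y ^ a) ^ (Nat.gcdA a b) * (y ^ b) ^ (Nat.gcdB a b) := by
    rw [← zpow_natCast y a, ← zpow_natCast y b, ← zpow_mul, ← zpow_mul, ← zpow_add, ← h, zpow_one]
  rw [e]
  exact H.mul_mem (H.zpow_mem ha _) (H.zpow_mem hb _)

/-- The operator `g ↦ g ^ k` inverts modulo a normal subgroup of odd index. -/
theorem sx_pow_succ_mem {G : Type*} [Group G] [Finite G] (N : Subgroup G) [N.Normal]
    (hidx : Odd N.index) (k : ℕ) (hk₂ : ∀ g : G, Odd (orderOf g) → g ^ k = g⁻¹) (g : G) :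
    g ^ (k + 1) ∈ N := by
  obtain ⟨a, b, hb, hab⟩ := Nat.exists_eq_two_pow_mul_odd (orderOf_pos g).ne'
  have h1 : (g ^ (2 ^ a)) ^ b = 1 := by rw [← pow_mul, ← hab, pow_orderOf_eq_one]
  have h2 : Odd (orderOf (g ^ (2 ^ a))) := Odd.of_dvd_nat hb (orderOf_dvd_of_pow_eq_one h1)
  have h3 := hk₂ _ h2
  have h4 : (g ^ (k + 1)) ^ (2 ^ a) = 1 := by
    rw [← pow_mul, mul_comm, pow_mul, pow_succ, h3, inv_mul_cancel]
  apply sx_mem_of_pow_coprime N (g ^ (k + 1)) (a := 2 ^ a) (b := N.index)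
  · exact Nat.Coprime.pow_left a
      ((Nat.Prime.coprime_iff_not_dvd Nat.prime_two).mpr hidx.not_two_dvd_nat)
  · rw [h4]; exact N.one_mem
  · exact Subgroup.pow_index_mem N _

/-- Values of a linear character trivial on `N`. -/
theorem sx_hom_pow {G : Type*} [Group G] [Finite G] (N : Subgroup G) [N.Normal]
    (hidx : Odd N.index) (k : ℕ) (hk₂ : ∀ g : G, Odd (orderOf g) → g ^ k = g⁻¹)
    (lam : G →* ℂˣ) (hlam : ∀ n ∈ N, lam n = 1) (g : G) :
    lam g ^ (k + 1) = 1 ∧ lam g ^ N.index = 1 := by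
  constructor
  · rw [← map_pow]; exact hlam _ (sx_pow_succ_mem N hidx k hk₂ g)
  · rw [← map_pow]; exact hlam _ (Subgroup.pow_index_mem N g)

/-- Uniqueness of the fixed extension. -/
theorem sx_unique {G : Type*} [Group G] [Fintype G] (N : Subgroup G) [hN : N.Normal] [Fintype N]
    (hidx : Odd N.index) (k : ℕ) (hk₂ : ∀ g : G, Odd (orderOf g) → g ^ k = g⁻¹)
    {χ χ' : G → ℂ} (hχ : IsIrrCharacter G χ) (hχ' : IsIrrCharacter G χ')
    (hres : ∀ n : N, χ' n = χ n) (hirr : IsIrrCharacter N (fun n : N => χ n))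
    (hσ : ∀ g, χ (g ^ k) = χ g) (hσ' : ∀ g, χ' (g ^ k) = χ' g) : χ' = χ := by
  obtain ⟨lam, hlamN, hlam⟩ := Helper25.gallagher_unique N hχ hχ' hres hirr
  funext g
  by_cases h0 : χ g = 0
  · rw [hlam g, h0, mul_zero]
  · obtain ⟨h1, h2⟩ := sx_hom_pow N hidx k hk₂ lam hlamN g
    have h3 : ((lam g : ℂˣ) : ℂ) ^ k * χ g = ((lam g : ℂˣ) : ℂ) * χ g := by
      have e1 := hlam (g ^ k)
      rw [hσ', hσ, hlam g, map_pow, Units.val_pow_eq_pow_val] at e1
      exact e1.symm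
    have h4 : lam g ^ k = lam g := by
      apply Units.ext
      rw [Units.val_pow_eq_pow_val]
      exact mul_right_cancel₀ h0 h3
    have h5 : lam g ^ 2 = 1 := by
      rw [pow_succ, h4] at h1
      rw [pow_two]; exact h1
    obtain ⟨j, hj⟩ := hidx
    have h6 : lam g = 1 := by
      rw [hj, pow_succ, pow_mul, h5, one_pow, one_mul] at h2
      exact h2
    rw [hlam g, h6, Units.val_one, one_mul]

/-- An extension can be corrected to a fixed extension. -/
theorem sx_fix {G : Type*} [Group G] [Fintype G] (N : Subgroup G) [hN : N.Normal] [Fintype N]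
    (hidx : Odd N.index) (k : ℕ) (hk : k.Coprime (Nat.card G))
    (hk₂ : ∀ g : G, Odd (orderOf g) → g ^ k = g⁻¹)
    {θ : N → ℂ} (hθ : IsIrrCharacter N θ) (hθσ : ∀ n : N, θ (n ^ k) = θ n)
    {χ₀ : G → ℂ} (hχ₀ : IsIrrCharacter G χ₀) (hχ₀N : ∀ n : N, χ₀ n = θ n) :
    ∃ χ : G → ℂ, IsIrrCharacter G χ ∧ (∀ n : N, χ n = θ n) ∧ ∀ g, χ (g ^ k) = χ g := by
  have hσirr : IsIrrCharacter G (fun g => χ₀ (g ^ k)) :=
    Helper24.isIrrCharacter_comp_pow hχ₀ k hk
  have hirr : IsIrrCharacter N (fun n : N => χ₀ n) := by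
    have : (fun n : N => χ₀ n) = θ := funext hχ₀N
    rw [this]; exact hθ
  have hres : ∀ n : N, (fun g => χ₀ (g ^ k)) n = χ₀ n := by
    intro n
    show χ₀ ((n : G) ^ k) = χ₀ n
    have e : ((n : G) ^ k) = ((n ^ k : N) : G) := by simp
    rw [e, hχ₀N, hχ₀N, hθσ]
  obtain ⟨lam₀, hlam₀N, hlam₀⟩ := Helper25.gallagher_unique N hχ₀ hσirr hres hirr
  obtain ⟨j, hj⟩ := hidx
  obtain ⟨lam, hlam⟩ : ∃ lam : G →* ℂˣ, lam = lam₀ ^ (j + 1) := ⟨_, rfl⟩
  have hlamN : ∀ n ∈ N, lam n = 1 := by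
    intro n hn
    rw [hlam, MonoidHom.pow_apply, hlam₀N n hn, one_pow]
  have hsq : ∀ g, lam g ^ 2 = lam₀ g := by
    intro g
    obtain ⟨-, h2⟩ := sx_hom_pow N ⟨j, hj⟩ k hk₂ lam₀ hlam₀N g
    rw [hlam, MonoidHom.pow_apply, ← pow_mul]
    have e : (j + 1) * 2 = N.index + 1 := by omega
    rw [e, pow_succ, h2, one_mul]
  refine ⟨fun g => ((lam g : ℂˣ) : ℂ) * χ₀ g, Helper24.isIrrCharacter_hom_mul lam hχ₀, ?_, ?_⟩
  · intro n
    show ((lam (n : G) : ℂˣ) : ℂ) * χ₀ n = θ n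
    rw [hlamN n n.2, Units.val_one, one_mul, hχ₀N]
  · intro g
    show ((lam (g ^ k) : ℂˣ) : ℂ) * χ₀ (g ^ k) = ((lam g : ℂˣ) : ℂ) * χ₀ g
    have e1 : χ₀ (g ^ k) = ((lam₀ g : ℂˣ) : ℂ) * χ₀ g := hlam₀ g
    obtain ⟨h1, -⟩ := sx_hom_pow N ⟨j, hj⟩ k hk₂ lam hlamN g
    have e2 : lam (g ^ k) * lam₀ g = lam g := by
      rw [map_pow, ← hsq g, ← pow_add, show k + 2 = (k + 1) + 1 from rfl, pow_succ, h1, one_mul]
    rw [e1, ← mul_assoc, ← Units.val_mul, e2]

/-- Fixed extension over a solvable quotient of odd order (induction on the group order). -/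
theorem sx_solvable_aux : ∀ (c : ℕ) (G : Type u) [Group G] [Fintype G],
    Nat.card G = c → ∀ (N : Subgroup G) [hN : N.Normal], Group.IsSolvable (G ⧸ N) →
    Odd N.index → ∀ (k : ℕ), k.Coprime (Nat.card G) →
    (∀ g : G, Odd (orderOf g) → g ^ k = g⁻¹) →
    ∀ (ϑ : N → ℂ), IsIrrCharacter N ϑ →
    (∀ (g : G) (n : N), ϑ ⟨g * n * g⁻¹, hN.conj_mem (n : G) n.2 g⟩ = ϑ n) →
    (∀ n : N, ϑ (n ^ k) = ϑ n) →
    ∃ χ : G → ℂ, IsIrrCharacter G χ ∧ (∀ n : N, χ n = ϑ n) ∧ ∀ g, χ (g ^ k) = χ g := by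
  intro c
  induction c using Nat.strong_induction_on with
  | _ c ih =>
  intro G _ _ hc N hN hsolv hidx k hk hk₂ ϑ hϑ hinv hϑσ
  classical
  by_cases hNtop : N = ⊤
  · let e : G ≃* N := (Subgroup.topEquiv.symm).trans (MulEquiv.subgroupCongr hNtop.symm)
    haveI : Fintype N := Fintype.ofFinite _
    refine ⟨ϑ ∘ e, isIrrCharacter_comp_mulEquiv e hϑ, fun n => ?_, fun g => ?_⟩
    · rw [Function.comp_apply]
      congr 1
    · rw [Function.comp_apply, Function.comp_apply, map_pow, hϑσ]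
  · obtain ⟨M, hMn, hNM, hMtop, hcyc⟩ := exists_normal_cyclic_quotient N hNtop hsolv
    have hcardM : Nat.card M < c := by
      rw [← hc]
      apply lt_of_le_of_ne (Subgroup.card_le_card_group M)
      intro h
      exact hMtop ((Subgroup.card_eq_iff_eq_top M).mp h)
    haveI hN' : (N.subgroupOf M).Normal := Subgroup.normal_subgroupOf
    haveI : Fintype M := Fintype.ofFinite _
    haveI : Fintype N := Fintype.ofFinite _
    haveI : Fintype (N.subgroupOf M) := Fintype.ofFinite _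
    let e : N.subgroupOf M ≃* N := Subgroup.subgroupOfEquivOfLe hNM
    have hϑ' : IsIrrCharacter (N.subgroupOf M) (ϑ ∘ e) := isIrrCharacter_comp_mulEquiv e hϑ
    have hinv' : ∀ (t : M) (n : N.subgroupOf M),
        (ϑ ∘ e) ⟨t * n * t⁻¹, hN'.conj_mem (n : M) n.2 t⟩ = (ϑ ∘ e) n := by
      intro t n
      have h1 := hinv (t : G) (e n)
      rw [Function.comp_apply, Function.comp_apply, ← h1]
      congr 1
    have hsolv' : Group.IsSolvable (M ⧸ N.subgroupOf M) := by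
      have hinj : Function.Injective
          (QuotientGroup.map (N.subgroupOf M) N M.subtype (fun _ h => h)) := by
        rw [← MonoidHom.ker_eq_bot_iff, eq_bot_iff]
        intro q hq
        obtain ⟨m, rfl⟩ := QuotientGroup.mk_surjective q
        rw [MonoidHom.mem_ker] at hq
        have hq' : ((M.subtype m : G) : G ⧸ N) = 1 := hq
        rw [Subgroup.mem_bot]
        exact (QuotientGroup.eq_one_iff m).mpr
          (Subgroup.mem_subgroupOf.mpr ((QuotientGroup.eq_one_iff (M.subtype m)).mp hq'))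
      exact Group.isSolvable_of_isSolvable_injective hinj
    have hidx' : Odd (N.subgroupOf M).index := by
      have hdvd : (N.subgroupOf M).index ∣ N.index := by
        have := Subgroup.relIndex_mul_index hNM
        exact Dvd.intro _ this
      exact Odd.of_dvd_nat hidx hdvd
    have hkM : k.Coprime (Nat.card M) :=
      Nat.Coprime.coprime_dvd_right (Subgroup.card_subgroup_dvd_card M) hk
    have hk₂M : ∀ m : M, Odd (orderOf m) → m ^ k = m⁻¹ := by
      intro m hm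
      have := hk₂ (m : G) (by rwa [Subgroup.orderOf_coe])
      exact Subtype.ext (by simpa using this)
    have hϑσ' : ∀ n : N.subgroupOf M, (ϑ ∘ e) (n ^ k) = (ϑ ∘ e) n := by
      intro n
      rw [Function.comp_apply, Function.comp_apply, map_pow, hϑσ]
    obtain ⟨η, hη, hηN, hησ⟩ := ih (Nat.card M) hcardM M rfl (N.subgroupOf M) hsolv' hidx' k hkM
      hk₂M (ϑ ∘ e) hϑ' hinv' hϑσ'
    have hηinv : ∀ (g : G) (m : M), η ⟨g * m * g⁻¹, hMn.conj_mem (m : G) m.2 g⟩ = η m := by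
      intro g m
      have h1 : conjFun M g η = η := by
        apply sx_unique (N.subgroupOf M) hidx' k hk₂M hη (isIrrCharacter_conjFun M g hη)
        · intro n
          rw [conjFun_apply]
          have hmem : g * ((n : M) : G) * g⁻¹ ∈ N := hN.conj_mem _ n.2 g
          have h2 := hηN ⟨⟨g * ((n : M) : G) * g⁻¹, hMn.conj_mem _ (n : M).2 g⟩, hmem⟩
          have h3 := hinv g (e n)
          rw [hηN n]
          rw [Function.comp_apply] at h2 ⊢
          rw [← h3]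
          exact h2
        · have : (fun n : N.subgroupOf M => η n) = ϑ ∘ e := funext hηN
          rw [this]; exact hϑ'
        · exact hησ
        · intro m'
          rw [conjFun_apply, conjFun_apply]
          have e1 : (⟨g * ((m' ^ k : M) : G) * g⁻¹, hMn.conj_mem _ (m' ^ k).2 g⟩ : M)
              = (⟨g * (m' : G) * g⁻¹, hMn.conj_mem _ m'.2 g⟩ : M) ^ k := by
            apply Subtype.ext
            simp [conj_pow]
          rw [e1, hησ]
      exact congrFun h1 m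
    obtain ⟨χ₀, hχ₀, hχ₀M⟩ := Cfsg.Agent.S0886.result M hcyc η hη hηinv
    have hidxM : Odd M.index := Odd.of_dvd_nat hidx (Subgroup.index_dvd_of_le hNM)
    obtain ⟨χ, hχ, hχM, hχσ⟩ := sx_fix M hidxM k hk hk₂ hη hησ hχ₀ hχ₀M
    refine ⟨χ, hχ, fun n => ?_, hχσ⟩
    have h1 := hχM ⟨n, hNM n.2⟩
    have h2 := hηN ⟨⟨n, hNM n.2⟩, n.2⟩
    rw [Function.comp_apply] at h2
    have h3 : e ⟨⟨(n : G), hNM n.2⟩, n.2⟩ = n := Subtype.ext rfl
    rw [h3] at h2
    rw [← h2]
    exact h1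

/-- Fixed extension of an invariant fixed character over a normal subgroup of odd index. -/
theorem sx_extend {G : Type u} [Group G] [Fintype G] (N : Subgroup G) [hN : N.Normal] [Fintype N]
    (hidx : Odd N.index) (k : ℕ) (hk : k.Coprime (Nat.card G))
    (hk₂ : ∀ g : G, Odd (orderOf g) → g ^ k = g⁻¹)
    (ϑ : N → ℂ) (hϑ : IsIrrCharacter N ϑ)
    (hinv : ∀ (g : G) (n : N), ϑ ⟨g * n * g⁻¹, hN.conj_mem (n : G) n.2 g⟩ = ϑ n)
    (hϑσ : ∀ n : N, ϑ (n ^ k) = ϑ n) :
    ∃ χ : G → ℂ, IsIrrCharacter G χ ∧ (∀ n : N, χ n = ϑ n) ∧ ∀ g, χ (g ^ k) = χ g := by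
  classical
  obtain ⟨χ₀, hχ₀, hχ₀N⟩ := Cfsg.Agent.S0888.result N ϑ hϑ hinv (by
    intro p hp
    obtain ⟨P, hNP, hPcop, hpk, hsolv⟩ := exists_sylow_over N p hp
    haveI hN' : (N.subgroupOf P).Normal := Subgroup.normal_subgroupOf
    haveI : Fintype P := Fintype.ofFinite _
    haveI : Fintype (N.subgroupOf P) := Fintype.ofFinite _
    let e : N.subgroupOf P ≃* N := Subgroup.subgroupOfEquivOfLe hNP
    have hϑ' : IsIrrCharacter (N.subgroupOf P) (ϑ ∘ e) := isIrrCharacter_comp_mulEquiv e hϑ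
    have hinv' : ∀ (t : P) (n : N.subgroupOf P),
        (ϑ ∘ e) ⟨t * n * t⁻¹, hN'.conj_mem (n : P) n.2 t⟩ = (ϑ ∘ e) n := by
      intro t n
      have h1 := hinv (t : G) (e n)
      rw [Function.comp_apply, Function.comp_apply, ← h1]
      congr 1
    have hidx' : Odd (N.subgroupOf P).index := by
      have hdvd : (N.subgroupOf P).index ∣ N.index := by
        have := Subgroup.relIndex_mul_index hNP
        exact Dvd.intro _ this
      exact Odd.of_dvd_nat hidx hdvd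
    have hkP : k.Coprime (Nat.card P) :=
      Nat.Coprime.coprime_dvd_right (Subgroup.card_subgroup_dvd_card P) hk
    have hk₂P : ∀ m : P, Odd (orderOf m) → m ^ k = m⁻¹ := by
      intro m hm
      have := hk₂ (m : G) (by rwa [Subgroup.orderOf_coe])
      exact Subtype.ext (by simpa using this)
    have hϑσ' : ∀ n : N.subgroupOf P, (ϑ ∘ e) (n ^ k) = (ϑ ∘ e) n := by
      intro n
      rw [Function.comp_apply, Function.comp_apply, map_pow, hϑσ]
    obtain ⟨η, hη, hηN, -⟩ := sx_solvable_aux (Nat.card P) P rfl (N.subgroupOf P) hsolv hidx' k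
      hkP hk₂P (ϑ ∘ e) hϑ' hinv' hϑσ'
    refine ⟨P, hNP, η, hPcop, hpk, hη, fun n => ?_⟩
    have h2 := hηN ⟨⟨n, hNP n.2⟩, n.2⟩
    rw [Function.comp_apply] at h2
    have h3 : e ⟨⟨(n : G), hNP n.2⟩, n.2⟩ = n := Subtype.ext rfl
    rw [h3] at h2
    exact h2)
  exact sx_fix N hidx k hk hk₂ hϑ hϑσ hχ₀ hχ₀N

end SigmaExt

end Cfsg.Agent.Helper6
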