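import Cfsg.Agent.Helper6.SigmaUniq
import Cfsg.Agent.S1489
import Cfsg.Agent.S0854
import Cfsg.Agent.Helper6.Inertia
import Cfsg.Agent.Helper6.InvAbove
import Cfsg.Agent.Helper6.GalProd
import Cfsg.Agent.Helper25.CharPow
import Cfsg.Agent.Helper2.IndFun

set_option autoImplicit false

namespace Cfsg.Agent.Helper6

open Cfsg
open scoped ComplexConjugate

section SigmaMain

universe u

/-- The unique fixed irreducible character over a fixed character of a normal subgroup of odd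
index. -/
theorem sx_main {G : Type u} [Group G] [Fintype G] (N : Subgroup G) [hN : N.Normal] [Fintype N]
    (hidx : Odd N.index) (k : ℕ) (hk : Nat.Coprime k (Nat.card G))
    (hk₂ : ∀ g : G, Odd (orderOf g) → g ^ k = g⁻¹)
    (θ : N → ℂ) (hθ : IsIrrCharacter N θ) (hθσ : ∀ n : N, θ (n ^ k) = θ n) :
    ∃ χ : G → ℂ, IsIrrCharacter G χ ∧
      (classInner (fun n : N => χ n) θ ≠ 0 ∧ (∀ g : G, χ (g ^ k) = χ g) ∧
        ((∀ (g : G) (n : N), θ ⟨g * n * g⁻¹, hN.conj_mem n n.2 g⟩ = θ n) →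
          ∀ n : N, χ n = θ n)) ∧
      ∀ χ' : G → ℂ, IsIrrCharacter G χ' → classInner (fun n : N => χ' n) θ ≠ 0 →
        (∀ g : G, χ' (g ^ k) = χ' g) → χ' = χ := by
  classical
  obtain ⟨T, hTdef⟩ : ∃ T : Subgroup G, T = inertia N θ := ⟨_, rfl⟩
  have hT : ∀ g : G, g ∈ T ↔ ∀ n : N, θ ⟨g * n * g⁻¹, hN.conj_mem (n : G) n.2 g⟩ = θ n := by
    intro g; rw [hTdef]; exact mem_inertia N θ g
  have hNT : N ≤ T := by
    rw [hTdef]; exact le_inertia N (Helper2.IsIrrCharacter.isClassFunction hθ)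
  haveI : Fintype T := Fintype.ofFinite _
  haveI hN' : (N.subgroupOf T).Normal := Subgroup.normal_subgroupOf
  haveI : Fintype (N.subgroupOf T) := Fintype.ofFinite _
  let e : N.subgroupOf T ≃* N := Subgroup.subgroupOfEquivOfLe hNT
  have hθ' : IsIrrCharacter (N.subgroupOf T) (θ ∘ e) := isIrrCharacter_comp_mulEquiv e hθ
  have hθc := Helper24.isCharacter_of_irr hθ
  have hθ'c := Helper24.isCharacter_of_irr hθ'
  have hinv' : ∀ (t : T) (n : N.subgroupOf T),
      (θ ∘ e) ⟨t * n * t⁻¹, hN'.conj_mem (n : T) n.2 t⟩ = (θ ∘ e) n := by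
    intro t n
    have h1 := (hT (t : G)).mp t.2 (e n)
    rw [Function.comp_apply, Function.comp_apply, ← h1]
    congr 1
  have hidx' : Odd (N.subgroupOf T).index := by
    have hdvd : (N.subgroupOf T).index ∣ N.index := by
      have := Subgroup.relIndex_mul_index hNT
      exact Dvd.intro _ this
    exact Odd.of_dvd_nat hidx hdvd
  have hkT : k.Coprime (Nat.card T) :=
    Nat.Coprime.coprime_dvd_right (Subgroup.card_subgroup_dvd_card T) hk
  have hkN : k.Coprime (Nat.card N) :=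
    Nat.Coprime.coprime_dvd_right (Subgroup.card_subgroup_dvd_card N) hk
  have hk₂T : ∀ m : T, Odd (orderOf m) → m ^ k = m⁻¹ := by
    intro m hm
    have := hk₂ (m : G) (by rwa [Subgroup.orderOf_coe])
    exact Subtype.ext (by simpa using this)
  have hθσ' : ∀ n : N.subgroupOf T, (θ ∘ e) (n ^ k) = (θ ∘ e) n := by
    intro n
    rw [Function.comp_apply, Function.comp_apply, map_pow, hθσ]
  have hnorm : classInner θ θ = 1 := by
    have := Helper2.classInner_irr hθ hθ
    rw [this, if_pos rfl]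
  -- transport of inner products
  have htr : ∀ F : T → ℂ, classInner (fun n : N.subgroupOf T => F n) (θ ∘ e) =
      classInner (fun n : N => F ⟨n, hNT n.2⟩) θ := by
    intro F
    have h1 : (fun n : N.subgroupOf T => F n) = (fun n : N => F ⟨n, hNT n.2⟩) ∘ e := by
      funext n
      rfl
    rw [h1]
    exact classInner_comp_mulEquiv e _ _
  have hfun : (fun x : N.subgroupOf T => θ ⟨(x : T), Subgroup.mem_subgroupOf.mp x.2⟩) = θ ∘ e :=
    rfl
  -- the Clifford hypothesis from lying over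
  have hcl : ∀ F : T → ℂ, IsIrrCharacter T F →
      classInner (fun n : N => F ⟨n, hNT n.2⟩) θ ≠ 0 →
      classInner (indFun (N.subgroupOf T)
        (fun x => θ ⟨(x : T), Subgroup.mem_subgroupOf.mp x.2⟩)) F ≠ 0 := by
    intro F hF hne
    rw [hfun, classInner_indFun_eq (N.subgroupOf T) hθ'c (Helper24.isCharacter_of_irr hF), htr F]
    exact hne
  -- the fixed extension to the inertia group
  obtain ⟨ψ, hψ, hψN, hψσ⟩ := sx_extend (N.subgroupOf T) hidx' k hkT hk₂T (θ ∘ e) hθ' hinv' hθσ'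
  have hψc := Helper24.isCharacter_of_irr hψ
  have hψres : (fun n : N => ψ ⟨n, hNT n.2⟩) = θ := by
    funext n
    have h2 := hψN ⟨⟨n, hNT n.2⟩, n.2⟩
    rw [Function.comp_apply] at h2
    have h3 : e ⟨⟨(n : G), hNT n.2⟩, n.2⟩ = n := Subtype.ext rfl
    rw [h3] at h2
    exact h2
  have hψover : classInner (fun n : N => ψ ⟨n, hNT n.2⟩) θ ≠ 0 := by
    rw [hψres, hnorm]; exact one_ne_zero
  have hc := hcl ψ hψ hψover
  have hχ : IsIrrCharacter G (indFun T ψ) :=
    (Cfsg.Agent.S1489.result N T θ hθ hT hNT ψ ψ hψ hψ hc hc).1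
  have hχc := Helper24.isCharacter_of_irr hχ
  have hχσ : ∀ g : G, indFun T ψ (g ^ k) = indFun T ψ g := by
    intro g
    rw [Helper25.indFun_pow hk T ψ g]
    have : (fun t : T => ψ (t ^ k)) = ψ := funext hψσ
    rw [this]
  have hχover : classInner (fun n : N => indFun T ψ n) θ ≠ 0 := by
    haveI : Fintype (⊤ : Subgroup G) := Fintype.ofFinite _
    have h1 : classInner (fun m : T => indFun T ψ m) ψ ≠ 0 := by
      rw [← classInner_indFun_eq T hψc hχc]
      have := Helper2.classInner_irr hχ hχ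
      rw [this, if_pos rfl]; exact one_ne_zero
    exact InvAbove.constituent_trans (⊤ : Subgroup G) T N hNT le_top
      (χ := fun x : (⊤ : Subgroup G) => indFun T ψ x)
      (Helper24.isCharacter_restrict ⊤ hχc) hψ hθ h1 hψover
  -- uniqueness
  have huniq : ∀ χ' : G → ℂ, IsIrrCharacter G χ' → classInner (fun n : N => χ' n) θ ≠ 0 →
      (∀ g : G, χ' (g ^ k) = χ' g) → χ' = indFun T ψ := by
    intro χ' hχ' hcon hσ'
    obtain ⟨ψ', hψ', hind, hmult⟩ := Cfsg.Agent.S0854.result N θ hθ T hT hNT χ' hχ' hcon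
    have hψ'over : classInner (fun n : N => ψ' ⟨n, hNT n.2⟩) θ ≠ 0 := by
      rw [hmult]; exact hcon
    have hψ'' : IsIrrCharacter T (fun t => ψ' (t ^ k)) :=
      Helper24.isIrrCharacter_comp_pow hψ' k hkT
    have hψ''over : classInner (fun n : N => (fun t : T => ψ' (t ^ k)) ⟨n, hNT n.2⟩) θ ≠ 0 := by
      have h1 := GalProd.classInner_pow_pow hkN (fun n : N => ψ' ⟨n, hNT n.2⟩) θ
      have h2 : (fun n : N => θ (n ^ k)) = θ := funext hθσ
      rw [h2] at h1
      have h3 : (fun n : N => (fun t : T => ψ' (t ^ k)) ⟨n, hNT n.2⟩) =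
          (fun n : N => (fun n : N => ψ' ⟨n, hNT n.2⟩) (n ^ k)) := by
        funext n
        rfl
      rw [h3, h1]
      exact hψ'over
    have hind'' : indFun T ψ' = indFun T (fun t => ψ' (t ^ k)) := by
      funext g
      rw [← Helper25.indFun_pow hk T ψ' g, hind, hσ']
    have hfix : ψ' = fun t => ψ' (t ^ k) :=
      (Cfsg.Agent.S1489.result N T θ hθ hT hNT ψ' (fun t => ψ' (t ^ k)) hψ' hψ''
        (hcl ψ' hψ' hψ'over) (hcl _ hψ'' hψ''over)).2 hind''
    have hcon' : classInner (fun n : N.subgroupOf T => ψ' n) (θ ∘ e) ≠ 0 := by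
      rw [htr ψ']; exact hψ'over
    have hσψ' : ∀ t : T, ψ' (t ^ k) = ψ' t := fun t => (congr_fun hfix t).symm
    have hψeq : ψ' = ψ := sx_unique_over (N.subgroupOf T) hidx' k hk₂T hθ' hinv' hψ hψ' hψN
      hcon' hψσ hσψ'
    rw [← hind, hψeq]
  refine ⟨indFun T ψ, hχ, ⟨hχover, hχσ, ?_⟩, huniq⟩
  intro hinvG n
  obtain ⟨χ₂, hχ₂, hχ₂N, hχ₂σ⟩ := sx_extend N hidx k hk hk₂ θ hθ hinvG hθσ
  have h1 : classInner (fun n : N => χ₂ n) θ ≠ 0 := by
    have : (fun n : N => χ₂ n) = θ := funext hχ₂N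
    rw [this, hnorm]; exact one_ne_zero
  rw [← huniq χ₂ hχ₂ h1 hχ₂σ]
  exact hχ₂N n

end SigmaMain

end Cfsg.Agent.Helper6
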