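import Cfsg.Agent.Helper6.SigmaExt
import Cfsg.Agent.Helper13.PSL2Deg
import Cfsg.Agent.Helper2.CharBound
import Cfsg.Agent.Helper2.CharOrtho
import Cfsg.Agent.Helper2.CharLinear
import Cfsg.Agent.Helper6.Clifford
import Cfsg.Agent.Helper6.ConjChar
import Cfsg.Agent.Helper6.Kernel

set_option autoImplicit false

namespace Cfsg.Agent.Helper6

open Cfsg
open scoped ComplexConjugate

section SigmaUniq

/-- A real irreducible character of a group of odd order is trivial. -/
theorem sx_odd_real {Q : Type*} [Group Q] [Fintype Q] (hodd : Odd (Nat.card Q)) {β : Q → ℂ}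
    (hβ : IsIrrCharacter Q β) (hreal : ∀ q, β q⁻¹ = β q) : β = fun _ => 1 := by
  classical
  by_contra hne
  have hβc := Helper24.isCharacter_of_irr hβ
  have h0 : classInner β (fun _ : Q => (1 : ℂ)) = 0 := by
    have := Helper2.classInner_irr hβ (Helper2.isIrrCharacter_one_fun (G := Q))
    rw [this, if_neg hne]
  have hsum : ∑ q : Q, β q = 0 := by
    unfold classInner at h0
    have hQ0 : (Nat.card Q : ℂ) ≠ 0 := by exact_mod_cast (Nat.card_pos (α := Q)).ne'
    rcases mul_eq_zero.mp h0 with h | h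
    · exact absurd (inv_eq_zero.mp h) hQ0
    · simpa using h
  have hinv : ∀ q : Q, q⁻¹ = q → q = 1 := by
    intro q hq
    have h2 : q ^ 2 = 1 := by
      rw [pow_two]
      nth_rewrite 1 [← hq]
      exact inv_mul_cancel q
    have hd : orderOf q ∣ 2 := orderOf_dvd_of_pow_eq_one h2
    have hd' : orderOf q ∣ Nat.card Q := orderOf_dvd_natCard q
    have hoddq : Odd (orderOf q) := Odd.of_dvd_nat hodd hd'
    have h1 : orderOf q = 1 := by
      rcases (Nat.dvd_prime Nat.prime_two).mp hd with h | h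
      · exact h
      · rw [h] at hoddq; exact absurd hoddq (by decide)
    exact orderOf_eq_one_iff.mp h1
  obtain ⟨e, -⟩ : ∃ e : Q ≃ Fin (Fintype.card Q), e = Fintype.equivFin Q := ⟨_, rfl⟩
  obtain ⟨A, hA⟩ : ∃ A : ℂ, A = ∑ q : Q, (if e q < e q⁻¹ then β q else 0) := ⟨_, rfl⟩
  have hAint : IsIntegral ℤ A := by
    rw [hA]
    refine IsIntegral.sum _ (fun q _ => ?_)
    split_ifs
    · exact Helper2.IsCharacter.isIntegral hβc q
    · exact isIntegral_zero
  have hpt : ∀ q : Q, β q = (if q = 1 then β 1 else 0) + (if e q < e q⁻¹ then β q else 0)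
      + (if e q⁻¹ < e q then β q else 0) := by
    intro q
    by_cases h1 : q = 1
    · subst h1; simp
    · have hne' : e q ≠ e q⁻¹ := fun h => h1 (hinv q (e.injective h).symm)
      rcases lt_or_gt_of_ne hne' with h | h
      · rw [if_neg h1, if_pos h, if_neg (not_lt.mpr h.le)]; simp
      · rw [if_neg h1, if_neg (not_lt.mpr h.le), if_pos h]; simp
  have hB : ∑ q : Q, (if e q⁻¹ < e q then β q else 0) = A := by
    rw [hA, ← Equiv.sum_comp (Equiv.inv Q)]
    refine Finset.sum_congr rfl (fun q _ => ?_)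
    simp only [Equiv.inv_apply, inv_inv, hreal]
  have hsum2 : ∑ q : Q, β q = β 1 + A + A := by
    calc ∑ q : Q, β q = ∑ q : Q, ((if q = 1 then β 1 else 0) + (if e q < e q⁻¹ then β q else 0)
          + (if e q⁻¹ < e q then β q else 0)) := Finset.sum_congr rfl (fun q _ => hpt q)
      _ = β 1 + A + A := by
        rw [Finset.sum_add_distrib, Finset.sum_add_distrib, hB, ← hA]
        simp
  rw [hsum, Helper24.charDegree_spec hβc] at hsum2
  have hdodd : Odd (charDegree β) := Odd.of_dvd_nat hodd (Helper2.irr_degree_dvd_card hβ)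
  have hA2 : A = algebraMap ℚ ℂ (-(charDegree β : ℚ) / 2) := by
    rw [eq_ratCast]
    push_cast
    linear_combination (-1 / 2 : ℂ) * hsum2
  have hq : IsIntegral ℤ (-(charDegree β : ℚ) / 2 : ℚ) := by
    rw [hA2] at hAint
    exact (isIntegral_algebraMap_iff (algebraMap ℚ ℂ).injective).mp hAint
  obtain ⟨y, hy⟩ := IsIntegrallyClosed.isIntegral_iff.mp hq
  have hy2 : (2 * y : ℚ) = -(charDegree β : ℚ) := by
    have hy' : (y : ℚ) = -(charDegree β : ℚ) / 2 := hy
    linarith
  have hy3 : 2 * y = -(charDegree β : ℤ) := by exact_mod_cast hy2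
  obtain ⟨j, hj⟩ := hdodd
  omega

/-- Uniqueness of the fixed character over an invariant character having a fixed extension. -/
theorem sx_unique_over {G : Type*} [Group G] [Fintype G] (N : Subgroup G) [hN : N.Normal]
    [Fintype N] (hidx : Odd N.index) (k : ℕ) (hk₂ : ∀ g : G, Odd (orderOf g) → g ^ k = g⁻¹)
    {θ : N → ℂ} (hθ : IsIrrCharacter N θ)
    (hinv : ∀ (g : G) (n : N), θ ⟨g * n * g⁻¹, hN.conj_mem (n : G) n.2 g⟩ = θ n)
    {ψ χ' : G → ℂ} (hψ : IsIrrCharacter G ψ) (hχ' : IsIrrCharacter G χ')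
    (hψN : ∀ n : N, ψ n = θ n) (hcon : classInner (fun n : N => χ' n) θ ≠ 0)
    (hσ : ∀ g, ψ (g ^ k) = ψ g) (hσ' : ∀ g, χ' (g ^ k) = χ' g) : χ' = ψ := by
  classical
  have hψc := Helper24.isCharacter_of_irr hψ
  have hχ'c := Helper24.isCharacter_of_irr hχ'
  obtain ⟨β, hβdef⟩ : ∃ β : G → ℂ, β = Helper25.cosetPair N χ' ψ := ⟨_, rfl⟩
  have hβc : IsCharacter G β := by
    rw [hβdef]; exact Helper25.isCharacter_cosetPair N hχ'c hψc
  have hβinv : ∀ (m : N) (g : G), β ((m : G) * g) = β g := by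
    intro m g
    rw [hβdef]; exact Helper25.cosetPair_mul_left N χ' ψ m g
  have hβcl := Helper2.IsCharacter.isClassFunction hβc
  have hβr : ∀ (m : N) (g : G), β (g * (m : G)) = β g := by
    intro m g
    have h1 := hβcl ((m : G) * g) ((m : G)⁻¹)
    have e1 : (m : G)⁻¹ * ((m : G) * g) * ((m : G)⁻¹)⁻¹ = g * (m : G) := by group
    rw [e1] at h1
    rw [h1, hβinv]
  have hres := res_eq_smul_of_invariant N hθ hinv hχ' hcon
  have hβ1 : β 1 = classInner (fun n : N => χ' n) θ := by
    rw [hβdef]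
    unfold Helper25.cosetPair classInner
    congr 1
    refine Finset.sum_congr rfl (fun n _ => ?_)
    rw [mul_one, hψN]
  have hdeg1 : χ' 1 = β 1 * ψ 1 := by
    have h1 := congr_fun hres 1
    have h2 := hψN 1
    simp only [Pi.smul_apply, smul_eq_mul, OneMemClass.coe_one] at h1 h2
    rw [h1, hβ1, h2]
  have hΘc : IsCharacter G (β * ψ) := Helper2.IsCharacter.mul hβc hψc
  have hdeg : charDegree (β * ψ) = charDegree χ' := by
    have h1 := Helper24.charDegree_spec hΘc
    have h2 := Helper24.charDegree_spec hχ'c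
    have h3 : (β * ψ) 1 = χ' 1 := by rw [hdeg1]; rfl
    rw [h1, h2] at h3
    exact_mod_cast h3
  have hβne : β ≠ 0 := by
    intro h
    rw [h] at hβ1
    exact hcon hβ1.symm
  have havg : classInner β β = classInner χ' (β * ψ) := by
    have h1 := classInner_cosetAvg N χ' ψ β hβinv
    rw [← h1, hβdef]
    rfl
  have hne1 : classInner χ' (β * ψ) ≠ 0 := by
    rw [← havg]
    exact fun h => hβne (eq_zero_of_classInner_self h)
  have hne2 : classInner (β * ψ) χ' ≠ 0 := by
    intro h
    apply hne1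
    rw [← Helper2.classInner_conj_symm, h, map_zero]
  have hΘ : β * ψ = χ' := char_eq_of_degree_le hΘc hχ' hne2 hdeg.le
  have hnorm : classInner β β = 1 := by
    rw [havg, hΘ]
    have := Helper2.classInner_irr hχ' hχ'
    rw [this, if_pos rfl]
  have hβirr : IsIrrCharacter G β := isIrr_of_norm_one hβc hnorm
  -- nonvanishing of `ψ` on cosets
  have hΛ := Helper25.isCharacter_cosetPair N hψc hψc
  have hΛ1 : Helper25.cosetPair N ψ ψ 1 = 1 := by
    have h1 := Helper2.classInner_irr hθ hθ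
    rw [if_pos rfl] at h1
    rw [← h1]
    unfold Helper25.cosetPair classInner
    congr 1
    refine Finset.sum_congr rfl (fun n _ => ?_)
    rw [mul_one, hψN]
  obtain ⟨lam, hlam⟩ := Helper24.exists_hom_of_linear hΛ hΛ1
  have hnv : ∀ g : G, ∃ n : N, ψ ((n : G) * g) ≠ 0 := by
    intro g
    by_contra hall
    push Not at hall
    have h1 := hlam g
    have h2 : Helper25.cosetPair N ψ ψ g = 0 := by
      unfold Helper25.cosetPair
      rw [Finset.sum_eq_zero (fun n _ => by rw [hall n, zero_mul]), mul_zero]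
    rw [h2] at h1
    exact Units.ne_zero _ h1.symm
  have hβreal : ∀ g : G, β g⁻¹ = β g := by
    intro g
    obtain ⟨n, hn⟩ := hnv g
    obtain ⟨y, hy⟩ : ∃ y : G, y = (n : G) * g := ⟨_, rfl⟩
    rw [← hy] at hn
    have hm := sx_pow_succ_mem N hidx k hk₂ y
    have e1 : y ^ k = y ^ (k + 1) * y⁻¹ := by rw [pow_succ]; group
    have h1 : β (y ^ k) = β g⁻¹ := by
      rw [e1]
      have h2 := hβinv ⟨_, hm⟩ y⁻¹
      rw [h2, hy, mul_inv_rev]
      exact hβr (n⁻¹) g⁻¹
    have h3 : β (y ^ k) * ψ (y ^ k) = β y * ψ y := by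
      have h4 := congr_fun hΘ (y ^ k)
      have h5 := congr_fun hΘ y
      simp only [Pi.mul_apply] at h4 h5
      rw [h4, h5, hσ']
    rw [hσ] at h3
    have h6 : β (y ^ k) = β y := mul_right_cancel₀ hn h3
    rw [← h1, h6, hy, hβinv]
  have hker : ∀ z ∈ N, β z = β 1 := by
    intro z hz
    have := hβinv ⟨z, hz⟩ 1
    rwa [mul_one] at this
  obtain ⟨βq, hβq, hβqv⟩ := Helper13.exists_deflation_of_ker N hβirr hker
  haveI : Fintype (G ⧸ N) := Fintype.ofFinite _
  have hoddQ : Odd (Nat.card (G ⧸ N)) := by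
    rw [← Subgroup.index_eq_card]; exact hidx
  have hβqreal : ∀ q : G ⧸ N, βq q⁻¹ = βq q := by
    intro q
    obtain ⟨g, rfl⟩ := QuotientGroup.mk_surjective q
    rw [← QuotientGroup.mk_inv, hβqv, hβqv, hβreal]
  have hβq1 := sx_odd_real hoddQ hβq hβqreal
  funext g
  have h1 := congr_fun hΘ g
  have h2 := hβqv g
  rw [hβq1] at h2
  simp only [Pi.mul_apply] at h1
  rw [← h1, ← h2, one_mul]

end SigmaUniq

end Cfsg.Agent.Helper6
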