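import Cfsg.Agent.Helper6.DetExt
import Cfsg.Agent.S0862
import Cfsg.Agent.S0886

set_option autoImplicit false

namespace Cfsg.Agent.Helper6

open Cfsg
open scoped ComplexConjugate

section SolvExt

universe u

/-- A proper normal subgroup with solvable quotient lies in a proper normal subgroup with cyclic
quotient. -/
theorem exists_normal_cyclic_quotient {G : Type*} [Group G] [Finite G] (N : Subgroup G)
    [hN : N.Normal] (hNtop : N ≠ ⊤) (hsolv : Group.IsSolvable (G ⧸ N)) :
    ∃ (M : Subgroup G) (_ : M.Normal), N ≤ M ∧ M ≠ ⊤ ∧ IsCyclic (G ⧸ M) := by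
  classical
  have hnt : Nontrivial (G ⧸ N) := by
    rw [← not_subsingleton_iff_nontrivial]
    intro hss
    apply hNtop
    rw [eq_top_iff]
    intro g _
    have : (g : G ⧸ N) = 1 := Subsingleton.elim _ _
    exact (QuotientGroup.eq_one_iff g).mp this
  have hC : commutator (G ⧸ N) < ⊤ := Group.IsSolvable.commutator_lt_top_of_nontrivial (G ⧸ N)
  obtain ⟨K, hK, hCK⟩ := (eq_top_or_exists_le_coatom (commutator (G ⧸ N))).resolve_left hC.ne
  have hKn : K.Normal := by
    refine ⟨fun k hk g => ?_⟩
    have h1 : g * k * g⁻¹ * k⁻¹ ∈ commutator (G ⧸ N) := by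
      rw [commutator_def]
      exact Subgroup.commutator_mem_commutator (Subgroup.mem_top g) (Subgroup.mem_top k)
    have h2 := K.mul_mem (hCK h1) hk
    rwa [inv_mul_cancel_right] at h2
  obtain ⟨x, hx⟩ : ∃ x : G ⧸ N, x ∉ K := by
    by_contra hcon
    push Not at hcon
    exact hK.1 (eq_top_iff.mpr fun y _ => hcon y)
  have hcycQ : IsCyclic ((G ⧸ N) ⧸ K) := by
    refine ⟨⟨(x : (G ⧸ N) ⧸ K), fun y => ?_⟩⟩
    obtain ⟨y, rfl⟩ := QuotientGroup.mk_surjective y
    have htop : K ⊔ Subgroup.zpowers x = ⊤ := by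
      apply hK.2
      apply lt_of_le_of_ne le_sup_left
      intro heq
      apply hx
      rw [heq]
      exact le_sup_right (a := K) (Subgroup.mem_zpowers x)
    have hle : K ⊔ Subgroup.zpowers x ≤
        (Subgroup.zpowers (x : (G ⧸ N) ⧸ K)).comap (QuotientGroup.mk' K) := by
      apply sup_le
      · intro k hk
        rw [Subgroup.mem_comap]
        have : (QuotientGroup.mk' K) k = 1 := (QuotientGroup.eq_one_iff k).mpr hk
        rw [this]
        exact Subgroup.one_mem _
      · rw [Subgroup.zpowers_le]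
        rw [Subgroup.mem_comap]
        exact Subgroup.mem_zpowers _
    rw [htop] at hle
    have := hle (Subgroup.mem_top y)
    rw [Subgroup.mem_comap] at this
    obtain ⟨i, hi⟩ := Subgroup.mem_zpowers_iff.mp this
    exact ⟨i, hi⟩
  let φ : G →* (G ⧸ N) ⧸ K := (QuotientGroup.mk' K).comp (QuotientGroup.mk' N)
  have hφ : Function.Surjective φ :=
    (QuotientGroup.mk'_surjective K).comp (QuotientGroup.mk'_surjective N)
  refine ⟨φ.ker, inferInstance, ?_, ?_, ?_⟩
  · intro n hn
    rw [MonoidHom.mem_ker]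
    show (QuotientGroup.mk' K) ((QuotientGroup.mk' N) n) = 1
    have : (QuotientGroup.mk' N) n = 1 := (QuotientGroup.eq_one_iff n).mpr hn
    rw [this, map_one]
  · intro htop
    obtain ⟨g, rfl⟩ := QuotientGroup.mk_surjective x
    have hg : g ∈ φ.ker := by rw [htop]; exact Subgroup.mem_top g
    rw [MonoidHom.mem_ker] at hg
    exact hx ((QuotientGroup.eq_one_iff _).mp hg)
  · exact isCyclic_of_surjective (QuotientGroup.quotientKerEquivOfSurjective φ hφ).symm
      (QuotientGroup.quotientKerEquivOfSurjective φ hφ).symm.surjective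

/-- Extension of an invariant irreducible character of coprime degree over a solvable quotient,
given an extension of its determinant (induction on the group order). -/
theorem extends_of_det_extends_solvable_aux : ∀ (k : ℕ) (G : Type u) [Group G] [Finite G],
    Nat.card G = k → ∀ (N : Subgroup G) [hN : N.Normal], Group.IsSolvable (G ⧸ N) →
    ∀ (ϑ : N → ℂ), IsIrrCharacter N ϑ →
    (∀ (g : G) (n : N), ϑ ⟨g * n * g⁻¹, hN.conj_mem (n : G) n.2 g⟩ = ϑ n) →
    Nat.Coprime N.index (charDegree ϑ) → ∀ μ : G → ℂ, IsCharacter G μ → μ 1 = 1 →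
    (∀ n : N, μ n = detChar ϑ n) → ∃ χ : G → ℂ, IsIrrCharacter G χ ∧ ∀ n : N, χ n = ϑ n := by
  intro k
  induction k using Nat.strong_induction_on with
  | _ k ih =>
  intro G _ _ hk N hN hsolv ϑ hϑ hinv hcop μ hμc hμ1 hμN
  classical
  have := Fintype.ofFinite G
  by_cases hNtop : N = ⊤
  · let e : G ≃* N := (Subgroup.topEquiv.symm).trans (MulEquiv.subgroupCongr hNtop.symm)
    haveI : Fintype N := Fintype.ofFinite _
    refine ⟨ϑ ∘ e, isIrrCharacter_comp_mulEquiv e hϑ, fun n => ?_⟩
    rw [Function.comp_apply]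
    congr 1
  · obtain ⟨M, hMn, hNM, hMtop, hcyc⟩ := exists_normal_cyclic_quotient N hNtop hsolv
    have hcardM : Nat.card M < k := by
      rw [← hk]
      apply lt_of_le_of_ne (Subgroup.card_le_card_group M)
      intro h
      exact hMtop ((Subgroup.card_eq_iff_eq_top M).mp h)
    haveI hN' : (N.subgroupOf M).Normal := Subgroup.normal_subgroupOf
    haveI : Fintype M := Fintype.ofFinite _
    haveI : Fintype N := Fintype.ofFinite _
    haveI : Fintype (N.subgroupOf M) := Fintype.ofFinite _
    let e : N.subgroupOf M ≃* N := Subgroup.subgroupOfEquivOfLe hNM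
    have hϑc : IsCharacter N ϑ := Helper24.isCharacter_of_irr hϑ
    have hϑ' : IsIrrCharacter (N.subgroupOf M) (ϑ ∘ e) := isIrrCharacter_comp_mulEquiv e hϑ
    have hinv' : ∀ (t : M) (n : N.subgroupOf M),
        (ϑ ∘ e) ⟨t * n * t⁻¹, hN'.conj_mem (n : M) n.2 t⟩ = (ϑ ∘ e) n := by
      intro t n
      have h1 := hinv (t : G) (e n)
      rw [Function.comp_apply, Function.comp_apply, ← h1]
      congr 1
    have hsolv' : Group.IsSolvable (M ⧸ N.subgroupOf M) := by
      have hinj : Function.Injective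
          (QuotientGroup.map (N.subgroupOf M) N M.subtype (fun _ h => h)) := by
        rw [← MonoidHom.ker_eq_bot_iff, eq_bot_iff]
        intro q hq
        obtain ⟨m, rfl⟩ := QuotientGroup.mk_surjective q
        rw [MonoidHom.mem_ker] at hq
        have hq' : ((M.subtype m : G) : G ⧸ N) = 1 := hq
        rw [Subgroup.mem_bot]
        exact (QuotientGroup.eq_one_iff m).mpr
          (Subgroup.mem_subgroupOf.mpr ((QuotientGroup.eq_one_iff (M.subtype m)).mp hq'))
      exact Group.isSolvable_of_isSolvable_injective hinj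
    have hdeg' : charDegree (ϑ ∘ e) = charDegree ϑ := by
      have h1 : (ϑ ∘ e) 1 = ϑ 1 := by rw [Function.comp_apply, map_one]
      rw [Helper24.charDegree_spec (Helper24.isCharacter_of_irr hϑ'),
        Helper24.charDegree_spec hϑc] at h1
      exact_mod_cast h1
    have hcop' : Nat.Coprime (N.subgroupOf M).index (charDegree (ϑ ∘ e)) := by
      rw [hdeg']
      have hdvd : (N.subgroupOf M).index ∣ N.index := by
        have := Subgroup.relIndex_mul_index hNM
        exact Dvd.intro _ this
      exact Nat.Coprime.coprime_dvd_left hdvd hcop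
    have hμ'c : IsCharacter M (fun m : M => μ m) := Helper24.isCharacter_restrict M hμc
    have hμ'N : ∀ n : N.subgroupOf M, μ ((n : M) : G) = detChar (ϑ ∘ e) n := by
      intro n
      have h := congrFun (detChar_comp e.toMonoidHom hϑc) n
      exact (hμN (e n)).trans h.symm
    obtain ⟨η₀, hη₀, hη₀N⟩ := ih (Nat.card M) hcardM M rfl (N.subgroupOf M) hsolv' (ϑ ∘ e) hϑ'
      hinv' hcop' (fun m : M => μ m) hμ'c hμ1 hμ'N
    obtain ⟨η, ⟨hη, hηN, hηdet⟩, huniq⟩ := Cfsg.Agent.S0862.result (N.subgroupOf M) (ϑ ∘ e) hϑ'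
      (charDegree (ϑ ∘ e)) (Helper24.charDegree_spec (Helper24.isCharacter_of_irr hϑ')) hcop'
      ⟨η₀, hη₀, hη₀N⟩ (fun m : M => μ m) ⟨hμ'c, hμ1⟩ hμ'N
    have hηinv : ∀ (g : G) (m : M), η ⟨g * m * g⁻¹, hMn.conj_mem (m : G) m.2 g⟩ = η m := by
      intro g m
      have h1 : conjFun M g η = η := by
        apply huniq
        refine ⟨isIrrCharacter_conjFun M g hη, ?_, ?_⟩
        · intro n
          rw [conjFun_apply]
          have hmem : g * ((n : M) : G) * g⁻¹ ∈ N := hN.conj_mem _ n.2 g
          have h2 := hηN ⟨⟨g * ((n : M) : G) * g⁻¹, hMn.conj_mem _ (n : M).2 g⟩, hmem⟩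
          have h3 := hinv g (e n)
          rw [Function.comp_apply] at h2 ⊢
          rw [← h3]
          exact h2
        · have h : detChar (η ∘ ⇑(MulAut.conjNormal g : M ≃* M)) =
              detChar η ∘ ⇑(MulAut.conjNormal g : M ≃* M) :=
            detChar_comp (MulAut.conjNormal g : M ≃* M).toMonoidHom
              (Helper24.isCharacter_of_irr hη)
          rw [conjFun_eq_comp, h, hηdet]
          funext m'
          show μ (((MulAut.conjNormal g : M ≃* M) m' : M) : G) = μ m'
          rw [MulAut.conjNormal_apply]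
          exact Helper2.IsCharacter.isClassFunction hμc _ _
      exact congrFun h1 m
    obtain ⟨χ, hχ, hχM⟩ := Cfsg.Agent.S0886.result M hcyc η hη hηinv
    refine ⟨χ, hχ, fun n => ?_⟩
    have h1 := hχM ⟨n, hNM n.2⟩
    have h2 := hηN ⟨⟨n, hNM n.2⟩, n.2⟩
    rw [Function.comp_apply] at h2
    have h3 : e ⟨⟨(n : G), hNM n.2⟩, n.2⟩ = n := Subtype.ext rfl
    rw [h3] at h2
    rw [← h2]
    exact h1

end SolvExt

end Cfsg.Agent.Helper6
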