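import Mathlib
import Cfsg.Agent.Helper6.ZassOddA
import Cfsg.Agent.Helper6.ZassFocal
import Cfsg.Agent.Helper6.ZassFrob
import Cfsg.Agent.Helper1.FrobCompl
import Cfsg.Agent.S0878

set_option autoImplicit false

namespace Cfsg.Agent.Helper6.Zass

open MulAction
open scoped commutatorElement

variable {G Ω : Type*} [Group G] [MulAction G Ω]

/-- The two-point stabilizer of odd order of a Zassenhaus group has cyclic Sylow subgroups. -/
theorem zo_isZGroup [Finite G] [Fintype Ω] (hZ : Cfsg.IsZassenhausGroup G Ω) {a b : Ω}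
    (hab : a ≠ b) (E : Subgroup G) (hE : E = stabilizer G a ⊓ stabilizer G b)
    (hodd : Odd (Nat.card E)) : IsZGroup E := by
  classical
  have h3 := zass_noThree hZ
  have hn := zass_card_ge_three hZ
  obtain ⟨H, hHa, hHcard, hHfix⟩ := zass_exists_kernel hZ a
  obtain ⟨-, hnorm⟩ := Cfsg.Agent.S0878.result hZ a H hHa hHcard hHfix
  have hEa : E ≤ stabilizer G a := hE ▸ inf_le_left
  have hEmem : ∀ y : G, y ∈ E ↔ y • a = a ∧ y • b = b := fun y => by
    rw [hE, Subgroup.mem_inf, mem_stabilizer_iff, mem_stabilizer_iff]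
  haveI hKn : (H.subgroupOf (stabilizer G a)).Normal := by
    constructor
    intro u hu n
    rw [Subgroup.mem_subgroupOf] at hu ⊢
    have hn' : (n : G) ∈ Subgroup.normalizer (H : Set G) := by rw [hnorm]; exact n.2
    have := (Subgroup.mem_normalizer_iff.mp hn' (u : G)).mp hu
    simpa using this
  have hK : H.subgroupOf (stabilizer G a) ≠ ⊥ := by
    intro hbot
    rw [Subgroup.subgroupOf_eq_bot] at hbot
    have hH1 : H = ⊥ := hbot.eq_bot_of_le hHa
    rw [hH1, Subgroup.card_bot] at hHcard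
    omega
  have hfpf : ∀ h ∈ E.subgroupOf (stabilizer G a), h ≠ 1 →
      H.subgroupOf (stabilizer G a) ⊓ Subgroup.centralizer {h} = ⊥ := by
    intro h hh hh1
    rw [eq_bot_iff]
    intro u hu
    rw [Subgroup.mem_inf, Subgroup.mem_centralizer_singleton_iff] at hu
    rw [Subgroup.mem_bot]
    by_contra hu1
    apply hh1
    have huH : (u : G) ∈ H := Subgroup.mem_subgroupOf.mp hu.1
    have hhE : (h : G) ∈ E := Subgroup.mem_subgroupOf.mp hh
    have hu1' : (u : G) ≠ 1 := fun h' => hu1 (Subtype.ext h')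
    have hcomm : (u : G) * (h : G) = (h : G) * (u : G) := by
      have := congrArg Subtype.val hu.2
      simpa using this
    have hua : (u : G) • a = a := mem_stabilizer_iff.mp u.2
    obtain ⟨hha, hhb⟩ := (hEmem _).mp hhE
    have hub : (u : G) • b ≠ b := fun h' => hab ((hHfix _ huH hu1' b h').symm)
    have hub' : (u : G) • b ≠ a := by
      intro h'
      have h'' : (u : G) • b = (u : G) • a := h'.trans hua.symm
      exact hab (smul_left_cancel _ h'').symm
    have hfix : (h : G) • ((u : G) • b) = (u : G) • b := by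
      rw [← mul_smul, ← hcomm, mul_smul, hhb]
    have := h3 (h : G) a b ((u : G) • b) hab (Ne.symm hub) (Ne.symm hub') hha hhb hfix
    exact Subtype.ext this
  have hodd' : ¬ 2 ∣ Nat.card ↥(E.subgroupOf (stabilizer G a)) := by
    rw [Nat.card_congr (Subgroup.subgroupOfEquivOfLe hEa).toEquiv]
    exact hodd.not_two_dvd_nat
  haveI := Cfsg.Agent.Helper1.fpf_isZGroup_of_odd (H.subgroupOf (stabilizer G a))
    (E.subgroupOf (stabilizer G a)) hK hfpf hodd'
  exact IsZGroup.of_injective (f := (Subgroup.subgroupOfEquivOfLe hEa).symm.toMonoidHom)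
    (Subgroup.subgroupOfEquivOfLe hEa).symm.injective

/-- Under the no-normal-complement hypothesis, a Sylow subgroup of the two-point stabilizer for a
prime not dividing the order of its derived subgroup is inverted by a swapping element. -/
theorem zo_exists_inverting [Finite G] [Fintype Ω] (hZ : Cfsg.IsZassenhausGroup G Ω) {a b : Ω}
    (hab : a ≠ b) (E : Subgroup G) (hE : E = stabilizer G a ⊓ stabilizer G b)
    (hodd : Odd (Nat.card E)) [IsZGroup E]
    (t : G) (hta : t • a = b) (htb : t • b = a)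
    (q : ℕ) (hq : q.Prime) (hqE : q ∣ Nat.card E) (hqD : ¬ q ∣ Nat.card ↥⁅E, E⁆)
    (hnil : ¬ ∃ N : Subgroup G, N.Normal ∧ N.index = q ^ (Nat.card G).factorization q) :
    ∃ Q : Subgroup G, Q ≤ E ∧ (∀ k : ℕ, q ^ k ∣ Nat.card E → q ^ k ∣ Nat.card Q) ∧
      ∃ g : G, g * t⁻¹ ∈ E ∧ ∀ x ∈ Q, g * x * g⁻¹ = x⁻¹ := by
  classical
  have h3 := zass_noThree hZ
  have hEmem : ∀ y : G, y ∈ E ↔ y • a = a ∧ y • b = b := fun y => by
    rw [hE, Subgroup.mem_inf, mem_stabilizer_iff, mem_stabilizer_iff]
  haveI : Fact q.Prime := ⟨hq⟩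
  have hq2 : q ≠ 2 := by
    rintro rfl
    exact (Nat.not_even_iff_odd.mpr hodd) (even_iff_two_dvd.mpr hqE)
  obtain ⟨⟨z, hzE⟩, hz⟩ := exists_prime_orderOf_dvd_card' q hqE
  have hzo : orderOf z = q := by
    rw [← hz]; exact (Subgroup.orderOf_mk z hzE).symm
  have hz1 : z ≠ 1 := by
    rintro rfl
    rw [orderOf_one] at hzo
    exact hq.one_lt.ne hzo
  have hzab : z • a = a ∧ z • b = b := (hEmem z).mp hzE
  have hPz : IsPGroup q (Subgroup.zpowers z) := by
    apply IsPGroup.of_card (n := 1)
    rw [Nat.card_zpowers, hzo, pow_one]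
  obtain ⟨S, hS⟩ := hPz.exists_le_sylow
  have hzS : z ∈ S := hS (Subgroup.mem_zpowers z)
  have hSfix := sylow_fixes_pair h3 hab hq2 S z hz1 hzab.1 hzab.2 hzS
  have hSE : (S : Subgroup G) ≤ E := fun s hs => (hEmem s).mpr (hSfix s hs)
  refine ⟨S, hSE, ?_, ?_⟩
  · intro k hk
    exact S.pow_dvd_card_of_pow_dvd_card (dvd_trans hk (Subgroup.card_subgroup_dvd_card E))
  have hScyc : IsCyclic (S : Subgroup G) := by
    have hP : IsPGroup q ((S : Subgroup G).subgroupOf E) := S.isPGroup'.comap_subtype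
    haveI := hP.isCyclic_of_isZGroup
    exact isCyclic_of_surjective _ (Subgroup.subgroupOfEquivOfLe hSE).surjective
  by_contra hcon
  push Not at hcon
  apply hnil
  have hNC : Subgroup.normalizer ((S : Subgroup G) : Set G) ≤ Subgroup.centralizer (S : Set G) := by
    intro g hg
    rw [Subgroup.mem_centralizer_iff]
    have hgS : ∀ x ∈ (S : Subgroup G), g * x * g⁻¹ ∈ (S : Subgroup G) :=
      fun x hx => (Subgroup.mem_normalizer_iff.mp hg x).mp hx
    have hEcent : ∀ e ∈ E, (∀ x ∈ (S : Subgroup G), e * x * e⁻¹ ∈ (S : Subgroup G)) →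
        ∀ x ∈ (S : Subgroup G), e * x * e⁻¹ = x := by
      intro e he heS x hx
      have hwS : ⁅e, x⁆ ∈ (S : Subgroup G) := by
        rw [commutatorElement_def]; exact Subgroup.mul_mem _ (heS x hx) (Subgroup.inv_mem _ hx)
      have hwD : ⁅e, x⁆ ∈ ⁅E, E⁆ := Subgroup.commutator_mem_commutator he (hSE hx)
      have hw1 : ⁅e, x⁆ = 1 := by
        obtain ⟨i, hi⟩ := S.isPGroup' ⟨⁅e, x⁆, hwS⟩
        have h1 : ⁅e, x⁆ ^ q ^ i = 1 := by
          have := congrArg Subtype.val hi
          simpa using this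
        have hd1 : orderOf ⁅e, x⁆ ∣ q ^ i := orderOf_dvd_of_pow_eq_one h1
        have hd2 : orderOf ⁅e, x⁆ ∣ Nat.card ↥⁅E, E⁆ := by
          have := orderOf_dvd_natCard (⟨⁅e, x⁆, hwD⟩ : ↥⁅E, E⁆)
          rwa [Subgroup.orderOf_mk] at this
        have hcop : (q ^ i).Coprime (Nat.card ↥⁅E, E⁆) :=
          Nat.Coprime.pow_left i ((Nat.Prime.coprime_iff_not_dvd hq).mpr hqD)
        exact orderOf_eq_one_iff.mp (Nat.eq_one_of_dvd_coprimes hcop hd1 hd2)
      rw [commutatorElement_def] at hw1
      exact mul_inv_eq_one.mp hw1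
    have hgz := hgS z hzS
    have hgzab := (hEmem _).mp (hSE hgz)
    intro x hx
    have key : g * x * g⁻¹ = x := by
      rcases setwise_of_conj_mem h3 hab g z hz1 hzab.1 hzab.2 hgzab.1 hgzab.2 with
        ⟨hga, hgb⟩ | ⟨hga, hgb⟩
      · exact hEcent g ((hEmem g).mpr ⟨hga, hgb⟩) hgS x hx
      · have hgt : g * t⁻¹ ∈ E := by
          rw [hEmem]
          have h1 : t⁻¹ • a = b := by rw [inv_smul_eq_iff, htb]
          have h2 : t⁻¹ • b = a := by rw [inv_smul_eq_iff, hta]
          refine ⟨?_, ?_⟩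
          · rw [mul_smul, h1, hgb]
          · rw [mul_smul, h2, hga]
        have hg2E : g * g ∈ E := by
          rw [hEmem]
          refine ⟨?_, ?_⟩
          · rw [mul_smul, hga, hgb]
          · rw [mul_smul, hgb, hga]
        have hg2S : ∀ y ∈ (S : Subgroup G), (g * g) * y * (g * g)⁻¹ ∈ (S : Subgroup G) := by
          intro y hy
          have := hgS _ (hgS y hy)
          have e : g * g * y * (g * g)⁻¹ = g * (g * y * g⁻¹) * g⁻¹ := by group
          rw [e]; exact this
        have hg2c := hEcent (g * g) hg2E hg2S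
        have hg2 : ∀ y ∈ (S : Subgroup G), g * (g * y * g⁻¹) * g⁻¹ = y := by
          intro y hy
          have := hg2c y hy
          have e : g * g * y * (g * g)⁻¹ = g * (g * y * g⁻¹) * g⁻¹ := by group
          rw [e] at this; exact this
        rcases zo_cyclic_invol (S : Subgroup G) hq hq2 S.isPGroup' g hgS hg2 with hc | hinv
        · exact hc x hx
        · exfalso
          obtain ⟨y, hy, hne⟩ := hcon g hgt
          exact hne (hinv y hy)
    exact (mul_inv_eq_iff_eq_mul.mp key).symm
  have hcompl := MonoidHom.ker_transferSylow_isComplement' S hNC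
  refine ⟨(MonoidHom.transferSylow S hNC).ker, inferInstance, ?_⟩
  rw [hcompl.symm.index_eq_card, S.card_eq_multiplicity]

/-- The two-point stabilizer of odd order in a Zassenhaus group without normal complements. -/
theorem zo_main [Finite G] [Fintype Ω] (hZ : Cfsg.IsZassenhausGroup G Ω) {a b : Ω}
    (hab : a ≠ b) (E : Subgroup G) (hE : E = stabilizer G a ⊓ stabilizer G b)
    (hodd : Odd (Nat.card E))
    (hnil : ∀ q : ℕ, q.Prime → q ∣ Nat.card E →
      ¬ ∃ N : Subgroup G, N.Normal ∧ N.index = q ^ (Nat.card G).factorization q) :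
    IsCyclic E ∧ Subgroup.centralizer (E : Set G) = E ∧
      ∀ s : G, s • a = b → s • b = a → ∀ h ∈ E, s * h * s⁻¹ = h⁻¹ := by
  classical
  have h2 : TwoTrans G Ω := zass_twoTrans hZ
  have h3 := zass_noThree hZ
  have hEmem : ∀ y : G, y ∈ E ↔ y • a = a ∧ y • b = b := fun y => by
    rw [hE, Subgroup.mem_inf, mem_stabilizer_iff, mem_stabilizer_iff]
  haveI hZG : IsZGroup E := zo_isZGroup hZ hab E hE hodd
  have hswap : ∀ s : G, s • a = b → s • b = a →
      (∀ x ∈ E, ∀ y ∈ E, x * y = y * x) ∧ ∀ h ∈ E, s * h * s⁻¹ = h⁻¹ := by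
    intro s hsa hsb
    have hsa' : s⁻¹ • a = b := by rw [inv_smul_eq_iff, hsb]
    have hsb' : s⁻¹ • b = a := by rw [inv_smul_eq_iff, hsa]
    apply zo_abstract E hodd s
    · intro h hh
      obtain ⟨ha, hb⟩ := (hEmem h).mp hh
      rw [hEmem]
      refine ⟨?_, ?_⟩
      · rw [mul_smul, mul_smul, hsa', hb, hsb]
      · rw [mul_smul, mul_smul, hsb', ha, hsa]
    · intro h hh
      obtain ⟨ha, hb⟩ := (hEmem h).mp hh
      rw [hEmem]
      refine ⟨?_, ?_⟩
      · rw [mul_smul, mul_smul, hsa, hb, hsb']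
      · rw [mul_smul, mul_smul, hsb, ha, hsa']
    · intro q hq hqE hqD
      exact zo_exists_inverting hZ hab E hE hodd s hsa hsb q hq hqE hqD (hnil q hq hqE)
  obtain ⟨s, hsa, hsb⟩ := h2 hab (Ne.symm hab)
  obtain ⟨hcomm, -⟩ := hswap s hsa hsb
  obtain ⟨z, hz1, hza, hzb⟩ := zass_exists_tps_ne_one hZ hab
  have hzE : z ∈ E := (hEmem z).mpr ⟨hza, hzb⟩
  refine ⟨?_, ?_, fun s hsa hsb => (hswap s hsa hsb).2⟩
  · have hinj : Function.Injective (Abelianization.of (G := E)) := by
      rw [← MonoidHom.ker_eq_bot_iff, Abelianization.ker_of, commutator_eq_bot_iff_center_eq_top,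
        eq_top_iff]
      intro x _
      rw [Subgroup.mem_center_iff]
      intro y
      exact Subtype.ext (hcomm y y.2 x x.2)
    exact isCyclic_of_injective (Abelianization.of (G := E)) hinj
  · apply le_antisymm
    · intro g hg
      rw [Subgroup.mem_centralizer_iff] at hg
      have hgz : g * z * g⁻¹ = z := by
        have := hg z hzE
        rw [← this]; group
      have hgza : (g * z * g⁻¹) • a = a := by rw [hgz]; exact hza
      have hgzb : (g * z * g⁻¹) • b = b := by rw [hgz]; exact hzb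
      rcases setwise_of_conj_mem h3 hab g z hz1 hza hzb hgza hgzb with ⟨hga, hgb⟩ | ⟨hga, hgb⟩
      · exact (hEmem g).mpr ⟨hga, hgb⟩
      · exfalso
        have hinv := (hswap g hga hgb).2 z hzE
        rw [hgz] at hinv
        have hz2 : z ^ 2 = 1 := by
          rw [pow_two]
          have := inv_mul_cancel z
          rwa [← hinv] at this
        have hord : orderOf z ∣ 2 := orderOf_dvd_of_pow_eq_one hz2
        have hordE : orderOf z ∣ Nat.card E := by
          have := orderOf_dvd_natCard (⟨z, hzE⟩ : E)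
          rwa [Subgroup.orderOf_mk] at this
        have hoddz : Odd (orderOf z) := Odd.of_dvd_nat hodd hordE
        have : orderOf z = 1 := by
          rcases (Nat.dvd_prime Nat.prime_two).mp hord with h | h
          · exact h
          · rw [h] at hoddz; exact absurd hoddz (by decide)
        exact hz1 (orderOf_eq_one_iff.mp this)
    · intro g hg
      rw [Subgroup.mem_centralizer_iff]
      intro x hx
      exact hcomm x hx g hg

end Cfsg.Agent.Helper6.Zass
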