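import Mathlib
import Cfsg.Agent.Helper6.ZassOddB
import Cfsg.Agent.Helper6.ZassInv

set_option autoImplicit false

namespace Cfsg.Agent.Helper6.Zass

open MulAction

variable {G Ω : Type*} [Group G] [MulAction G Ω]

/-- A simple Zassenhaus group has no normal subgroup of index the full power of an odd prime
dividing its order. -/
theorem zic_simple_hnil [Finite G] [Fintype Ω] (hZ : Cfsg.IsZassenhausGroup G Ω)
    [IsSimpleGroup G] (q : ℕ) (hq : q.Prime) (hq2 : q ≠ 2) (hqG : q ∣ Nat.card G) :
    ¬ ∃ N : Subgroup G, N.Normal ∧ N.index = q ^ (Nat.card G).factorization q := by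
  rintro ⟨N, hN, hidx⟩
  have hpos : 0 < (Nat.card G).factorization q :=
    hq.factorization_pos_of_dvd Nat.card_pos.ne' hqG
  rcases hN.eq_bot_or_eq_top with rfl | rfl
  · rw [Subgroup.index_bot] at hidx
    have h2 : TwoTrans G Ω := zass_twoTrans hZ
    have hn := zass_card_ge_three hZ
    obtain ⟨a, b, c, hab, -, -⟩ := Fintype.two_lt_card_iff.mp hn
    have hcard := card_group_eq h2 hab
    have heven : 2 ∣ Nat.card G := by
      rw [hcard]
      apply Dvd.dvd.mul_right
      have := Nat.even_mul_pred_self (Fintype.card Ω)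
      rw [Nat.mul_sub_one] at this
      exact even_iff_two_dvd.mp this
    rw [hidx] at heven
    have := (Nat.prime_dvd_prime_iff_eq Nat.prime_two hq).mp (Nat.prime_two.dvd_of_dvd_pow heven)
    exact hq2 this.symm
  · rw [Subgroup.index_top] at hidx
    have : 1 < q ^ (Nat.card G).factorization q := Nat.one_lt_pow hpos.ne' hq.one_lt
    omega

/-- In a simple Zassenhaus group with two-point stabilizers of odd order, every element swapping
two points inverts their stabilizer. -/
theorem zic_pair [Finite G] [Fintype Ω] (hZ : Cfsg.IsZassenhausGroup G Ω) [IsSimpleGroup G]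
    {c d : Ω} (hcd : c ≠ d)
    (hodd : Odd (Nat.card ↥(stabilizer G c ⊓ stabilizer G d : Subgroup G))) :
    ∀ s : G, s • c = d → s • d = c →
      ∀ h ∈ (stabilizer G c ⊓ stabilizer G d : Subgroup G), s * h * s⁻¹ = h⁻¹ := by
  refine (zo_main hZ hcd _ rfl hodd ?_).2.2
  intro q hq hqE
  have hq2 : q ≠ 2 := by
    rintro rfl
    exact (Nat.not_even_iff_odd.mpr hodd) (even_iff_two_dvd.mpr hqE)
  exact zic_simple_hnil hZ q hq hq2 (dvd_trans hqE (Subgroup.card_subgroup_dvd_card _))

/-- The elements swapping two points: they are involutions, there are as many as elements of the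
two-point stabilizer, and they are all conjugate. -/
theorem zic_swap [Finite G] [Fintype Ω] (hZ : Cfsg.IsZassenhausGroup G Ω) [IsSimpleGroup G]
    {c d : Ω} (hcd : c ≠ d)
    (hodd : Odd (Nat.card ↥(stabilizer G c ⊓ stabilizer G d : Subgroup G))) :
    (∀ s : G, s • c = d → s • d = c → orderOf s = 2) ∧
    Nat.card {s : G // s • c = d ∧ s • d = c}
      = Nat.card ↥(stabilizer G c ⊓ stabilizer G d : Subgroup G) ∧
    ∀ s₁ s₂ : G, s₁ • c = d → s₁ • d = c → s₂ • c = d → s₂ • d = c → IsConj s₁ s₂ := by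
  classical
  have h2 : TwoTrans G Ω := zass_twoTrans hZ
  have hinv := zic_pair hZ hcd hodd
  obtain ⟨E, hE⟩ : ∃ E : Subgroup G, E = stabilizer G c ⊓ stabilizer G d := ⟨_, rfl⟩
  rw [← hE] at hodd hinv ⊢
  have hEmem : ∀ y : G, y ∈ E ↔ y • c = c ∧ y • d = d := fun y => by
    rw [hE, Subgroup.mem_inf, mem_stabilizer_iff, mem_stabilizer_iff]
  have hoddel : ∀ x ∈ E, Odd (orderOf x) := by
    intro x hx
    have h1 : orderOf x ∣ Nat.card E := by
      have := orderOf_dvd_natCard (⟨x, hx⟩ : E)
      rwa [Subgroup.orderOf_mk] at this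
    exact Odd.of_dvd_nat hodd h1
  refine ⟨?_, ?_, ?_⟩
  · intro s hsc hsd
    have hs2E : s * s ∈ E := by
      rw [hEmem]
      refine ⟨?_, ?_⟩
      · rw [mul_smul, hsc, hsd]
      · rw [mul_smul, hsd, hsc]
    have h1 := hinv s hsc hsd (s * s) hs2E
    have e : s * (s * s) * s⁻¹ = s * s := by group
    rw [e] at h1
    have h4 : (s * s) ^ 2 = 1 := by
      rw [pow_two]
      have := inv_mul_cancel (s * s)
      rwa [← h1] at this
    have hord : orderOf (s * s) ∣ 2 := orderOf_dvd_of_pow_eq_one h4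
    have hoddz := hoddel _ hs2E
    have h5 : orderOf (s * s) = 1 := by
      rcases (Nat.dvd_prime Nat.prime_two).mp hord with h | h
      · exact h
      · rw [h] at hoddz; exact absurd hoddz (by decide)
    have hss : s ^ 2 = 1 := by rw [pow_two]; exact orderOf_eq_one_iff.mp h5
    have hs1 : s ≠ 1 := by
      rintro rfl
      rw [one_smul] at hsc
      exact hcd hsc
    haveI : Fact (Nat.Prime 2) := ⟨Nat.prime_two⟩
    exact orderOf_eq_prime hss hs1
  · obtain ⟨t, htc, htd⟩ := h2 hcd (Ne.symm hcd)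
    have htc' : t⁻¹ • c = d := by rw [inv_smul_eq_iff, htd]
    have htd' : t⁻¹ • d = c := by rw [inv_smul_eq_iff, htc]
    have hf : ∀ x ∈ E, (t * x) • c = d ∧ (t * x) • d = c := by
      intro x hx
      obtain ⟨hxc, hxd⟩ := (hEmem x).mp hx
      exact ⟨by rw [mul_smul, hxc, htc], by rw [mul_smul, hxd, htd]⟩
    have hg : ∀ s : G, s • c = d ∧ s • d = c → t⁻¹ * s ∈ E := by
      intro s hs
      rw [hEmem]
      exact ⟨by rw [mul_smul, hs.1, htd'], by rw [mul_smul, hs.2, htc']⟩
    symm
    exact Nat.card_congr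
      { toFun := fun x => ⟨t * x, hf x x.2⟩
        invFun := fun s => ⟨t⁻¹ * s, hg s s.2⟩
        left_inv := fun x => Subtype.ext (by simp)
        right_inv := fun s => Subtype.ext (by simp) }
  · intro s₁ s₂ h1c h1d h2c h2d
    have h1c' : s₁⁻¹ • c = d := by rw [inv_smul_eq_iff, h1d]
    have h1d' : s₁⁻¹ • d = c := by rw [inv_smul_eq_iff, h1c]
    obtain ⟨x, hx⟩ : ∃ x : G, x = s₁⁻¹ * s₂ := ⟨_, rfl⟩
    have hxE : x ∈ E := by
      rw [hEmem, hx]
      refine ⟨?_, ?_⟩
      · rw [mul_smul, h2c, h1d']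
      · rw [mul_smul, h2d, h1c']
    obtain ⟨m, hm⟩ := hoddel x hxE
    obtain ⟨w, hw⟩ : ∃ w : G, w = x ^ (m + 1) := ⟨_, rfl⟩
    have hwE : w ∈ E := by rw [hw]; exact E.pow_mem hxE _
    have hw2 : w * w = x := by
      rw [hw, ← pow_add]
      have e : m + 1 + (m + 1) = orderOf x + 1 := by omega
      rw [e, pow_succ, pow_orderOf_eq_one, one_mul]
    have h3 := hinv s₁⁻¹ h1c' h1d' w⁻¹ (E.inv_mem hwE)
    rw [inv_inv, inv_inv] at h3
    rw [isConj_iff]
    refine ⟨w⁻¹, ?_⟩
    rw [inv_inv]
    have e1 : w⁻¹ * s₁ = s₁ * w := by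
      calc w⁻¹ * s₁ = s₁ * (s₁⁻¹ * w⁻¹ * s₁) := by group
        _ = s₁ * w := by rw [h3]
    rw [e1, mul_assoc, hw2, hx]
    group

/-- Involutions of a simple Zassenhaus group with two-point stabilizers of odd order. -/
theorem zic_main [Finite G] [Fintype Ω] (hZ : Cfsg.IsZassenhausGroup G Ω) {a b : Ω} (hab : a ≠ b)
    [IsSimpleGroup G] (h e : ℕ) (hh : Fintype.card Ω = h + 1)
    (he : Nat.card ↥(stabilizer G a ⊓ stabilizer G b : Subgroup G) = e) (hodd : Odd e) :
    (∀ x y : G, orderOf x = 2 → orderOf y = 2 → IsConj x y) ∧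
      Nat.card {x : G // orderOf x = 2} = (if Even h then e * (h + 1) else e * h) := by
  classical
  haveI : Fintype G := Fintype.ofFinite G
  have h2 : TwoTrans G Ω := zass_twoTrans hZ
  have h3 := zass_noThree hZ
  have hn := zass_card_ge_three hZ
  haveI := hZ.1
  have hcardE : ∀ c d : Ω, c ≠ d →
      Nat.card ↥(stabilizer G c ⊓ stabilizer G d : Subgroup G) = e :=
    fun c d hcd => (card_tps_eq h2 hab hcd).trans he
  have hoddE : ∀ c d : Ω, c ≠ d →
      Odd (Nat.card ↥(stabilizer G c ⊓ stabilizer G d : Subgroup G)) :=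
    fun c d hcd => by rw [hcardE c d hcd]; exact hodd
  have hinvsq : ∀ x : G, orderOf x = 2 → x * x = 1 := by
    intro x hx
    have := pow_orderOf_eq_one x
    rwa [hx, pow_two] at this
  have hinvne : ∀ x : G, orderOf x = 2 → x ≠ 1 := by
    rintro x hx rfl
    rw [orderOf_one] at hx; omega
  have hmoves : ∀ x : G, orderOf x = 2 → ∃ c : Ω, x • c ≠ c := by
    intro x hx
    by_contra hcon
    push Not at hcon
    exact hinvne x hx
      (FaithfulSMul.eq_of_smul_eq_smul (α := Ω) (fun c => by rw [hcon c, one_smul]))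
  have hswapback : ∀ x : G, orderOf x = 2 → ∀ c : Ω, x • (x • c) = c := by
    intro x hx c
    rw [← mul_smul, hinvsq x hx, one_smul]
  refine ⟨?_, ?_⟩
  · intro x y hx hy
    obtain ⟨c, hc⟩ := hmoves x hx
    obtain ⟨c', hc'⟩ := hmoves y hy
    obtain ⟨g, hgc, hgd⟩ := h2 (Ne.symm hc) (Ne.symm hc')
    have hg1 : (g * x * g⁻¹) • c' = y • c' := by
      have : g⁻¹ • c' = c := by rw [inv_smul_eq_iff, hgc]
      rw [mul_smul, mul_smul, this, hgd]
    have hg2 : (g * x * g⁻¹) • (y • c') = c' := by
      have : g⁻¹ • (y • c') = x • c := by rw [inv_smul_eq_iff, hgd]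
      rw [mul_smul, mul_smul, this, hswapback x hx, hgc]
    have hconj := (zic_swap hZ (Ne.symm hc') (hoddE _ _ (Ne.symm hc'))).2.2 (g * x * g⁻¹) y
      hg1 hg2 rfl (hswapback y hy c')
    exact (isConj_iff.mpr ⟨g, rfl⟩).trans hconj
  · rw [natCard_subtype_eq_filter]
    obtain ⟨Inv, hInv⟩ : ∃ Inv : Finset G,
        Inv = Finset.univ.filter (fun x : G => orderOf x = 2) := ⟨_, rfl⟩
    rw [← hInv]
    have hInvmem : ∀ x : G, x ∈ Inv ↔ orderOf x = 2 := fun x => by rw [hInv]; simp
    have hcomm := sum_card_filter_comm Inv ((Finset.univ : Finset Ω).offDiag)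
      (fun (s : G) (p : Ω × Ω) => s • p.1 = p.2)
    have hR : ∀ p ∈ (Finset.univ : Finset Ω).offDiag,
        (Inv.filter (fun s : G => s • p.1 = p.2)).card = e := by
      rintro ⟨c, d⟩ hp
      rw [Finset.mem_offDiag] at hp
      have hcd : c ≠ d := hp.2.2
      obtain ⟨hord, hcount, -⟩ := zic_swap hZ hcd (hoddE c d hcd)
      rw [hcardE c d hcd, natCard_subtype_eq_filter] at hcount
      rw [← hcount]
      congr 1
      ext s
      simp only [Finset.mem_filter, Finset.mem_univ, true_and, hInvmem]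
      constructor
      · rintro ⟨hs, hsc⟩
        have hsc' : s • c = d := hsc
        refine ⟨hsc', ?_⟩
        rw [← hsc']; exact hswapback s hs c
      · rintro ⟨hsc, hsd⟩
        exact ⟨hord s hsc hsd, hsc⟩
    have hL : ∀ s ∈ Inv, (((Finset.univ : Finset Ω).offDiag).filter
        (fun p : Ω × Ω => s • p.1 = p.2)).card = if Even h then h else h + 1 := by
      intro s hs
      rw [hInvmem] at hs
      have himg : ((Finset.univ : Finset Ω).offDiag).filter (fun p : Ω × Ω => s • p.1 = p.2)
          = (Finset.univ.filter (fun c : Ω => ¬ s • c = c)).image (fun c => (c, s • c)) := by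
        ext ⟨c, d⟩
        simp only [Finset.mem_filter, Finset.mem_offDiag, Finset.mem_univ, true_and,
          Finset.mem_image, Prod.mk.injEq]
        constructor
        · rintro ⟨hcd, hsc⟩
          exact ⟨c, fun h' => hcd (h'.symm.trans hsc), rfl, hsc⟩
        · rintro ⟨c₀, hc₀, rfl, rfl⟩
          exact ⟨fun h' => hc₀ h'.symm, rfl⟩
      rw [himg, Finset.card_image_of_injective _ (fun c₁ c₂ h' => (Prod.mk.inj h').1)]
      have hsplit := Finset.card_filter_add_card_filter_not
        (s := (Finset.univ : Finset Ω)) (fun c : Ω => s • c = c)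
      rw [Finset.card_univ, hh] at hsplit
      have hle1 : (Finset.univ.filter (fun c : Ω => s • c = c)).card ≤ 1 := by
        rw [Finset.card_le_one]
        intro c hc d hd
        simp only [Finset.mem_filter, Finset.mem_univ, true_and] at hc hd
        by_contra hcd
        have hsE : s ∈ (stabilizer G c ⊓ stabilizer G d : Subgroup G) := by
          rw [Subgroup.mem_inf, mem_stabilizer_iff, mem_stabilizer_iff]; exact ⟨hc, hd⟩
        have h1 : orderOf s ∣ Nat.card ↥(stabilizer G c ⊓ stabilizer G d : Subgroup G) := by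
          have := orderOf_dvd_natCard
            (⟨s, hsE⟩ : ↥(stabilizer G c ⊓ stabilizer G d : Subgroup G))
          rwa [Subgroup.orderOf_mk] at this
        rw [hs, hcardE c d hcd] at h1
        exact (Nat.not_even_iff_odd.mpr hodd) (even_iff_two_dvd.mpr h1)
      have hmod := invol_fix_modEq (Ω := Ω) s hs
      rw [hh] at hmod
      unfold Nat.ModEq at hmod
      split_ifs with hev
      · obtain ⟨k, hk⟩ := hev
        omega
      · rw [Nat.not_even_iff_odd] at hev
        obtain ⟨k, hk⟩ := hev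
        omega
    rw [Finset.sum_congr rfl hR, Finset.sum_const, smul_eq_mul, Finset.offDiag_card,
      Finset.card_univ, hh, Finset.sum_congr rfl hL, Finset.sum_const, smul_eq_mul] at hcomm
    have hpos : 2 ≤ h := by omega
    split_ifs at hcomm ⊢ with hev
    · have e1 : (h + 1) * (h + 1) - (h + 1) = (h + 1) * h := by
        have : (h + 1) * (h + 1) = (h + 1) * h + (h + 1) := by ring
        omega
      rw [e1] at hcomm
      have : Inv.card * h = (e * (h + 1)) * h := by rw [hcomm]; ring
      exact Nat.eq_of_mul_eq_mul_right (by omega) this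
    · have e1 : (h + 1) * (h + 1) - (h + 1) = h * (h + 1) := by
        have : (h + 1) * (h + 1) = h * (h + 1) + (h + 1) := by ring
        omega
      rw [e1] at hcomm
      have : Inv.card * (h + 1) = (e * h) * (h + 1) := by rw [hcomm]; ring
      exact Nat.eq_of_mul_eq_mul_right (by omega) this

end Cfsg.Agent.Helper6.Zass
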