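import Mathlib
import Cfsg.Agent.Helper6.ZassNormal

set_option autoImplicit false

namespace Cfsg.Agent.Helper6.Zass

open MulAction

variable {G Ω : Type*} [Group G] [MulAction G Ω]

/-- The Frobenius kernel at `a` is transitive on the other points. -/
theorem kernel_trans [Finite G] [Fintype Ω] {a : Ω} (H : Subgroup G)
    (hHa : H ≤ stabilizer G a) (hHcard : Nat.card H + 1 = Fintype.card Ω)
    (hHfix : ∀ u ∈ H, u ≠ 1 → ∀ c : Ω, u • c = c → c = a)
    {p q : Ω} (hp : p ≠ a) (hq : q ≠ a) : ∃ u ∈ H, u • p = q := by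
  classical
  have hmem : ∀ u : H, (u : G) • p ≠ a := by
    intro u h
    have := mem_stabilizer_iff.mp (hHa u.2)
    exact hp (smul_left_cancel (u : G) (h.trans this.symm))
  have hinj : Function.Injective (fun u : H => (⟨(u : G) • p, hmem u⟩ : {c : Ω // c ≠ a})) := by
    intro u v huv
    have h1 : (u : G) • p = (v : G) • p := congrArg Subtype.val huv
    have h2' : ((v : G)⁻¹ * (u : G)) • p = p := by
      rw [mul_smul, inv_smul_eq_iff, h1]
    have h3' : (v : G)⁻¹ * (u : G) = 1 := by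
      by_contra hne
      exact hp (hHfix _ (H.mul_mem (H.inv_mem v.2) u.2) hne p h2')
    apply Subtype.ext
    exact (inv_mul_eq_one.mp h3').symm
  have hcard : Nat.card {c : Ω // c ≠ a} + 1 = Fintype.card Ω := by
    rw [natCard_subtype_eq_filter, Finset.filter_ne' Finset.univ a,
      Finset.card_erase_of_mem (Finset.mem_univ a), Finset.card_univ]
    have : 0 < Fintype.card Ω := Fintype.card_pos_iff.mpr ⟨a⟩
    omega
  have hbij := hinj.bijective_of_nat_card_le (by omega)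
  obtain ⟨u, hu⟩ := hbij.2 ⟨q, hq⟩
  exact ⟨u, u.2, congrArg Subtype.val hu⟩

/-- A non-trivial normal subgroup of a Zassenhaus group contains the Frobenius kernels. -/
theorem normal_contains_kernel [Finite G] [Fintype Ω] (hZ : Cfsg.IsZassenhausGroup G Ω)
    (M : Subgroup G) [hMn : M.Normal] (hM : M ≠ ⊥) (x : Ω) (H : Subgroup G)
    (hHa : H ≤ stabilizer G x) (hHcard : Nat.card H + 1 = Fintype.card Ω)
    (hHfix : ∀ u ∈ H, u ≠ 1 → ∀ c : Ω, u • c = c → c = x) : H ≤ M := by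
  have h2 : TwoTrans G Ω := zass_twoTrans hZ
  have h3 := zass_noThree hZ
  obtain ⟨m, hmM, hm1, a₀, c₀, hac₀, hma₀, hmc₀⟩ := normal_exists_two_fix hZ M hM
  obtain ⟨-, hnormH⟩ := Cfsg.Agent.S0878.result hZ x H hHa hHcard hHfix
  obtain ⟨g, hg⟩ := pretrans h2 a₀ x
  have hm' : g * m * g⁻¹ ∈ M := hMn.conj_mem m hmM g
  have hginv : g⁻¹ • x = a₀ := by rw [inv_smul_eq_iff, hg]
  have hm'x : (g * m * g⁻¹) • x = x := by rw [mul_smul, mul_smul, hginv, hma₀, hg]
  have hm'c : (g * m * g⁻¹) • (g • c₀) = g • c₀ := by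
    rw [mul_smul, mul_smul, inv_smul_smul, hmc₀]
  have hm'1 : g * m * g⁻¹ ≠ 1 := by
    intro h
    apply hm1
    have : m = g⁻¹ * (g * m * g⁻¹) * g := by group
    rw [this, h]; group
  have hxc : x ≠ g • c₀ := by
    rw [← hg]
    intro h
    exact hac₀ (smul_left_cancel g h)
  exact kernel_le_normal h3 M hxc (g * m * g⁻¹) hm' hm'1 hm'x hm'c H hHa hHfix (by
    intro y hy v hv
    have : y ∈ Subgroup.normalizer (H : Set G) := by rw [hnormH]; exact hy
    exact (Subgroup.mem_normalizer_iff.mp this v).mp hv)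

/-- A non-trivial normal subgroup of a Zassenhaus group is doubly transitive. -/
theorem normal_two_trans [Finite G] [Fintype Ω] (hZ : Cfsg.IsZassenhausGroup G Ω)
    (M : Subgroup G) [hMn : M.Normal] (hM : M ≠ ⊥) {a b c d : Ω} (hab : a ≠ b) (hcd : c ≠ d) :
    ∃ g ∈ M, g • a = c ∧ g • b = d := by
  have h2 : TwoTrans G Ω := zass_twoTrans hZ
  obtain ⟨n₁, hn₁, hn₁a⟩ := normal_pretrans hZ.1 h2 M hM a c
  obtain ⟨H, hHa, hHcard, hHfix⟩ := zass_exists_kernel hZ c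
  have hHM := normal_contains_kernel hZ M hM c H hHa hHcard hHfix
  have hp : n₁ • b ≠ c := by
    rw [← hn₁a]
    intro h
    exact hab (smul_left_cancel n₁ h).symm
  obtain ⟨u, hu, hup⟩ := kernel_trans H hHa hHcard hHfix hp (Ne.symm hcd)
  refine ⟨u * n₁, M.mul_mem (hHM hu) hn₁, ?_, ?_⟩
  · rw [mul_smul, hn₁a]
    exact mem_stabilizer_iff.mp (hHa hu)
  · rw [mul_smul, hup]

/-- Two regular subgroups of a doubly transitive group `N` with no non-identity element fixing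
three points, both normalized by `N`, are comparable. -/
theorem regular_normal_le (N : Subgroup G)
    (hN2 : ∀ {a b c d : Ω}, a ≠ b → c ≠ d → ∃ g ∈ N, g • a = c ∧ g • b = d)
    (h3 : NoThree G Ω) (hthree : ∃ p q r : Ω, p ≠ q ∧ p ≠ r ∧ q ≠ r)
    (R₁ R₂ : Subgroup G) (hR₁ : R₁ ≤ N) (hR₂ : R₂ ≤ N)
    (hn₁ : ∀ n ∈ N, ∀ r ∈ R₁, n * r * n⁻¹ ∈ R₁) (hn₂ : ∀ n ∈ N, ∀ r ∈ R₂, n * r * n⁻¹ ∈ R₂)
    (htr₁ : ∀ p q : Ω, ∃ r ∈ R₁, r • p = q) (hfree₁ : ∀ r ∈ R₁, ∀ p : Ω, r • p = p → r = 1)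
    (htr₂ : ∀ p q : Ω, ∃ r ∈ R₂, r • p = q) : R₁ ≤ R₂ := by
  obtain ⟨p₀, q₀, r₀, hpq₀, hpr₀, hqr₀⟩ := hthree
  by_cases hD : ∃ d ∈ R₁, d ∈ R₂ ∧ d ≠ 1
  · -- the intersection is transitive
    obtain ⟨d, hd₁, hd₂, hd1⟩ := hD
    have hdc : d • p₀ ≠ p₀ := fun h => hd1 (hfree₁ d hd₁ p₀ h)
    have hDtr : ∀ p q : Ω, p ≠ q → ∃ d' ∈ R₁, d' ∈ R₂ ∧ d' • p = q := by
      intro p q hpq
      obtain ⟨n, hn, hnp, hnq⟩ := hN2 (Ne.symm hdc) hpq
      refine ⟨n * d * n⁻¹, hn₁ n hn d hd₁, hn₂ n hn d hd₂, ?_⟩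
      have : n⁻¹ • p = p₀ := by rw [inv_smul_eq_iff, hnp]
      rw [mul_smul, mul_smul, this, hnq]
    intro r hr
    by_cases hrp : r • p₀ = p₀
    · rw [hfree₁ r hr p₀ hrp]; exact R₂.one_mem
    · obtain ⟨d', hd'₁, hd'₂, hd'p⟩ := hDtr p₀ (r • p₀) (Ne.symm hrp)
      have h1 : (d'⁻¹ * r) • p₀ = p₀ := by rw [mul_smul, inv_smul_eq_iff, hd'p]
      have h2' := hfree₁ _ (R₁.mul_mem (R₁.inv_mem hd'₁) hr) p₀ h1
      have : r = d' := (inv_mul_eq_one.mp h2').symm
      rw [this]; exact hd'₂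
  · exfalso
    push Not at hD
    -- the two subgroups commute
    have hcomm : ∀ x ∈ R₁, ∀ y ∈ R₂, x * y = y * x := by
      intro x hx y hy
      have h1 : x * y * x⁻¹ * y⁻¹ ∈ R₁ := by
        have := hn₁ y (hR₂ hy) x⁻¹ (R₁.inv_mem hx)
        have e : x * y * x⁻¹ * y⁻¹ = x * (y * x⁻¹ * y⁻¹) := by group
        rw [e]
        exact R₁.mul_mem hx this
      have h2' : x * y * x⁻¹ * y⁻¹ ∈ R₂ := by
        have := hn₂ x (hR₁ hx) y hy
        exact R₂.mul_mem this (R₂.inv_mem hy)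
      have h3' : x * y * x⁻¹ * y⁻¹ = 1 := by
        by_contra hne
        exact hne (hD _ h1 h2')
      calc x * y = (x * y * x⁻¹ * y⁻¹) * (y * x) := by group
        _ = y * x := by rw [h3', one_mul]
    -- the key element
    have hkey : ∀ r ∈ R₁, r ≠ 1 → ∃ d : G, d ≠ 1 ∧ ∀ x ∈ R₁, x * r = r * x → d • (x • p₀) = x • p₀ := by
      intro r hr hr1
      obtain ⟨r', hr', hr'p⟩ := htr₂ p₀ (r⁻¹ • p₀)
      refine ⟨r * r', ?_, ?_⟩
      · intro h
        have : r = r'⁻¹ := eq_inv_of_mul_eq_one_left h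
        exact hr1 (hD r hr (by rw [this]; exact R₂.inv_mem hr'))
      · intro x hx hxr
        have e1 : r' * x = x * r' := (hcomm x hx r' hr').symm
        calc (r * r') • (x • p₀) = (r * (r' * x)) • p₀ := by rw [mul_smul, mul_smul, mul_smul]
          _ = (r * (x * r')) • p₀ := by rw [e1]
          _ = (r * x) • (r' • p₀) := by rw [mul_smul, mul_smul, mul_smul]
          _ = (r * x) • (r⁻¹ • p₀) := by rw [hr'p]
          _ = (x * r) • (r⁻¹ • p₀) := by rw [hxr]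
          _ = x • p₀ := by rw [mul_smul, smul_inv_smul]
    by_cases hsq : ∃ r ∈ R₁, r * r ≠ 1
    · obtain ⟨r, hr, hrr⟩ := hsq
      have hr1 : r ≠ 1 := by
        rintro rfl
        exact hrr (one_mul 1)
      obtain ⟨d, hd1, hd⟩ := hkey r hr hr1
      have f1 := hd 1 R₁.one_mem (by rw [one_mul, mul_one])
      have f2 := hd r hr rfl
      have f3 := hd (r * r) (R₁.mul_mem hr hr) (by rw [mul_assoc])
      rw [one_smul] at f1
      have n1 : p₀ ≠ r • p₀ := fun h => hr1 (hfree₁ r hr p₀ h.symm)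
      have n2 : p₀ ≠ (r * r) • p₀ := fun h => hrr (hfree₁ _ (R₁.mul_mem hr hr) p₀ h.symm)
      have n3 : r • p₀ ≠ (r * r) • p₀ := by
        rw [mul_smul]
        intro h
        exact n1 (smul_left_cancel r h)
      exact hd1 (h3 d _ _ _ n1 n3 n2 f1 f2 f3)
    · push Not at hsq
      -- R₁ is abelian
      have hab : ∀ x ∈ R₁, ∀ y ∈ R₁, x * y = y * x := by
        intro x hx y hy
        have hx2 := hsq x hx
        have hy2 := hsq y hy
        have hxy2 := hsq (x * y) (R₁.mul_mem hx hy)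
        have hxinv : x⁻¹ = x := inv_eq_of_mul_eq_one_left hx2
        have hyinv : y⁻¹ = y := inv_eq_of_mul_eq_one_left hy2
        have : (x * y)⁻¹ = x * y := inv_eq_of_mul_eq_one_left hxy2
        rw [mul_inv_rev, hxinv, hyinv] at this
        exact this.symm
      obtain ⟨r, hr, hrq⟩ := htr₁ p₀ q₀
      have hr1 : r ≠ 1 := by
        rintro rfl
        rw [one_smul] at hrq
        exact hpq₀ hrq
      obtain ⟨d, hd1, hd⟩ := hkey r hr hr1
      have hall : ∀ q : Ω, d • q = q := by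
        intro q
        obtain ⟨x, hx, hxq⟩ := htr₁ p₀ q
        rw [← hxq]
        exact hd x hx (hab x hx r hr)
      exact hd1 (h3 d p₀ q₀ r₀ hpq₀ hqr₀ hpr₀ (hall _) (hall _) (hall _))

end Cfsg.Agent.Helper6.Zass
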